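import Mathlib
import Cfsg.Agent.Lib.Helper2.Klein

/-!
# Counting Klein four-subgroups by pairs of commuting involutions

* `fiber_count`: a map all of whose fibres have `k` elements.
* `fourGroup`: the four-group `{1, x, y, xy}` of two commuting involutions.
* `ncard_pairs_eq`: the number of ordered pairs of distinct commuting involutions is six times the
  number of Klein four-subgroups.
* `klein_count`: if all involutions are conjugate to `x₀` and the involutions `≠ x₀` commuting
  with `x₀` make up half of the centralizer of `x₀`, then `12 * #(Klein four-subgroups) = |G|`.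
-/

set_option autoImplicit false

namespace Cfsg.Agent.Lib.Helper16.KleinPairs

theorem fiber_count {α β : Type*} [Finite α] [Finite β] (S : Set α) (T : Set β) (f : α → β)
    (k : ℕ) (hf : ∀ a ∈ S, f a ∈ T) (hk : ∀ b ∈ T, {a | a ∈ S ∧ f a = b}.ncard = k) :
    S.ncard = k * T.ncard := by
  classical
  haveI : Fintype α := Fintype.ofFinite α
  haveI : Fintype β := Fintype.ofFinite β
  have h1 := Finset.card_eq_sum_card_fiberwise (f := f) (s := S.toFinset) (t := T.toFinset)
    (by
      intro a ha
      simp only [Set.coe_toFinset] at ha ⊢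
      exact hf a ha)
  rw [Set.ncard_eq_toFinset_card' S, Set.ncard_eq_toFinset_card' T, h1]
  rw [Finset.sum_const_nat (m := k)]
  · ring
  · intro b hb
    have hb' : b ∈ T := by simpa using hb
    rw [← hk b hb', Set.ncard_eq_toFinset_card']
    congr 1
    ext a
    simp

theorem ncard_offDiag {α : Type*} [Finite α] (T : Set α) :
    {p : α × α | p.1 ∈ T ∧ p.2 ∈ T ∧ p.1 ≠ p.2}.ncard = T.ncard * T.ncard - T.ncard := by
  classical
  haveI : Fintype α := Fintype.ofFinite α
  have h : {p : α × α | p.1 ∈ T ∧ p.2 ∈ T ∧ p.1 ≠ p.2} = ↑(T.toFinset.offDiag) := by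
    ext p
    simp
  rw [h, Set.ncard_coe_finset, Finset.offDiag_card, Set.ncard_eq_toFinset_card' T]

variable {G : Type*} [Group G]

/-- the four-group of two commuting involutions -/
def fourGroup (x y : G) (hx : x * x = 1) (hy : y * y = 1) (hxy : x * y = y * x) : Subgroup G where
  carrier := {g | g = 1 ∨ g = x ∨ g = y ∨ g = x * y}
  one_mem' := Or.inl rfl
  mul_mem' := by
    have hx' : ∀ z, x * (x * z) = z := fun z => by rw [← mul_assoc, hx, one_mul]
    have hyx : y * x = x * y := hxy.symm
    have hyx' : ∀ z, y * (x * z) = x * (y * z) := fun z => by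
      rw [← mul_assoc, hyx, mul_assoc]
    intro a b ha hb
    rcases ha with ha | ha | ha | ha <;> rcases hb with hb | hb | hb | hb <;>
      simp [ha, hb, mul_assoc, hx, hy, hx', hyx, hyx']
  inv_mem' := by
    have hxi : x⁻¹ = x := inv_eq_of_mul_eq_one_left hx
    have hyi : y⁻¹ = y := inv_eq_of_mul_eq_one_left hy
    have hyx : y * x = x * y := hxy.symm
    intro a ha
    rcases ha with ha | ha | ha | ha <;> simp [ha, hxi, hyi, mul_inv_rev, hyx]

theorem mem_fourGroup (x y : G) (hx : x * x = 1) (hy : y * y = 1) (hxy : x * y = y * x) (g : G) :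
    g ∈ fourGroup x y hx hy hxy ↔ g = 1 ∨ g = x ∨ g = y ∨ g = x * y := Iff.rfl

theorem card_fourGroup [Finite G] (x y : G) (hx : x * x = 1) (hy : y * y = 1)
    (hxy : x * y = y * x) (hx1 : x ≠ 1) (hy1 : y ≠ 1) (hne : x ≠ y) :
    Nat.card (fourGroup x y hx hy hxy) = 4 := by
  have h0 : Nat.card (fourGroup x y hx hy hxy) =
      ((fourGroup x y hx hy hxy : Subgroup G) : Set G).ncard := Nat.card_coe_set_eq _
  have hset : ((fourGroup x y hx hy hxy : Subgroup G) : Set G) = {1, x, y, x * y} := by
    ext g
    simp only [SetLike.mem_coe, mem_fourGroup, Set.mem_insert_iff, Set.mem_singleton_iff]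
  have hyi : y⁻¹ = y := inv_eq_of_mul_eq_one_left hy
  have hxy1 : x * y ≠ 1 := by
    intro h
    apply hne
    rw [← hyi]
    exact eq_inv_of_mul_eq_one_left h
  have hxxy : x ≠ x * y := by
    intro h
    apply hy1
    have : x * 1 = x * y := by rw [mul_one]; exact h
    exact (mul_left_cancel this).symm
  have hyxy : y ≠ x * y := by
    intro h
    apply hx1
    have : 1 * y = x * y := by rw [one_mul]; exact h
    exact (mul_right_cancel this).symm
  rw [h0, hset, Set.ncard_insert_of_notMem, Set.ncard_insert_of_notMem,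
    Set.ncard_insert_of_notMem, Set.ncard_singleton]
  · simp only [Set.mem_singleton_iff]
    exact hyxy
  · simp only [Set.mem_insert_iff, Set.mem_singleton_iff, not_or]
    exact ⟨hne, hxxy⟩
  · simp only [Set.mem_insert_iff, Set.mem_singleton_iff, not_or]
    exact ⟨fun h => hx1 h.symm, fun h => hy1 h.symm, fun h => hxy1 h.symm⟩

theorem isKleinFour_fourGroup [Finite G] (x y : G) (hx : x * x = 1) (hy : y * y = 1)
    (hxy : x * y = y * x) (hx1 : x ≠ 1) (hy1 : y ≠ 1) (hne : x ≠ y) :
    IsKleinFour (fourGroup x y hx hy hxy) := by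
  have hc := card_fourGroup x y hx hy hxy hx1 hy1 hne
  refine ⟨hc, ?_⟩
  have hdvd : Monoid.exponent (fourGroup x y hx hy hxy) ∣ 2 := by
    apply Monoid.exponent_dvd_of_forall_pow_eq_one
    rintro ⟨g, hg⟩
    apply Subtype.ext
    show g ^ 2 = 1
    rw [pow_two]
    have hx' : ∀ z, x * (x * z) = z := fun z => by rw [← mul_assoc, hx, one_mul]
    have hyx : y * x = x * y := hxy.symm
    rcases hg with hg | hg | hg | hg
    · rw [hg, one_mul]
    · rw [hg, hx]
    · rw [hg, hy]
    · rw [hg, mul_assoc, ← mul_assoc y x y, hyx, mul_assoc, hy, mul_one, hx]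
  rcases (Nat.dvd_prime Nat.prime_two).mp hdvd with h | h
  · exfalso
    rw [Monoid.exp_eq_one_iff] at h
    have : Nat.card (fourGroup x y hx hy hxy) = 1 := Nat.card_unique
    omega
  · exact h

theorem closure_pair_eq (x y : G) (hx : x * x = 1) (hy : y * y = 1) (hxy : x * y = y * x) :
    Subgroup.closure {x, y} = fourGroup x y hx hy hxy := by
  apply le_antisymm
  · rw [Subgroup.closure_le]
    rintro g (rfl | rfl)
    · exact Or.inr (Or.inl rfl)
    · exact Or.inr (Or.inr (Or.inl rfl))
  · intro g hg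
    have hxm : x ∈ Subgroup.closure ({x, y} : Set G) := Subgroup.subset_closure (by simp)
    have hym : y ∈ Subgroup.closure ({x, y} : Set G) := Subgroup.subset_closure (by simp)
    rcases hg with hg | hg | hg | hg
    · rw [hg]; exact Subgroup.one_mem _
    · rw [hg]; exact hxm
    · rw [hg]; exact hym
    · rw [hg]; exact Subgroup.mul_mem _ hxm hym

/-- ordered pairs of distinct commuting involutions -/
def Pairs (G : Type*) [Group G] : Set (G × G) :=
  {p | orderOf p.1 = 2 ∧ orderOf p.2 = 2 ∧ p.1 ≠ p.2 ∧ p.1 * p.2 = p.2 * p.1}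

theorem sq_of_order {x : G} (h : orderOf x = 2) : x * x = 1 := by
  have := pow_orderOf_eq_one x
  rwa [h, pow_two] at this

theorem ne_one_of_order {x : G} (h : orderOf x = 2) : x ≠ 1 := by
  intro h1
  rw [h1, orderOf_one] at h
  omega

theorem ncard_pairs_eq [Finite G] :
    (Pairs G).ncard = 6 * {V : Subgroup G | IsKleinFour V}.ncard := by
  apply fiber_count (Pairs G) {V : Subgroup G | IsKleinFour V}
    (fun p => Subgroup.closure {p.1, p.2}) 6
  · rintro ⟨x, y⟩ ⟨hx, hy, hne, hxy⟩
    show IsKleinFour (Subgroup.closure {x, y})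
    rw [closure_pair_eq x y (sq_of_order hx) (sq_of_order hy) hxy]
    exact isKleinFour_fourGroup x y _ _ hxy (ne_one_of_order hx) (ne_one_of_order hy) hne
  · intro V hV
    have hV' : IsKleinFour V := hV
    have hcV : Nat.card V = 4 := hV'.card_four
    have hset : {p : G × G | p ∈ Pairs G ∧ Subgroup.closure {p.1, p.2} = V} =
        {p : G × G | p.1 ∈ ((V : Set G) \ {1}) ∧ p.2 ∈ ((V : Set G) \ {1}) ∧ p.1 ≠ p.2} := by
      ext ⟨x, y⟩
      constructor
      · rintro ⟨⟨hx, hy, hne, hxy⟩, hcl⟩
        have hxm : x ∈ V := by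
          rw [← hcl]; exact Subgroup.subset_closure (by simp)
        have hym : y ∈ V := by
          rw [← hcl]; exact Subgroup.subset_closure (by simp)
        exact ⟨⟨hxm, ne_one_of_order hx⟩, ⟨hym, ne_one_of_order hy⟩, hne⟩
      · rintro ⟨⟨hxm, hx1⟩, ⟨hym, hy1⟩, hne⟩
        have hx1' : x ≠ 1 := hx1
        have hy1' : y ≠ 1 := hy1
        have hx := Cfsg.Agent.Lib.Helper2.Klein.orderOf_two_of V hV' x hxm hx1'
        have hy := Cfsg.Agent.Lib.Helper2.Klein.orderOf_two_of V hV' y hym hy1'
        have hxy := Cfsg.Agent.Lib.Helper2.Klein.comm V hV' x y hxm hym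
        refine ⟨⟨hx, hy, hne, hxy⟩, ?_⟩
        show Subgroup.closure {x, y} = V
        rw [closure_pair_eq x y (sq_of_order hx) (sq_of_order hy) hxy]
        apply Subgroup.eq_of_le_of_card_ge
        · intro g hg
          rcases hg with hg | hg | hg | hg
          · rw [hg]; exact V.one_mem
          · rw [hg]; exact hxm
          · rw [hg]; exact hym
          · rw [hg]; exact V.mul_mem hxm hym
        · rw [hcV, card_fourGroup x y _ _ hxy hx1' hy1' hne]
    rw [hset, ncard_offDiag]
    have h3 : ((V : Set G) \ {1}).ncard = 3 := by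
      rw [Set.ncard_sdiff_singleton_of_mem V.one_mem]
      have : (V : Set G).ncard = 4 := by
        rw [← hcV]
        exact (Nat.card_coe_set_eq (V : Set G)).symm
      omega
    rw [h3]

theorem klein_count [Finite G] (x₀ : G) (hx₀ : orderOf x₀ = 2)
    (hconj : ∀ y : G, orderOf y = 2 → IsConj x₀ y)
    (hK : 2 * {y : G | orderOf y = 2 ∧ y ≠ x₀ ∧ x₀ * y = y * x₀}.ncard =
      Nat.card (Subgroup.centralizer ({x₀} : Set G))) :
    12 * Nat.card {V : Subgroup G // IsKleinFour V} = Nat.card G := by
  have hV : Nat.card {V : Subgroup G // IsKleinFour V} = {V : Subgroup G | IsKleinFour V}.ncard :=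
    Nat.card_coe_set_eq {V : Subgroup G | IsKleinFour V}
  have hord : ∀ (g y : G), orderOf (g * y * g⁻¹) = orderOf y := fun g y =>
    (MulAut.conj g).orderOf_eq y
  -- orbit-stabilizer
  have h1 : (Set.univ : Set G).ncard =
      Nat.card (Subgroup.centralizer ({x₀} : Set G)) * {y : G | orderOf y = 2}.ncard := by
    apply fiber_count Set.univ {y : G | orderOf y = 2} (fun g => g * x₀ * g⁻¹)
    · intro g _
      show orderOf (g * x₀ * g⁻¹) = 2
      rw [hord, hx₀]
    · intro y hy
      obtain ⟨g₀, hg₀⟩ := isConj_iff.mp (hconj y hy)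
      have hset : {g : G | g ∈ Set.univ ∧ g * x₀ * g⁻¹ = y} =
          (fun c => g₀ * c) '' ((Subgroup.centralizer ({x₀} : Set G) : Subgroup G) : Set G) := by
        ext g
        constructor
        · rintro ⟨-, hg⟩
          refine ⟨g₀⁻¹ * g, ?_, by group⟩
          rw [SetLike.mem_coe, Subgroup.mem_centralizer_singleton_iff]
          have e : g * x₀ * g⁻¹ = g₀ * x₀ * g₀⁻¹ := hg.trans hg₀.symm
          have e2 : g₀⁻¹ * (g * x₀ * g⁻¹) * g = g₀⁻¹ * (g₀ * x₀ * g₀⁻¹) * g := by rw [e]
          have e3 : g₀⁻¹ * g * x₀ = x₀ * (g₀⁻¹ * g) := by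
            calc g₀⁻¹ * g * x₀ = g₀⁻¹ * (g * x₀ * g⁻¹) * g := by group
              _ = g₀⁻¹ * (g₀ * x₀ * g₀⁻¹) * g := e2
              _ = x₀ * (g₀⁻¹ * g) := by group
          exact e3
        · rintro ⟨c, hc, rfl⟩
          rw [SetLike.mem_coe, Subgroup.mem_centralizer_singleton_iff] at hc
          refine ⟨Set.mem_univ _, ?_⟩
          show g₀ * c * x₀ * (g₀ * c)⁻¹ = y
          rw [← hg₀]
          have : g₀ * c * x₀ * (g₀ * c)⁻¹ = g₀ * (c * x₀) * c⁻¹ * g₀⁻¹ := by group
          rw [this, hc]
          group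
      rw [hset, Set.ncard_image_of_injective _ (mul_right_injective g₀)]
      exact (Nat.card_coe_set_eq _).symm
  have h2 : (Pairs G).ncard =
      {y : G | orderOf y = 2 ∧ y ≠ x₀ ∧ x₀ * y = y * x₀}.ncard * {y : G | orderOf y = 2}.ncard := by
    apply fiber_count (Pairs G) {y : G | orderOf y = 2} Prod.fst
    · rintro ⟨x, y⟩ ⟨hx, -, -, -⟩
      exact hx
    · intro x hx
      obtain ⟨g, hg⟩ := isConj_iff.mp (hconj x hx)
      have hset : {p : G × G | p ∈ Pairs G ∧ p.1 = x} =
          (fun y => (x, g * y * g⁻¹)) '' {y : G | orderOf y = 2 ∧ y ≠ x₀ ∧ x₀ * y = y * x₀} := by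
        ext ⟨a, b⟩
        constructor
        · rintro ⟨⟨ha, hb, hne, hab⟩, rfl⟩
          have ha' : a = g * x₀ * g⁻¹ := hg.symm
          refine ⟨g⁻¹ * b * g, ⟨?_, ?_, ?_⟩, ?_⟩
          · have := hord g⁻¹ b
            rw [inv_inv] at this
            rw [this, hb]
          · intro h
            apply hne
            rw [ha', ← h]
            group
          · have e : g * x₀ * g⁻¹ * b = b * (g * x₀ * g⁻¹) := by rw [← ha']; exact hab
            calc x₀ * (g⁻¹ * b * g) = g⁻¹ * (g * x₀ * g⁻¹ * b) * g := by group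
              _ = g⁻¹ * (b * (g * x₀ * g⁻¹)) * g := by rw [e]
              _ = g⁻¹ * b * g * x₀ := by group
          · show (a, g * (g⁻¹ * b * g) * g⁻¹) = (a, b)
            congr 1
            group
        · rintro ⟨y, ⟨hy, hyne, hyc⟩, h⟩
          have h1 : x = a := congrArg Prod.fst h
          have h2 : g * y * g⁻¹ = b := congrArg Prod.snd h
          refine ⟨⟨?_, ?_, ?_, ?_⟩, h1.symm⟩
          · show orderOf a = 2
            rw [← h1]; exact hx
          · show orderOf b = 2
            rw [← h2, hord, hy]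
          · show a ≠ b
            rw [← h1, ← h2, ← hg]
            intro h3
            apply hyne
            have : g * x₀ * g⁻¹ = g * y * g⁻¹ := h3
            exact (mul_left_cancel (mul_right_cancel this)).symm
          · show a * b = b * a
            rw [← h1, ← h2, ← hg]
            calc g * x₀ * g⁻¹ * (g * y * g⁻¹) = g * (x₀ * y) * g⁻¹ := by group
              _ = g * (y * x₀) * g⁻¹ := by rw [hyc]
              _ = g * y * g⁻¹ * (g * x₀ * g⁻¹) := by group
      rw [hset]
      apply Set.ncard_image_of_injective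
      intro y z hyz
      have h3 : g * y * g⁻¹ = g * z * g⁻¹ := congrArg Prod.snd hyz
      exact mul_left_cancel (mul_right_cancel h3)
  have h3 := ncard_pairs_eq (G := G)
  have h4 : (Set.univ : Set G).ncard = Nat.card G := Set.ncard_univ G
  rw [hV, ← h4, h1, ← hK]
  have : 12 * {V : Subgroup G | IsKleinFour V}.ncard = 2 * (Pairs G).ncard := by rw [h3]; ring
  rw [this, h2]
  ring

end Cfsg.Agent.Lib.Helper16.KleinPairs
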