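import Mathlib
import Cfsg.Agent.Lib.Helper16.KleinPairs
import Cfsg.Agent.S0228

/-!
# Producing a copy of the alternating group of degree four from two elements

* `a4_of_elements`: if `i` is an involution commuting with `j = u i u⁻¹`, `u` has cube one and
  `u j u⁻¹ = i j`, then the group contains a subgroup isomorphic to `A₄`.
-/

set_option autoImplicit false

namespace Cfsg.Agent.Lib.Helper16.A4Elts

open Cfsg.Agent.Lib.Helper16.KleinPairs
open scoped Pointwise

theorem a4_of_elements {G : Type*} [Group G] [Finite G] (i u : G) (hi1 : i ≠ 1)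
    (hi2 : i * i = 1) (hc : i * (u * i * u⁻¹) = (u * i * u⁻¹) * i) (hu3 : u * u * u = 1)
    (hj : u * (u * i * u⁻¹) * u⁻¹ = i * (u * i * u⁻¹)) :
    ∃ H : Subgroup G, Nonempty (H ≃* alternatingGroup (Fin 4)) := by
  obtain ⟨j, hjdef⟩ : ∃ j, j = u * i * u⁻¹ := ⟨_, rfl⟩
  rw [← hjdef] at hc hj
  have hj2 : j * j = 1 := by
    rw [hjdef]
    calc u * i * u⁻¹ * (u * i * u⁻¹) = u * (i * i) * u⁻¹ := by group
      _ = 1 := by rw [hi2]; group
  have hj1 : j ≠ 1 := by
    intro h
    apply hi1
    rw [hjdef] at h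
    have e : i = u⁻¹ * (u * i * u⁻¹) * u := by group
    rw [e, h]
    group
  have hij : i ≠ j := by
    intro h
    apply hj1
    rw [← h] at hj
    rw [hjdef, hj, hi2]
  have hconj_ij : u * (i * j) * u⁻¹ = i := by
    calc u * (i * j) * u⁻¹ = (u * i * u⁻¹) * (u * j * u⁻¹) := by group
      _ = j * (i * j) := by rw [← hjdef, hj]
      _ = i * (j * j) := by rw [← mul_assoc, ← hc, mul_assoc]
      _ = i := by rw [hj2, mul_one]
  have hV4 : Nat.card (fourGroup i j hi2 hj2 hc) = 4 := card_fourGroup i j hi2 hj2 hc hi1 hj1 hij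
  have hnorm : ∀ v ∈ fourGroup i j hi2 hj2 hc, u * v * u⁻¹ ∈ fourGroup i j hi2 hj2 hc := by
    intro v hv
    rcases (mem_fourGroup i j hi2 hj2 hc v).mp hv with h | h | h | h
    · rw [h, mul_one, mul_inv_cancel]
      exact one_mem _
    · rw [h, ← hjdef]
      exact (mem_fourGroup i j hi2 hj2 hc _).mpr (Or.inr (Or.inr (Or.inl rfl)))
    · rw [h, hj]
      exact (mem_fourGroup i j hi2 hj2 hc _).mpr (Or.inr (Or.inr (Or.inr rfl)))
    · rw [h, hconj_ij]
      exact (mem_fourGroup i j hi2 hj2 hc _).mpr (Or.inr (Or.inl rfl))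
  have hfix : ∀ v ∈ fourGroup i j hi2 hj2 hc, u * v * u⁻¹ = v → v = 1 := by
    intro v hv hfv
    rcases (mem_fourGroup i j hi2 hj2 hc v).mp hv with h | h | h | h
    · exact h
    · exfalso
      rw [h, ← hjdef] at hfv
      exact hij hfv.symm
    · exfalso
      rw [h, hj] at hfv
      exact hi1 (mul_eq_right.mp hfv)
    · exfalso
      rw [h, hconj_ij] at hfv
      exact hj1 (left_eq_mul.mp hfv)
  have hu1 : u ≠ 1 := by
    intro h
    apply hij
    rw [hjdef, h]
    group
  haveI : Fact (Nat.Prime 3) := ⟨by norm_num⟩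
  have hu3' : u ^ 3 = 1 := by
    rw [pow_succ, pow_two]
    exact hu3
  have horder : orderOf u = 3 := orderOf_eq_prime hu3' hu1
  have hZ3 : Nat.card (Subgroup.zpowers u) = 3 := by
    rw [Nat.card_zpowers, horder]
  have hZnorm : Subgroup.zpowers u ≤
      Subgroup.normalizer ((fourGroup i j hi2 hj2 hc : Subgroup G) : Set G) := by
    rw [Subgroup.zpowers_le, Subgroup.mem_normalizer_iff]
    intro v
    constructor
    · exact hnorm v
    · intro hv
      have h1 := hnorm _ (hnorm _ hv)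
      have e : u * (u * (u * v * u⁻¹) * u⁻¹) * u⁻¹ = v := by
        have e1 : u * (u * (u * v * u⁻¹) * u⁻¹) * u⁻¹ = (u * u * u) * v * (u * u * u)⁻¹ := by
          group
        rw [e1, hu3]
        group
      rwa [e] at h1
  have hcoe : ((fourGroup i j hi2 hj2 hc ⊔ Subgroup.zpowers u : Subgroup G) : Set G) =
      ((fourGroup i j hi2 hj2 hc : Subgroup G) : Set G) * ((Subgroup.zpowers u : Subgroup G) : Set G) :=
    Subgroup.coe_mul_of_right_le_normalizer_left _ _ hZnorm
  have hcard : Nat.card ↥(fourGroup i j hi2 hj2 hc ⊔ Subgroup.zpowers u) = 12 := by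
    have h4 : Nat.card (fourGroup i j hi2 hj2 hc) ∣
        Nat.card ↥(fourGroup i j hi2 hj2 hc ⊔ Subgroup.zpowers u) :=
      Subgroup.card_dvd_of_le le_sup_left
    have h3 : Nat.card (Subgroup.zpowers u) ∣
        Nat.card ↥(fourGroup i j hi2 hj2 hc ⊔ Subgroup.zpowers u) :=
      Subgroup.card_dvd_of_le le_sup_right
    rw [hV4] at h4
    rw [hZ3] at h3
    have hle : Nat.card ↥(fourGroup i j hi2 hj2 hc ⊔ Subgroup.zpowers u) ≤ 12 := by
      have e1 : Nat.card ↥(fourGroup i j hi2 hj2 hc ⊔ Subgroup.zpowers u) =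
          Nat.card ↥(((fourGroup i j hi2 hj2 hc : Subgroup G) : Set G) *
            ((Subgroup.zpowers u : Subgroup G) : Set G)) := by
        rw [← hcoe]
        rfl
      have e2 := Set.natCard_mul_le (s := ((fourGroup i j hi2 hj2 hc : Subgroup G) : Set G))
        (t := ((Subgroup.zpowers u : Subgroup G) : Set G))
      have e3 : Nat.card ↥((fourGroup i j hi2 hj2 hc : Subgroup G) : Set G) = 4 := hV4
      have e4 : Nat.card ↥((Subgroup.zpowers u : Subgroup G) : Set G) = 3 := hZ3
      rw [e3, e4] at e2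
      omega
    have hpos : 0 < Nat.card ↥(fourGroup i j hi2 hj2 hc ⊔ Subgroup.zpowers u) := Nat.card_pos
    omega
  refine ⟨fourGroup i j hi2 hj2 hc ⊔ Subgroup.zpowers u, Cfsg.Agent.S0228.result hcard ?_⟩
  intro z hz2 hzc
  have hzmem : (z : G) ∈ ((fourGroup i j hi2 hj2 hc : Subgroup G) : Set G) *
      ((Subgroup.zpowers u : Subgroup G) : Set G) := by
    rw [← hcoe]
    exact z.2
  obtain ⟨v, hv, y, hy, hvy⟩ := Set.mem_mul.mp hzmem
  have huH : u ∈ fourGroup i j hi2 hj2 hc ⊔ Subgroup.zpowers u :=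
    (le_sup_right : Subgroup.zpowers u ≤ _) (Subgroup.mem_zpowers u)
  have hcomm : (z : G) * u = u * z := by
    have h1 := Subgroup.mem_center_iff.mp hzc ⟨u, huH⟩
    have h2 := congrArg Subtype.val h1
    exact h2.symm
  have hyu : y * u = u * y := by
    obtain ⟨k, hk⟩ := Subgroup.mem_zpowers_iff.mp hy
    rw [← hk]
    exact (Commute.zpow_left (Commute.refl u) k).eq
  have hvu : u * v * u⁻¹ = v := by
    rw [← hvy] at hcomm
    have h1 : v * u * y = u * v * y := by
      calc v * u * y = v * (u * y) := by group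
        _ = v * (y * u) := by rw [hyu]
        _ = v * y * u := by group
        _ = u * (v * y) := hcomm
        _ = u * v * y := by group
    have h2 : v * u = u * v := mul_right_cancel h1
    rw [← h2]
    group
  have hv1 : v = 1 := hfix v hv hvu
  have hzy : (z : G) = y := by rw [← hvy, hv1, one_mul]
  have hy3 : y ^ 3 = 1 := by
    obtain ⟨k, hk⟩ := Subgroup.mem_zpowers_iff.mp hy
    rw [← hk, ← zpow_natCast, ← zpow_mul, mul_comm, zpow_mul, zpow_natCast, hu3', one_zpow]
  have hz3 : z ^ 3 = 1 := by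
    apply Subtype.ext
    rw [Subgroup.coe_pow, hzy, hy3]
    rfl
  have hdvd : orderOf z ∣ 3 := orderOf_dvd_of_pow_eq_one hz3
  rw [hz2] at hdvd
  omega

end Cfsg.Agent.Lib.Helper16.A4Elts
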