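import Mathlib
import Cfsg.Agent.Lib.Helper14.SL2Odd
import Cfsg.Agent.Lib.Lead.QuadSyl

/-!
# Subgroups of order four of `SL₂(q)`, `q` odd

* `sq_cases`: an element of `SL₂(F)` of square one is `±1`.
* `sq_negOne_iff`: `x * x = -1` iff the trace of `x` vanishes.
* `exists_gen`: a subgroup of order four is generated by an element of square `-1`.
* `isConj_of_sq`: any two elements of square `-1` are conjugate.
-/

set_option autoImplicit false

namespace Cfsg.Agent.Lib.Helper16.SL2Four

open Cfsg.Agent.Lib.Helper14.SL2Odd Cfsg.Agent.Lib.Helper14.GL2Conj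

variable {F : Type*} [Field F]

theorem negOne_mul_negOne :
    (negOne : Matrix.SpecialLinearGroup (Fin 2) F) * negOne = 1 := by
  apply Subtype.ext
  rw [Matrix.SpecialLinearGroup.coe_mul, negOne_coe]
  ext i j
  fin_cases i <;> fin_cases j <;> simp [Matrix.mul_apply, Fin.sum_univ_two]

theorem negOne_comm (g : Matrix.SpecialLinearGroup (Fin 2) F) : g * negOne = negOne * g := by
  apply Subtype.ext
  rw [Matrix.SpecialLinearGroup.coe_mul, Matrix.SpecialLinearGroup.coe_mul, negOne_coe]
  ext i j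
  fin_cases i <;> fin_cases j <;> simp [Matrix.mul_apply, Fin.sum_univ_two]

theorem sq_cases (h2 : (2 : F) ≠ 0) (g : Matrix.SpecialLinearGroup (Fin 2) F) (h : g * g = 1) :
    g = 1 ∨ g = negOne := by
  have h1 : (g : Matrix (Fin 2) (Fin 2) F) * (g : Matrix (Fin 2) (Fin 2) F) = 1 := by
    rw [← Matrix.SpecialLinearGroup.coe_mul, h]
    rfl
  rcases Cfsg.Agent.Lib.Lead.QuadSyl.sq_eq_one_cases h2 _ g.det_coe h1 with h3 | h3
  · left
    exact Subtype.ext h3
  · right
    apply Subtype.ext
    rw [h3, negOne_coe]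
    ext i j
    fin_cases i <;> fin_cases j <;> simp

theorem sq_negOne_iff (g : Matrix.SpecialLinearGroup (Fin 2) F) :
    g * g = negOne ↔ tr2 g = 0 := by
  have hdet := g.det_coe
  rw [Matrix.det_fin_two] at hdet
  constructor
  · intro h
    have h1 : (g : Matrix (Fin 2) (Fin 2) F) * (g : Matrix (Fin 2) (Fin 2) F) = !![-1, 0; 0, -1] := by
      rw [← Matrix.SpecialLinearGroup.coe_mul, h, negOne_coe]
    have e00 := congrFun (congrFun h1 0) 0
    have e11 := congrFun (congrFun h1 1) 1
    simp only [Matrix.mul_apply, Fin.sum_univ_two] at e00 e11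
    simp at e00 e11
    have hs : tr2 g ^ 2 = 0 := by
      unfold tr2
      linear_combination e00 + e11 + 2 * hdet
    exact pow_eq_zero_iff (two_ne_zero) |>.mp hs
  · intro h
    unfold tr2 at h
    apply Subtype.ext
    rw [Matrix.SpecialLinearGroup.coe_mul, negOne_coe]
    have hd : (g : Matrix (Fin 2) (Fin 2) F) 1 1 = -(g : Matrix (Fin 2) (Fin 2) F) 0 0 := by
      linear_combination h
    ext i j
    fin_cases i <;> fin_cases j
    · simp [Matrix.mul_apply, Fin.sum_univ_two]
      rw [hd] at hdet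
      linear_combination (-1 : F) * hdet
    · simp [Matrix.mul_apply, Fin.sum_univ_two]
      rw [hd]
      ring
    · simp [Matrix.mul_apply, Fin.sum_univ_two]
      rw [hd]
      ring
    · simp [Matrix.mul_apply, Fin.sum_univ_two]
      rw [hd] at hdet ⊢
      linear_combination (-1 : F) * hdet

theorem isConj_of_sq [Fintype F] (hodd : Fintype.card F % 2 = 1)
    (x y : Matrix.SpecialLinearGroup (Fin 2) F) (hx : x * x = negOne) (hy : y * y = negOne) :
    IsConj x y := by
  have h2 : (2 : F) ≠ 0 := two_ne_zero_of_odd hodd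
  have hns : ∀ z : Matrix.SpecialLinearGroup (Fin 2) F, z * z = negOne →
      ¬ IsScalarMat (z : Matrix (Fin 2) (Fin 2) F) := by
    intro z hz hs
    rcases scalar_cases z hs with h | h
    · rw [h, mul_one] at hz
      exact negOne_ne_one h2 hz.symm
    · rw [h, negOne_mul_negOne] at hz
      exact negOne_ne_one h2 hz.symm
  have hx0 := (sq_negOne_iff x).mp hx
  have hy0 := (sq_negOne_iff y).mp hy
  apply conj_of_trace hodd x y (hns x hx) (hns y hy) (by rw [hx0, hy0])
  rw [hx0]
  intro h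
  have h4 : (4 : F) = 2 * 2 := by norm_num
  have : (2 : F) * 2 = 0 := by rw [← h4, ← h]; ring
  rcases mul_eq_zero.mp this with h | h <;> exact h2 h

theorem exists_gen (h2 : (2 : F) ≠ 0) (A : Subgroup (Matrix.SpecialLinearGroup (Fin 2) F))
    (hA : Nat.card A = 4) : ∃ x ∈ A, x * x = negOne ∧ A = Subgroup.zpowers x := by
  haveI : Finite A := Nat.finite_of_card_ne_zero (by rw [hA]; norm_num)
  have hex : ∃ x ∈ A, x * x ≠ 1 := by
    by_contra hcon
    push_neg at hcon
    have hsub : (A : Set (Matrix.SpecialLinearGroup (Fin 2) F)) ⊆ {1, negOne} := by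
      intro x hx
      rcases sq_cases h2 x (hcon x hx) with h | h
      · left; exact h
      · right; exact h
    have h1 : Nat.card A ≤ 2 := by
      have h0 : Nat.card A = (A : Set (Matrix.SpecialLinearGroup (Fin 2) F)).ncard :=
        Nat.card_coe_set_eq (A : Set (Matrix.SpecialLinearGroup (Fin 2) F))
      rw [h0]
      calc (A : Set (Matrix.SpecialLinearGroup (Fin 2) F)).ncard
          ≤ ({1, negOne} : Set (Matrix.SpecialLinearGroup (Fin 2) F)).ncard :=
            Set.ncard_le_ncard hsub (Set.toFinite _)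
        _ ≤ ({negOne} : Set (Matrix.SpecialLinearGroup (Fin 2) F)).ncard + 1 :=
            Set.ncard_insert_le _ _
        _ = 2 := by rw [Set.ncard_singleton]
    omega
  obtain ⟨x, hxA, hx1⟩ := hex
  have hord : orderOf x ∣ 4 := by
    rw [← hA]
    exact Subgroup.orderOf_dvd_natCard A hxA
  have hx4 : x ^ 4 = 1 := orderOf_dvd_iff_pow_eq_one.mp hord
  have hxx : x * x = negOne := by
    have h3 : (x * x) * (x * x) = 1 := by
      rw [← pow_two, ← pow_two, ← pow_mul]
      exact hx4
    rcases sq_cases h2 (x * x) h3 with h | h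
    · exact absurd h hx1
    · exact h
  refine ⟨x, hxA, hxx, ?_⟩
  have ho : orderOf x = 4 := by
    have hle : orderOf x ≤ 4 := Nat.le_of_dvd (by norm_num) hord
    have hne1 : orderOf x ≠ 1 := by
      intro h
      rw [orderOf_eq_one_iff] at h
      rw [h, mul_one] at hx1
      exact hx1 rfl
    have hne2 : orderOf x ≠ 2 := by
      intro h
      have := pow_orderOf_eq_one x
      rw [h, pow_two] at this
      exact hx1 this
    have hpos : 0 < orderOf x := Nat.pos_of_dvd_of_pos hord (by norm_num)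
    interval_cases h : orderOf x <;> simp_all
  symm
  apply Subgroup.eq_of_le_of_card_ge
  · rw [Subgroup.zpowers_le]
    exact hxA
  · rw [Nat.card_zpowers, ho, hA]

/-! ### the circle `s² + t² = 1` -/

/-- the circle -/
def circle (F : Type*) [Field F] : Set (F × F) := {p | p.1 ^ 2 + p.2 ^ 2 = 1}

/-- square roots of `-1` -/
def roots (F : Type*) [Field F] : Set F := {u | u ^ 2 + 1 = 0}

/-- rational parametrization of the circle -/
noncomputable def par (u : F) : F × F := ((u ^ 2 - 1) / (u ^ 2 + 1), -2 * u / (u ^ 2 + 1))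

theorem par_mem (u : F) (hu : u ^ 2 + 1 ≠ 0) : par u ∈ circle F := by
  show ((u ^ 2 - 1) / (u ^ 2 + 1)) ^ 2 + (-2 * u / (u ^ 2 + 1)) ^ 2 = 1
  field_simp
  ring

theorem par_inv (h2 : (2 : F) ≠ 0) (u : F) (hu : u ^ 2 + 1 ≠ 0) :
    (par u).2 / ((par u).1 - 1) = u := by
  show (-2 * u / (u ^ 2 + 1)) / ((u ^ 2 - 1) / (u ^ 2 + 1) - 1) = u
  have h1 : (u ^ 2 - 1) / (u ^ 2 + 1) - 1 = -2 / (u ^ 2 + 1) := by
    field_simp
    ring
  rw [h1]
  field_simp

theorem par_ne (h2 : (2 : F) ≠ 0) (u : F) (hu : u ^ 2 + 1 ≠ 0) : par u ≠ (1, 0) := by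
  intro h
  have h1 : (u ^ 2 - 1) / (u ^ 2 + 1) = 1 := congrArg Prod.fst h
  rw [div_eq_one_iff_eq hu] at h1
  apply h2
  linear_combination (-1 : F) * h1

theorem par_surj (h2 : (2 : F) ≠ 0) (s t : F) (h : s ^ 2 + t ^ 2 = 1) (hs : s ≠ 1) :
    (t / (s - 1)) ^ 2 + 1 ≠ 0 ∧ par (t / (s - 1)) = (s, t) := by
  have hs1 : s - 1 ≠ 0 := sub_ne_zero.mpr hs
  have hu : (t / (s - 1)) ^ 2 + 1 = -2 / (s - 1) := by
    field_simp
    linear_combination h
  have hne : (-2 : F) / (s - 1) ≠ 0 := by
    apply div_ne_zero _ hs1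
    intro h0
    apply h2
    linear_combination (-1 : F) * h0
  refine ⟨by rw [hu]; exact hne, ?_⟩
  unfold par
  rw [hu]
  apply Prod.ext
  · show ((t / (s - 1)) ^ 2 - 1) / (-2 / (s - 1)) = s
    have h3 : (t / (s - 1)) ^ 2 - 1 = -2 / (s - 1) - 2 := by rw [← hu]; ring
    rw [h3]
    field_simp
    ring
  · show -2 * (t / (s - 1)) / (-2 / (s - 1)) = t
    field_simp

theorem ncard_circle [Fintype F] (h2 : (2 : F) ≠ 0) :
    (circle F).ncard + (roots F).ncard = Fintype.card F + 1 := by
  have himg : circle F = insert (1, 0) (par '' (roots F)ᶜ) := by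
    ext ⟨s, t⟩
    constructor
    · intro h
      have h' : s ^ 2 + t ^ 2 = 1 := h
      by_cases hs : s = 1
      · left
        have ht : t = 0 := by
          rw [hs] at h'
          have : t ^ 2 = 0 := by linear_combination h'
          exact (pow_eq_zero_iff (two_ne_zero)).mp this
        rw [hs, ht]
      · right
        obtain ⟨h3, h4⟩ := par_surj h2 s t h' hs
        exact ⟨t / (s - 1), h3, h4⟩
    · rintro (h | ⟨u, hu, h⟩)
      · rw [h]
        show (1 : F) ^ 2 + 0 ^ 2 = 1
        ring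
      · rw [← h]
        exact par_mem u hu
  have hnot : ((1 : F), (0 : F)) ∉ par '' (roots F)ᶜ := by
    rintro ⟨u, hu, h⟩
    exact par_ne h2 u hu h
  have hinj : Set.InjOn (par : F → F × F) (roots F)ᶜ := by
    intro u hu v hv huv
    rw [← par_inv h2 u hu, ← par_inv h2 v hv, huv]
  rw [himg, Set.ncard_insert_of_notMem hnot (Set.toFinite _), Set.InjOn.ncard_image hinj]
  have h3 := Set.ncard_add_ncard_compl (roots F) (Set.toFinite _) (Set.toFinite _)
  rw [Nat.card_eq_fintype_card] at h3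
  omega

theorem roots_ncard_one [Fintype F] (h2 : (2 : F) ≠ 0) (h : Fintype.card F % 4 = 1) :
    (roots F).ncard = 2 := by
  have hsq : IsSquare (-1 : F) := FiniteField.isSquare_neg_one_iff.mpr (by omega)
  obtain ⟨i, hi⟩ := hsq
  have hr : roots F = {i, -i} := by
    ext u
    show u ^ 2 + 1 = 0 ↔ u ∈ ({i, -i} : Set F)
    rw [Set.mem_insert_iff, Set.mem_singleton_iff]
    constructor
    · intro hu
      have h3 : (u - i) * (u + i) = 0 := by linear_combination hu + hi
      rcases mul_eq_zero.mp h3 with h4 | h4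
      · left; linear_combination h4
      · right; linear_combination h4
    · rintro (rfl | rfl)
      · linear_combination (-1 : F) * hi
      · linear_combination (-1 : F) * hi
  rw [hr, Set.ncard_pair]
  intro h3
  have h4 : (2 : F) * i = 0 := by linear_combination h3
  rcases mul_eq_zero.mp h4 with h5 | h5
  · exact h2 h5
  · rw [h5] at hi
    simp at hi

theorem roots_ncard_three [Fintype F] (h : Fintype.card F % 4 = 3) : (roots F).ncard = 0 := by
  have hr : roots F = ∅ := by
    ext u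
    simp only [Set.mem_empty_iff_false, iff_false]
    intro hu
    have hu' : u ^ 2 + 1 = 0 := hu
    have hsq : IsSquare (-1 : F) := ⟨u, by linear_combination (-1 : F) * hu'⟩
    exact (FiniteField.isSquare_neg_one_iff.mp hsq) h
  rw [hr, Set.ncard_empty]

/-! ### the normalizer of `⟨cs⟩` -/

/-- the element `[[0,-1],[1,0]]` -/
def cs : Matrix.SpecialLinearGroup (Fin 2) F := ⟨!![0, -1; 1, 0], by simp [Matrix.det_fin_two_of]⟩

theorem cs_coe : ((cs : Matrix.SpecialLinearGroup (Fin 2) F) : Matrix (Fin 2) (Fin 2) F) =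
    !![0, -1; 1, 0] := rfl

theorem cs_sq : (cs : Matrix.SpecialLinearGroup (Fin 2) F) * cs = negOne := by
  apply Subtype.ext
  rw [Matrix.SpecialLinearGroup.coe_mul, negOne_coe, cs_coe]
  ext i j
  fin_cases i <;> fin_cases j <;> simp [Matrix.mul_apply, Fin.sum_univ_two]

theorem cs_inv : (cs : Matrix.SpecialLinearGroup (Fin 2) F)⁻¹ = cs * negOne := by
  rw [inv_eq_iff_mul_eq_one, ← mul_assoc, cs_sq, negOne_mul_negOne]

theorem cs_inv_coe : (((cs : Matrix.SpecialLinearGroup (Fin 2) F)⁻¹ :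
    Matrix.SpecialLinearGroup (Fin 2) F) : Matrix (Fin 2) (Fin 2) F) = !![0, 1; -1, 0] := by
  rw [cs_inv, Matrix.SpecialLinearGroup.coe_mul, negOne_coe, cs_coe]
  ext i j
  fin_cases i <;> fin_cases j <;> simp [Matrix.mul_apply, Fin.sum_univ_two]

/-- entries of a matrix commuting with `cs` -/
theorem comm_entries (y : Matrix.SpecialLinearGroup (Fin 2) F) (hc : y * cs = cs * y) :
    (y : Matrix (Fin 2) (Fin 2) F) 1 1 = (y : Matrix (Fin 2) (Fin 2) F) 0 0 ∧
    (y : Matrix (Fin 2) (Fin 2) F) 0 1 = -(y : Matrix (Fin 2) (Fin 2) F) 1 0 := by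
  have h1 : (y : Matrix (Fin 2) (Fin 2) F) * !![0, -1; 1, 0] =
      !![0, -1; 1, 0] * (y : Matrix (Fin 2) (Fin 2) F) := by
    rw [← cs_coe, ← Matrix.SpecialLinearGroup.coe_mul, ← Matrix.SpecialLinearGroup.coe_mul, hc]
  have e00 := congrFun (congrFun h1 0) 0
  have e10 := congrFun (congrFun h1 1) 0
  simp only [Matrix.mul_apply, Fin.sum_univ_two] at e00 e10
  simp at e00 e10
  exact ⟨e10, e00⟩

theorem comm_tr_cases (h2 : (2 : F) ≠ 0) (y : Matrix.SpecialLinearGroup (Fin 2) F)
    (hc : y * cs = cs * y) (ht : tr2 y = 0) : y = cs ∨ y = cs⁻¹ := by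
  obtain ⟨h11, h01⟩ := comm_entries y hc
  have hdet := y.det_coe
  rw [Matrix.det_fin_two] at hdet
  unfold tr2 at ht
  have h00 : (y : Matrix (Fin 2) (Fin 2) F) 0 0 = 0 := by
    rw [h11] at ht
    have : (2 : F) * (y : Matrix (Fin 2) (Fin 2) F) 0 0 = 0 := by linear_combination ht
    rcases mul_eq_zero.mp this with h | h
    · exact absurd h h2
    · exact h
  rw [h11, h01, h00] at hdet
  have h10 : ((y : Matrix (Fin 2) (Fin 2) F) 1 0 - 1) * ((y : Matrix (Fin 2) (Fin 2) F) 1 0 + 1) = 0 := by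
    linear_combination hdet
  rcases mul_eq_zero.mp h10 with h | h
  · left
    have h10' : (y : Matrix (Fin 2) (Fin 2) F) 1 0 = 1 := by linear_combination h
    apply Subtype.ext
    rw [cs_coe]
    ext i j
    fin_cases i <;> fin_cases j <;> simp [h00, h01, h10', h11]
  · right
    have h10' : (y : Matrix (Fin 2) (Fin 2) F) 1 0 = -1 := by linear_combination h
    apply Subtype.ext
    rw [cs_inv_coe]
    ext i j
    fin_cases i <;> fin_cases j <;> simp [h00, h01, h10', h11]

/-- the centralizer of `cs` -/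
def centSet (F : Type*) [Field F] : Set (Matrix.SpecialLinearGroup (Fin 2) F) :=
  {n | n * cs * n⁻¹ = cs}

/-- the elements inverting `cs` -/
def antiSet (F : Type*) [Field F] : Set (Matrix.SpecialLinearGroup (Fin 2) F) :=
  {n | n * cs * n⁻¹ = cs⁻¹}

theorem ncard_centSet : (centSet F).ncard = (circle F).ncard := by
  have himg : (fun n : Matrix.SpecialLinearGroup (Fin 2) F =>
      ((n : Matrix (Fin 2) (Fin 2) F) 0 0, (n : Matrix (Fin 2) (Fin 2) F) 1 0)) '' centSet F =
      circle F := by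
    ext ⟨s, t⟩
    constructor
    · rintro ⟨n, hn, h⟩
      have hc : n * cs = cs * n := mul_inv_eq_iff_eq_mul.mp hn
      obtain ⟨h11, h01⟩ := comm_entries n hc
      have hdet := n.det_coe
      rw [Matrix.det_fin_two, h11, h01] at hdet
      have hs : (n : Matrix (Fin 2) (Fin 2) F) 0 0 = s := congrArg Prod.fst h
      have ht : (n : Matrix (Fin 2) (Fin 2) F) 1 0 = t := congrArg Prod.snd h
      rw [hs, ht] at hdet
      show s ^ 2 + t ^ 2 = 1
      linear_combination hdet
    · intro h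
      have h' : s ^ 2 + t ^ 2 = 1 := h
      have hd : (!![s, -t; t, s] : Matrix (Fin 2) (Fin 2) F).det = 1 := by
        rw [Matrix.det_fin_two_of]; linear_combination h'
      obtain ⟨n, hn⟩ : ∃ n : Matrix.SpecialLinearGroup (Fin 2) F,
          (n : Matrix (Fin 2) (Fin 2) F) = !![s, -t; t, s] := ⟨⟨_, hd⟩, rfl⟩
      have hcomm : n * cs = cs * n := by
        apply Subtype.ext
        rw [Matrix.SpecialLinearGroup.coe_mul, Matrix.SpecialLinearGroup.coe_mul, cs_coe, hn]
        ext i j
        fin_cases i <;> fin_cases j <;> simp [Matrix.mul_apply, Fin.sum_univ_two]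
      refine ⟨n, mul_inv_eq_iff_eq_mul.mpr hcomm, ?_⟩
      show ((n : Matrix (Fin 2) (Fin 2) F) 0 0, (n : Matrix (Fin 2) (Fin 2) F) 1 0) = (s, t)
      rw [hn]
      rfl
  rw [← himg]
  symm
  apply Set.InjOn.ncard_image
  intro n hn m hm hnm
  have hcn : n * cs = cs * n := mul_inv_eq_iff_eq_mul.mp hn
  have hcm : m * cs = cs * m := mul_inv_eq_iff_eq_mul.mp hm
  obtain ⟨n11, n01⟩ := comm_entries n hcn
  obtain ⟨m11, m01⟩ := comm_entries m hcm
  have h00 : (n : Matrix (Fin 2) (Fin 2) F) 0 0 = (m : Matrix (Fin 2) (Fin 2) F) 0 0 :=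
    congrArg Prod.fst hnm
  have h10 : (n : Matrix (Fin 2) (Fin 2) F) 1 0 = (m : Matrix (Fin 2) (Fin 2) F) 1 0 :=
    congrArg Prod.snd hnm
  apply Subtype.ext
  ext i j
  fin_cases i <;> fin_cases j
  · exact h00
  · show (n : Matrix (Fin 2) (Fin 2) F) 0 1 = (m : Matrix (Fin 2) (Fin 2) F) 0 1
    rw [n01, m01, h10]
  · exact h10
  · show (n : Matrix (Fin 2) (Fin 2) F) 1 1 = (m : Matrix (Fin 2) (Fin 2) F) 1 1
    rw [n11, m11, h00]

theorem mem_normalizer_of_map_eq {G : Type*} [Group G] (H : Subgroup G) (n : G)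
    (h : H.map (MulAut.conj n).toMonoidHom = H) : n ∈ Subgroup.normalizer (H : Set G) := by
  rw [Subgroup.mem_normalizer_iff]
  intro x
  constructor
  · intro hx
    rw [← h]
    exact ⟨x, hx, rfl⟩
  · intro hx
    rw [← h] at hx
    obtain ⟨x', hx', e⟩ := hx
    have e' : n * x' * n⁻¹ = n * x * n⁻¹ := e
    have : x' = x := mul_left_cancel (mul_right_cancel e')
    rw [← this]
    exact hx'

theorem normalizer_eq (h2 : (2 : F) ≠ 0) :
    (Subgroup.normalizer ((Subgroup.zpowers (cs : Matrix.SpecialLinearGroup (Fin 2) F) :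
      Subgroup (Matrix.SpecialLinearGroup (Fin 2) F)) : Set (Matrix.SpecialLinearGroup (Fin 2) F)) :
      Set (Matrix.SpecialLinearGroup (Fin 2) F)) = centSet F ∪ antiSet F := by
  ext n
  constructor
  · intro hn
    have hn' := (Subgroup.mem_normalizer_iff.mp hn cs).mp (Subgroup.mem_zpowers cs)
    obtain ⟨k, hk⟩ := Subgroup.mem_zpowers_iff.mp hn'
    have hc : (n * cs * n⁻¹) * cs = cs * (n * cs * n⁻¹) := by
      rw [← hk]
      exact (Commute.zpow_self cs k).eq
    have hsq : (n * cs * n⁻¹) * (n * cs * n⁻¹) = negOne := by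
      have : (n * cs * n⁻¹) * (n * cs * n⁻¹) = n * (cs * cs) * n⁻¹ := by group
      rw [this, cs_sq, negOne_comm, mul_assoc, mul_inv_cancel, mul_one]
    rcases comm_tr_cases h2 _ hc ((sq_negOne_iff _).mp hsq) with h | h
    · left; exact h
    · right; exact h
  · rintro (hn | hn)
    · apply mem_normalizer_of_map_eq
      rw [MonoidHom.map_zpowers]
      show Subgroup.zpowers (n * cs * n⁻¹) = _
      rw [show n * cs * n⁻¹ = cs from hn]
    · apply mem_normalizer_of_map_eq
      rw [MonoidHom.map_zpowers]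
      show Subgroup.zpowers (n * cs * n⁻¹) = _
      rw [show n * cs * n⁻¹ = cs⁻¹ from hn, Subgroup.zpowers_inv]

theorem card_normalizer_cs [Fintype F] (hodd : Fintype.card F % 2 = 1) :
    Nat.card (Subgroup.normalizer ((Subgroup.zpowers (cs : Matrix.SpecialLinearGroup (Fin 2) F) :
      Subgroup (Matrix.SpecialLinearGroup (Fin 2) F)) : Set (Matrix.SpecialLinearGroup (Fin 2) F))) =
      2 * (circle F).ncard := by
  have h2 : (2 : F) ≠ 0 := two_ne_zero_of_odd hodd
  have hinvsq : (cs : Matrix.SpecialLinearGroup (Fin 2) F)⁻¹ * cs⁻¹ = negOne := by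
    rw [← mul_inv_rev, cs_sq, inv_eq_iff_mul_eq_one, negOne_mul_negOne]
  obtain ⟨w, hw⟩ := isConj_iff.mp (isConj_of_sq hodd cs cs⁻¹ cs_sq hinvsq)
  have hne : (cs : Matrix.SpecialLinearGroup (Fin 2) F) ≠ cs⁻¹ := by
    intro h
    have h1 : (cs : Matrix.SpecialLinearGroup (Fin 2) F) * cs = 1 := by
      nth_rewrite 2 [h]
      exact mul_inv_cancel _
    rw [cs_sq] at h1
    exact negOne_ne_one h2 h1
  have hanti : antiSet F = (fun n => w * n) '' centSet F := by
    ext m
    constructor
    · intro hm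
      have hm' : m * cs * m⁻¹ = cs⁻¹ := hm
      refine ⟨w⁻¹ * m, ?_, by group⟩
      show w⁻¹ * m * cs * (w⁻¹ * m)⁻¹ = cs
      have e : w⁻¹ * m * cs * (w⁻¹ * m)⁻¹ = w⁻¹ * (m * cs * m⁻¹) * w := by group
      rw [e, hm', ← hw]
      group
    · rintro ⟨n, hn, rfl⟩
      have hn' : n * cs * n⁻¹ = cs := hn
      show w * n * cs * (w * n)⁻¹ = cs⁻¹
      have e : w * n * cs * (w * n)⁻¹ = w * (n * cs * n⁻¹) * w⁻¹ := by group
      rw [e, hn', hw]
  have hdisj : Disjoint (centSet F) (antiSet F) := by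
    rw [Set.disjoint_left]
    intro n hn hn'
    have h1 : n * cs * n⁻¹ = cs := hn
    have h3 : n * cs * n⁻¹ = cs⁻¹ := hn'
    exact hne (h1.symm.trans h3)
  have h0 : Nat.card (Subgroup.normalizer ((Subgroup.zpowers
      (cs : Matrix.SpecialLinearGroup (Fin 2) F) :
      Subgroup (Matrix.SpecialLinearGroup (Fin 2) F)) : Set (Matrix.SpecialLinearGroup (Fin 2) F))) =
      ((Subgroup.normalizer ((Subgroup.zpowers (cs : Matrix.SpecialLinearGroup (Fin 2) F) :
      Subgroup (Matrix.SpecialLinearGroup (Fin 2) F)) : Set (Matrix.SpecialLinearGroup (Fin 2) F)) :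
      Set (Matrix.SpecialLinearGroup (Fin 2) F))).ncard := Nat.card_coe_set_eq _
  rw [h0, normalizer_eq h2, Set.ncard_union_eq hdisj (Set.toFinite _) (Set.toFinite _), hanti,
    Set.ncard_image_of_injective _ (mul_right_injective w), ncard_centSet]
  ring

/-- the order of the normalizer of a subgroup of order four -/
theorem card_normalizer [Fintype F] (hodd : Fintype.card F % 2 = 1)
    (A : Subgroup (Matrix.SpecialLinearGroup (Fin 2) F)) (hA : Nat.card A = 4) :
    Nat.card (Subgroup.normalizer (A : Set (Matrix.SpecialLinearGroup (Fin 2) F))) +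
      2 * (roots F).ncard = 2 * (Fintype.card F + 1) := by
  have h2 : (2 : F) ≠ 0 := two_ne_zero_of_odd hodd
  obtain ⟨x, -, hxx, hAx⟩ := exists_gen h2 A hA
  obtain ⟨c, hc⟩ := isConj_iff.mp (isConj_of_sq hodd cs x cs_sq hxx)
  have hmap : A = (Subgroup.zpowers (cs : Matrix.SpecialLinearGroup (Fin 2) F)).map
      (MulAut.conj c).toMonoidHom := by
    rw [MonoidHom.map_zpowers, hAx]
    show Subgroup.zpowers x = Subgroup.zpowers (c * cs * c⁻¹)
    rw [hc]
  have hN := Subgroup.map_equiv_normalizer_eq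
    (Subgroup.zpowers (cs : Matrix.SpecialLinearGroup (Fin 2) F)) (MulAut.conj c)
  rw [← hmap] at hN
  rw [← hN, Subgroup.card_map_of_injective (MulAut.conj c).injective, card_normalizer_cs hodd]
  have := ncard_circle (F := F) h2
  omega

end Cfsg.Agent.Lib.Helper16.SL2Four
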