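import Mathlib
import Cfsg.Agent.Lib.Helper16.SL2Four

/-!
# Involutions of `PSL₂(q)`, `q` odd

* `lift_invol`: an involution of `PSL₂(F)` lifts to an element of square `-1`.
* `psl_half`: the involutions `≠ x₀` commuting with the involution `x₀` (the image of `cs`) make up
  half of the centralizer of `x₀`.
-/

set_option autoImplicit false

namespace Cfsg.Agent.Lib.Helper16.SL2Four

open Cfsg.Agent.Lib.Helper14.SL2Odd Cfsg.Agent.Lib.Helper14.GL2Conj

variable {F : Type*} [Field F]

theorem center_cases (g : Matrix.SpecialLinearGroup (Fin 2) F)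
    (hg : g ∈ Subgroup.center (Matrix.SpecialLinearGroup (Fin 2) F)) : g = 1 ∨ g = negOne := by
  apply scalar_cases
  rw [Matrix.SpecialLinearGroup.mem_center_iff] at hg
  obtain ⟨r, -, hr⟩ := hg
  refine ⟨r, ?_⟩
  rw [← hr, Matrix.smul_one_eq_diagonal]
  rfl

theorem negOne_mem_center : (negOne : Matrix.SpecialLinearGroup (Fin 2) F) ∈
    Subgroup.center (Matrix.SpecialLinearGroup (Fin 2) F) := by
  rw [Subgroup.mem_center_iff]
  intro g
  exact negOne_comm g

theorem mk_negOne : ((negOne : Matrix.SpecialLinearGroup (Fin 2) F) :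
    Matrix.ProjectiveSpecialLinearGroup (Fin 2) F) = 1 :=
  (QuotientGroup.eq_one_iff _).mpr negOne_mem_center

theorem mk_eq_iff (a b : Matrix.SpecialLinearGroup (Fin 2) F) :
    ((a : Matrix.ProjectiveSpecialLinearGroup (Fin 2) F) = b) ↔ (b = a ∨ b = a * negOne) := by
  constructor
  · intro h
    have h1 : a⁻¹ * b ∈ Subgroup.center (Matrix.SpecialLinearGroup (Fin 2) F) :=
      QuotientGroup.eq.mp h
    rcases center_cases _ h1 with h2 | h2
    · left
      rw [inv_mul_eq_one] at h2
      exact h2.symm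
    · right
      rw [← h2]
      group
  · rintro (h | h)
    · rw [h]
    · rw [h, QuotientGroup.mk_mul, mk_negOne, mul_one]

theorem conj_mul_negOne (n a : Matrix.SpecialLinearGroup (Fin 2) F) :
    (n * negOne) * a * (n * negOne)⁻¹ = n * a * n⁻¹ := by
  have h1 : negOne * a * negOne⁻¹ = a := mul_inv_eq_iff_eq_mul.mpr (negOne_comm a).symm
  calc (n * negOne) * a * (n * negOne)⁻¹ = n * (negOne * a * negOne⁻¹) * n⁻¹ := by group
    _ = n * a * n⁻¹ := by rw [h1]

theorem lift_invol (h2 : (2 : F) ≠ 0) (z : Matrix.ProjectiveSpecialLinearGroup (Fin 2) F)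
    (hz : orderOf z = 2) :
    ∃ z₀ : Matrix.SpecialLinearGroup (Fin 2) F,
      (z₀ : Matrix.ProjectiveSpecialLinearGroup (Fin 2) F) = z ∧ z₀ * z₀ = negOne := by
  obtain ⟨z₀, rfl⟩ := QuotientGroup.mk_surjective z
  refine ⟨z₀, rfl, ?_⟩
  have h1 : (z₀ : Matrix.ProjectiveSpecialLinearGroup (Fin 2) F) ^ 2 = 1 := by
    have h0 := pow_orderOf_eq_one (z₀ : Matrix.ProjectiveSpecialLinearGroup (Fin 2) F)
    rw [hz] at h0
    exact h0
  have h3 : z₀ * z₀ ∈ Subgroup.center (Matrix.SpecialLinearGroup (Fin 2) F) := by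
    rw [← QuotientGroup.eq_one_iff, QuotientGroup.mk_mul, ← pow_two]
    exact h1
  have hne : (z₀ : Matrix.ProjectiveSpecialLinearGroup (Fin 2) F) ≠ 1 := by
    intro h
    rw [h, orderOf_one] at hz
    omega
  rcases center_cases _ h3 with h | h
  · exfalso
    rcases sq_cases h2 z₀ h with h' | h'
    · apply hne
      rw [h']
      rfl
    · apply hne
      rw [h']
      exact mk_negOne
  · exact h

theorem orderOf_mk (h2 : (2 : F) ≠ 0) (m : Matrix.SpecialLinearGroup (Fin 2) F)
    (hm : m * m = negOne) : orderOf (m : Matrix.ProjectiveSpecialLinearGroup (Fin 2) F) = 2 := by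
  haveI : Fact (Nat.Prime 2) := ⟨Nat.prime_two⟩
  apply orderOf_eq_prime
  · rw [pow_two, ← QuotientGroup.mk_mul, hm]
    exact mk_negOne
  · intro h
    have h1 : m ∈ Subgroup.center (Matrix.SpecialLinearGroup (Fin 2) F) :=
      (QuotientGroup.eq_one_iff _).mp h
    rcases center_cases _ h1 with h3 | h3
    · rw [h3, mul_one] at hm
      exact negOne_ne_one h2 hm.symm
    · rw [h3, negOne_mul_negOne] at hm
      exact negOne_ne_one h2 hm.symm

/-- elements inverting `cs` have square `-1` -/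
theorem anti_sq (m : Matrix.SpecialLinearGroup (Fin 2) F) (h : m * cs * m⁻¹ = cs⁻¹) :
    m * m = negOne := by
  rw [sq_negOne_iff]
  have hc : m * cs = cs⁻¹ * m := mul_inv_eq_iff_eq_mul.mp h
  have h1 : (m : Matrix (Fin 2) (Fin 2) F) * !![0, -1; 1, 0] =
      !![0, 1; -1, 0] * (m : Matrix (Fin 2) (Fin 2) F) := by
    rw [← cs_coe, ← cs_inv_coe, ← Matrix.SpecialLinearGroup.coe_mul,
      ← Matrix.SpecialLinearGroup.coe_mul, hc]
  have e01 := congrFun (congrFun h1 0) 1
  simp only [Matrix.mul_apply, Fin.sum_univ_two] at e01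
  simp at e01
  unfold tr2
  linear_combination (-1 : F) * e01

theorem cs_ne_inv (h2 : (2 : F) ≠ 0) : (cs : Matrix.SpecialLinearGroup (Fin 2) F) ≠ cs⁻¹ := by
  intro h
  have h1 : (cs : Matrix.SpecialLinearGroup (Fin 2) F) * cs = 1 := by
    nth_rewrite 2 [h]
    exact mul_inv_cancel _
  rw [cs_sq] at h1
  exact negOne_ne_one h2 h1

theorem antiSet_eq (w : Matrix.SpecialLinearGroup (Fin 2) F) (hw : w * cs * w⁻¹ = cs⁻¹) :
    antiSet F = (fun n => w * n) '' centSet F := by
  ext m
  constructor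
  · intro hm
    have hm' : m * cs * m⁻¹ = cs⁻¹ := hm
    refine ⟨w⁻¹ * m, ?_, by group⟩
    show w⁻¹ * m * cs * (w⁻¹ * m)⁻¹ = cs
    have e : w⁻¹ * m * cs * (w⁻¹ * m)⁻¹ = w⁻¹ * (m * cs * m⁻¹) * w := by group
    rw [e, hm', ← hw]
    group
  · rintro ⟨n, hn, rfl⟩
    have hn' : n * cs * n⁻¹ = cs := hn
    show w * n * cs * (w * n)⁻¹ = cs⁻¹
    have e : w * n * cs * (w * n)⁻¹ = w * (n * cs * n⁻¹) * w⁻¹ := by group
    rw [e, hn', hw]

/-- the involutions `≠ x₀` commuting with `x₀` are half of the centralizer of `x₀` -/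
theorem psl_half [Fintype F] (hodd : Fintype.card F % 2 = 1) :
    2 * {y : Matrix.ProjectiveSpecialLinearGroup (Fin 2) F | orderOf y = 2 ∧
        y ≠ ((cs : Matrix.SpecialLinearGroup (Fin 2) F) :
          Matrix.ProjectiveSpecialLinearGroup (Fin 2) F) ∧
        ((cs : Matrix.SpecialLinearGroup (Fin 2) F) :
          Matrix.ProjectiveSpecialLinearGroup (Fin 2) F) * y =
        y * ((cs : Matrix.SpecialLinearGroup (Fin 2) F) :
          Matrix.ProjectiveSpecialLinearGroup (Fin 2) F)}.ncard =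
      Nat.card (Subgroup.centralizer
        ({((cs : Matrix.SpecialLinearGroup (Fin 2) F) :
          Matrix.ProjectiveSpecialLinearGroup (Fin 2) F)} :
          Set (Matrix.ProjectiveSpecialLinearGroup (Fin 2) F))) := by
  have h2 : (2 : F) ≠ 0 := two_ne_zero_of_odd hodd
  have hinvsq : (cs : Matrix.SpecialLinearGroup (Fin 2) F)⁻¹ * cs⁻¹ = negOne := by
    rw [← mul_inv_rev, cs_sq, inv_eq_iff_mul_eq_one, negOne_mul_negOne]
  obtain ⟨w, hw⟩ := isConj_iff.mp (isConj_of_sq hodd cs cs⁻¹ cs_sq hinvsq)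
  have hanti := antiSet_eq w hw
  set π : Matrix.SpecialLinearGroup (Fin 2) F → Matrix.ProjectiveSpecialLinearGroup (Fin 2) F :=
    fun g => (g : Matrix.ProjectiveSpecialLinearGroup (Fin 2) F) with hπ
  have hπmul : ∀ a b, π (a * b) = π a * π b := fun a b => rfl
  have hπinv : ∀ a, π a⁻¹ = (π a)⁻¹ := fun a => rfl
  have hπneg : π negOne = 1 := mk_negOne
  have hB : π '' antiSet F = (fun g => π w * g) '' (π '' centSet F) := by
    rw [hanti, Set.image_image, Set.image_image]
    rfl
  have hkey : ∀ n ∈ centSet F, ∀ m ∈ antiSet F, π n ≠ π m := by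
    intro n hn m hm h
    have hn' : n * cs * n⁻¹ = cs := hn
    have hm' : m * cs * m⁻¹ = cs⁻¹ := hm
    rcases (mk_eq_iff n m).mp h with h3 | h3
    · rw [h3, hn'] at hm'
      exact cs_ne_inv h2 hm'
    · rw [h3, conj_mul_negOne, hn'] at hm'
      exact cs_ne_inv h2 hm'
  have hdisj : Disjoint (π '' centSet F) (π '' antiSet F) := by
    rw [Set.disjoint_left]
    rintro _ ⟨n, hn, rfl⟩ ⟨m, hm, h⟩
    exact hkey n hn m hm h.symm
  have hcs_inv : π cs⁻¹ = π cs := by
    rw [cs_inv, hπmul, hπneg, mul_one]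
  have hC : ((Subgroup.centralizer ({π cs} : Set (Matrix.ProjectiveSpecialLinearGroup (Fin 2) F)) :
      Subgroup (Matrix.ProjectiveSpecialLinearGroup (Fin 2) F)) :
      Set (Matrix.ProjectiveSpecialLinearGroup (Fin 2) F)) = π '' centSet F ∪ π '' antiSet F := by
    ext g
    rw [SetLike.mem_coe, Subgroup.mem_centralizer_singleton_iff]
    constructor
    · intro hg
      obtain ⟨n, rfl⟩ := QuotientGroup.mk_surjective g
      have h3 : π (n * cs * n⁻¹) = π cs := by
        rw [hπmul, hπmul, hπinv]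
        exact mul_inv_eq_iff_eq_mul.mpr hg
      rcases (mk_eq_iff _ _).mp h3.symm with h4 | h4
      · left
        exact ⟨n, h4, rfl⟩
      · right
        refine ⟨n, ?_, rfl⟩
        show n * cs * n⁻¹ = cs⁻¹
        rw [h4, cs_inv]
    · rintro (⟨n, hn, rfl⟩ | ⟨n, hn, rfl⟩)
      · have hn' : n * cs * n⁻¹ = cs := hn
        have h3 : π (n * cs * n⁻¹) = π cs := by rw [hn']
        rw [hπmul, hπmul, hπinv] at h3
        exact mul_inv_eq_iff_eq_mul.mp h3
      · have hn' : n * cs * n⁻¹ = cs⁻¹ := hn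
        have h3 : π (n * cs * n⁻¹) = π cs := by rw [hn', hcs_inv]
        rw [hπmul, hπmul, hπinv] at h3
        exact mul_inv_eq_iff_eq_mul.mp h3
  have hcs_cent : (cs : Matrix.SpecialLinearGroup (Fin 2) F) ∈ centSet F := by
    show cs * cs * cs⁻¹ = cs
    group
  have hK : {y : Matrix.ProjectiveSpecialLinearGroup (Fin 2) F | orderOf y = 2 ∧
      y ≠ π cs ∧ π cs * y = y * π cs} = π '' antiSet F := by
    ext y
    constructor
    · rintro ⟨hy, hyne, hyc⟩
      have hyC : y ∈ π '' centSet F ∪ π '' antiSet F := by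
        rw [← hC, SetLike.mem_coe, Subgroup.mem_centralizer_singleton_iff]
        exact hyc.symm
      rcases hyC with ⟨n, hn, rfl⟩ | h
      · exfalso
        apply hyne
        obtain ⟨y₀, hy₀, hy₀sq⟩ := lift_invol h2 (π n) hy
        have hnn : n * n = negOne := by
          rcases (mk_eq_iff y₀ n).mp hy₀ with h3 | h3
          · rw [h3]; exact hy₀sq
          · rw [h3]
            calc y₀ * negOne * (y₀ * negOne) = y₀ * (negOne * y₀) * negOne := by group
              _ = y₀ * (y₀ * negOne) * negOne := by rw [negOne_comm y₀]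
              _ = (y₀ * y₀) * (negOne * negOne) := by group
              _ = negOne := by rw [negOne_mul_negOne, mul_one, hy₀sq]
        have hn' : n * cs * n⁻¹ = cs := hn
        have hc : n * cs = cs * n := mul_inv_eq_iff_eq_mul.mp hn'
        rcases comm_tr_cases h2 n hc ((sq_negOne_iff n).mp hnn) with h3 | h3
        · rw [h3]
        · rw [h3]
          exact hcs_inv
      · exact h
    · rintro ⟨m, hm, rfl⟩
      have hm' : m * cs * m⁻¹ = cs⁻¹ := hm
      refine ⟨orderOf_mk h2 m (anti_sq m hm'), ?_, ?_⟩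
      · intro h
        exact hkey cs hcs_cent m hm h.symm
      · have hmC : π m ∈ π '' centSet F ∪ π '' antiSet F := Or.inr ⟨m, hm, rfl⟩
        rw [← hC, SetLike.mem_coe, Subgroup.mem_centralizer_singleton_iff] at hmC
        exact hmC.symm
  have h0 : Nat.card (Subgroup.centralizer
      ({π cs} : Set (Matrix.ProjectiveSpecialLinearGroup (Fin 2) F))) =
      ((Subgroup.centralizer ({π cs} : Set (Matrix.ProjectiveSpecialLinearGroup (Fin 2) F)) :
      Subgroup (Matrix.ProjectiveSpecialLinearGroup (Fin 2) F)) :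
      Set (Matrix.ProjectiveSpecialLinearGroup (Fin 2) F)).ncard := Nat.card_coe_set_eq _
  show 2 * {y : Matrix.ProjectiveSpecialLinearGroup (Fin 2) F | orderOf y = 2 ∧
      y ≠ π cs ∧ π cs * y = y * π cs}.ncard = Nat.card (Subgroup.centralizer
      ({π cs} : Set (Matrix.ProjectiveSpecialLinearGroup (Fin 2) F)))
  rw [h0, hC, Set.ncard_union_eq hdisj (Set.toFinite _) (Set.toFinite _), hK]
  have h5 : (π '' antiSet F).ncard = (π '' centSet F).ncard := by
    rw [hB]
    exact Set.ncard_image_of_injective _ (mul_right_injective (π w))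
  rw [h5]
  ring

end Cfsg.Agent.Lib.Helper16.SL2Four
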