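import Mathlib
import Cfsg.Agent.Lib.Helper16.SL2Four2
import Cfsg.Agent.Lib.Helper16.KleinPairs

/-!
# The torus `C(cs)` of `SL₂(q)`, its squares, and the Klein four-subgroups of `PSL₂(q)`
-/

set_option autoImplicit false

namespace Cfsg.Agent.Lib.Helper16.SL2Four

open Cfsg.Agent.Lib.Helper14.SL2Odd Cfsg.Agent.Lib.Helper14.GL2Conj
open Cfsg.Agent.Lib.Helper16.KleinPairs

variable {F : Type*} [Field F]

theorem cent_iff (n : Matrix.SpecialLinearGroup (Fin 2) F) : n ∈ centSet F ↔ n * cs = cs * n :=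
  mul_inv_eq_iff_eq_mul

theorem anti_iff (m : Matrix.SpecialLinearGroup (Fin 2) F) :
    m ∈ antiSet F ↔ m * cs = cs⁻¹ * m :=
  mul_inv_eq_iff_eq_mul

theorem one_mem_cent : (1 : Matrix.SpecialLinearGroup (Fin 2) F) ∈ centSet F := by
  show 1 * cs * 1⁻¹ = cs
  group

theorem cs_mem_cent : (cs : Matrix.SpecialLinearGroup (Fin 2) F) ∈ centSet F := by
  show cs * cs * cs⁻¹ = cs
  group

theorem negOne_mem_cent : (negOne : Matrix.SpecialLinearGroup (Fin 2) F) ∈ centSet F := by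
  show negOne * cs * negOne⁻¹ = cs
  exact mul_inv_eq_iff_eq_mul.mpr (negOne_comm cs).symm

theorem cent_mul {n n' : Matrix.SpecialLinearGroup (Fin 2) F} (h : n ∈ centSet F)
    (h' : n' ∈ centSet F) : n * n' ∈ centSet F := by
  have h1 : n * cs * n⁻¹ = cs := h
  have h2 : n' * cs * n'⁻¹ = cs := h'
  show n * n' * cs * (n * n')⁻¹ = cs
  have e : n * n' * cs * (n * n')⁻¹ = n * (n' * cs * n'⁻¹) * n⁻¹ := by group
  rw [e, h2, h1]

theorem cent_inv {n : Matrix.SpecialLinearGroup (Fin 2) F} (h : n ∈ centSet F) :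
    n⁻¹ ∈ centSet F := by
  have h1 : n * cs * n⁻¹ = cs := h
  show n⁻¹ * cs * n⁻¹⁻¹ = cs
  calc n⁻¹ * cs * n⁻¹⁻¹ = n⁻¹ * (n * cs * n⁻¹) * n := by rw [h1]; group
    _ = cs := by group

theorem cent_mul_anti {n m : Matrix.SpecialLinearGroup (Fin 2) F} (h : n ∈ centSet F)
    (h' : m ∈ antiSet F) : n * m ∈ antiSet F := by
  have h1 : n * cs * n⁻¹ = cs := h
  have h2 : m * cs * m⁻¹ = cs⁻¹ := h'
  show n * m * cs * (n * m)⁻¹ = cs⁻¹
  have e : n * m * cs * (n * m)⁻¹ = n * (m * cs * m⁻¹) * n⁻¹ := by group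
  have e2 : n * cs⁻¹ * n⁻¹ = (n * cs * n⁻¹)⁻¹ := by group
  rw [e, h2, e2, h1]

theorem anti_mul_anti_inv {m m' : Matrix.SpecialLinearGroup (Fin 2) F} (h : m ∈ antiSet F)
    (h' : m' ∈ antiSet F) : m' * m⁻¹ ∈ centSet F := by
  have h1 : m * cs * m⁻¹ = cs⁻¹ := h
  have h2 : m' * cs * m'⁻¹ = cs⁻¹ := h'
  show m' * m⁻¹ * cs * (m' * m⁻¹)⁻¹ = cs
  have h3 : m⁻¹ * cs * m = cs⁻¹ := by
    have h4 : cs = m * cs⁻¹ * m⁻¹ := by
      have e : m * cs⁻¹ * m⁻¹ = (m * cs * m⁻¹)⁻¹ := by group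
      rw [e, h1, inv_inv]
    calc m⁻¹ * cs * m = m⁻¹ * (m * cs⁻¹ * m⁻¹) * m := by rw [← h4]
      _ = cs⁻¹ := by group
  calc m' * m⁻¹ * cs * (m' * m⁻¹)⁻¹ = m' * (m⁻¹ * cs * m) * m'⁻¹ := by group
    _ = m' * cs⁻¹ * m'⁻¹ := by rw [h3]
    _ = (m' * cs * m'⁻¹)⁻¹ := by group
    _ = cs := by rw [h2, inv_inv]

/-- explicit form of the elements of the torus -/
theorem cent_form (n : Matrix.SpecialLinearGroup (Fin 2) F) (h : n ∈ centSet F) :
    ∃ s t : F, (n : Matrix (Fin 2) (Fin 2) F) = !![s, -t; t, s] ∧ s ^ 2 + t ^ 2 = 1 := by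
  obtain ⟨h11, h01⟩ := comm_entries n ((cent_iff n).mp h)
  have hdet := n.det_coe
  rw [Matrix.det_fin_two, h11, h01] at hdet
  refine ⟨(n : Matrix (Fin 2) (Fin 2) F) 0 0, (n : Matrix (Fin 2) (Fin 2) F) 1 0, ?_, ?_⟩
  · rw [Matrix.eta_fin_two (n : Matrix (Fin 2) (Fin 2) F), h11, h01]
    ext i j
    fin_cases i <;> fin_cases j <;> simp
  · linear_combination hdet

/-- explicit form of the elements inverting `cs` -/
theorem anti_form (m : Matrix.SpecialLinearGroup (Fin 2) F) (h : m ∈ antiSet F) :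
    ∃ a b : F, (m : Matrix (Fin 2) (Fin 2) F) = !![a, b; b, -a] ∧ a ^ 2 + b ^ 2 = -1 := by
  have hc : m * cs = cs⁻¹ * m := (anti_iff m).mp h
  have h1 : (m : Matrix (Fin 2) (Fin 2) F) * !![0, -1; 1, 0] =
      !![0, 1; -1, 0] * (m : Matrix (Fin 2) (Fin 2) F) := by
    rw [← cs_coe, ← cs_inv_coe, ← Matrix.SpecialLinearGroup.coe_mul,
      ← Matrix.SpecialLinearGroup.coe_mul, hc]
  have e00 := congrFun (congrFun h1 0) 0
  have e01 := congrFun (congrFun h1 0) 1
  simp only [Matrix.mul_apply, Fin.sum_univ_two] at e00 e01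
  simp at e00 e01
  have h01 : (m : Matrix (Fin 2) (Fin 2) F) 0 1 = (m : Matrix (Fin 2) (Fin 2) F) 1 0 := by
    linear_combination e00
  have h11 : (m : Matrix (Fin 2) (Fin 2) F) 1 1 = -(m : Matrix (Fin 2) (Fin 2) F) 0 0 := by
    linear_combination (-1 : F) * e01
  have hdet := m.det_coe
  rw [Matrix.det_fin_two, h11, h01] at hdet
  refine ⟨(m : Matrix (Fin 2) (Fin 2) F) 0 0, (m : Matrix (Fin 2) (Fin 2) F) 1 0, ?_, ?_⟩
  · rw [Matrix.eta_fin_two (m : Matrix (Fin 2) (Fin 2) F), h11, h01]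
    ext i j
    fin_cases i <;> fin_cases j <;> simp
  · linear_combination (-1 : F) * hdet

theorem cent_comm {n n' : Matrix.SpecialLinearGroup (Fin 2) F} (h : n ∈ centSet F)
    (h' : n' ∈ centSet F) : n * n' = n' * n := by
  obtain ⟨s, t, hn, -⟩ := cent_form n h
  obtain ⟨s', t', hn', -⟩ := cent_form n' h'
  apply Subtype.ext
  rw [Matrix.SpecialLinearGroup.coe_mul, Matrix.SpecialLinearGroup.coe_mul, hn, hn']
  ext i j
  fin_cases i <;> fin_cases j <;> simp [Matrix.mul_apply, Fin.sum_univ_two] <;> ring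

theorem cent_anti_cent {n m : Matrix.SpecialLinearGroup (Fin 2) F} (hn : n ∈ centSet F)
    (hm : m ∈ antiSet F) : n * m * n = m := by
  obtain ⟨s, t, hn', hst⟩ := cent_form n hn
  obtain ⟨a, b, hm', -⟩ := anti_form m hm
  apply Subtype.ext
  rw [Matrix.SpecialLinearGroup.coe_mul, Matrix.SpecialLinearGroup.coe_mul, hn', hm']
  ext i j
  fin_cases i <;> fin_cases j
  · simp [Matrix.mul_apply, Fin.sum_univ_two]
    linear_combination a * hst
  · simp [Matrix.mul_apply, Fin.sum_univ_two]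
    linear_combination b * hst
  · simp [Matrix.mul_apply, Fin.sum_univ_two]
    linear_combination b * hst
  · simp [Matrix.mul_apply, Fin.sum_univ_two]
    linear_combination (-a) * hst

theorem conj_anti {n m : Matrix.SpecialLinearGroup (Fin 2) F} (hn : n ∈ centSet F)
    (hm : m ∈ antiSet F) : n * m * n⁻¹ = n * n * m := by
  have h := cent_anti_cent hn hm
  have h1 : m * n⁻¹ = n * m := by
    rw [mul_inv_eq_iff_eq_mul]
    exact h.symm
  rw [mul_assoc, h1, mul_assoc]

/-! ### squares in the torus -/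

/-- the squares of the torus -/
def sqSet (F : Type*) [Field F] : Set (Matrix.SpecialLinearGroup (Fin 2) F) :=
  {u | ∃ n ∈ centSet F, u = n * n}

theorem sq_sub_cent : sqSet F ⊆ centSet F := by
  rintro u ⟨n, hn, rfl⟩
  exact cent_mul hn hn

theorem sq_mul {u v : Matrix.SpecialLinearGroup (Fin 2) F} (hu : u ∈ sqSet F)
    (hv : v ∈ sqSet F) : u * v ∈ sqSet F := by
  obtain ⟨n, hn, rfl⟩ := hu
  obtain ⟨n', hn', rfl⟩ := hv
  refine ⟨n * n', cent_mul hn hn', ?_⟩
  have h := cent_comm hn hn'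
  calc n * n * (n' * n') = n * (n * n') * n' := by group
    _ = n * (n' * n) * n' := by rw [h]
    _ = n * n' * (n * n') := by group

theorem negOne_mem_sq : (negOne : Matrix.SpecialLinearGroup (Fin 2) F) ∈ sqSet F :=
  ⟨cs, cs_mem_cent, cs_sq.symm⟩

theorem ncard_sqSet [Fintype F] (h2 : (2 : F) ≠ 0) :
    (centSet F).ncard = 2 * (sqSet F).ncard := by
  haveI : Finite (Matrix.SpecialLinearGroup (Fin 2) F) := inferInstance
  apply fiber_count (centSet F) (sqSet F) (fun n => n * n) 2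
  · intro n hn
    exact ⟨n, hn, rfl⟩
  · rintro u ⟨n₀, hn₀, rfl⟩
    have hset : {n : Matrix.SpecialLinearGroup (Fin 2) F | n ∈ centSet F ∧ n * n = n₀ * n₀} =
        {n₀, n₀ * negOne} := by
      ext n
      simp only [Set.mem_ofPred_eq, Set.mem_insert_iff, Set.mem_singleton_iff]
      constructor
      · rintro ⟨hn, hnn⟩
        have hd : n * n₀⁻¹ ∈ centSet F := cent_mul hn (cent_inv hn₀)
        have hc := cent_comm hn (cent_inv hn₀)
        have hdd : (n * n₀⁻¹) * (n * n₀⁻¹) = 1 := by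
          calc (n * n₀⁻¹) * (n * n₀⁻¹) = n * (n₀⁻¹ * n) * n₀⁻¹ := by group
            _ = n * (n * n₀⁻¹) * n₀⁻¹ := by rw [hc]
            _ = (n * n) * (n₀ * n₀)⁻¹ := by group
            _ = 1 := by rw [hnn, mul_inv_cancel]
        rcases sq_cases h2 _ hdd with h | h
        · left
          exact mul_inv_eq_one.mp h
        · right
          rw [← h]
          have := cent_comm hn₀ hd
          rw [this]
          group
      · rintro (rfl | rfl)
        · exact ⟨hn₀, rfl⟩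
        · refine ⟨cent_mul hn₀ negOne_mem_cent, ?_⟩
          calc n₀ * negOne * (n₀ * negOne) = n₀ * (negOne * n₀) * negOne := by group
            _ = n₀ * (n₀ * negOne) * negOne := by rw [negOne_comm n₀]
            _ = (n₀ * n₀) * (negOne * negOne) := by group
            _ = n₀ * n₀ := by rw [negOne_mul_negOne, mul_one]
    rw [hset, Set.ncard_pair]
    intro h
    have h3 : (negOne : Matrix.SpecialLinearGroup (Fin 2) F) = 1 := by
      have : n₀ * 1 = n₀ * negOne := by rw [mul_one]; exact h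
      exact (mul_left_cancel this).symm
    exact negOne_ne_one h2 h3

/-- the torus is the union of the squares and a coset of the squares -/
theorem cent_cover [Fintype F] (h2 : (2 : F) ≠ 0) (c : Matrix.SpecialLinearGroup (Fin 2) F)
    (hc : c ∈ centSet F) (hcs : c ∉ sqSet F) :
    ∀ u ∈ centSet F, u ∈ sqSet F ∨ ∃ v ∈ sqSet F, u = c * v := by
  haveI : Finite (Matrix.SpecialLinearGroup (Fin 2) F) := inferInstance
  have hsub : sqSet F ∪ (fun v => c * v) '' sqSet F ⊆ centSet F := by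
    rintro u (hu | ⟨v, hv, rfl⟩)
    · exact sq_sub_cent hu
    · exact cent_mul hc (sq_sub_cent hv)
  have hdisj : Disjoint (sqSet F) ((fun v => c * v) '' sqSet F) := by
    rw [Set.disjoint_left]
    rintro u ⟨n, hn, rfl⟩ ⟨v, ⟨n', hn', rfl⟩, h⟩
    apply hcs
    refine ⟨n * n'⁻¹, cent_mul hn (cent_inv hn'), ?_⟩
    have hcm := cent_comm hn (cent_inv hn')
    have h' : c * (n' * n') = n * n := h
    calc c = c * (n' * n') * (n' * n')⁻¹ := by group
      _ = n * n * (n' * n')⁻¹ := by rw [h']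
      _ = n * (n * n'⁻¹) * n'⁻¹ := by group
      _ = n * (n'⁻¹ * n) * n'⁻¹ := by rw [hcm]
      _ = n * n'⁻¹ * (n * n'⁻¹) := by group
  have hcard : (sqSet F ∪ (fun v => c * v) '' sqSet F).ncard = (centSet F).ncard := by
    rw [Set.ncard_union_eq hdisj (Set.toFinite _) (Set.toFinite _),
      Set.ncard_image_of_injective _ (mul_right_injective c), ncard_sqSet h2]
    ring
  have heq := Set.eq_of_subset_of_ncard_le hsub (le_of_eq hcard.symm) (Set.toFinite _)
  intro u hu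
  rw [← heq] at hu
  rcases hu with hu | ⟨v, hv, rfl⟩
  · exact Or.inl hu
  · exact Or.inr ⟨v, hv, rfl⟩

theorem exists_nonsquare [Fintype F] (h2 : (2 : F) ≠ 0) : ∃ c ∈ centSet F, c ∉ sqSet F := by
  haveI : Finite (Matrix.SpecialLinearGroup (Fin 2) F) := inferInstance
  by_contra hcon
  push_neg at hcon
  have heq : centSet F = sqSet F := Set.Subset.antisymm hcon sq_sub_cent
  have h := ncard_sqSet (F := F) h2
  rw [heq] at h
  have hpos : 0 < (sqSet F).ncard :=
    Set.ncard_pos (Set.toFinite _) |>.mpr ⟨negOne, negOne_mem_sq⟩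
  omega

theorem cs_mem_sq_iff (h2 : (2 : F) ≠ 0) : cs ∈ sqSet F ↔ IsSquare (2 : F) := by
  constructor
  · rintro ⟨n, hn, h⟩
    obtain ⟨s, t, hn', hst⟩ := cent_form n hn
    have h1 : (!![0, -1; 1, 0] : Matrix (Fin 2) (Fin 2) F) = !![s, -t; t, s] * !![s, -t; t, s] := by
      rw [← cs_coe, ← hn', ← Matrix.SpecialLinearGroup.coe_mul, ← h]
    have e00 := congrFun (congrFun h1 0) 0
    simp only [Matrix.mul_apply, Fin.sum_univ_two] at e00
    simp at e00
    refine ⟨2 * s, ?_⟩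
    linear_combination (-2 : F) * hst + 2 * e00
  · rintro ⟨r, hr⟩
    have hr0 : r ≠ 0 := by
      rintro rfl
      rw [mul_zero] at hr
      exact h2 hr
    have hs : 2 * (r⁻¹ * r⁻¹) = 1 := by
      rw [hr]
      field_simp
    have hd : (!![r⁻¹, -r⁻¹; r⁻¹, r⁻¹] : Matrix (Fin 2) (Fin 2) F).det = 1 := by
      rw [Matrix.det_fin_two_of]
      linear_combination hs
    obtain ⟨n, hn⟩ : ∃ n : Matrix.SpecialLinearGroup (Fin 2) F,
        (n : Matrix (Fin 2) (Fin 2) F) = !![r⁻¹, -r⁻¹; r⁻¹, r⁻¹] := ⟨⟨_, hd⟩, rfl⟩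
    refine ⟨n, ?_, ?_⟩
    · rw [cent_iff]
      apply Subtype.ext
      rw [Matrix.SpecialLinearGroup.coe_mul, Matrix.SpecialLinearGroup.coe_mul, cs_coe, hn]
      ext i j
      fin_cases i <;> fin_cases j <;> simp [Matrix.mul_apply, Fin.sum_univ_two]
    · apply Subtype.ext
      rw [Matrix.SpecialLinearGroup.coe_mul, cs_coe, hn]
      ext i j
      fin_cases i <;> fin_cases j
      · simp [Matrix.mul_apply, Fin.sum_univ_two]
      · simp [Matrix.mul_apply, Fin.sum_univ_two]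
        first | linear_combination hs | linear_combination (-1 : F) * hs
      · simp [Matrix.mul_apply, Fin.sum_univ_two]
        first | linear_combination hs | linear_combination (-1 : F) * hs
      · simp [Matrix.mul_apply, Fin.sum_univ_two]

end Cfsg.Agent.Lib.Helper16.SL2Four
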