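import Mathlib
import Cfsg.Agent.Lib.Helper16.SL2Klein

/-!
# Conjugacy of the Klein four-subgroups of `PSL₂(q)`, `q` odd
-/

set_option autoImplicit false

namespace Cfsg.Agent.Lib.Helper16.SL2Four

open Cfsg.Agent.Lib.Helper14.SL2Odd Cfsg.Agent.Lib.Helper14.GL2Conj
open Cfsg.Agent.Lib.Helper16.KleinPairs

/-! ### conjugacy of subgroups -/

/-- `W` is a conjugate of `V` -/
def KConj {G : Type*} [Group G] (V W : Subgroup G) : Prop :=
  ∃ g : G, W = V.map (MulAut.conj g).toMonoidHom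

theorem map_conj_map {G : Type*} [Group G] (V : Subgroup G) (g h : G) :
    (V.map (MulAut.conj g).toMonoidHom).map (MulAut.conj h).toMonoidHom =
      V.map (MulAut.conj (h * g)).toMonoidHom := by
  rw [Subgroup.map_map]
  congr 1
  ext x
  simp [MulAut.conj_apply, mul_assoc]

theorem map_conj_one {G : Type*} [Group G] (V : Subgroup G) :
    V.map (MulAut.conj (1 : G)).toMonoidHom = V := by
  ext x
  simp

theorem KConj.refl {G : Type*} [Group G] (V : Subgroup G) : KConj V V :=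
  ⟨1, (map_conj_one V).symm⟩

theorem KConj.symm {G : Type*} [Group G] {V W : Subgroup G} (h : KConj V W) : KConj W V := by
  obtain ⟨g, rfl⟩ := h
  refine ⟨g⁻¹, ?_⟩
  rw [map_conj_map, inv_mul_cancel, map_conj_one]

theorem KConj.trans {G : Type*} [Group G] {U V W : Subgroup G} (h : KConj U V) (h' : KConj V W) :
    KConj U W := by
  obtain ⟨g, rfl⟩ := h
  obtain ⟨k, rfl⟩ := h'
  exact ⟨k * g, map_conj_map U g k⟩

theorem map_closure_pair {G : Type*} [Group G] (k x y : G) :
    (Subgroup.closure ({x, y} : Set G)).map (MulAut.conj k).toMonoidHom =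
      Subgroup.closure {k * x * k⁻¹, k * y * k⁻¹} := by
  rw [MonoidHom.map_closure, Set.image_pair]
  rfl

theorem isKleinFour_of_card_sq {G : Type*} [Group G] (V : Subgroup G) (hc : Nat.card V = 4)
    (hsq : ∀ g ∈ V, g * g = 1) : IsKleinFour V := by
  refine ⟨hc, ?_⟩
  have hdvd : Monoid.exponent V ∣ 2 := by
    apply Monoid.exponent_dvd_of_forall_pow_eq_one
    rintro ⟨g, hg⟩
    apply Subtype.ext
    show g ^ 2 = 1
    rw [pow_two]
    exact hsq g hg
  rcases (Nat.dvd_prime Nat.prime_two).mp hdvd with h | h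
  · exfalso
    rw [Monoid.exp_eq_one_iff] at h
    have : Nat.card V = 1 := Nat.card_unique
    omega
  · exact h

variable {F : Type*} [Field F]

/-! ### lifting from `PSL₂` -/

theorem mk_cent_ne_anti (h2 : (2 : F) ≠ 0) {n m : Matrix.SpecialLinearGroup (Fin 2) F}
    (hn : n ∈ centSet F) (hm : m ∈ antiSet F) :
    (n : Matrix.ProjectiveSpecialLinearGroup (Fin 2) F) ≠ m := by
  intro h
  have hn' : n * cs * n⁻¹ = cs := hn
  have hm' : m * cs * m⁻¹ = cs⁻¹ := hm
  rcases (mk_eq_iff n m).mp h with h3 | h3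
  · rw [h3, hn'] at hm'
    exact cs_ne_inv h2 hm'
  · rw [h3, conj_mul_negOne, hn'] at hm'
    exact cs_ne_inv h2 hm'

theorem mk_cs_inv : (((cs : Matrix.SpecialLinearGroup (Fin 2) F)⁻¹ :
    Matrix.SpecialLinearGroup (Fin 2) F) : Matrix.ProjectiveSpecialLinearGroup (Fin 2) F) =
    (cs : Matrix.SpecialLinearGroup (Fin 2) F) := by
  rw [cs_inv, QuotientGroup.mk_mul, mk_negOne, mul_one]

theorem mk_conj_cs (n : Matrix.SpecialLinearGroup (Fin 2) F)
    (h : ((n * cs * n⁻¹ : Matrix.SpecialLinearGroup (Fin 2) F) :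
      Matrix.ProjectiveSpecialLinearGroup (Fin 2) F) =
      (cs : Matrix.SpecialLinearGroup (Fin 2) F)) : n ∈ centSet F ∨ n ∈ antiSet F := by
  rcases (mk_eq_iff _ _).mp h.symm with h4 | h4
  · left
    exact h4
  · right
    show n * cs * n⁻¹ = cs⁻¹
    rw [h4, cs_inv]

theorem mk_comm_of_anti {m : Matrix.SpecialLinearGroup (Fin 2) F} (hm : m ∈ antiSet F) :
    ((cs : Matrix.SpecialLinearGroup (Fin 2) F) : Matrix.ProjectiveSpecialLinearGroup (Fin 2) F) *
      (m : Matrix.ProjectiveSpecialLinearGroup (Fin 2) F) =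
    (m : Matrix.ProjectiveSpecialLinearGroup (Fin 2) F) *
      ((cs : Matrix.SpecialLinearGroup (Fin 2) F) :
        Matrix.ProjectiveSpecialLinearGroup (Fin 2) F) := by
  have hc : m * cs = cs⁻¹ * m := (anti_iff m).mp hm
  have h1 : ((m * cs : Matrix.SpecialLinearGroup (Fin 2) F) :
      Matrix.ProjectiveSpecialLinearGroup (Fin 2) F) =
      ((cs⁻¹ * m : Matrix.SpecialLinearGroup (Fin 2) F) :
        Matrix.ProjectiveSpecialLinearGroup (Fin 2) F) := by rw [hc]
  rw [QuotientGroup.mk_mul, QuotientGroup.mk_mul, mk_cs_inv] at h1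
  exact h1.symm

theorem mem_anti_of_invol (h2 : (2 : F) ≠ 0)
    (y : Matrix.ProjectiveSpecialLinearGroup (Fin 2) F) (hy : orderOf y = 2)
    (hne : y ≠ ((cs : Matrix.SpecialLinearGroup (Fin 2) F) :
      Matrix.ProjectiveSpecialLinearGroup (Fin 2) F))
    (hc : ((cs : Matrix.SpecialLinearGroup (Fin 2) F) :
      Matrix.ProjectiveSpecialLinearGroup (Fin 2) F) * y =
      y * ((cs : Matrix.SpecialLinearGroup (Fin 2) F) :
        Matrix.ProjectiveSpecialLinearGroup (Fin 2) F)) :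
    ∃ m ∈ antiSet F, (m : Matrix.ProjectiveSpecialLinearGroup (Fin 2) F) = y := by
  obtain ⟨n, rfl⟩ := QuotientGroup.mk_surjective y
  have h3 : ((n * cs * n⁻¹ : Matrix.SpecialLinearGroup (Fin 2) F) :
      Matrix.ProjectiveSpecialLinearGroup (Fin 2) F) =
      (cs : Matrix.SpecialLinearGroup (Fin 2) F) := by
    rw [QuotientGroup.mk_mul, QuotientGroup.mk_mul, QuotientGroup.mk_inv]
    exact mul_inv_eq_iff_eq_mul.mpr hc.symm
  rcases mk_conj_cs n h3 with hn | hn
  · exfalso
    apply hne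
    obtain ⟨y₀, hy₀, hy₀sq⟩ := lift_invol h2 _ hy
    have hnn : n * n = negOne := by
      rcases (mk_eq_iff y₀ n).mp hy₀ with h4 | h4
      · rw [h4]; exact hy₀sq
      · rw [h4]
        calc y₀ * negOne * (y₀ * negOne) = y₀ * (negOne * y₀) * negOne := by group
          _ = y₀ * (y₀ * negOne) * negOne := by rw [negOne_comm y₀]
          _ = (y₀ * y₀) * (negOne * negOne) := by group
          _ = negOne := by rw [negOne_mul_negOne, mul_one, hy₀sq]
    rcases comm_tr_cases h2 n ((cent_iff n).mp hn) ((sq_negOne_iff n).mp hnn) with h4 | h4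
    · rw [h4]
    · rw [h4]
      exact mk_cs_inv
  · exact ⟨n, hn, rfl⟩

/-! ### the four-groups `kv m` -/

/-- the four-group generated by the images of `cs` and `m` -/
def kv (m : Matrix.SpecialLinearGroup (Fin 2) F) :
    Subgroup (Matrix.ProjectiveSpecialLinearGroup (Fin 2) F) :=
  Subgroup.closure {((cs : Matrix.SpecialLinearGroup (Fin 2) F) :
    Matrix.ProjectiveSpecialLinearGroup (Fin 2) F),
    (m : Matrix.ProjectiveSpecialLinearGroup (Fin 2) F)}

theorem mk_cs_sq (h2 : (2 : F) ≠ 0) :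
    ((cs : Matrix.SpecialLinearGroup (Fin 2) F) : Matrix.ProjectiveSpecialLinearGroup (Fin 2) F) *
      ((cs : Matrix.SpecialLinearGroup (Fin 2) F) :
        Matrix.ProjectiveSpecialLinearGroup (Fin 2) F) = 1 :=
  sq_of_order (orderOf_mk h2 cs cs_sq)

theorem mk_anti_sq (h2 : (2 : F) ≠ 0) {m : Matrix.SpecialLinearGroup (Fin 2) F}
    (hm : m ∈ antiSet F) :
    (m : Matrix.ProjectiveSpecialLinearGroup (Fin 2) F) *
      (m : Matrix.ProjectiveSpecialLinearGroup (Fin 2) F) = 1 :=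
  sq_of_order (orderOf_mk h2 m (anti_sq m hm))

theorem mem_kv (h2 : (2 : F) ≠ 0) {m : Matrix.SpecialLinearGroup (Fin 2) F}
    (hm : m ∈ antiSet F) (g : Matrix.ProjectiveSpecialLinearGroup (Fin 2) F) :
    g ∈ kv m ↔ g = 1 ∨ g = ((cs : Matrix.SpecialLinearGroup (Fin 2) F) :
      Matrix.ProjectiveSpecialLinearGroup (Fin 2) F) ∨
      g = (m : Matrix.ProjectiveSpecialLinearGroup (Fin 2) F) ∨
      g = ((cs : Matrix.SpecialLinearGroup (Fin 2) F) :
        Matrix.ProjectiveSpecialLinearGroup (Fin 2) F) *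
        (m : Matrix.ProjectiveSpecialLinearGroup (Fin 2) F) := by
  unfold kv
  rw [closure_pair_eq _ _ (mk_cs_sq h2) (mk_anti_sq h2 hm) (mk_comm_of_anti hm)]
  exact Iff.rfl

theorem kv_klein [Fintype F] (h2 : (2 : F) ≠ 0) {m : Matrix.SpecialLinearGroup (Fin 2) F}
    (hm : m ∈ antiSet F) : IsKleinFour (kv m) := by
  haveI : Finite (Matrix.SpecialLinearGroup (Fin 2) F) := inferInstance
  haveI : Finite (Matrix.ProjectiveSpecialLinearGroup (Fin 2) F) :=
    Finite.of_surjective _ (QuotientGroup.mk_surjective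
      (s := Subgroup.center (Matrix.SpecialLinearGroup (Fin 2) F)))
  unfold kv
  rw [closure_pair_eq _ _ (mk_cs_sq h2) (mk_anti_sq h2 hm) (mk_comm_of_anti hm)]
  exact isKleinFour_fourGroup _ _ _ _ _
    (ne_one_of_order (orderOf_mk h2 cs cs_sq))
    (ne_one_of_order (orderOf_mk h2 m (anti_sq m hm)))
    (mk_cent_ne_anti h2 cs_mem_cent hm)

theorem cs_mem_kv (m : Matrix.SpecialLinearGroup (Fin 2) F) :
    ((cs : Matrix.SpecialLinearGroup (Fin 2) F) : Matrix.ProjectiveSpecialLinearGroup (Fin 2) F) ∈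
      kv m :=
  Subgroup.subset_closure (by simp)

theorem mk_mem_kv (m : Matrix.SpecialLinearGroup (Fin 2) F) :
    (m : Matrix.ProjectiveSpecialLinearGroup (Fin 2) F) ∈ kv m :=
  Subgroup.subset_closure (by simp)

/-- conjugating `kv m` by an element of the torus -/
theorem kv_conj_cent {n m : Matrix.SpecialLinearGroup (Fin 2) F} (hn : n ∈ centSet F)
    (hm : m ∈ antiSet F) : KConj (kv m) (kv (n * n * m)) := by
  refine ⟨(n : Matrix.ProjectiveSpecialLinearGroup (Fin 2) F), ?_⟩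
  unfold kv
  rw [map_closure_pair]
  have hn' : n * cs * n⁻¹ = cs := hn
  have e1 : (n : Matrix.ProjectiveSpecialLinearGroup (Fin 2) F) *
      ((cs : Matrix.SpecialLinearGroup (Fin 2) F) : Matrix.ProjectiveSpecialLinearGroup (Fin 2) F) *
      (n : Matrix.ProjectiveSpecialLinearGroup (Fin 2) F)⁻¹ =
      ((cs : Matrix.SpecialLinearGroup (Fin 2) F) :
        Matrix.ProjectiveSpecialLinearGroup (Fin 2) F) := by
    rw [← QuotientGroup.mk_inv, ← QuotientGroup.mk_mul, ← QuotientGroup.mk_mul, hn']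
  have e2 : (n : Matrix.ProjectiveSpecialLinearGroup (Fin 2) F) *
      (m : Matrix.ProjectiveSpecialLinearGroup (Fin 2) F) *
      (n : Matrix.ProjectiveSpecialLinearGroup (Fin 2) F)⁻¹ =
      ((n * n * m : Matrix.SpecialLinearGroup (Fin 2) F) :
        Matrix.ProjectiveSpecialLinearGroup (Fin 2) F) := by
    rw [← QuotientGroup.mk_inv, ← QuotientGroup.mk_mul, ← QuotientGroup.mk_mul, conj_anti hn hm]
  rw [e1, e2]

theorem kv_cs_mul (h2 : (2 : F) ≠ 0) {m : Matrix.SpecialLinearGroup (Fin 2) F}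
    (hm : m ∈ antiSet F) : kv (cs * m) = kv m := by
  apply le_antisymm
  · unfold kv
    rw [Subgroup.closure_le]
    rintro g (rfl | rfl)
    · exact cs_mem_kv m
    · rw [QuotientGroup.mk_mul]
      exact Subgroup.mul_mem _ (cs_mem_kv m) (mk_mem_kv m)
  · have h1 : (m : Matrix.ProjectiveSpecialLinearGroup (Fin 2) F) ∈ kv (cs * m) := by
      have h3 := Subgroup.mul_mem _ (cs_mem_kv (cs * m)) (mk_mem_kv (cs * m))
      rw [QuotientGroup.mk_mul, ← mul_assoc, mk_cs_sq h2, one_mul] at h3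
      exact h3
    show kv m ≤ kv (cs * m)
    unfold kv at h1 ⊢
    rw [Subgroup.closure_le]
    rintro g (rfl | rfl)
    · exact Subgroup.subset_closure (by simp)
    · exact h1

/-- every Klein four-subgroup is conjugate to some `kv m` -/
theorem exists_kv [Fintype F] (hodd : Fintype.card F % 2 = 1)
    (W : Subgroup (Matrix.ProjectiveSpecialLinearGroup (Fin 2) F)) (hW : IsKleinFour W) :
    ∃ m ∈ antiSet F, KConj (kv m) W := by
  have h2 : (2 : F) ≠ 0 := two_ne_zero_of_odd hodd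
  haveI : Finite (Matrix.SpecialLinearGroup (Fin 2) F) := inferInstance
  haveI : Finite (Matrix.ProjectiveSpecialLinearGroup (Fin 2) F) :=
    Finite.of_surjective _ (QuotientGroup.mk_surjective
      (s := Subgroup.center (Matrix.SpecialLinearGroup (Fin 2) F)))
  have hc4 : Nat.card W = 4 := hW.card_four
  -- an involution of `W`
  have hex : ∃ x ∈ W, x ≠ 1 := by
    by_contra hcon
    push_neg at hcon
    have hbot : W = ⊥ := (Subgroup.eq_bot_iff_forall W).mpr hcon
    rw [hbot, Subgroup.card_bot] at hc4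
    omega
  obtain ⟨x, hxW, hx1⟩ := hex
  have hxo := Cfsg.Agent.Lib.Helper2.Klein.orderOf_two_of W hW x hxW hx1
  obtain ⟨x₀, hx₀, hx₀sq⟩ := lift_invol h2 x hxo
  obtain ⟨c, hc⟩ := isConj_iff.mp (isConj_of_sq hodd cs x₀ cs_sq hx₀sq)
  set g : Matrix.ProjectiveSpecialLinearGroup (Fin 2) F :=
    (c : Matrix.ProjectiveSpecialLinearGroup (Fin 2) F) with hg
  have hgx : g * ((cs : Matrix.SpecialLinearGroup (Fin 2) F) :
      Matrix.ProjectiveSpecialLinearGroup (Fin 2) F) * g⁻¹ = x := by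
    rw [← hx₀, ← hc]
    rfl
  set W' : Subgroup (Matrix.ProjectiveSpecialLinearGroup (Fin 2) F) :=
    W.map (MulAut.conj g⁻¹).toMonoidHom with hW'
  have hcsW' : ((cs : Matrix.SpecialLinearGroup (Fin 2) F) :
      Matrix.ProjectiveSpecialLinearGroup (Fin 2) F) ∈ W' := by
    refine ⟨x, hxW, ?_⟩
    show g⁻¹ * x * g⁻¹⁻¹ = _
    rw [← hgx]
    group
  have hc4' : Nat.card W' = 4 := by
    rw [hW', Subgroup.card_map_of_injective (MulAut.conj g⁻¹).injective, hc4]
  have hW'k : IsKleinFour W' := by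
    apply isKleinFour_of_card_sq W' hc4'
    rintro _ ⟨w, hw, rfl⟩
    have hsq := Cfsg.Agent.Lib.Helper2.Klein.sq_eq_one W hW w hw
    show g⁻¹ * w * g⁻¹⁻¹ * (g⁻¹ * w * g⁻¹⁻¹) = 1
    calc g⁻¹ * w * g⁻¹⁻¹ * (g⁻¹ * w * g⁻¹⁻¹) = g⁻¹ * (w * w) * g := by group
      _ = 1 := by rw [hsq]; group
  -- a second involution
  have hex2 : ∃ y ∈ W', y ≠ 1 ∧ y ≠ ((cs : Matrix.SpecialLinearGroup (Fin 2) F) :
      Matrix.ProjectiveSpecialLinearGroup (Fin 2) F) := by
    by_contra hcon
    push_neg at hcon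
    have hsub : (W' : Set (Matrix.ProjectiveSpecialLinearGroup (Fin 2) F)) ⊆
        {1, ((cs : Matrix.SpecialLinearGroup (Fin 2) F) :
          Matrix.ProjectiveSpecialLinearGroup (Fin 2) F)} := by
      intro y hy
      by_cases h1 : y = 1
      · left; exact h1
      · right; exact hcon y hy h1
    have h0 : Nat.card W' = (W' : Set (Matrix.ProjectiveSpecialLinearGroup (Fin 2) F)).ncard :=
      Nat.card_coe_set_eq (W' : Set (Matrix.ProjectiveSpecialLinearGroup (Fin 2) F))
    have h1 : (W' : Set (Matrix.ProjectiveSpecialLinearGroup (Fin 2) F)).ncard ≤ 2 := by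
      calc (W' : Set (Matrix.ProjectiveSpecialLinearGroup (Fin 2) F)).ncard
          ≤ ({1, ((cs : Matrix.SpecialLinearGroup (Fin 2) F) :
            Matrix.ProjectiveSpecialLinearGroup (Fin 2) F)} :
            Set (Matrix.ProjectiveSpecialLinearGroup (Fin 2) F)).ncard :=
            Set.ncard_le_ncard hsub (Set.toFinite _)
        _ ≤ ({((cs : Matrix.SpecialLinearGroup (Fin 2) F) :
            Matrix.ProjectiveSpecialLinearGroup (Fin 2) F)} :
            Set (Matrix.ProjectiveSpecialLinearGroup (Fin 2) F)).ncard + 1 :=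
            Set.ncard_insert_le _ _
        _ = 2 := by rw [Set.ncard_singleton]
    omega
  obtain ⟨y, hyW', hy1, hycs⟩ := hex2
  have hyo := Cfsg.Agent.Lib.Helper2.Klein.orderOf_two_of W' hW'k y hyW' hy1
  have hcomm := Cfsg.Agent.Lib.Helper2.Klein.comm W' hW'k _ y hcsW' hyW'
  obtain ⟨m, hm, rfl⟩ := mem_anti_of_invol h2 y hyo hycs hcomm
  have hkv : kv m = W' := by
    apply Subgroup.eq_of_le_of_card_ge
    · unfold kv
      rw [Subgroup.closure_le]
      rintro z (rfl | rfl)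
      · exact hcsW'
      · exact hyW'
    · rw [hc4', (kv_klein h2 hm).card_four]
  refine ⟨m, hm, ?_⟩
  rw [hkv]
  exact KConj.symm ⟨g⁻¹, rfl⟩

/-- an element of order three permuting `cs`, `m`, `cs * m` -/
theorem exists_omega (h2 : (2 : F) ≠ 0) (m : Matrix.SpecialLinearGroup (Fin 2) F)
    (hm : m ∈ antiSet F) :
    ∃ ω : Matrix.SpecialLinearGroup (Fin 2) F, ω * cs * ω⁻¹ = cs * m ∧ ω * m * ω⁻¹ = cs := by
  obtain ⟨a, b, hm', hab⟩ := anti_form m hm
  obtain ⟨e, he⟩ : ∃ e : F, 2 * e = 1 := ⟨(2 : F)⁻¹, mul_inv_cancel₀ h2⟩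
  have hd : (!![e * (-1 + a - b), e * (-1 + a + b); e * (1 + a + b), e * (-1 - a + b)] :
      Matrix (Fin 2) (Fin 2) F).det = 1 := by
    rw [Matrix.det_fin_two_of]
    linear_combination (2 * e + 1) * he - 2 * e ^ 2 * hab
  obtain ⟨ω, hω⟩ : ∃ ω : Matrix.SpecialLinearGroup (Fin 2) F,
      (ω : Matrix (Fin 2) (Fin 2) F) =
        !![e * (-1 + a - b), e * (-1 + a + b); e * (1 + a + b), e * (-1 - a + b)] :=
    ⟨⟨_, hd⟩, rfl⟩
  refine ⟨ω, ?_, ?_⟩
  · rw [mul_inv_eq_iff_eq_mul]
    apply Subtype.ext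
    rw [Matrix.SpecialLinearGroup.coe_mul, Matrix.SpecialLinearGroup.coe_mul,
      Matrix.SpecialLinearGroup.coe_mul, cs_coe, hω, hm']
    ext i j
    fin_cases i <;> fin_cases j <;> simp [Matrix.mul_apply, Fin.sum_univ_two] <;>
      first | linear_combination e * hab | linear_combination (-e) * hab
  · rw [mul_inv_eq_iff_eq_mul]
    apply Subtype.ext
    rw [Matrix.SpecialLinearGroup.coe_mul, Matrix.SpecialLinearGroup.coe_mul, cs_coe, hω, hm']
    ext i j
    fin_cases i <;> fin_cases j <;> simp [Matrix.mul_apply, Fin.sum_univ_two] <;>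
      first | linear_combination e * hab | linear_combination (-e) * hab

end Cfsg.Agent.Lib.Helper16.SL2Four
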