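import Mathlib
import Cfsg.Agent.Lib.Helper16.SL2Klein2

/-!
# Conjugacy classes of Klein four-subgroups of `PSL₂(q)`, `q` odd

* `klein_all_conj`: if `2` is not a square, all Klein four-subgroups are conjugate.
* `klein_two_classes`: if `2` is a square, there are exactly two classes.
-/

set_option autoImplicit false

namespace Cfsg.Agent.Lib.Helper16.SL2Four

open Cfsg.Agent.Lib.Helper14.SL2Odd Cfsg.Agent.Lib.Helper14.GL2Conj
open Cfsg.Agent.Lib.Helper16.KleinPairs

variable {F : Type*} [Field F]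

theorem klein_all_conj [Fintype F] (hodd : Fintype.card F % 2 = 1) (hns : ¬ IsSquare (2 : F))
    (V W : Subgroup (Matrix.ProjectiveSpecialLinearGroup (Fin 2) F)) (hV : IsKleinFour V)
    (hW : IsKleinFour W) : KConj V W := by
  have h2 : (2 : F) ≠ 0 := two_ne_zero_of_odd hodd
  obtain ⟨m₁, hm₁, h₁⟩ := exists_kv hodd V hV
  obtain ⟨m₂, hm₂, h₂⟩ := exists_kv hodd W hW
  have hu : m₂ * m₁⁻¹ ∈ centSet F := anti_mul_anti_inv hm₁ hm₂
  have hcs : (cs : Matrix.SpecialLinearGroup (Fin 2) F) ∉ sqSet F := fun h =>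
    hns ((cs_mem_sq_iff h2).mp h)
  have h12 : KConj (kv m₁) (kv m₂) := by
    rcases cent_cover h2 cs cs_mem_cent hcs _ hu with ⟨n, hn, hun⟩ | ⟨v, ⟨n, hn, rfl⟩, huv⟩
    · have e : m₂ = n * n * m₁ := by
        rw [← hun]; group
      rw [e]
      exact kv_conj_cent hn hm₁
    · have e : m₂ = cs * (n * n * m₁) := by
        calc m₂ = m₂ * m₁⁻¹ * m₁ := by group
          _ = cs * (n * n) * m₁ := by rw [huv]
          _ = cs * (n * n * m₁) := by group
      rw [e, kv_cs_mul h2 (cent_mul_anti (cent_mul hn hn) hm₁)]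
      exact kv_conj_cent hn hm₁
  exact h₁.symm.trans (h12.trans h₂)

theorem klein_two_classes [Fintype F] (hodd : Fintype.card F % 2 = 1) (hsq : IsSquare (2 : F)) :
    ∃ V₁ V₂ : Subgroup (Matrix.ProjectiveSpecialLinearGroup (Fin 2) F),
      IsKleinFour V₁ ∧ IsKleinFour V₂ ∧ ¬ KConj V₁ V₂ ∧
      ∀ W : Subgroup (Matrix.ProjectiveSpecialLinearGroup (Fin 2) F), IsKleinFour W →
        KConj V₁ W ∨ KConj V₂ W := by
  have h2 : (2 : F) ≠ 0 := two_ne_zero_of_odd hodd
  have hcs : (cs : Matrix.SpecialLinearGroup (Fin 2) F) ∈ sqSet F := (cs_mem_sq_iff h2).mpr hsq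
  have hinvsq : (cs : Matrix.SpecialLinearGroup (Fin 2) F)⁻¹ * cs⁻¹ = negOne := by
    rw [← mul_inv_rev, cs_sq, inv_eq_iff_mul_eq_one, negOne_mul_negOne]
  obtain ⟨w, hw'⟩ := isConj_iff.mp (isConj_of_sq hodd cs cs⁻¹ cs_sq hinvsq)
  have hw : w ∈ antiSet F := hw'
  obtain ⟨n₁, hn₁, hn₁s⟩ := exists_nonsquare (F := F) h2
  have hm₂ : n₁ * w ∈ antiSet F := cent_mul_anti hn₁ hw
  have hcsinv : (cs : Matrix.SpecialLinearGroup (Fin 2) F)⁻¹ ∈ sqSet F := by
    rw [cs_inv]
    exact sq_mul hcs negOne_mem_sq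
  refine ⟨kv w, kv (n₁ * w), kv_klein h2 hw, kv_klein h2 hm₂, ?_, ?_⟩
  · rintro ⟨g, hg⟩
    -- reduce to a conjugating element fixing the image of `cs`
    have hx : g * ((cs : Matrix.SpecialLinearGroup (Fin 2) F) :
        Matrix.ProjectiveSpecialLinearGroup (Fin 2) F) * g⁻¹ ∈ kv (n₁ * w) := by
      rw [hg]
      exact ⟨_, cs_mem_kv w, rfl⟩
    obtain ⟨ω, hω1, hω2⟩ := exists_omega h2 (n₁ * w) hm₂
    have hω3 : ω * (cs * (n₁ * w)) * ω⁻¹ = n₁ * w := by
      have hc : (n₁ * w) * cs = cs⁻¹ * (n₁ * w) := (anti_iff _).mp hm₂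
      calc ω * (cs * (n₁ * w)) * ω⁻¹ = (ω * cs * ω⁻¹) * (ω * (n₁ * w) * ω⁻¹) := by group
        _ = cs * (n₁ * w) * cs := by rw [hω1, hω2]
        _ = cs * ((n₁ * w) * cs) := by group
        _ = cs * (cs⁻¹ * (n₁ * w)) := by rw [hc]
        _ = n₁ * w := by group
    have hmapω : (kv (n₁ * w)).map
        (MulAut.conj (ω : Matrix.ProjectiveSpecialLinearGroup (Fin 2) F)).toMonoidHom =
        kv (n₁ * w) := by
      have e1 : (ω : Matrix.ProjectiveSpecialLinearGroup (Fin 2) F) *
          ((cs : Matrix.SpecialLinearGroup (Fin 2) F) :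
            Matrix.ProjectiveSpecialLinearGroup (Fin 2) F) *
          (ω : Matrix.ProjectiveSpecialLinearGroup (Fin 2) F)⁻¹ =
          ((cs * (n₁ * w) : Matrix.SpecialLinearGroup (Fin 2) F) :
            Matrix.ProjectiveSpecialLinearGroup (Fin 2) F) := by
        rw [← QuotientGroup.mk_inv, ← QuotientGroup.mk_mul, ← QuotientGroup.mk_mul, hω1]
      have e2 : (ω : Matrix.ProjectiveSpecialLinearGroup (Fin 2) F) *
          ((n₁ * w : Matrix.SpecialLinearGroup (Fin 2) F) :
            Matrix.ProjectiveSpecialLinearGroup (Fin 2) F) *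
          (ω : Matrix.ProjectiveSpecialLinearGroup (Fin 2) F)⁻¹ =
          ((cs : Matrix.SpecialLinearGroup (Fin 2) F) :
            Matrix.ProjectiveSpecialLinearGroup (Fin 2) F) := by
        rw [← QuotientGroup.mk_inv, ← QuotientGroup.mk_mul, ← QuotientGroup.mk_mul, hω2]
      have e3 : kv (n₁ * w) = kv (cs * (n₁ * w)) := (kv_cs_mul h2 hm₂).symm
      conv_lhs => unfold kv
      rw [map_closure_pair, e1, e2, e3, Set.pair_comm]
      rfl
    have hred : ∃ k : Matrix.ProjectiveSpecialLinearGroup (Fin 2) F,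
        k * ((cs : Matrix.SpecialLinearGroup (Fin 2) F) :
          Matrix.ProjectiveSpecialLinearGroup (Fin 2) F) * k⁻¹ =
          ((cs : Matrix.SpecialLinearGroup (Fin 2) F) :
            Matrix.ProjectiveSpecialLinearGroup (Fin 2) F) ∧
        kv (n₁ * w) = (kv w).map (MulAut.conj k).toMonoidHom := by
      rcases (mem_kv h2 hm₂ _).mp hx with h | h | h | h
      · exfalso
        have h1 : ((cs : Matrix.SpecialLinearGroup (Fin 2) F) :
            Matrix.ProjectiveSpecialLinearGroup (Fin 2) F) = 1 := by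
          have e : ((cs : Matrix.SpecialLinearGroup (Fin 2) F) :
              Matrix.ProjectiveSpecialLinearGroup (Fin 2) F) =
              g⁻¹ * (g * ((cs : Matrix.SpecialLinearGroup (Fin 2) F) :
                Matrix.ProjectiveSpecialLinearGroup (Fin 2) F) * g⁻¹) * g := by group
          rw [e, h]
          group
        exact ne_one_of_order (orderOf_mk h2 cs cs_sq) h1
      · exact ⟨g, h, hg⟩
      · refine ⟨(ω : Matrix.ProjectiveSpecialLinearGroup (Fin 2) F) * g, ?_, ?_⟩
        · calc (ω : Matrix.ProjectiveSpecialLinearGroup (Fin 2) F) * g *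
              ((cs : Matrix.SpecialLinearGroup (Fin 2) F) :
                Matrix.ProjectiveSpecialLinearGroup (Fin 2) F) *
              ((ω : Matrix.ProjectiveSpecialLinearGroup (Fin 2) F) * g)⁻¹ =
              (ω : Matrix.ProjectiveSpecialLinearGroup (Fin 2) F) *
                (g * ((cs : Matrix.SpecialLinearGroup (Fin 2) F) :
                  Matrix.ProjectiveSpecialLinearGroup (Fin 2) F) * g⁻¹) *
                (ω : Matrix.ProjectiveSpecialLinearGroup (Fin 2) F)⁻¹ := by group
            _ = ((ω * (n₁ * w) * ω⁻¹ : Matrix.SpecialLinearGroup (Fin 2) F) :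
                Matrix.ProjectiveSpecialLinearGroup (Fin 2) F) := by rw [h]; rfl
            _ = _ := by rw [hω2]
        · rw [← map_conj_map, ← hg, hmapω]
      · refine ⟨(ω : Matrix.ProjectiveSpecialLinearGroup (Fin 2) F) *
          ((ω : Matrix.ProjectiveSpecialLinearGroup (Fin 2) F) * g), ?_, ?_⟩
        · calc (ω : Matrix.ProjectiveSpecialLinearGroup (Fin 2) F) *
              ((ω : Matrix.ProjectiveSpecialLinearGroup (Fin 2) F) * g) *
              ((cs : Matrix.SpecialLinearGroup (Fin 2) F) :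
                Matrix.ProjectiveSpecialLinearGroup (Fin 2) F) *
              ((ω : Matrix.ProjectiveSpecialLinearGroup (Fin 2) F) *
                ((ω : Matrix.ProjectiveSpecialLinearGroup (Fin 2) F) * g))⁻¹ =
              (ω : Matrix.ProjectiveSpecialLinearGroup (Fin 2) F) *
                ((ω : Matrix.ProjectiveSpecialLinearGroup (Fin 2) F) *
                  (g * ((cs : Matrix.SpecialLinearGroup (Fin 2) F) :
                    Matrix.ProjectiveSpecialLinearGroup (Fin 2) F) * g⁻¹) *
                  (ω : Matrix.ProjectiveSpecialLinearGroup (Fin 2) F)⁻¹) *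
                (ω : Matrix.ProjectiveSpecialLinearGroup (Fin 2) F)⁻¹ := by group
            _ = ((ω * (ω * (cs * (n₁ * w)) * ω⁻¹) * ω⁻¹ : Matrix.SpecialLinearGroup (Fin 2) F) :
                Matrix.ProjectiveSpecialLinearGroup (Fin 2) F) := by rw [h]; rfl
            _ = _ := by rw [hω3, hω2]
        · rw [← map_conj_map, ← map_conj_map, ← hg, hmapω, hmapω]
    obtain ⟨k, hk1, hk2⟩ := hred
    obtain ⟨n, rfl⟩ := QuotientGroup.mk_surjective k
    have hn : n ∈ centSet F ∨ n ∈ antiSet F := mk_conj_cs n hk1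
    -- the image of `w`
    have hv : ∃ v ∈ centSet F, n * w * n⁻¹ = v * v * w := by
      rcases hn with hn | hn
      · exact ⟨n, hn, conj_anti hn hw⟩
      · refine ⟨n * w⁻¹, anti_mul_anti_inv hw hn, ?_⟩
        have e : n * w * n⁻¹ = (n * w⁻¹) * w * (n * w⁻¹)⁻¹ := by group
        rw [e]
        exact conj_anti (anti_mul_anti_inv hw hn) hw
    obtain ⟨v, hv, hvw⟩ := hv
    have hvv : v * v ∈ sqSet F := ⟨v, hv, rfl⟩
    have hvvw : v * v * w ∈ antiSet F := cent_mul_anti (cent_mul hv hv) hw
    have hy : ((v * v * w : Matrix.SpecialLinearGroup (Fin 2) F) :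
        Matrix.ProjectiveSpecialLinearGroup (Fin 2) F) ∈ kv (n₁ * w) := by
      rw [hk2, ← hvw]
      exact ⟨_, mk_mem_kv w, rfl⟩
    rcases (mem_kv h2 hm₂ _).mp hy with h | h | h | h
    · exact mk_cent_ne_anti h2 one_mem_cent hvvw h.symm
    · exact mk_cent_ne_anti h2 cs_mem_cent hvvw h.symm
    · rcases (mk_eq_iff _ _).mp h with h3 | h3
      · apply hn₁s
        have : n₁ = v * v := mul_right_cancel h3
        rw [this]
        exact hvv
      · apply hn₁s
        have e : v * v * w * negOne = v * v * negOne * w := by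
          rw [mul_assoc, negOne_comm w, ← mul_assoc]
        rw [e] at h3
        have : n₁ = v * v * negOne := mul_right_cancel h3
        rw [this]
        exact sq_mul hvv negOne_mem_sq
    · rw [← QuotientGroup.mk_mul] at h
      rcases (mk_eq_iff _ _).mp h with h3 | h3
      · apply hn₁s
        have h4 : cs * n₁ * w = v * v * w := by rw [← h3]; group
        have h5 : cs * n₁ = v * v := mul_right_cancel h4
        have : n₁ = cs⁻¹ * (v * v) := by rw [← h5]; group
        rw [this]
        exact sq_mul hcsinv hvv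
      · apply hn₁s
        have e : v * v * w * negOne = v * v * negOne * w := by
          rw [mul_assoc, negOne_comm w, ← mul_assoc]
        have h4 : cs * n₁ * w = v * v * negOne * w := by rw [← e, ← h3]; group
        have h5 : cs * n₁ = v * v * negOne := mul_right_cancel h4
        have : n₁ = cs⁻¹ * (v * v * negOne) := by rw [← h5]; group
        rw [this]
        exact sq_mul hcsinv (sq_mul hvv negOne_mem_sq)
  · intro W hW
    obtain ⟨m, hm, hmW⟩ := exists_kv hodd W hW
    have hu : m * w⁻¹ ∈ centSet F := anti_mul_anti_inv hw hm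
    rcases cent_cover h2 n₁ hn₁ hn₁s _ hu with ⟨n, hn, hun⟩ | ⟨v, ⟨n, hn, rfl⟩, huv⟩
    · left
      have e : m = n * n * w := by
        rw [← hun]; group
      have h1 : KConj (kv w) (kv m) := by
        rw [e]
        exact kv_conj_cent hn hw
      exact h1.trans hmW
    · right
      have hc := cent_comm hn₁ (cent_mul hn hn)
      have e : m = n * n * (n₁ * w) := by
        calc m = m * w⁻¹ * w := by group
          _ = n₁ * (n * n) * w := by rw [huv]
          _ = n * n * n₁ * w := by rw [hc]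
          _ = n * n * (n₁ * w) := by group
      have h1 : KConj (kv (n₁ * w)) (kv m) := by
        rw [e]
        exact kv_conj_cent hn hm₂
      exact h1.trans hmW

end Cfsg.Agent.Lib.Helper16.SL2Four
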