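import Mathlib
import Cfsg.Agent.Lib.Helper16.A4Elts
import Cfsg.Agent.Lib.Helper16.SL2Klein3
import Cfsg.Agent.Lib.Helper16.A4GL2c

/-!
# Copies of the alternating group of degree four in `PSL₂(q)`

* `root_of_entries`: in characteristic two, an element of order three of `SL₂(F)` moving an
  involution to a commuting one forces a primitive cube root of unity in `F`.
* `no_a4_char2`: a subgroup of `PSL₂(F)` isomorphic to `A₄` in characteristic two forces a root
  of `X² + X + 1`.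
* `exists_a4_char2`, `exists_a4_odd`: the constructions.
-/

set_option autoImplicit false

namespace Cfsg.Agent.Lib.Helper16.PSL2A4

open Cfsg.Agent.Lib.Helper14.SL2Odd Cfsg.Agent.Lib.Helper16.SL2Four
  Cfsg.Agent.Lib.Helper16.KleinPairs

variable {F : Type*} [Field F]

theorem mat_entries {R : Type*} {a b c d a' b' c' d' : R}
    (h : (!![a, b; c, d] : Matrix (Fin 2) (Fin 2) R) = !![a', b'; c', d']) :
    a = a' ∧ b = b' ∧ c = c' ∧ d = d' :=
  ⟨congrFun (congrFun h 0) 0, congrFun (congrFun h 0) 1, congrFun (congrFun h 1) 0,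
    congrFun (congrFun h 1) 1⟩

theorem mat_eq {R : Type*} {a b c d a' b' c' d' : R} (h1 : a = a') (h2 : b = b') (h3 : c = c')
    (h4 : d = d') : (!![a, b; c, d] : Matrix (Fin 2) (Fin 2) R) = !![a', b'; c', d'] := by
  subst h1 h2 h3 h4
  rfl

/-- the matrix form of an element of `SL₂` -/
theorem sl_form (g : Matrix.SpecialLinearGroup (Fin 2) F) :
    ∃ p q r s : F, (g : Matrix (Fin 2) (Fin 2) F) = !![p, q; r, s] ∧ p * s - q * r = 1 := by
  refine ⟨_, _, _, _, Matrix.eta_fin_two _, ?_⟩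
  have h := g.det_coe
  rw [Matrix.det_fin_two] at h
  exact h

theorem sq_zero_char2 (h2 : (2 : F) = 0) {x : F} (h : x ^ 2 = 0) : x = 0 :=
  pow_eq_zero_iff (two_ne_zero) |>.mp h

/-- the algebraic core in characteristic two -/
theorem root_of_entries (h2 : (2 : F) = 0) (A T : Matrix.SpecialLinearGroup (Fin 2) F)
    (hA1 : A ≠ 1) (hA2 : A * A = 1) (hT1 : T ≠ 1) (hT3 : T * T * T = 1)
    (hcomm : A * (T * A * T⁻¹) = (T * A * T⁻¹) * A) : ∃ a : F, a ^ 2 + a + 1 = 0 := by
  obtain ⟨x1, x2, x3, x4, hAm, hdA⟩ := sl_form A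
  obtain ⟨t1, t2, t3, t4, hTm, hdT⟩ := sl_form T
  -- `A * A = 1`
  have hAA : (A : Matrix (Fin 2) (Fin 2) F) * (A : Matrix (Fin 2) (Fin 2) F) = 1 := by
    rw [← Matrix.SpecialLinearGroup.coe_mul, hA2]
    rfl
  rw [hAm, Matrix.mul_fin_two, Matrix.one_fin_two] at hAA
  obtain ⟨a00, a01, a10, a11⟩ := mat_entries hAA
  -- `T * T * T = 1`
  have hTT : (T : Matrix (Fin 2) (Fin 2) F) * (T : Matrix (Fin 2) (Fin 2) F) *
      (T : Matrix (Fin 2) (Fin 2) F) = 1 := by
    rw [← Matrix.SpecialLinearGroup.coe_mul, ← Matrix.SpecialLinearGroup.coe_mul, hT3]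
    rfl
  rw [hTm, Matrix.mul_fin_two, Matrix.mul_fin_two, Matrix.one_fin_two] at hTT
  obtain ⟨b00, b01, b10, b11⟩ := mat_entries hTT
  -- the commutation
  have hTi : ((T⁻¹ : Matrix.SpecialLinearGroup (Fin 2) F) : Matrix (Fin 2) (Fin 2) F) =
      !![t4, -t2; -t3, t1] := by
    rw [Matrix.SpecialLinearGroup.coe_inv, hTm, Matrix.adjugate_fin_two_of]
  have hC : (A : Matrix (Fin 2) (Fin 2) F) * ((T : Matrix (Fin 2) (Fin 2) F) *
      (A : Matrix (Fin 2) (Fin 2) F) *
      ((T⁻¹ : Matrix.SpecialLinearGroup (Fin 2) F) : Matrix (Fin 2) (Fin 2) F)) =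
      ((T : Matrix (Fin 2) (Fin 2) F) * (A : Matrix (Fin 2) (Fin 2) F) *
      ((T⁻¹ : Matrix.SpecialLinearGroup (Fin 2) F) : Matrix (Fin 2) (Fin 2) F)) *
      (A : Matrix (Fin 2) (Fin 2) F) := by
    have := congrArg (fun g : Matrix.SpecialLinearGroup (Fin 2) F =>
      (g : Matrix (Fin 2) (Fin 2) F)) hcomm
    simpa only [Matrix.SpecialLinearGroup.coe_mul] using this
  rw [hTi, hAm, hTm, Matrix.mul_fin_two, Matrix.mul_fin_two, Matrix.mul_fin_two,
    Matrix.mul_fin_two] at hC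
  obtain ⟨c00, c01, c10, c11⟩ := mat_entries hC
  -- trace of `A`
  have hx : x1 = x4 := by
    have h : (x1 + x4) ^ 2 = 0 := by grind
    have h' := sq_zero_char2 h2 h
    linear_combination h' - x4 * h2
  subst hx
  -- `A ≠ 1`
  have hA1' : ¬ (x1 = 1 ∧ x2 = 0 ∧ x3 = 0) := by
    rintro ⟨e1, e2, e3⟩
    apply hA1
    apply Subtype.ext
    rw [hAm, e1, e2, e3]
    show _ = (1 : Matrix (Fin 2) (Fin 2) F)
    rw [Matrix.one_fin_two]
  -- trace of `T`
  have htr : t1 + t4 = 1 := by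
    by_contra hne
    have hτ : t1 + t4 + 1 ≠ 0 := by
      intro h
      apply hne
      linear_combination h - h2
    have g1 : (t1 + t4 + 1) * ((t1 + t4 + 1) * t1 + 1) = 0 := by grind
    have g2 : (t1 + t4 + 1) * ((t1 + t4 + 1) * t2) = 0 := by grind
    have g3 : (t1 + t4 + 1) * ((t1 + t4 + 1) * t3) = 0 := by grind
    have g4 : (t1 + t4 + 1) * ((t1 + t4 + 1) * t4 + 1) = 0 := by grind
    have k1 := (mul_eq_zero.mp g1).resolve_left hτ
    have k2 := (mul_eq_zero.mp ((mul_eq_zero.mp g2).resolve_left hτ)).resolve_left hτ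
    have k3 := (mul_eq_zero.mp ((mul_eq_zero.mp g3).resolve_left hτ)).resolve_left hτ
    have k4 := (mul_eq_zero.mp g4).resolve_left hτ
    have k5 : (t1 + t4 + 1) * (t1 - t4) = 0 := by linear_combination k1 - k4
    have k6 : t1 = t4 := sub_eq_zero.mp ((mul_eq_zero.mp k5).resolve_left hτ)
    have k7 : t1 = 1 := by grind
    apply hT1
    apply Subtype.ext
    rw [hTm, k2, k3, ← k6, k7]
    show _ = (1 : Matrix (Fin 2) (Fin 2) F)
    rw [Matrix.one_fin_two]
  -- the key relation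
  have hP : t3 * x2 + t2 * x3 + x1 + 1 = 0 := by
    have h : (t3 * x2 + t2 * x3 + x1 + 1) ^ 2 = 0 := by grind
    exact sq_zero_char2 h2 h
  by_cases hx2 : x2 = 0
  · have hx1 : x1 = 1 := by
      have h : (x1 + 1) ^ 2 = 0 := by grind
      have h' := sq_zero_char2 h2 h
      linear_combination h' - h2
    have hx3 : x3 ≠ 0 := fun h => hA1' ⟨hx1, hx2, h⟩
    have ht2 : t2 = 0 := by
      have h : t2 * x3 = 0 := by grind
      exact (mul_eq_zero.mp h).resolve_right hx3
    exact ⟨t1, by grind⟩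
  · have key : (t1 * x2 + t2 * (x1 + 1)) ^ 2 + (t1 * x2 + t2 * (x1 + 1)) * x2 + x2 ^ 2 = 0 := by
      grind
    refine ⟨(t1 * x2 + t2 * (x1 + 1)) / x2, ?_⟩
    field_simp
    linear_combination key

/-! ### lifting from `PSL₂` in characteristic two -/

theorem negOne_eq_one (h2 : (2 : F) = 0) : (negOne : Matrix.SpecialLinearGroup (Fin 2) F) = 1 := by
  apply Subtype.ext
  rw [negOne_coe]
  show _ = (1 : Matrix (Fin 2) (Fin 2) F)
  rw [Matrix.one_fin_two]
  have h : (-1 : F) = 1 := by linear_combination (-1) * h2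
  rw [h]

theorem mk_inj_char2 (h2 : (2 : F) = 0) (g g' : Matrix.SpecialLinearGroup (Fin 2) F)
    (h : (g : Matrix.ProjectiveSpecialLinearGroup (Fin 2) F) = g') : g = g' := by
  rcases (mk_eq_iff g g').mp h with h1 | h1
  · exact h1.symm
  · rw [h1, negOne_eq_one h2, mul_one]

/-- a copy of `A₄` in `PSL₂(F)`, characteristic two, forces a root of `X² + X + 1` -/
theorem no_a4_char2 (h2 : (2 : F) = 0)
    (H : Subgroup (Matrix.ProjectiveSpecialLinearGroup (Fin 2) F))
    (e : ↥H ≃* ↥(alternatingGroup (Fin 4))) : ∃ a : F, a ^ 2 + a + 1 = 0 := by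
  obtain ⟨a, t, -, -, ha1, ht1, ha2, ht3, hrel, -⟩ :=
    Cfsg.Agent.Lib.Helper16.A4GL2.struct_of_equiv H e
  obtain ⟨A, rfl⟩ := QuotientGroup.mk_surjective a
  obtain ⟨T, rfl⟩ := QuotientGroup.mk_surjective t
  have hA1 : A ≠ 1 := by
    intro h
    apply ha1
    rw [h]
    rfl
  have hT1 : T ≠ 1 := by
    intro h
    apply ht1
    rw [h]
    rfl
  have hA2 : A * A = 1 := mk_inj_char2 h2 (A * A) 1 ha2
  have hT3 : T * T * T = 1 := mk_inj_char2 h2 (T * T * T) 1 ht3
  have hrel' : A * (T * A * T⁻¹) = T * T * A * T⁻¹ * T⁻¹ := mk_inj_char2 h2 _ _ hrel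
  have hB2 : (T * A * T⁻¹) * (T * A * T⁻¹) = 1 := by
    calc (T * A * T⁻¹) * (T * A * T⁻¹) = T * (A * A) * T⁻¹ := by group
      _ = 1 := by rw [hA2]; group
  have hC2 : (A * (T * A * T⁻¹)) * (A * (T * A * T⁻¹)) = 1 := by
    rw [hrel']
    calc (T * T * A * T⁻¹ * T⁻¹) * (T * T * A * T⁻¹ * T⁻¹) = T * T * (A * A) * T⁻¹ * T⁻¹ := by
          group
      _ = 1 := by rw [hA2]; group
  have hcomm : A * (T * A * T⁻¹) = (T * A * T⁻¹) * A := by
    have hAi : A⁻¹ = A := inv_eq_of_mul_eq_one_left hA2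
    have hBi : (T * A * T⁻¹)⁻¹ = T * A * T⁻¹ := inv_eq_of_mul_eq_one_left hB2
    have h := (inv_eq_of_mul_eq_one_left hC2).symm
    rw [mul_inv_rev, hAi, hBi] at h
    exact h
  exact root_of_entries h2 A T hA1 hA2 hT1 hT3 hcomm

/-! ### the constructions -/

theorem finite_psl [Fintype F] : Finite (Matrix.ProjectiveSpecialLinearGroup (Fin 2) F) := by
  haveI : Finite (Matrix.SpecialLinearGroup (Fin 2) F) := inferInstance
  exact Finite.of_surjective _ (QuotientGroup.mk_surjective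
    (s := Subgroup.center (Matrix.SpecialLinearGroup (Fin 2) F)))

/-- the construction in characteristic two -/
theorem exists_a4_char2 [Fintype F] (h2 : (2 : F) = 0) (a : F) (ha : a ^ 2 + a + 1 = 0) :
    ∃ H : Subgroup (Matrix.ProjectiveSpecialLinearGroup (Fin 2) F),
      Nonempty (H ≃* alternatingGroup (Fin 4)) := by
  haveI := finite_psl (F := F)
  have hdX : (!![1, 1; 0, 1] : Matrix (Fin 2) (Fin 2) F).det = 1 := by
    simp [Matrix.det_fin_two_of]
  have hdD : (!![a, 0; 0, a ^ 2] : Matrix (Fin 2) (Fin 2) F).det = 1 := by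
    rw [Matrix.det_fin_two_of]
    linear_combination (a - 1) * ha
  have hdY : (!![1, a ^ 2; 0, 1] : Matrix (Fin 2) (Fin 2) F).det = 1 := by
    simp [Matrix.det_fin_two_of]
  obtain ⟨X, hX⟩ : ∃ X : Matrix.SpecialLinearGroup (Fin 2) F,
      (X : Matrix (Fin 2) (Fin 2) F) = !![1, 1; 0, 1] := ⟨⟨_, hdX⟩, rfl⟩
  obtain ⟨D, hD⟩ : ∃ D : Matrix.SpecialLinearGroup (Fin 2) F,
      (D : Matrix (Fin 2) (Fin 2) F) = !![a, 0; 0, a ^ 2] := ⟨⟨_, hdD⟩, rfl⟩
  obtain ⟨Y, hY⟩ : ∃ Y : Matrix.SpecialLinearGroup (Fin 2) F,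
      (Y : Matrix (Fin 2) (Fin 2) F) = !![1, a ^ 2; 0, 1] := ⟨⟨_, hdY⟩, rfl⟩
  have sX2 : X * X = 1 := by
    apply Subtype.ext
    rw [Matrix.SpecialLinearGroup.coe_mul, hX, Matrix.mul_fin_two]
    show _ = (1 : Matrix (Fin 2) (Fin 2) F)
    rw [Matrix.one_fin_two]
    apply mat_eq <;> grind
  have sY : D * X * D⁻¹ = Y := by
    rw [mul_inv_eq_iff_eq_mul]
    apply Subtype.ext
    rw [Matrix.SpecialLinearGroup.coe_mul, Matrix.SpecialLinearGroup.coe_mul, hX, hD, hY,
      Matrix.mul_fin_two, Matrix.mul_fin_two]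
    apply mat_eq <;> grind
  have sc : X * Y = Y * X := by
    apply Subtype.ext
    rw [Matrix.SpecialLinearGroup.coe_mul, Matrix.SpecialLinearGroup.coe_mul, hX, hY,
      Matrix.mul_fin_two, Matrix.mul_fin_two]
    apply mat_eq <;> grind
  have sD3 : D * D * D = 1 := by
    apply Subtype.ext
    rw [Matrix.SpecialLinearGroup.coe_mul, Matrix.SpecialLinearGroup.coe_mul, hD,
      Matrix.mul_fin_two, Matrix.mul_fin_two]
    show _ = (1 : Matrix (Fin 2) (Fin 2) F)
    rw [Matrix.one_fin_two]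
    apply mat_eq <;> grind
  have sj : D * Y * D⁻¹ = X * Y := by
    rw [mul_inv_eq_iff_eq_mul]
    apply Subtype.ext
    rw [Matrix.SpecialLinearGroup.coe_mul, Matrix.SpecialLinearGroup.coe_mul,
      Matrix.SpecialLinearGroup.coe_mul, hX, hD, hY,
      Matrix.mul_fin_two, Matrix.mul_fin_two, Matrix.mul_fin_two]
    apply mat_eq <;> grind
  have hX1 : (X : Matrix.ProjectiveSpecialLinearGroup (Fin 2) F) ≠ 1 := by
    intro h
    have h1 : X = 1 := mk_inj_char2 h2 X 1 h
    have h3 := congrArg (fun g : Matrix.SpecialLinearGroup (Fin 2) F =>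
      (g : Matrix (Fin 2) (Fin 2) F) 0 1) h1
    simp only [hX] at h3
    simp at h3
  apply Cfsg.Agent.Lib.Helper16.A4Elts.a4_of_elements
    (X : Matrix.ProjectiveSpecialLinearGroup (Fin 2) F)
    (D : Matrix.ProjectiveSpecialLinearGroup (Fin 2) F) hX1
  · have := congrArg (fun g : Matrix.SpecialLinearGroup (Fin 2) F =>
      (g : Matrix.ProjectiveSpecialLinearGroup (Fin 2) F)) sX2
    exact this
  · have h : X * (D * X * D⁻¹) = (D * X * D⁻¹) * X := by rw [sY, sc]
    have := congrArg (fun g : Matrix.SpecialLinearGroup (Fin 2) F =>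
      (g : Matrix.ProjectiveSpecialLinearGroup (Fin 2) F)) h
    exact this
  · have := congrArg (fun g : Matrix.SpecialLinearGroup (Fin 2) F =>
      (g : Matrix.ProjectiveSpecialLinearGroup (Fin 2) F)) sD3
    exact this
  · have h : D * (D * X * D⁻¹) * D⁻¹ = X * (D * X * D⁻¹) := by rw [sY, sj]
    have := congrArg (fun g : Matrix.SpecialLinearGroup (Fin 2) F =>
      (g : Matrix.ProjectiveSpecialLinearGroup (Fin 2) F)) h
    exact this

/-- an element of `SL₂` of trace `-1` has cube one -/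
theorem cube_of_tr (g : Matrix.SpecialLinearGroup (Fin 2) F) (p q r s : F)
    (hg : (g : Matrix (Fin 2) (Fin 2) F) = !![p, q; r, s]) (htr : p + s = -1) :
    g * g * g = 1 := by
  have hdet := g.det_coe
  rw [hg, Matrix.det_fin_two_of] at hdet
  apply Subtype.ext
  rw [Matrix.SpecialLinearGroup.coe_mul, Matrix.SpecialLinearGroup.coe_mul, hg,
    Matrix.mul_fin_two, Matrix.mul_fin_two]
  show _ = (1 : Matrix (Fin 2) (Fin 2) F)
  rw [Matrix.one_fin_two]
  apply mat_eq <;> grind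

/-- an element of order three permuting `cs`, `m`, `cs * m` -/
theorem exists_omega3 (h2 : (2 : F) ≠ 0) (m : Matrix.SpecialLinearGroup (Fin 2) F)
    (hm : m ∈ antiSet F) :
    ∃ ω : Matrix.SpecialLinearGroup (Fin 2) F, ω * cs * ω⁻¹ = cs * m ∧ ω * m * ω⁻¹ = cs ∧
      ω * ω * ω = 1 := by
  obtain ⟨a, b, hm', hab⟩ := anti_form m hm
  obtain ⟨e, he⟩ : ∃ e : F, 2 * e = 1 := ⟨(2 : F)⁻¹, mul_inv_cancel₀ h2⟩
  have hd : (!![e * (-1 + a - b), e * (-1 + a + b); e * (1 + a + b), e * (-1 - a + b)] :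
      Matrix (Fin 2) (Fin 2) F).det = 1 := by
    rw [Matrix.det_fin_two_of]
    linear_combination (2 * e + 1) * he - 2 * e ^ 2 * hab
  obtain ⟨ω, hω⟩ : ∃ ω : Matrix.SpecialLinearGroup (Fin 2) F,
      (ω : Matrix (Fin 2) (Fin 2) F) =
        !![e * (-1 + a - b), e * (-1 + a + b); e * (1 + a + b), e * (-1 - a + b)] :=
    ⟨⟨_, hd⟩, rfl⟩
  refine ⟨ω, ?_, ?_, ?_⟩
  · rw [mul_inv_eq_iff_eq_mul]
    apply Subtype.ext
    rw [Matrix.SpecialLinearGroup.coe_mul, Matrix.SpecialLinearGroup.coe_mul,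
      Matrix.SpecialLinearGroup.coe_mul, cs_coe, hω, hm']
    ext i j
    fin_cases i <;> fin_cases j <;> simp [Matrix.mul_apply, Fin.sum_univ_two] <;>
      first | linear_combination e * hab | linear_combination (-e) * hab
  · rw [mul_inv_eq_iff_eq_mul]
    apply Subtype.ext
    rw [Matrix.SpecialLinearGroup.coe_mul, Matrix.SpecialLinearGroup.coe_mul, cs_coe, hω, hm']
    ext i j
    fin_cases i <;> fin_cases j <;> simp [Matrix.mul_apply, Fin.sum_univ_two] <;>
      first | linear_combination e * hab | linear_combination (-e) * hab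
  · exact cube_of_tr ω _ _ _ _ hω (by linear_combination (-1) * he)

/-- the construction in odd characteristic -/
theorem exists_a4_odd [Fintype F] (hodd : Fintype.card F % 2 = 1) :
    ∃ H : Subgroup (Matrix.ProjectiveSpecialLinearGroup (Fin 2) F),
      Nonempty (H ≃* alternatingGroup (Fin 4)) := by
  haveI := finite_psl (F := F)
  have h2 : (2 : F) ≠ 0 := two_ne_zero_of_odd hodd
  have hinvsq : (cs : Matrix.SpecialLinearGroup (Fin 2) F)⁻¹ * cs⁻¹ = negOne := by
    rw [← mul_inv_rev, cs_sq, inv_eq_iff_mul_eq_one, negOne_mul_negOne]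
  obtain ⟨m, hm'⟩ := isConj_iff.mp (isConj_of_sq hodd cs cs⁻¹ cs_sq hinvsq)
  have hm : m ∈ antiSet F := hm'
  obtain ⟨ω, hω1, hω2, hω3⟩ := exists_omega3 h2 m hm
  have hcm := mk_comm_of_anti hm
  have e1 : (ω : Matrix.ProjectiveSpecialLinearGroup (Fin 2) F) *
      ((cs : Matrix.SpecialLinearGroup (Fin 2) F) : Matrix.ProjectiveSpecialLinearGroup (Fin 2) F) *
      (ω : Matrix.ProjectiveSpecialLinearGroup (Fin 2) F)⁻¹ =
      ((cs : Matrix.SpecialLinearGroup (Fin 2) F) : Matrix.ProjectiveSpecialLinearGroup (Fin 2) F) *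
      (m : Matrix.ProjectiveSpecialLinearGroup (Fin 2) F) := by
    have := congrArg (fun g : Matrix.SpecialLinearGroup (Fin 2) F =>
      (g : Matrix.ProjectiveSpecialLinearGroup (Fin 2) F)) hω1
    exact this
  have e2 : (ω : Matrix.ProjectiveSpecialLinearGroup (Fin 2) F) *
      (m : Matrix.ProjectiveSpecialLinearGroup (Fin 2) F) *
      (ω : Matrix.ProjectiveSpecialLinearGroup (Fin 2) F)⁻¹ =
      ((cs : Matrix.SpecialLinearGroup (Fin 2) F) :
        Matrix.ProjectiveSpecialLinearGroup (Fin 2) F) := by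
    have := congrArg (fun g : Matrix.SpecialLinearGroup (Fin 2) F =>
      (g : Matrix.ProjectiveSpecialLinearGroup (Fin 2) F)) hω2
    exact this
  apply Cfsg.Agent.Lib.Helper16.A4Elts.a4_of_elements
    ((cs : Matrix.SpecialLinearGroup (Fin 2) F) : Matrix.ProjectiveSpecialLinearGroup (Fin 2) F)
    (ω : Matrix.ProjectiveSpecialLinearGroup (Fin 2) F)
    (ne_one_of_order (orderOf_mk h2 cs cs_sq)) (mk_cs_sq h2)
  · rw [e1, mul_assoc, ← hcm]
  · have := congrArg (fun g : Matrix.SpecialLinearGroup (Fin 2) F =>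
      (g : Matrix.ProjectiveSpecialLinearGroup (Fin 2) F)) hω3
    exact this
  · rw [e1]
    calc (ω : Matrix.ProjectiveSpecialLinearGroup (Fin 2) F) *
          (((cs : Matrix.SpecialLinearGroup (Fin 2) F) :
            Matrix.ProjectiveSpecialLinearGroup (Fin 2) F) *
          (m : Matrix.ProjectiveSpecialLinearGroup (Fin 2) F)) *
          (ω : Matrix.ProjectiveSpecialLinearGroup (Fin 2) F)⁻¹
        = ((ω : Matrix.ProjectiveSpecialLinearGroup (Fin 2) F) *
          ((cs : Matrix.SpecialLinearGroup (Fin 2) F) :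
            Matrix.ProjectiveSpecialLinearGroup (Fin 2) F) *
          (ω : Matrix.ProjectiveSpecialLinearGroup (Fin 2) F)⁻¹) *
          ((ω : Matrix.ProjectiveSpecialLinearGroup (Fin 2) F) *
          (m : Matrix.ProjectiveSpecialLinearGroup (Fin 2) F) *
          (ω : Matrix.ProjectiveSpecialLinearGroup (Fin 2) F)⁻¹) := by group
      _ = _ := by rw [e1, e2, mul_assoc, ← hcm]

/-! ### cube roots of unity in finite fields of characteristic two -/

theorem even_of_root [Fintype F] {n : ℕ} (h2 : (2 : F) = 0) (hF : Fintype.card F = 2 ^ n) (a : F)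
    (ha : a ^ 2 + a + 1 = 0) : Even n := by
  have ha0 : a ≠ 0 := by
    intro h
    rw [h] at ha
    simp at ha
  have ha3 : a ^ 3 = 1 := by linear_combination (a - 1) * ha
  have ha1 : a ≠ 1 := by
    intro h
    rw [h] at ha
    have : (1 : F) = 0 := by linear_combination ha - h2
    exact one_ne_zero this
  haveI : Fact (Nat.Prime 3) := ⟨by norm_num⟩
  have ho : orderOf (Units.mk0 a ha0) = 3 := by
    apply orderOf_eq_prime
    · apply Units.ext
      rw [Units.val_pow_eq_pow_val, Units.val_mk0, ha3, Units.val_one]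
    · intro h
      apply ha1
      have := congrArg Units.val h
      rw [Units.val_mk0, Units.val_one] at this
      exact this
  have hdvd : 3 ∣ Nat.card Fˣ := by
    rw [← ho]
    exact orderOf_dvd_natCard _
  rw [Nat.card_units, Nat.card_eq_fintype_card, hF] at hdvd
  by_contra hn
  rw [Nat.not_even_iff_odd] at hn
  obtain ⟨k, rfl⟩ := hn
  have h4 : 4 ^ k % 3 = 1 := by
    rw [Nat.pow_mod]
    norm_num
  have e : 2 ^ (2 * k + 1) = 4 ^ k * 2 := by
    rw [pow_succ, pow_mul]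
    norm_num
  rw [e] at hdvd
  omega

theorem root_of_even [Fintype F] {n : ℕ} (hF : Fintype.card F = 2 ^ n) (hn : Even n) :
    ∃ a : F, a ^ 2 + a + 1 = 0 := by
  obtain ⟨k, rfl⟩ := hn
  have h4 : 4 ^ k % 3 = 1 := by
    rw [Nat.pow_mod]
    norm_num
  have e : 2 ^ (k + k) = 4 ^ k := by
    rw [← two_mul, pow_mul]
    norm_num
  have hpos : 0 < 4 ^ k := by positivity
  have hdvd : 3 ∣ Nat.card Fˣ := by
    rw [Nat.card_units, Nat.card_eq_fintype_card, hF, e]
    omega
  haveI : Fact (Nat.Prime 3) := ⟨by norm_num⟩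
  obtain ⟨x, hx⟩ := exists_prime_orderOf_dvd_card' 3 hdvd
  have hx3 : (x : F) ^ 3 = 1 := by
    have h := pow_orderOf_eq_one x
    rw [hx] at h
    have := congrArg Units.val h
    rw [Units.val_pow_eq_pow_val, Units.val_one] at this
    exact this
  have hx1 : (x : F) ≠ 1 := by
    intro h
    have hx' : x = 1 := Units.ext h
    rw [hx', orderOf_one] at hx
    omega
  have hmul : ((x : F) - 1) * ((x : F) ^ 2 + (x : F) + 1) = 0 := by linear_combination hx3
  exact ⟨(x : F), (mul_eq_zero.mp hmul).resolve_left (sub_ne_zero.mpr hx1)⟩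

end Cfsg.Agent.Lib.Helper16.PSL2A4
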