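import Mathlib
import Cfsg.Agent.Lib.Helper16.PSL2A4

/-!
# Elements of order two and three in `PSL₂(q)`, `q` odd

* `no_comm23`: an involution commuting with an element of order three forces `3` to be a square.
* `comm33`: commuting elements of order three generate the same subgroup.
* `cent_klein`: a Klein four-subgroup is its own centralizer.
-/

set_option autoImplicit false

namespace Cfsg.Agent.Lib.Helper16.Hall23

open Cfsg.Agent.Lib.Helper14.SL2Odd Cfsg.Agent.Lib.Helper14.GL2Conj
open Cfsg.Agent.Lib.Helper16.SL2Four Cfsg.Agent.Lib.Helper16.PSL2A4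

variable {F : Type*} [Field F]

theorem cube_aux (h2 : (2 : F) ≠ 0) (p q r s : F) (hdet : p * s - q * r = 1)
    (e00 : (p * p + q * r) * p + (p * q + q * s) * r = 1)
    (e01 : (p * p + q * r) * q + (p * q + q * s) * s = 0)
    (e10 : (r * p + s * r) * p + (r * q + s * s) * r = 0)
    (e11 : (r * p + s * r) * q + (r * q + s * s) * s = 1) :
    (p = 1 ∧ q = 0 ∧ r = 0 ∧ s = 1) ∨ p + s = -1 := by
  by_cases ht : p + s = -1
  · exact Or.inr ht
  left
  have hA : p * (p + s) ^ 2 - 2 * p - s = 1 := by linear_combination e00 + (2 * p + s) * hdet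
  have hD : s * (p + s) ^ 2 - 2 * s - p = 1 := by linear_combination e11 + (2 * s + p) * hdet
  have hB : q * ((p + s) ^ 2 - 1) = 0 := by linear_combination e01 + q * hdet
  have hC : r * ((p + s) ^ 2 - 1) = 0 := by linear_combination e10 + r * hdet
  have ht3 : (p + s + 1) ^ 2 * (p + s - 2) = 0 := by linear_combination hA + hD
  have ht2 : p + s = 2 := by
    rcases mul_eq_zero.mp ht3 with h | h
    · exfalso
      apply ht
      have h' := (pow_eq_zero_iff (by norm_num : (2 : ℕ) ≠ 0)).mp h
      linear_combination h'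
    · linear_combination h
  have h3 : (3 : F) ≠ 0 := by
    intro h3
    apply ht
    linear_combination ht2 + h3
  have hq3 : q * 3 = 0 := by linear_combination hB - q * (p + s + 2) * ht2
  have hr3 : r * 3 = 0 := by linear_combination hC - r * (p + s + 2) * ht2
  have hps3 : (p - s) * 3 = 0 := by
    linear_combination hA - hD - (p - s) * (p + s + 2) * ht2
  have hq : q = 0 := by
    rcases mul_eq_zero.mp hq3 with h | h
    · exact h
    · exact absurd h h3
  have hr : r = 0 := by
    rcases mul_eq_zero.mp hr3 with h | h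
    · exact h
    · exact absurd h h3
  have hps : p = s := by
    rcases mul_eq_zero.mp hps3 with h | h
    · linear_combination h
    · exact absurd h h3
  have hp : p = 1 := by
    apply mul_left_cancel₀ h2
    linear_combination ht2 + hps
  refine ⟨hp, hq, hr, ?_⟩
  rw [← hps]
  exact hp

/-- an element of `SL₂` with trivial cube is trivial or has trace `-1` -/
theorem tr_of_cube (h2 : (2 : F) ≠ 0) (g : Matrix.SpecialLinearGroup (Fin 2) F)
    (h : g * g * g = 1) : g = 1 ∨ tr2 g = -1 := by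
  obtain ⟨p, q, r, s, hg, hdet⟩ := sl_form g
  have h1 : (g : Matrix (Fin 2) (Fin 2) F) * (g : Matrix (Fin 2) (Fin 2) F) *
      (g : Matrix (Fin 2) (Fin 2) F) = 1 := by
    rw [← Matrix.SpecialLinearGroup.coe_mul, ← Matrix.SpecialLinearGroup.coe_mul, h]
    rfl
  rw [hg, Matrix.mul_fin_two, Matrix.mul_fin_two, Matrix.one_fin_two] at h1
  obtain ⟨e00, e01, e10, e11⟩ := mat_entries h1
  rcases cube_aux h2 p q r s hdet e00 e01 e10 e11 with ⟨hp, hq, hr, hs⟩ | ht
  · left
    apply Subtype.ext
    rw [hg, hp, hq, hr, hs]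
    show _ = (1 : Matrix (Fin 2) (Fin 2) F)
    rw [Matrix.one_fin_two]
  · right
    unfold tr2
    rw [hg]
    simpa using ht

theorem tr2_mul_negOne (g : Matrix.SpecialLinearGroup (Fin 2) F) :
    tr2 (g * negOne) = - tr2 g := by
  obtain ⟨p, q, r, s, hg, -⟩ := sl_form g
  unfold tr2
  rw [Matrix.SpecialLinearGroup.coe_mul, hg, negOne_coe, Matrix.mul_fin_two]
  simp
  ring

theorem tr2_mul_sq (X Y : Matrix.SpecialLinearGroup (Fin 2) F) :
    tr2 (Y * X * X) = tr2 X * tr2 (Y * X) - tr2 Y := by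
  obtain ⟨p, q, r, s, hX, hdet⟩ := sl_form X
  obtain ⟨a, b, c, d, hY, -⟩ := sl_form Y
  unfold tr2
  simp only [Matrix.SpecialLinearGroup.coe_mul]
  rw [hX, hY, Matrix.mul_fin_two, Matrix.mul_fin_two]
  simp
  linear_combination (-(a + d)) * hdet

theorem sq_three_aux (a b c d x y z w : F) (hJ : a * d - b * c = 1) (hX : x * w - y * z = 1)
    (htJ : a + d = 0) (htX : x + w = -1)
    (e00 : a * x + b * z = x * a + y * c) (e01 : a * y + b * w = x * b + y * d)
    (e10 : c * x + d * z = z * a + w * c) :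
    (a * (1 + 2 * x) + 2 * b * z) * (a * (1 + 2 * x) + 2 * b * z) = 3 := by
  grind

/-- an element of square `-1` commuting with an element of order three: `3` is a square -/
theorem sq_three_of_comm (h2 : (2 : F) ≠ 0) (J X : Matrix.SpecialLinearGroup (Fin 2) F)
    (hJ : J * J = negOne) (hX : X * X * X = 1) (hX1 : X ≠ 1) (hc : J * X = X * J) :
    ∃ s : F, s * s = 3 := by
  obtain ⟨a, b, c, d, hJm, hJdet⟩ := sl_form J
  obtain ⟨x, y, z, w, hXm, hXdet⟩ := sl_form X
  have htJ : a + d = 0 := by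
    have h := (sq_negOne_iff J).mp hJ
    unfold tr2 at h
    rw [hJm] at h
    simpa using h
  have htX : x + w = -1 := by
    rcases tr_of_cube h2 X hX with h | h
    · exact absurd h hX1
    · unfold tr2 at h
      rw [hXm] at h
      simpa using h
  have h1 : (J : Matrix (Fin 2) (Fin 2) F) * (X : Matrix (Fin 2) (Fin 2) F) =
      (X : Matrix (Fin 2) (Fin 2) F) * (J : Matrix (Fin 2) (Fin 2) F) := by
    rw [← Matrix.SpecialLinearGroup.coe_mul, ← Matrix.SpecialLinearGroup.coe_mul, hc]
  rw [hJm, hXm, Matrix.mul_fin_two, Matrix.mul_fin_two] at h1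
  obtain ⟨e00, e01, e10, -⟩ := mat_entries h1
  exact ⟨a * (1 + 2 * x) + 2 * b * z, sq_three_aux a b c d x y z w hJdet hXdet htJ htX e00 e01 e10⟩

/-! ### the projective group -/

theorem negOne_pow_three : (negOne : Matrix.SpecialLinearGroup (Fin 2) F) ^ 3 = negOne := by
  rw [pow_succ, pow_two, negOne_mul_negOne, one_mul]

theorem lift_three (x : Matrix.ProjectiveSpecialLinearGroup (Fin 2) F) (hx : x ^ 3 = 1) :
    ∃ X : Matrix.SpecialLinearGroup (Fin 2) F,
      (X : Matrix.ProjectiveSpecialLinearGroup (Fin 2) F) = x ∧ X ^ 3 = 1 := by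
  obtain ⟨X₀, rfl⟩ := QuotientGroup.mk_surjective x
  have h3 : X₀ ^ 3 ∈ Subgroup.center (Matrix.SpecialLinearGroup (Fin 2) F) := by
    rw [← QuotientGroup.eq_one_iff, QuotientGroup.mk_pow]
    exact hx
  rcases center_cases _ h3 with h | h
  · exact ⟨X₀, rfl, h⟩
  · refine ⟨X₀ * negOne, ?_, ?_⟩
    · rw [QuotientGroup.mk_mul, mk_negOne, mul_one]
    · have hc : Commute X₀ negOne := negOne_comm X₀
      rw [hc.mul_pow, h, negOne_pow_three, negOne_mul_negOne]

/-- an involution commuting with an element of order three forces `3` to be a square -/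
theorem no_comm23 (h2 : (2 : F) ≠ 0) (z x : Matrix.ProjectiveSpecialLinearGroup (Fin 2) F)
    (hz1 : z ≠ 1) (hz : z * z = 1) (hx1 : x ≠ 1) (hx : x ^ 3 = 1) (hc : z * x = x * z) :
    ∃ s : F, s * s = 3 := by
  haveI : Fact (Nat.Prime 2) := ⟨Nat.prime_two⟩
  have hoz : orderOf z = 2 := orderOf_eq_prime (by rw [pow_two]; exact hz) hz1
  obtain ⟨J, rfl, hJ⟩ := lift_invol h2 z hoz
  obtain ⟨X, rfl, hX⟩ := lift_three x hx
  have hX1 : X ≠ 1 := by
    rintro rfl
    exact hx1 rfl
  have hX3 : X * X * X = 1 := by rw [← pow_three']; exact hX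
  have hc' : ((J * X : Matrix.SpecialLinearGroup (Fin 2) F) :
      Matrix.ProjectiveSpecialLinearGroup (Fin 2) F) =
      ((X * J : Matrix.SpecialLinearGroup (Fin 2) F) :
        Matrix.ProjectiveSpecialLinearGroup (Fin 2) F) := hc
  rcases (mk_eq_iff _ _).mp hc' with h | h
  · exact sq_three_of_comm h2 J X hJ hX3 hX1 h.symm
  · exfalso
    have ht : tr2 X = -1 := (tr_of_cube h2 X hX3).resolve_left hX1
    have e : J * X * J⁻¹ * negOne = X := by
      calc J * X * J⁻¹ * negOne = J * X * (J⁻¹ * negOne) := by group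
        _ = J * X * (negOne * J⁻¹) := by rw [negOne_comm]
        _ = (J * X * negOne) * J⁻¹ := by group
        _ = X * J * J⁻¹ := by rw [h]
        _ = X := by group
    have h5 : tr2 X = - tr2 X := by
      conv_lhs => rw [← e]
      rw [tr2_mul_negOne, tr2_conj]
    rw [ht] at h5
    apply h2
    linear_combination (-1 : F) * h5

/-- commuting elements of order three generate the same subgroup -/
theorem comm33 (h2 : (2 : F) ≠ 0) (h3 : (3 : F) ≠ 0)
    (x y : Matrix.ProjectiveSpecialLinearGroup (Fin 2) F)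
    (hx1 : x ≠ 1) (hx : x ^ 3 = 1) (hy1 : y ≠ 1) (hy : y ^ 3 = 1) (hc : x * y = y * x) :
    y = x ∨ y * x = 1 := by
  obtain ⟨X, rfl, hX⟩ := lift_three x hx
  obtain ⟨Y, rfl, hY⟩ := lift_three y hy
  have hX1 : X ≠ 1 := by
    rintro rfl
    exact hx1 rfl
  have hY1 : Y ≠ 1 := by
    rintro rfl
    exact hy1 rfl
  have hX3 : X * X * X = 1 := by rw [← pow_three']; exact hX
  have hY3 : Y * Y * Y = 1 := by rw [← pow_three']; exact hY
  have htX : tr2 X = -1 := (tr_of_cube h2 X hX3).resolve_left hX1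
  have htY : tr2 Y = -1 := (tr_of_cube h2 Y hY3).resolve_left hY1
  have hc' : ((X * Y : Matrix.SpecialLinearGroup (Fin 2) F) :
      Matrix.ProjectiveSpecialLinearGroup (Fin 2) F) =
      ((Y * X : Matrix.SpecialLinearGroup (Fin 2) F) :
        Matrix.ProjectiveSpecialLinearGroup (Fin 2) F) := hc
  have hcomm : Y * X = X * Y := by
    rcases (mk_eq_iff _ _).mp hc' with h | h
    · exact h
    · exfalso
      have e : X * Y * X⁻¹ * negOne = Y := by
        calc X * Y * X⁻¹ * negOne = X * Y * (X⁻¹ * negOne) := by group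
          _ = X * Y * (negOne * X⁻¹) := by rw [negOne_comm]
          _ = (X * Y * negOne) * X⁻¹ := by group
          _ = Y * X * X⁻¹ := by rw [h]
          _ = Y := by group
      have h5 : tr2 Y = - tr2 Y := by
        conv_lhs => rw [← e]
        rw [tr2_mul_negOne, tr2_conj]
      rw [htY] at h5
      apply h2
      linear_combination (-1 : F) * h5
  have hW2 : (Y * X) ^ 3 = 1 := by
    rw [(show Commute Y X from hcomm).mul_pow, hY, hX, one_mul]
  have hW1 : (Y * X * X) ^ 3 = 1 := by
    have hc2 : Commute (Y * X) X := Commute.mul_left hcomm (Commute.refl X)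
    rw [hc2.mul_pow, hW2, hX, one_mul]
  rcases tr_of_cube h2 (Y * X) (by rw [← pow_three']; exact hW2) with h | h
  · right
    show ((Y * X : Matrix.SpecialLinearGroup (Fin 2) F) :
      Matrix.ProjectiveSpecialLinearGroup (Fin 2) F) = 1
    rw [h]
    rfl
  rcases tr_of_cube h2 (Y * X * X) (by rw [← pow_three']; exact hW1) with h' | h'
  · left
    have e : Y = X := by
      calc Y = Y * (X * X * X) := by rw [hX3, mul_one]
        _ = Y * X * X * X := by group
        _ = X := by rw [h', one_mul]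
    rw [e]
  · exfalso
    have h6 := tr2_mul_sq X Y
    rw [h', h, htX, htY] at h6
    apply h3
    linear_combination (-1 : F) * h6

/-- the torus case of `cent_klein` -/
theorem cent_klein_cs (h2 : (2 : F) ≠ 0) (X K : Matrix.SpecialLinearGroup (Fin 2) F)
    (hX : X ∈ centSet F) (hK : K ∈ antiSet F)
    (hc : (X : Matrix.ProjectiveSpecialLinearGroup (Fin 2) F) * K = K * X) :
    (X : Matrix.ProjectiveSpecialLinearGroup (Fin 2) F) = 1 ∨
      (X : Matrix.ProjectiveSpecialLinearGroup (Fin 2) F) =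
        (cs : Matrix.SpecialLinearGroup (Fin 2) F) := by
  have h1 : X * K * X = K := cent_anti_cent hX hK
  have hc' : ((X * K : Matrix.SpecialLinearGroup (Fin 2) F) :
      Matrix.ProjectiveSpecialLinearGroup (Fin 2) F) =
      ((K * X : Matrix.SpecialLinearGroup (Fin 2) F) :
        Matrix.ProjectiveSpecialLinearGroup (Fin 2) F) := hc
  rcases (mk_eq_iff _ _).mp hc' with h | h
  · left
    have hxx : X * X = 1 := by
      have e : K * (X * X) = K * 1 := by
        rw [← mul_assoc, h, h1, mul_one]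
      exact mul_left_cancel e
    rcases sq_cases h2 X hxx with h' | h'
    · rw [h']
      rfl
    · rw [h']
      exact mk_negOne
  · right
    have hxx : X * X = negOne := by
      have e1 : X * (X * K * negOne) = K := by
        rw [← h, ← mul_assoc]
        exact h1
      have e2 : (X * X * negOne) * K = 1 * K := by
        calc X * X * negOne * K = X * (X * (negOne * K)) := by group
          _ = X * (X * (K * negOne)) := by rw [negOne_comm K]
          _ = X * (X * K * negOne) := by group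
          _ = K := e1
          _ = 1 * K := (one_mul K).symm
      have e3 : X * X * negOne = 1 := mul_right_cancel e2
      calc X * X = X * X * (negOne * negOne) := by rw [negOne_mul_negOne, mul_one]
        _ = (X * X * negOne) * negOne := by group
        _ = negOne := by rw [e3, one_mul]
    rcases comm_tr_cases h2 X ((cent_iff X).mp hX) ((sq_negOne_iff X).mp hxx) with h' | h'
    · rw [h']
    · rw [h']
      exact mk_cs_inv

theorem cent_klein_cs' (h2 : (2 : F) ≠ 0) (g : Matrix.ProjectiveSpecialLinearGroup (Fin 2) F)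
    (K : Matrix.SpecialLinearGroup (Fin 2) F) (hK : K ∈ antiSet F)
    (hg1 : g * ((cs : Matrix.SpecialLinearGroup (Fin 2) F) :
      Matrix.ProjectiveSpecialLinearGroup (Fin 2) F) =
      ((cs : Matrix.SpecialLinearGroup (Fin 2) F) :
        Matrix.ProjectiveSpecialLinearGroup (Fin 2) F) * g)
    (hg2 : g * (K : Matrix.ProjectiveSpecialLinearGroup (Fin 2) F) = K * g) :
    g = 1 ∨ g = ((cs : Matrix.SpecialLinearGroup (Fin 2) F) :
        Matrix.ProjectiveSpecialLinearGroup (Fin 2) F) ∨
      g = (K : Matrix.ProjectiveSpecialLinearGroup (Fin 2) F) ∨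
      g = ((cs : Matrix.SpecialLinearGroup (Fin 2) F) :
        Matrix.ProjectiveSpecialLinearGroup (Fin 2) F) * K := by
  obtain ⟨X, rfl⟩ := QuotientGroup.mk_surjective g
  have h3 : ((X * cs * X⁻¹ : Matrix.SpecialLinearGroup (Fin 2) F) :
      Matrix.ProjectiveSpecialLinearGroup (Fin 2) F) =
      (cs : Matrix.SpecialLinearGroup (Fin 2) F) := by
    rw [QuotientGroup.mk_mul, QuotientGroup.mk_mul, QuotientGroup.mk_inv]
    exact mul_inv_eq_iff_eq_mul.mpr hg1
  rcases mk_conj_cs X h3 with hX | hX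
  · rcases cent_klein_cs h2 X K hX hK hg2 with h | h
    · exact Or.inl h
    · exact Or.inr (Or.inl h)
  · have hY : X * K⁻¹ ∈ centSet F := anti_mul_anti_inv hK hX
    have hcY : ((X * K⁻¹ : Matrix.SpecialLinearGroup (Fin 2) F) :
        Matrix.ProjectiveSpecialLinearGroup (Fin 2) F) * K = K * (X * K⁻¹ :
          Matrix.SpecialLinearGroup (Fin 2) F) := by
      rw [QuotientGroup.mk_mul, QuotientGroup.mk_inv]
      calc (X : Matrix.ProjectiveSpecialLinearGroup (Fin 2) F) * (K : Matrix.ProjectiveSpecialLinearGroup (Fin 2) F)⁻¹ * K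
          = X * K * (K : Matrix.ProjectiveSpecialLinearGroup (Fin 2) F)⁻¹ := by group
        _ = K * X * (K : Matrix.ProjectiveSpecialLinearGroup (Fin 2) F)⁻¹ := by rw [hg2]
        _ = K * (X * (K : Matrix.ProjectiveSpecialLinearGroup (Fin 2) F)⁻¹) := by group
    rcases cent_klein_cs h2 (X * K⁻¹) K hY hK hcY with h | h
    · right; right; left
      rw [QuotientGroup.mk_mul, QuotientGroup.mk_inv, mul_inv_eq_one] at h
      exact h
    · right; right; right
      rw [QuotientGroup.mk_mul, QuotientGroup.mk_inv, mul_inv_eq_iff_eq_mul] at h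
      exact h

/-- a Klein four-subgroup of `PSL₂(q)`, `q` odd, is its own centralizer -/
theorem cent_klein [Fintype F] (hodd : Fintype.card F % 2 = 1)
    (z₁ z₂ g : Matrix.ProjectiveSpecialLinearGroup (Fin 2) F)
    (h11 : z₁ ≠ 1) (h12 : z₁ * z₁ = 1) (h21 : z₂ ≠ 1) (h22 : z₂ * z₂ = 1)
    (hne : z₁ ≠ z₂) (hc : z₁ * z₂ = z₂ * z₁) (hg1 : g * z₁ = z₁ * g) (hg2 : g * z₂ = z₂ * g) :
    g = 1 ∨ g = z₁ ∨ g = z₂ ∨ g = z₁ * z₂ := by
  have h2 : (2 : F) ≠ 0 := two_ne_zero_of_odd hodd
  haveI : Fact (Nat.Prime 2) := ⟨Nat.prime_two⟩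
  have ho1 : orderOf z₁ = 2 := orderOf_eq_prime (by rw [pow_two]; exact h12) h11
  have ho2 : orderOf z₂ = 2 := orderOf_eq_prime (by rw [pow_two]; exact h22) h21
  obtain ⟨J₁, rfl, hJ₁⟩ := lift_invol h2 z₁ ho1
  obtain ⟨c, hc1⟩ := isConj_iff.mp (isConj_of_sq hodd J₁ cs hJ₁ cs_sq)
  let φ : MulAut (Matrix.ProjectiveSpecialLinearGroup (Fin 2) F) :=
    MulAut.conj ((c : Matrix.SpecialLinearGroup (Fin 2) F) :
      Matrix.ProjectiveSpecialLinearGroup (Fin 2) F)
  have hφ1 : φ (J₁ : Matrix.ProjectiveSpecialLinearGroup (Fin 2) F) =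
      ((cs : Matrix.SpecialLinearGroup (Fin 2) F) :
        Matrix.ProjectiveSpecialLinearGroup (Fin 2) F) := by
    show ((c : Matrix.SpecialLinearGroup (Fin 2) F) :
      Matrix.ProjectiveSpecialLinearGroup (Fin 2) F) * J₁ * (c : Matrix.ProjectiveSpecialLinearGroup (Fin 2) F)⁻¹ = _
    rw [← QuotientGroup.mk_inv, ← QuotientGroup.mk_mul, ← QuotientGroup.mk_mul, hc1]
  have ho2' : orderOf (φ z₂) = 2 := by
    rw [MulEquiv.orderOf_eq]
    exact ho2
  have hne' : φ z₂ ≠ ((cs : Matrix.SpecialLinearGroup (Fin 2) F) :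
        Matrix.ProjectiveSpecialLinearGroup (Fin 2) F) := by
    rw [← hφ1]
    intro h
    exact hne (φ.injective h).symm
  have hc' : ((cs : Matrix.SpecialLinearGroup (Fin 2) F) :
        Matrix.ProjectiveSpecialLinearGroup (Fin 2) F) * φ z₂ = φ z₂ * ((cs : Matrix.SpecialLinearGroup (Fin 2) F) :
        Matrix.ProjectiveSpecialLinearGroup (Fin 2) F) := by
    rw [← hφ1, ← map_mul, ← map_mul, hc]
  obtain ⟨K, hK, hKz⟩ := mem_anti_of_invol h2 (φ z₂) ho2' hne' hc'
  have hg1' : φ g * ((cs : Matrix.SpecialLinearGroup (Fin 2) F) :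
        Matrix.ProjectiveSpecialLinearGroup (Fin 2) F) = ((cs : Matrix.SpecialLinearGroup (Fin 2) F) :
        Matrix.ProjectiveSpecialLinearGroup (Fin 2) F) * φ g := by
    rw [← hφ1, ← map_mul, ← map_mul, hg1]
  have hg2' : φ g * (K : Matrix.ProjectiveSpecialLinearGroup (Fin 2) F) = K * φ g := by
    rw [hKz, ← map_mul, ← map_mul, hg2]
  rcases cent_klein_cs' h2 (φ g) K hK hg1' hg2' with h | h | h | h
  · left
    exact (MulEquiv.map_eq_one_iff φ).mp h
  · right; left
    rw [← hφ1] at h
    exact φ.injective h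
  · right; right; left
    rw [hKz] at h
    exact φ.injective h
  · right; right; right
    rw [hKz, ← hφ1, ← map_mul] at h
    exact φ.injective h

end Cfsg.Agent.Lib.Helper16.Hall23
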