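import Mathlib

/-!
# A counting lemma for groups partitioned by self-normalising-up-to-index-two subgroups

`counting`: a finite group `K` with a family `pc g` of subgroups, one through each nonidentity
element, forming a conjugation-invariant partition with `|N(pc g) : pc g| ≤ 2`, either has some
`pc g` of index at most two or has order `1`, `12`, `24` or `60`.
-/

set_option autoImplicit false

namespace Cfsg.Agent.Lib.Helper16.Max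

theorem split_c {A m c : ℕ} (e : A = m * c) (hc : 2 ≤ c) :
    A = m * 2 ∨ A = m * 3 ∨ A = m * 4 ∨ A = m * 5 ∨ m * 6 ≤ A := by
  have h : c = 2 ∨ c = 3 ∨ c = 4 ∨ c = 5 ∨ 6 ≤ c := by omega
  rcases h with h | h | h | h | h
  · left; rw [e, h]
  · right; left; rw [e, h]
  · right; right; left; rw [e, h]
  · right; right; right; left; rw [e, h]
  · right; right; right; right; rw [e]; exact Nat.mul_le_mul_left m h

theorem ar2 (N m₁ c₁ A₁ v₁ m₂ c₂ A₂ v₂ : ℕ)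
    (e₁ : A₁ = m₁ * c₁) (hc₁ : 2 ≤ c₁) (hm₁ : 2 ≤ m₁) (hA₁ : A₁ = N ∨ 2 * A₁ = N)
    (hv₁ : v₁ + m₁ = A₁)
    (e₂ : A₂ = m₂ * c₂) (hc₂ : 2 ≤ c₂) (hm₂ : 2 ≤ m₂) (hA₂ : A₂ = N ∨ 2 * A₂ = N)
    (hv₂ : v₂ + m₂ = A₂)
    (hs : v₁ + v₂ + 1 = N) : N = 12 := by
  have s₁ := split_c e₁ hc₁
  have s₂ := split_c e₂ hc₂
  rcases hA₁ with hA₁ | hA₁ <;> rcases hA₂ with hA₂ | hA₂ <;>
  rcases s₁ with s₁ | s₁ | s₁ | s₁ | s₁ <;> rcases s₂ with s₂ | s₂ | s₂ | s₂ | s₂ <;> omega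

set_option maxHeartbeats 1000000 in
theorem ar3 (N m₁ c₁ A₁ v₁ m₂ c₂ A₂ v₂ m₃ c₃ A₃ v₃ : ℕ)
    (e₁ : A₁ = m₁ * c₁) (hc₁ : 2 ≤ c₁) (hm₁ : 2 ≤ m₁) (hA₁ : A₁ = N ∨ 2 * A₁ = N)
    (hv₁ : v₁ + m₁ = A₁)
    (e₂ : A₂ = m₂ * c₂) (hc₂ : 2 ≤ c₂) (hm₂ : 2 ≤ m₂) (hA₂ : A₂ = N ∨ 2 * A₂ = N)
    (hv₂ : v₂ + m₂ = A₂)
    (e₃ : A₃ = m₃ * c₃) (hc₃ : 2 ≤ c₃) (hm₃ : 2 ≤ m₃) (hA₃ : A₃ = N ∨ 2 * A₃ = N)
    (hv₃ : v₃ + m₃ = A₃)
    (hs : v₁ + v₂ + v₃ + 1 = N) : N = 12 ∨ N = 24 ∨ N = 60 := by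
  have t₁ : m₁ * 2 ≤ A₁ := by rw [e₁]; exact Nat.mul_le_mul_left m₁ hc₁
  have t₂ : m₂ * 2 ≤ A₂ := by rw [e₂]; exact Nat.mul_le_mul_left m₂ hc₂
  have t₃ : m₃ * 2 ≤ A₃ := by rw [e₃]; exact Nat.mul_le_mul_left m₃ hc₃
  rcases hA₁ with hA₁ | hA₁
  · rcases hA₂ with hA₂ | hA₂ <;> rcases hA₃ with hA₃ | hA₃ <;> omega
  rcases hA₂ with hA₂ | hA₂
  · rcases hA₃ with hA₃ | hA₃ <;> omega
  rcases hA₃ with hA₃ | hA₃
  · omega
  have s₁ := split_c e₁ hc₁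
  have s₂ := split_c e₂ hc₂
  have s₃ := split_c e₃ hc₃
  clear e₁ e₂ e₃ hc₁ hc₂ hc₃ t₁ t₂ t₃
  rcases s₁ with s₁ | s₁ | s₁ | s₁ | s₁ <;> rcases s₂ with s₂ | s₂ | s₂ | s₂ | s₂ <;>
  rcases s₃ with s₃ | s₃ | s₃ | s₃ | s₃ <;> omega

theorem ar4 (N m c A v : ℕ) (e : A = m * c) (hc : 2 ≤ c) (hA : A = N ∨ 2 * A = N)
    (hv : v + m = A) : N ≤ 4 * v := by
  have h : m * 2 ≤ m * c := Nat.mul_le_mul_left m hc
  rcases hA with hA | hA <;> omega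

variable {K : Type*} [Group K]

/-- conjugates of the nonidentity elements of `pc g` -/
def Cov (pc : K → Subgroup K) (g : K) : Set K :=
  {h | ∃ k x, x ∈ pc g ∧ x ≠ 1 ∧ h = k * x * k⁻¹}

theorem cov_self (pc : K → Subgroup K) (h1 : ∀ g, g ≠ 1 → g ∈ pc g) (g : K) (hg : g ≠ 1) :
    g ∈ Cov pc g :=
  ⟨1, g, h1 g hg, hg, by group⟩

theorem cov_ne_one (pc : K → Subgroup K) (g h : K) (hh : h ∈ Cov pc g) : h ≠ 1 := by
  obtain ⟨k, x, -, hx1, rfl⟩ := hh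
  intro h
  exact hx1 (conj_eq_one_iff.mp h)

theorem cov_eq (pc : K → Subgroup K)
    (h2 : ∀ g h, g ≠ 1 → h ≠ 1 → h ∈ pc g → pc h = pc g)
    (h3 : ∀ g k x, g ≠ 1 → (x ∈ pc (k * g * k⁻¹) ↔ k⁻¹ * x * k ∈ pc g))
    (g g' : K) (hg : g ≠ 1) (hg' : g' ∈ Cov pc g) : Cov pc g' = Cov pc g := by
  obtain ⟨k, x, hx, hx1, rfl⟩ := hg'
  have hpx : pc x = pc g := h2 g x hg hx1 hx
  have key : ∀ y, y ∈ pc (k * x * k⁻¹) ↔ k⁻¹ * y * k ∈ pc g := by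
    intro y
    rw [h3 x k y hx1, hpx]
  ext h
  constructor
  · rintro ⟨k', y, hy, hy1, rfl⟩
    refine ⟨k' * k, k⁻¹ * y * k, (key y).mp hy, ?_, by group⟩
    intro h0
    apply hy1
    have e : y = k * (k⁻¹ * y * k) * k⁻¹ := by group
    rw [e, h0]
    group
  · rintro ⟨k', z, hz, hz1, rfl⟩
    refine ⟨k' * k⁻¹, k * z * k⁻¹, (key _).mpr ?_, ?_, by group⟩
    · have e : k⁻¹ * (k * z * k⁻¹) * k = z := by group
      rw [e]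
      exact hz
    · intro h0
      exact hz1 (conj_eq_one_iff.mp h0)

theorem cov_card [Finite K] (pc : K → Subgroup K)
    (h2 : ∀ g h, g ≠ 1 → h ≠ 1 → h ∈ pc g → pc h = pc g)
    (h3 : ∀ g k x, g ≠ 1 → (x ∈ pc (k * g * k⁻¹) ↔ k⁻¹ * x * k ∈ pc g))
    (g : K) (hg : g ≠ 1) :
    (Cov pc g).ncard * Nat.card (Subgroup.normalizer (pc g : Set K)) =
      Nat.card K * (Nat.card (pc g) - 1) := by
  classical
  have hch : ∀ h : K, ∃ k x : K, h ∈ Cov pc g → (x ∈ pc g ∧ x ≠ 1 ∧ h = k * x * k⁻¹) := by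
    intro h
    by_cases hh : h ∈ Cov pc g
    · obtain ⟨k, x, hx⟩ := hh
      exact ⟨k, x, fun _ => hx⟩
    · exact ⟨1, 1, fun h' => absurd h' hh⟩
  choose kk xx hkx using hch
  have hnorm : ∀ m : K, m ∈ Subgroup.normalizer (pc g : Set K) ↔
      ∀ y, y ∈ pc g ↔ m * y * m⁻¹ ∈ pc g := fun m => Subgroup.mem_normalizer_iff
  have hbij : (Cov pc g ×ˢ ((Subgroup.normalizer (pc g : Set K) : Subgroup K) : Set K)).ncard =
      ((Set.univ : Set K) ×ˢ (((pc g : Subgroup K) : Set K) \ {1})).ncard := by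
    apply Set.ncard_congr (fun a _ => (kk a.1 * a.2⁻¹, a.2 * xx a.1 * a.2⁻¹))
    · rintro ⟨h, m⟩ ⟨hh, hm⟩
      obtain ⟨hx, hx1, -⟩ := hkx h hh
      refine ⟨Set.mem_univ _, ?_, ?_⟩
      · exact ((hnorm m).mp hm (xx h)).mp hx
      · intro h0
        exact hx1 (conj_eq_one_iff.mp h0)
    · rintro ⟨h, m⟩ ⟨h', m'⟩ ⟨hh, hm⟩ ⟨hh', hm'⟩ heq
      obtain ⟨-, -, e⟩ := hkx h hh
      obtain ⟨-, -, e'⟩ := hkx h' hh'
      have e1 : kk h * m⁻¹ = kk h' * m'⁻¹ := congrArg Prod.fst heq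
      have e2 : m * xx h * m⁻¹ = m' * xx h' * m'⁻¹ := congrArg Prod.snd heq
      have e3 : h = h' := by
        calc h = kk h * xx h * (kk h)⁻¹ := e
          _ = (kk h * m⁻¹) * (m * xx h * m⁻¹) * (kk h * m⁻¹)⁻¹ := by group
          _ = (kk h' * m'⁻¹) * (m' * xx h' * m'⁻¹) * (kk h' * m'⁻¹)⁻¹ := by rw [e1, e2]
          _ = kk h' * xx h' * (kk h')⁻¹ := by group
          _ = h' := e'.symm
      subst e3
      have e4 : m = m' := inv_injective (mul_left_cancel e1)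
      rw [e4]
    · rintro ⟨k, x⟩ ⟨-, hx, hx1⟩
      have hx1' : x ≠ 1 := hx1
      have hh : k * x * k⁻¹ ∈ Cov pc g := ⟨k, x, hx, hx1', rfl⟩
      obtain ⟨hxh, hxh1, e⟩ := hkx _ hh
      have hxm : (k⁻¹ * kk (k * x * k⁻¹)) * xx (k * x * k⁻¹) * (k⁻¹ * kk (k * x * k⁻¹))⁻¹ = x := by
        calc (k⁻¹ * kk (k * x * k⁻¹)) * xx (k * x * k⁻¹) * (k⁻¹ * kk (k * x * k⁻¹))⁻¹
            = k⁻¹ * (kk (k * x * k⁻¹) * xx (k * x * k⁻¹) * (kk (k * x * k⁻¹))⁻¹) * k := by group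
          _ = k⁻¹ * (k * x * k⁻¹) * k := by rw [← e]
          _ = x := by group
      have hpx : pc x = pc g := h2 g x hg hx1' hx
      have hpxh : pc (xx (k * x * k⁻¹)) = pc g := h2 g _ hg hxh1 hxh
      have key : ∀ y, y ∈ pc g ↔
          (k⁻¹ * kk (k * x * k⁻¹))⁻¹ * y * (k⁻¹ * kk (k * x * k⁻¹)) ∈ pc g := by
        intro y
        have h5 := h3 (xx (k * x * k⁻¹)) (k⁻¹ * kk (k * x * k⁻¹)) y hxh1
        rw [hxm, hpx, hpxh] at h5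
        exact h5
      have hmem : k⁻¹ * kk (k * x * k⁻¹) ∈ Subgroup.normalizer (pc g : Set K) := by
        rw [hnorm]
        intro y
        have h6 := key ((k⁻¹ * kk (k * x * k⁻¹)) * y * (k⁻¹ * kk (k * x * k⁻¹))⁻¹)
        have e7 : (k⁻¹ * kk (k * x * k⁻¹))⁻¹ *
            ((k⁻¹ * kk (k * x * k⁻¹)) * y * (k⁻¹ * kk (k * x * k⁻¹))⁻¹) *
            (k⁻¹ * kk (k * x * k⁻¹)) = y := by group
        rw [e7] at h6
        exact h6.symm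
      refine ⟨(k * x * k⁻¹, k⁻¹ * kk (k * x * k⁻¹)), ⟨hh, hmem⟩, ?_⟩
      refine Prod.ext ?_ hxm
      show kk (k * x * k⁻¹) * (k⁻¹ * kk (k * x * k⁻¹))⁻¹ = k
      group
  rw [Set.ncard_prod, Set.ncard_prod, Set.ncard_univ,
    Set.ncard_sdiff_singleton_of_mem (Subgroup.one_mem _)] at hbij
  exact hbij

theorem class_data [Finite K] (pc : K → Subgroup K)
    (h1 : ∀ g, g ≠ 1 → g ∈ pc g)
    (h2 : ∀ g h, g ≠ 1 → h ≠ 1 → h ∈ pc g → pc h = pc g)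
    (h3 : ∀ g k x, g ≠ 1 → (x ∈ pc (k * g * k⁻¹) ↔ k⁻¹ * x * k ∈ pc g))
    (h4 : ∀ g, g ≠ 1 → Nat.card (Subgroup.normalizer (pc g : Set K)) ≤ 2 * Nat.card (pc g))
    (g : K) (hg : g ≠ 1) :
    ∃ m c A : ℕ, c = Nat.card (pc g) ∧ 2 ≤ c ∧ 1 ≤ m ∧ A = m * c ∧
      (A = Nat.card K ∨ 2 * A = Nat.card K) ∧ (Cov pc g).ncard + m = A ∧
      (m = 1 → Nat.card K ≤ 2 * c) := by
  have hF1 := cov_card pc h2 h3 g hg
  have hdvd1 : Nat.card (pc g) ∣ Nat.card (Subgroup.normalizer (pc g : Set K)) :=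
    Subgroup.card_dvd_of_le Subgroup.le_normalizer
  have hdvd2 : Nat.card (Subgroup.normalizer (pc g : Set K)) ∣ Nat.card K :=
    Subgroup.card_subgroup_dvd_card _
  have hc2 : 2 ≤ Nat.card (pc g) := by
    have hne : pc g ≠ ⊥ := fun h => hg (Subgroup.mem_bot.mp (h ▸ h1 g hg))
    have h5 : Nat.card (pc g) ≠ 1 := fun h => hne (Subgroup.eq_bot_of_card_eq _ h)
    have h6 : 0 < Nat.card (pc g) := Nat.card_pos
    omega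
  have h4g := h4 g hg
  have hnpos : 0 < Nat.card (Subgroup.normalizer (pc g : Set K)) := Nat.card_pos
  have hNpos : 0 < Nat.card K := Nat.card_pos
  obtain ⟨c, hc⟩ : ∃ c, c = Nat.card (pc g) := ⟨_, rfl⟩
  obtain ⟨n, hn⟩ : ∃ n, n = Nat.card (Subgroup.normalizer (pc g : Set K)) := ⟨_, rfl⟩
  obtain ⟨N, hN⟩ : ∃ N, N = Nat.card K := ⟨_, rfl⟩
  rw [← hc, ← hn] at hdvd1 h4g hF1
  rw [← hn] at hdvd2 hnpos
  rw [← hN] at hdvd2 hF1 hNpos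
  rw [← hc] at hc2
  rw [← hN]
  obtain ⟨e, he⟩ := hdvd1
  obtain ⟨m, hm⟩ := hdvd2
  have he12 : e = 1 ∨ e = 2 := by
    have h5 : e ≤ 2 := by
      by_contra hcon
      have h6 : c * 3 ≤ c * e := Nat.mul_le_mul_left c (by omega)
      omega
    have h7 : e ≠ 0 := by
      rintro rfl
      rw [Nat.mul_zero] at he
      omega
    omega
  have hmpos : 1 ≤ m := by
    rcases Nat.eq_zero_or_pos m with h0 | h0
    · rw [h0, Nat.mul_zero] at hm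
      omega
    · exact h0
  have hcov : (Cov pc g).ncard = m * (c - 1) := by
    have h5 : (Cov pc g).ncard * n = (m * (c - 1)) * n := by
      rw [hF1, hm]
      ring
    exact Nat.eq_of_mul_eq_mul_right hnpos h5
  refine ⟨m, c, m * c, hc, hc2, hmpos, rfl, ?_, ?_, ?_⟩
  · rcases he12 with h | h
    · left
      rw [hm, he, h]
      ring
    · right
      rw [hm, he, h]
      ring
  · rw [hcov]
    have h8 : c = (c - 1) + 1 := by omega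
    calc m * (c - 1) + m = m * ((c - 1) + 1) := by ring
      _ = m * c := by rw [← h8]
  · intro h
    rw [hm, h, Nat.mul_one]
    exact h4g

theorem counting [Finite K] (pc : K → Subgroup K)
    (h1 : ∀ g, g ≠ 1 → g ∈ pc g)
    (h2 : ∀ g h, g ≠ 1 → h ≠ 1 → h ∈ pc g → pc h = pc g)
    (h3 : ∀ g k x, g ≠ 1 → (x ∈ pc (k * g * k⁻¹) ↔ k⁻¹ * x * k ∈ pc g))
    (h4 : ∀ g, g ≠ 1 → Nat.card (Subgroup.normalizer (pc g : Set K)) ≤ 2 * Nat.card (pc g)) :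
    (∃ g, g ≠ 1 ∧ Nat.card K ≤ 2 * Nat.card (pc g)) ∨ Nat.card K = 1 ∨ Nat.card K = 12 ∨
      Nat.card K = 24 ∨ Nat.card K = 60 := by
  classical
  by_contra hcon
  rw [not_or, not_or, not_or, not_or] at hcon
  obtain ⟨hno, hN1, hN12, hN24, hN60⟩ := hcon
  have hdata : ∀ g, g ≠ 1 → ∃ m c A : ℕ, 2 ≤ c ∧ 2 ≤ m ∧ A = m * c ∧
      (A = Nat.card K ∨ 2 * A = Nat.card K) ∧ (Cov pc g).ncard + m = A := by
    intro g hg
    obtain ⟨m, c, A, hc, hc2, hm1, hA, hAN, hcov, hm⟩ := class_data pc h1 h2 h3 h4 g hg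
    refine ⟨m, c, A, hc2, ?_, hA, hAN, hcov⟩
    by_contra h
    have hm1' : m = 1 := by omega
    have h6 := hm hm1'
    rw [hc] at h6
    exact hno ⟨g, hg, h6⟩
  have hKpos : 0 < Nat.card K := Nat.card_pos
  have hK : 1 < Nat.card K := by omega
  haveI : Nontrivial K := Finite.one_lt_card_iff_nontrivial.mp hK
  obtain ⟨g₁, hg₁⟩ := exists_ne (1 : K)
  have hsub : ∀ g, Cov pc g ⊆ {h : K | h ≠ 1} := fun g h hh => cov_ne_one pc g h hh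
  have hΩ : ({h : K | h ≠ 1} : Set K).ncard + 1 = Nat.card K := by
    have h0 : ({h : K | h ≠ 1} : Set K) = Set.univ \ {1} := by
      ext z
      simp
    rw [h0, Set.ncard_sdiff_singleton_of_mem (Set.mem_univ _), Set.ncard_univ]
    omega
  have hdisj : ∀ g g', g ≠ 1 → g' ≠ 1 → g' ∉ Cov pc g → Disjoint (Cov pc g) (Cov pc g') := by
    intro g g' hg hg' hnot
    rw [Set.disjoint_left]
    intro h hh hh'
    apply hnot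
    have e1 := cov_eq pc h2 h3 g h hg hh
    have e2 := cov_eq pc h2 h3 g' h hg' hh'
    rw [← e1, e2]
    exact cov_self pc h1 g' hg'
  obtain ⟨m₁, c₁, A₁, hc₁, hm₁, e₁, hA₁, hv₁⟩ := hdata g₁ hg₁
  by_cases hcase1 : Cov pc g₁ = {h : K | h ≠ 1}
  · rw [hcase1] at hv₁
    omega
  obtain ⟨g₂, hg₂, hg₂'⟩ : ∃ g, g ≠ 1 ∧ g ∉ Cov pc g₁ := by
    by_contra h
    push_neg at h
    exact hcase1 (Set.Subset.antisymm (hsub g₁) (fun g hg => h g hg))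
  obtain ⟨m₂, c₂, A₂, hc₂, hm₂, e₂, hA₂, hv₂⟩ := hdata g₂ hg₂
  have d12 := hdisj g₁ g₂ hg₁ hg₂ hg₂'
  have hu2 : (Cov pc g₁ ∪ Cov pc g₂).ncard = (Cov pc g₁).ncard + (Cov pc g₂).ncard :=
    Set.ncard_union_eq d12
  by_cases hcase2 : Cov pc g₁ ∪ Cov pc g₂ = {h : K | h ≠ 1}
  · rw [hcase2] at hu2
    exact hN12 (ar2 (Nat.card K) m₁ c₁ A₁ _ m₂ c₂ A₂ _ e₁ hc₁ hm₁ hA₁ hv₁ e₂ hc₂ hm₂ hA₂ hv₂
      (by omega))
  obtain ⟨g₃, hg₃, hg₃'⟩ : ∃ g, g ≠ 1 ∧ g ∉ Cov pc g₁ ∪ Cov pc g₂ := by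
    by_contra h
    push_neg at h
    exact hcase2 (Set.Subset.antisymm (Set.union_subset (hsub g₁) (hsub g₂))
      (fun g hg => h g hg))
  obtain ⟨m₃, c₃, A₃, hc₃, hm₃, e₃, hA₃, hv₃⟩ := hdata g₃ hg₃
  have d13 := hdisj g₁ g₃ hg₁ hg₃ (fun h => hg₃' (Or.inl h))
  have d23 := hdisj g₂ g₃ hg₂ hg₃ (fun h => hg₃' (Or.inr h))
  have hu3 : (Cov pc g₁ ∪ Cov pc g₂ ∪ Cov pc g₃).ncard =
      (Cov pc g₁).ncard + (Cov pc g₂).ncard + (Cov pc g₃).ncard := by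
    rw [Set.ncard_union_eq (Set.disjoint_union_left.mpr ⟨d13, d23⟩), hu2]
  by_cases hcase3 : Cov pc g₁ ∪ Cov pc g₂ ∪ Cov pc g₃ = {h : K | h ≠ 1}
  · rw [hcase3] at hu3
    rcases ar3 (Nat.card K) m₁ c₁ A₁ _ m₂ c₂ A₂ _ m₃ c₃ A₃ _ e₁ hc₁ hm₁ hA₁ hv₁ e₂ hc₂ hm₂ hA₂ hv₂
      e₃ hc₃ hm₃ hA₃ hv₃ (by omega) with h | h | h
    · exact hN12 h
    · exact hN24 h
    · exact hN60 h
  obtain ⟨g₄, hg₄, hg₄'⟩ : ∃ g, g ≠ 1 ∧ g ∉ Cov pc g₁ ∪ Cov pc g₂ ∪ Cov pc g₃ := by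
    by_contra h
    push_neg at h
    exact hcase3 (Set.Subset.antisymm
      (Set.union_subset (Set.union_subset (hsub g₁) (hsub g₂)) (hsub g₃))
      (fun g hg => h g hg))
  obtain ⟨m₄, c₄, A₄, hc₄, hm₄, e₄, hA₄, hv₄⟩ := hdata g₄ hg₄
  have d14 := hdisj g₁ g₄ hg₁ hg₄ (fun h => hg₄' (Or.inl (Or.inl h)))
  have d24 := hdisj g₂ g₄ hg₂ hg₄ (fun h => hg₄' (Or.inl (Or.inr h)))
  have d34 := hdisj g₃ g₄ hg₃ hg₄ (fun h => hg₄' (Or.inr h))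
  have hu4 : (Cov pc g₁ ∪ Cov pc g₂ ∪ Cov pc g₃ ∪ Cov pc g₄).ncard =
      (Cov pc g₁).ncard + (Cov pc g₂).ncard + (Cov pc g₃).ncard + (Cov pc g₄).ncard := by
    rw [Set.ncard_union_eq (Set.disjoint_union_left.mpr
      ⟨Set.disjoint_union_left.mpr ⟨d14, d24⟩, d34⟩), hu3]
  have hle : (Cov pc g₁ ∪ Cov pc g₂ ∪ Cov pc g₃ ∪ Cov pc g₄).ncard ≤
      ({h : K | h ≠ 1} : Set K).ncard :=
    Set.ncard_le_ncard (Set.union_subset (Set.union_subset (Set.union_subset (hsub g₁) (hsub g₂))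
      (hsub g₃)) (hsub g₄))
  have q1 := ar4 (Nat.card K) m₁ c₁ A₁ _ e₁ hc₁ hA₁ hv₁
  have q2 := ar4 (Nat.card K) m₂ c₂ A₂ _ e₂ hc₂ hA₂ hv₂
  have q3 := ar4 (Nat.card K) m₃ c₃ A₃ _ e₃ hc₃ hA₃ hv₃
  have q4 := ar4 (Nat.card K) m₄ c₄ A₄ _ e₄ hc₄ hA₄ hv₄
  omega

end Cfsg.Agent.Lib.Helper16.Max
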