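import Mathlib
import Cfsg.Agent.Lib.Helper16.Hall23a
import Cfsg.Agent.Lib.Helper16.Max1

/-!
# Subgroups of `PSL₂(F)` all of whose nonidentity elements are regular semisimple

`semisimple_case`: such a subgroup has an abelian subgroup of index at most two, or has order
`1`, `12`, `24` or `60`.
-/

set_option autoImplicit false

namespace Cfsg.Agent.Lib.Helper16.Max

open Cfsg.Agent.Lib.Helper14.SL2Odd Cfsg.Agent.Lib.Helper14.GL2Conj
open Cfsg.Agent.Lib.Helper16.SL2Four Cfsg.Agent.Lib.Helper16.PSL2A4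

variable {F : Type*} [Field F]

theorem par3 (v1 v2 v3 u1 u2 u3 w1 w2 w3 : F) (hv : v1 ≠ 0 ∨ v2 ≠ 0 ∨ v3 ≠ 0)
    (c12 : u1 * v2 = u2 * v1) (c13 : u1 * v3 = u3 * v1) (c23 : u2 * v3 = u3 * v2)
    (d12 : w1 * v2 = w2 * v1) (d13 : w1 * v3 = w3 * v1) (d23 : w2 * v3 = w3 * v2) :
    u1 * w2 = u2 * w1 ∧ u1 * w3 = u3 * w1 ∧ u2 * w3 = u3 * w2 := by
  rcases hv with h | h | h
  · refine ⟨mul_left_cancel₀ h ?_, mul_left_cancel₀ h ?_, mul_left_cancel₀ h ?_⟩
    · linear_combination (-u1) * d12 + w1 * c12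
    · linear_combination (-u1) * d13 + w1 * c13
    · linear_combination (-u2) * d13 + u3 * d12 + w1 * c23
  · refine ⟨mul_left_cancel₀ h ?_, mul_left_cancel₀ h ?_, mul_left_cancel₀ h ?_⟩
    · linear_combination (-u2) * d12 + w2 * c12
    · linear_combination (-u1) * d23 - u3 * d12 + w2 * c13
    · linear_combination (-u2) * d23 + w2 * c23
  · refine ⟨mul_left_cancel₀ h ?_, mul_left_cancel₀ h ?_, mul_left_cancel₀ h ?_⟩
    · linear_combination u1 * d23 - u2 * d13 + w3 * c12
    · linear_combination (-u3) * d13 + w3 * c13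
    · linear_combination (-u3) * d23 + w3 * c23

theorem nonscalar (X : Matrix.SpecialLinearGroup (Fin 2) F) (hX1 : X ≠ 1) (hX2 : X ≠ negOne)
    (x y z w : F) (hXm : (X : Matrix (Fin 2) (Fin 2) F) = !![x, y; z, w])
    (hdet : x * w - y * z = 1) : x - w ≠ 0 ∨ y ≠ 0 ∨ z ≠ 0 := by
  by_contra hcon
  push_neg at hcon
  obtain ⟨hxw, hy, hz⟩ := hcon
  have hx : (x - 1) * (x + 1) = 0 := by linear_combination hdet + x * hxw + z * hy
  rcases mul_eq_zero.mp hx with h | h
  · apply hX1
    apply Subtype.ext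
    rw [hXm, Matrix.SpecialLinearGroup.coe_one, Matrix.one_fin_two]
    exact mat_eq (by linear_combination h) hy hz (by linear_combination h - hxw)
  · apply hX2
    apply Subtype.ext
    rw [hXm, negOne_coe]
    exact mat_eq (by linear_combination h) hy hz (by linear_combination h - hxw)

/-- the centraliser of a noncentral element of `SL₂` is commutative -/
theorem comm_trans (X Y Z : Matrix.SpecialLinearGroup (Fin 2) F) (hX1 : X ≠ 1) (hX2 : X ≠ negOne)
    (hXY : X * Y = Y * X) (hXZ : X * Z = Z * X) : Y * Z = Z * Y := by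
  obtain ⟨x, y, z, w, hXm, hXdet⟩ := sl_form X
  obtain ⟨a, b, c, d, hYm, -⟩ := sl_form Y
  obtain ⟨a', b', c', d', hZm, -⟩ := sl_form Z
  have h1 : (X : Matrix (Fin 2) (Fin 2) F) * (Y : Matrix (Fin 2) (Fin 2) F) =
      (Y : Matrix (Fin 2) (Fin 2) F) * (X : Matrix (Fin 2) (Fin 2) F) := by
    rw [← Matrix.SpecialLinearGroup.coe_mul, ← Matrix.SpecialLinearGroup.coe_mul, hXY]
  have h2 : (X : Matrix (Fin 2) (Fin 2) F) * (Z : Matrix (Fin 2) (Fin 2) F) =
      (Z : Matrix (Fin 2) (Fin 2) F) * (X : Matrix (Fin 2) (Fin 2) F) := by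
    rw [← Matrix.SpecialLinearGroup.coe_mul, ← Matrix.SpecialLinearGroup.coe_mul, hXZ]
  rw [hXm, hYm, Matrix.mul_fin_two, Matrix.mul_fin_two] at h1
  rw [hXm, hZm, Matrix.mul_fin_two, Matrix.mul_fin_two] at h2
  obtain ⟨e00, e01, e10, -⟩ := mat_entries h1
  obtain ⟨f00, f01, f10, -⟩ := mat_entries h2
  have hns := nonscalar X hX1 hX2 x y z w hXm hXdet
  obtain ⟨p1, p2, p3⟩ := par3 (x - w) y z (a - d) b c (a' - d') b' c' hns
    (by linear_combination (-1 : F) * e01) (by linear_combination e10)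
    (by linear_combination (-1 : F) * e00)
    (by linear_combination (-1 : F) * f01) (by linear_combination f10)
    (by linear_combination (-1 : F) * f00)
  apply Subtype.ext
  rw [Matrix.SpecialLinearGroup.coe_mul, Matrix.SpecialLinearGroup.coe_mul, hYm, hZm,
    Matrix.mul_fin_two, Matrix.mul_fin_two]
  exact mat_eq (by linear_combination p3) (by linear_combination p1)
    (by linear_combination (-1 : F) * p2) (by linear_combination (-1 : F) * p3)

/-- the image in `PSL₂` of the centraliser of the lifts of `g` -/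
def tor (g : Matrix.ProjectiveSpecialLinearGroup (Fin 2) F) :
    Subgroup (Matrix.ProjectiveSpecialLinearGroup (Fin 2) F) :=
  Subgroup.map (QuotientGroup.mk' (Subgroup.center (Matrix.SpecialLinearGroup (Fin 2) F)))
    (Subgroup.centralizer {X : Matrix.SpecialLinearGroup (Fin 2) F |
      (X : Matrix.ProjectiveSpecialLinearGroup (Fin 2) F) = g})

theorem mem_tor (X : Matrix.SpecialLinearGroup (Fin 2) F)
    (y : Matrix.ProjectiveSpecialLinearGroup (Fin 2) F) :
    y ∈ tor (X : Matrix.ProjectiveSpecialLinearGroup (Fin 2) F) ↔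
      ∃ Y : Matrix.SpecialLinearGroup (Fin 2) F, X * Y = Y * X ∧
        (Y : Matrix.ProjectiveSpecialLinearGroup (Fin 2) F) = y := by
  unfold tor
  rw [Subgroup.mem_map]
  constructor
  · rintro ⟨Y, hY, rfl⟩
    rw [Subgroup.mem_centralizer_iff] at hY
    exact ⟨Y, hY X rfl, rfl⟩
  · rintro ⟨Y, hY, rfl⟩
    refine ⟨Y, ?_, rfl⟩
    rw [Subgroup.mem_centralizer_iff]
    intro X' hX'
    rcases (mk_eq_iff X' X).mp hX' with h | h
    · rw [← h]
      exact hY
    · have e : X' = X * negOne := by rw [h, mul_assoc, negOne_mul_negOne, mul_one]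
      rw [e, mul_assoc, ← negOne_comm Y, ← mul_assoc, hY, mul_assoc]

theorem self_mem_tor (g : Matrix.ProjectiveSpecialLinearGroup (Fin 2) F) : g ∈ tor g := by
  obtain ⟨X, rfl⟩ := QuotientGroup.mk_surjective g
  exact (mem_tor X _).mpr ⟨X, rfl, rfl⟩

theorem ne_of_mk_ne_one (X : Matrix.SpecialLinearGroup (Fin 2) F)
    (h : (X : Matrix.ProjectiveSpecialLinearGroup (Fin 2) F) ≠ 1) : X ≠ 1 ∧ X ≠ negOne :=
  ⟨fun e => h (by rw [e]; rfl), fun e => h (by rw [e]; exact mk_negOne)⟩

theorem tor_eq (g h : Matrix.ProjectiveSpecialLinearGroup (Fin 2) F) (hg : g ≠ 1) (hh : h ≠ 1)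
    (hmem : h ∈ tor g) : tor h = tor g := by
  obtain ⟨X, rfl⟩ := QuotientGroup.mk_surjective g
  obtain ⟨Y, hXY, rfl⟩ := (mem_tor X h).mp hmem
  obtain ⟨hX1, hX2⟩ := ne_of_mk_ne_one X hg
  obtain ⟨hY1, hY2⟩ := ne_of_mk_ne_one Y hh
  ext y
  rw [mem_tor, mem_tor]
  constructor
  · rintro ⟨Z, hYZ, rfl⟩
    exact ⟨Z, comm_trans Y X Z hY1 hY2 hXY.symm hYZ, rfl⟩
  · rintro ⟨Z, hXZ, rfl⟩
    exact ⟨Z, comm_trans X Y Z hX1 hX2 hXY hXZ, rfl⟩

theorem tor_conj (g k x : Matrix.ProjectiveSpecialLinearGroup (Fin 2) F) :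
    x ∈ tor (k * g * k⁻¹) ↔ k⁻¹ * x * k ∈ tor g := by
  obtain ⟨X, rfl⟩ := QuotientGroup.mk_surjective g
  obtain ⟨M, rfl⟩ := QuotientGroup.mk_surjective k
  have e : ((M : Matrix.ProjectiveSpecialLinearGroup (Fin 2) F) *
      (X : Matrix.ProjectiveSpecialLinearGroup (Fin 2) F) *
      (M : Matrix.ProjectiveSpecialLinearGroup (Fin 2) F)⁻¹) =
      ((M * X * M⁻¹ : Matrix.SpecialLinearGroup (Fin 2) F) :
        Matrix.ProjectiveSpecialLinearGroup (Fin 2) F) := rfl
  rw [e, mem_tor, mem_tor]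
  constructor
  · rintro ⟨Y, hY, rfl⟩
    refine ⟨M⁻¹ * Y * M, ?_, rfl⟩
    calc X * (M⁻¹ * Y * M) = M⁻¹ * (M * X * M⁻¹ * Y) * M := by group
      _ = M⁻¹ * (Y * (M * X * M⁻¹)) * M := by rw [hY]
      _ = M⁻¹ * Y * M * X := by group
  · rintro ⟨Y', hY', hx⟩
    refine ⟨M * Y' * M⁻¹, ?_, ?_⟩
    · calc M * X * M⁻¹ * (M * Y' * M⁻¹) = M * (X * Y') * M⁻¹ := by group
        _ = M * (Y' * X) * M⁻¹ := by rw [hY']
        _ = M * Y' * M⁻¹ * (M * X * M⁻¹) := by group
    · show (M : Matrix.ProjectiveSpecialLinearGroup (Fin 2) F) *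
        (Y' : Matrix.ProjectiveSpecialLinearGroup (Fin 2) F) *
        (M : Matrix.ProjectiveSpecialLinearGroup (Fin 2) F)⁻¹ = x
      rw [hx]
      group

/-- an element of the centraliser of a regular semisimple `X` with the same trace is `X^{±1}` -/
theorem tr_cases (h2 : (2 : F) ≠ 0) (X Y : Matrix.SpecialLinearGroup (Fin 2) F)
    (hc : X * Y = Y * X) (ht : tr2 Y = tr2 X) (hss : (tr2 X) ^ 2 ≠ 4) : Y = X ∨ Y = X⁻¹ := by
  obtain ⟨x, y, z, w, hXm, hXdet⟩ := sl_form X
  obtain ⟨a, b, c, d, hYm, hYdet⟩ := sl_form Y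
  have h1 : (X : Matrix (Fin 2) (Fin 2) F) * (Y : Matrix (Fin 2) (Fin 2) F) =
      (Y : Matrix (Fin 2) (Fin 2) F) * (X : Matrix (Fin 2) (Fin 2) F) := by
    rw [← Matrix.SpecialLinearGroup.coe_mul, ← Matrix.SpecialLinearGroup.coe_mul, hc]
  rw [hXm, hYm, Matrix.mul_fin_two, Matrix.mul_fin_two] at h1
  obtain ⟨e00, e01, e10, -⟩ := mat_entries h1
  have ht' : a + d = x + w := by
    unfold tr2 at ht
    rw [hXm, hYm] at ht
    simpa using ht
  have hQ : (x - w) ^ 2 + 4 * y * z ≠ 0 := by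
    intro h0
    apply hss
    unfold tr2
    rw [hXm]
    simp
    linear_combination h0 + 4 * hXdet
  have c12 : (a - d) * y = b * (x - w) := by linear_combination (-1 : F) * e01
  have c13 : (a - d) * z = c * (x - w) := by linear_combination e10
  have c23 : b * z = c * y := by linear_combination (-1 : F) * e00
  have hq : (a - d) ^ 2 + 4 * b * c = (x - w) ^ 2 + 4 * y * z := by
    linear_combination (a + d + x + w) * ht' - 4 * hYdet + 4 * hXdet
  have hD : (a - d) ^ 2 = (x - w) ^ 2 := by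
    have h5 : ((a - d) ^ 2 - (x - w) ^ 2) * ((x - w) ^ 2 + 4 * y * z) = 0 := by
      linear_combination 4 * (a - d) * z * c12 + 4 * b * (x - w) * c13 + (x - w) ^ 2 * hq
    rcases mul_eq_zero.mp h5 with h | h
    · linear_combination h
    · exact absurd h hQ
  have hB : b ^ 2 = y ^ 2 := by
    have h5 : (b ^ 2 - y ^ 2) * ((x - w) ^ 2 + 4 * y * z) = 0 := by
      linear_combination (-(b * (x - w) + y * (a - d))) * c12 + 4 * y * b * c23 + y ^ 2 * hq
    rcases mul_eq_zero.mp h5 with h | h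
    · linear_combination h
    · exact absurd h hQ
  have key : (a - d = x - w ∧ b = y ∧ c = z) ∨ (a - d = -(x - w) ∧ b = -y ∧ c = -z) := by
    by_cases hE : x - w = 0
    · have hD0 : a - d = 0 := by
        have h5 : (a - d) ^ 2 = 0 := by linear_combination hD + (x - w) * hE
        exact (pow_eq_zero_iff (n := 2) (by norm_num)).mp h5
      have hyz : y ≠ 0 := by
        intro hy
        apply hQ
        linear_combination (x - w) * hE + 4 * z * hy
      have hby : b = y ∨ b = -y := by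
        have h5 : (b - y) * (b + y) = 0 := by linear_combination hB
        rcases mul_eq_zero.mp h5 with h | h
        · left
          linear_combination h
        · right
          linear_combination h
      rcases hby with h | h
      · left
        refine ⟨hD0.trans hE.symm, h, ?_⟩
        apply mul_right_cancel₀ hyz
        linear_combination (-1 : F) * c23 + z * h
      · right
        refine ⟨by linear_combination hD0 + hE, h, ?_⟩
        apply mul_right_cancel₀ hyz
        linear_combination (-1 : F) * c23 + z * h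
    · have hDE : a - d = x - w ∨ a - d = -(x - w) := by
        have h5 : ((a - d) - (x - w)) * ((a - d) + (x - w)) = 0 := by linear_combination hD
        rcases mul_eq_zero.mp h5 with h | h
        · left
          linear_combination h
        · right
          linear_combination h
      rcases hDE with h | h
      · left
        refine ⟨h, ?_, ?_⟩
        · apply mul_right_cancel₀ hE
          linear_combination (-1 : F) * c12 + y * h
        · apply mul_right_cancel₀ hE
          linear_combination (-1 : F) * c13 + z * h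
      · right
        refine ⟨h, ?_, ?_⟩
        · apply mul_right_cancel₀ hE
          linear_combination (-1 : F) * c12 + y * h
        · apply mul_right_cancel₀ hE
          linear_combination (-1 : F) * c13 + z * h
  rcases key with ⟨k1, k2, k3⟩ | ⟨k1, k2, k3⟩
  · left
    apply Subtype.ext
    rw [hYm, hXm]
    refine mat_eq ?_ k2 k3 ?_
    · apply mul_left_cancel₀ h2
      linear_combination k1 + ht'
    · apply mul_left_cancel₀ h2
      linear_combination ht' - k1
  · right
    apply Subtype.ext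
    rw [Matrix.SpecialLinearGroup.coe_inv, hYm, hXm, Matrix.adjugate_fin_two_of]
    refine mat_eq ?_ k2 k3 ?_
    · apply mul_left_cancel₀ h2
      linear_combination k1 + ht'
    · apply mul_left_cancel₀ h2
      linear_combination ht' - k1

theorem norm_cases (h2 : (2 : F) ≠ 0) (X M : Matrix.SpecialLinearGroup (Fin 2) F)
    (hX : (tr2 X) ^ 2 ≠ 4)
    (hM : (M : Matrix.ProjectiveSpecialLinearGroup (Fin 2) F) *
      (X : Matrix.ProjectiveSpecialLinearGroup (Fin 2) F) *
      (M : Matrix.ProjectiveSpecialLinearGroup (Fin 2) F)⁻¹ ∈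
        tor (X : Matrix.ProjectiveSpecialLinearGroup (Fin 2) F)) :
    X * M = M * X ∨ M * X * M⁻¹ = X⁻¹ := by
  obtain ⟨Y, hXY, hY⟩ := (mem_tor X _).mp hM
  have hY' : (Y : Matrix.ProjectiveSpecialLinearGroup (Fin 2) F) =
      ((M * X * M⁻¹ : Matrix.SpecialLinearGroup (Fin 2) F) :
        Matrix.ProjectiveSpecialLinearGroup (Fin 2) F) := hY
  have hc : X * (M * X * M⁻¹) = (M * X * M⁻¹) * X := by
    rcases (mk_eq_iff Y (M * X * M⁻¹)).mp hY' with h | h
    · rw [h]
      exact hXY
    · rw [h, ← mul_assoc, hXY, mul_assoc, mul_assoc, negOne_comm X]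
  rcases tr_cases h2 X (M * X * M⁻¹) hc (tr2_conj M X) hX with h | h
  · left
    exact (mul_inv_eq_iff_eq_mul.mp h).symm
  · right
    exact h

theorem card_norm_le {K : Type*} [Group K] [Finite K] (A : Subgroup K) (Q : K → Prop)
    (hdich : ∀ n ∈ Subgroup.normalizer (A : Set K), n ∈ A ∨ Q n)
    (hinv : ∀ n₀ n : K, Q n₀ → Q n → n₀⁻¹ * n ∈ A) :
    Nat.card (Subgroup.normalizer (A : Set K)) ≤ 2 * Nat.card A := by
  have e1 : Nat.card (Subgroup.normalizer (A : Set K)) =
      ((Subgroup.normalizer (A : Set K) : Subgroup K) : Set K).ncard :=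
    Nat.card_coe_set_eq ((Subgroup.normalizer (A : Set K) : Subgroup K) : Set K)
  have e2 : Nat.card A = (A : Set K).ncard := Nat.card_coe_set_eq (A : Set K)
  rw [e1, e2]
  by_cases hQ : ∃ n₀ : K, n₀ ∈ Subgroup.normalizer (A : Set K) ∧ Q n₀
  · obtain ⟨n₀, hn₀, hQ₀⟩ := hQ
    have hsub : ((Subgroup.normalizer (A : Set K) : Subgroup K) : Set K) ⊆
        (A : Set K) ∪ (fun a => n₀ * a) '' (A : Set K) := by
      intro n hn
      rcases hdich n hn with h | h
      · exact Or.inl h
      · exact Or.inr ⟨n₀⁻¹ * n, hinv n₀ n hQ₀ h, mul_inv_cancel_left n₀ n⟩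
    have h5 := Set.ncard_le_ncard hsub
    have h6 := Set.ncard_union_le (A : Set K) ((fun a => n₀ * a) '' (A : Set K))
    have h7 : ((fun a => n₀ * a) '' (A : Set K)).ncard ≤ (A : Set K).ncard := Set.ncard_image_le
    omega
  · have hsub : ((Subgroup.normalizer (A : Set K) : Subgroup K) : Set K) ⊆ (A : Set K) := by
      intro n hn
      rcases hdich n hn with h | h
      · exact h
      · exact absurd ⟨n, hn, h⟩ hQ
    have h5 := Set.ncard_le_ncard hsub
    omega

theorem semisimple_case [Fintype F] (h2 : (2 : F) ≠ 0)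
    (K : Subgroup (Matrix.ProjectiveSpecialLinearGroup (Fin 2) F))
    (hss : ∀ X : Matrix.SpecialLinearGroup (Fin 2) F,
      (X : Matrix.ProjectiveSpecialLinearGroup (Fin 2) F) ∈ K →
      (X : Matrix.ProjectiveSpecialLinearGroup (Fin 2) F) ≠ 1 → (tr2 X) ^ 2 ≠ 4) :
    (∃ A : Subgroup K, (∀ u v : K, u ∈ A → v ∈ A → u * v = v * u) ∧
      Nat.card K ≤ 2 * Nat.card A) ∨
      Nat.card K = 1 ∨ Nat.card K = 12 ∨ Nat.card K = 24 ∨ Nat.card K = 60 := by
  haveI := finite_psl (F := F)
  have hne : ∀ g : K, g ≠ 1 → (g : Matrix.ProjectiveSpecialLinearGroup (Fin 2) F) ≠ 1 :=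
    fun g hg e => hg (Subtype.ext e)
  have H1 : ∀ g : K, g ≠ 1 →
      g ∈ (tor (g : Matrix.ProjectiveSpecialLinearGroup (Fin 2) F)).subgroupOf K :=
    fun g _ => Subgroup.mem_subgroupOf.mpr (self_mem_tor _)
  have H2 : ∀ g h : K, g ≠ 1 → h ≠ 1 →
      h ∈ (tor (g : Matrix.ProjectiveSpecialLinearGroup (Fin 2) F)).subgroupOf K →
      (tor (h : Matrix.ProjectiveSpecialLinearGroup (Fin 2) F)).subgroupOf K =
        (tor (g : Matrix.ProjectiveSpecialLinearGroup (Fin 2) F)).subgroupOf K := by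
    intro g h hg hh hmem
    rw [tor_eq (g : Matrix.ProjectiveSpecialLinearGroup (Fin 2) F)
      (h : Matrix.ProjectiveSpecialLinearGroup (Fin 2) F) (hne g hg) (hne h hh)
      (Subgroup.mem_subgroupOf.mp hmem)]
  have H3 : ∀ g k x : K, g ≠ 1 →
      (x ∈ (tor ((k * g * k⁻¹ : K) :
        Matrix.ProjectiveSpecialLinearGroup (Fin 2) F)).subgroupOf K ↔
      k⁻¹ * x * k ∈ (tor (g : Matrix.ProjectiveSpecialLinearGroup (Fin 2) F)).subgroupOf K) := by
    intro g k x _
    exact tor_conj (g : Matrix.ProjectiveSpecialLinearGroup (Fin 2) F)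
      (k : Matrix.ProjectiveSpecialLinearGroup (Fin 2) F)
      (x : Matrix.ProjectiveSpecialLinearGroup (Fin 2) F)
  have Hab : ∀ g : K, g ≠ 1 → ∀ u v : K,
      u ∈ (tor (g : Matrix.ProjectiveSpecialLinearGroup (Fin 2) F)).subgroupOf K →
      v ∈ (tor (g : Matrix.ProjectiveSpecialLinearGroup (Fin 2) F)).subgroupOf K →
      u * v = v * u := by
    intro g hg u v hu hv
    obtain ⟨X, hX⟩ := QuotientGroup.mk_surjective
      (g : Matrix.ProjectiveSpecialLinearGroup (Fin 2) F)
    have hX' : (X : Matrix.ProjectiveSpecialLinearGroup (Fin 2) F) ≠ 1 := by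
      rw [hX]
      exact hne g hg
    obtain ⟨hX1, hX2⟩ := ne_of_mk_ne_one X hX'
    rw [Subgroup.mem_subgroupOf, ← hX] at hu hv
    obtain ⟨U, hXU, hU⟩ := (mem_tor X _).mp hu
    obtain ⟨V, hXV, hV⟩ := (mem_tor X _).mp hv
    have hUV := comm_trans X U V hX1 hX2 hXU hXV
    apply Subtype.ext
    show (u : Matrix.ProjectiveSpecialLinearGroup (Fin 2) F) *
      (v : Matrix.ProjectiveSpecialLinearGroup (Fin 2) F) =
      (v : Matrix.ProjectiveSpecialLinearGroup (Fin 2) F) *
      (u : Matrix.ProjectiveSpecialLinearGroup (Fin 2) F)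
    rw [← hU, ← hV]
    exact congrArg (fun W : Matrix.SpecialLinearGroup (Fin 2) F =>
      (W : Matrix.ProjectiveSpecialLinearGroup (Fin 2) F)) hUV
  have H4 : ∀ g : K, g ≠ 1 → Nat.card (Subgroup.normalizer
      (((tor (g : Matrix.ProjectiveSpecialLinearGroup (Fin 2) F)).subgroupOf K :
        Subgroup K) : Set K)) ≤
      2 * Nat.card ((tor (g : Matrix.ProjectiveSpecialLinearGroup (Fin 2) F)).subgroupOf K) := by
    intro g hg
    obtain ⟨X, hX⟩ := QuotientGroup.mk_surjective
      (g : Matrix.ProjectiveSpecialLinearGroup (Fin 2) F)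
    have hX' : (X : Matrix.ProjectiveSpecialLinearGroup (Fin 2) F) ≠ 1 := by
      rw [hX]
      exact hne g hg
    have hXK : (X : Matrix.ProjectiveSpecialLinearGroup (Fin 2) F) ∈ K := by
      rw [hX]
      exact g.2
    have htr := hss X hXK hX'
    apply card_norm_le _ (fun n : K => ∃ M : Matrix.SpecialLinearGroup (Fin 2) F,
      (M : Matrix.ProjectiveSpecialLinearGroup (Fin 2) F) =
        (n : Matrix.ProjectiveSpecialLinearGroup (Fin 2) F) ∧ M * X * M⁻¹ = X⁻¹)
    · intro n hn
      have h5 : n * g * n⁻¹ ∈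
          (tor (g : Matrix.ProjectiveSpecialLinearGroup (Fin 2) F)).subgroupOf K :=
        (Subgroup.mem_normalizer_iff.mp hn g).mp (H1 g hg)
      obtain ⟨M, hM⟩ := QuotientGroup.mk_surjective
        (n : Matrix.ProjectiveSpecialLinearGroup (Fin 2) F)
      have h6 : (M : Matrix.ProjectiveSpecialLinearGroup (Fin 2) F) *
          (X : Matrix.ProjectiveSpecialLinearGroup (Fin 2) F) *
          (M : Matrix.ProjectiveSpecialLinearGroup (Fin 2) F)⁻¹ ∈
          tor (X : Matrix.ProjectiveSpecialLinearGroup (Fin 2) F) := by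
        rw [hM, hX]
        exact h5
      rcases norm_cases h2 X M htr h6 with h | h
      · left
        rw [Subgroup.mem_subgroupOf, ← hX, ← hM]
        exact (mem_tor X _).mpr ⟨M, h, rfl⟩
      · right
        exact ⟨M, hM, h⟩
    · rintro n₀ n ⟨M₀, hM₀, h₀⟩ ⟨M, hM, h⟩
      rw [Subgroup.mem_subgroupOf, ← hX]
      refine (mem_tor X _).mpr ⟨M₀⁻¹ * M, ?_, ?_⟩
      · have e1 : M₀⁻¹ * X⁻¹ * M₀ = X := by
          rw [← h₀]
          group
        have e2 : M * X = X⁻¹ * M := by
          rw [← h]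
          group
        calc X * (M₀⁻¹ * M) = (M₀⁻¹ * X⁻¹ * M₀) * (M₀⁻¹ * M) := by rw [e1]
          _ = M₀⁻¹ * (X⁻¹ * M) := by group
          _ = M₀⁻¹ * (M * X) := by rw [e2]
          _ = M₀⁻¹ * M * X := by group
      · show (M₀ : Matrix.ProjectiveSpecialLinearGroup (Fin 2) F)⁻¹ *
          (M : Matrix.ProjectiveSpecialLinearGroup (Fin 2) F) =
          ((n₀⁻¹ * n : K) : Matrix.ProjectiveSpecialLinearGroup (Fin 2) F)
        rw [hM₀, hM]
        rfl
  rcases counting (fun g : K =>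
    (tor (g : Matrix.ProjectiveSpecialLinearGroup (Fin 2) F)).subgroupOf K) H1 H2 H3 H4 with
    ⟨g, hg, hle⟩ | h
  · left
    exact ⟨_, Hab g hg, hle⟩
  · right
    exact h

theorem comm_of_index_two {K : Type*} [Group K] [Finite K] (A : Subgroup K)
    (hA : ∀ u v : K, u ∈ A → v ∈ A → u * v = v * u) (hle : Nat.card K ≤ 2 * Nat.card A)
    (x y : K) (hx : x ^ 3 = 1) (hy : y ^ 3 = 1) : x * y = y * x := by
  have hsq : ∀ z : K, z * z ∈ A := by
    have hidx : A.index * Nat.card A = Nat.card K := A.index_mul_card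
    have hpos : 0 < Nat.card A := Nat.card_pos
    have hKpos : 0 < Nat.card K := Nat.card_pos
    have hi0 : A.index ≠ 0 := by
      intro h0
      rw [h0, Nat.zero_mul] at hidx
      omega
    have hi : A.index = 1 ∨ A.index = 2 := by
      have h5 : A.index ≤ 2 := by
        by_contra hcon
        have h6 : 3 * Nat.card A ≤ A.index * Nat.card A := Nat.mul_le_mul_right _ (by omega)
        omega
      omega
    rcases hi with hi | hi
    · intro z
      rw [Subgroup.index_eq_one] at hi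
      rw [hi]
      exact Subgroup.mem_top _
    · exact Subgroup.mul_self_mem_of_index_two hi
  have hcube : ∀ z : K, z ^ 3 = 1 → z ∈ A := by
    intro z hz
    have h3 : z * z * z = 1 := by rw [← hz, pow_succ, pow_succ, pow_one]
    have e : z = (z * z) * (z * z) := by
      calc z = (z * z * z) * z := by rw [h3, one_mul]
        _ = (z * z) * (z * z) := by simp only [mul_assoc]
    rw [e]
    exact A.mul_mem (hsq z) (hsq z)
  exact hA x y (hcube x hx) (hcube y hy)

end Cfsg.Agent.Lib.Helper16.Max
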