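import Mathlib
import Cfsg.Agent.Lib.Helper16.Max2

/-!
# Subgroups of `PSL₂(p)` containing a four-group and two non-commuting elements of order three

`max_psl`: such a subgroup is the whole group or has order `12`, `24` or `60`.
-/

set_option autoImplicit false

namespace Cfsg.Agent.Lib.Helper16.Max

open Cfsg.Agent.Lib.Helper14.SL2Odd Cfsg.Agent.Lib.Helper14.GL2Conj
open Cfsg.Agent.Lib.Helper16.SL2Four Cfsg.Agent.Lib.Helper16.PSL2A4

variable {F : Type*} [Field F]

/-- upper unitriangular matrices -/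
def uu (s : F) : Matrix.SpecialLinearGroup (Fin 2) F :=
  ⟨!![1, s; 0, 1], by simp [Matrix.det_fin_two_of]⟩

theorem uu_coe (s : F) :
    ((uu s : Matrix.SpecialLinearGroup (Fin 2) F) : Matrix (Fin 2) (Fin 2) F) = !![1, s; 0, 1] :=
  rfl

theorem uu_mul (s t : F) : uu s * uu t = uu (s + t) := by
  apply Subtype.ext
  rw [Matrix.SpecialLinearGroup.coe_mul, uu_coe, uu_coe, uu_coe, Matrix.mul_fin_two]
  exact mat_eq (by ring) (by ring) (by ring) (by ring)

theorem uu_zero : uu (0 : F) = 1 := by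
  apply Subtype.ext
  rw [uu_coe, Matrix.SpecialLinearGroup.coe_one, Matrix.one_fin_two]

theorem uu_pow (t : F) (k : ℕ) : uu t ^ k = uu (k * t) := by
  induction k with
  | zero => rw [pow_zero, Nat.cast_zero, zero_mul, uu_zero]
  | succ k ih =>
    rw [pow_succ, ih, uu_mul]
    congr 1
    push_cast
    ring

theorem nat_surj [Fintype F] {p : ℕ} (hp : p.Prime) (hF : Fintype.card F = p) (s : F) :
    ∃ n : ℕ, (n : F) = s := by
  haveI : Fact p.Prime := ⟨hp⟩
  haveI : NeZero p := ⟨hp.ne_zero⟩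
  obtain ⟨e⟩ : Nonempty (ZMod p ≃+* F) := ⟨ZMod.ringEquivOfPrime F hp hF⟩
  refine ⟨(e.symm s).val, ?_⟩
  have h1 : (((e.symm s).val : ℕ) : ZMod p) = e.symm s := ZMod.natCast_zmod_val _
  have h2 : e (((e.symm s).val : ℕ) : ZMod p) = (((e.symm s).val : ℕ) : F) := map_natCast e _
  rw [← h2, h1, RingEquiv.apply_symm_apply]

/-- a subgroup of `SL₂(p)` containing a transvection and an element not fixing its axis is
everything -/
theorem gen_top [Fintype F] {p : ℕ} (hp : p.Prime) (hF : Fintype.card F = p)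
    (S : Subgroup (Matrix.SpecialLinearGroup (Fin 2) F)) (t : F) (ht : t ≠ 0) (hu : uu t ∈ S)
    (g : Matrix.SpecialLinearGroup (Fin 2) F) (hg : g ∈ S)
    (hg10 : (g : Matrix (Fin 2) (Fin 2) F) 1 0 ≠ 0) : S = ⊤ := by
  have h1 : ∀ s : F, uu s ∈ S := by
    intro s
    obtain ⟨n, hn⟩ := nat_surj hp hF (s / t)
    have e : uu s = uu t ^ n := by rw [uu_pow, hn, div_mul_cancel₀ s ht]
    rw [e]
    exact S.pow_mem hu n
  obtain ⟨a, b, c, d, hgm, hgdet⟩ := sl_form g
  have hc : c ≠ 0 := by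
    rw [hgm] at hg10
    simpa using hg10
  have h2 : ∀ γ : F, γ ≠ 0 → ∃ g' ∈ S, ∃ a' b' d' : F,
      (g' : Matrix (Fin 2) (Fin 2) F) = !![a', b'; γ, d'] ∧ a' * d' - b' * γ = 1 := by
    intro γ hγ
    obtain ⟨s, hs⟩ : ∃ s : F, s * c ^ 2 = -γ :=
      ⟨-γ / c ^ 2, div_mul_cancel₀ _ (pow_ne_zero 2 hc)⟩
    refine ⟨g * uu s * g⁻¹, S.mul_mem (S.mul_mem hg (h1 _)) (S.inv_mem hg), ?_⟩
    obtain ⟨a', b', c', d', hm, hdet'⟩ := sl_form (g * uu s * g⁻¹)
    have hc' : c' = γ := by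
      have h := hm
      rw [Matrix.SpecialLinearGroup.coe_mul, Matrix.SpecialLinearGroup.coe_mul,
        Matrix.SpecialLinearGroup.coe_inv, hgm, uu_coe, Matrix.adjugate_fin_two_of,
        Matrix.mul_fin_two, Matrix.mul_fin_two] at h
      obtain ⟨-, -, e10, -⟩ := mat_entries h
      rw [← e10]
      linear_combination (-1 : F) * hs
    rw [hc'] at hm hdet'
    exact ⟨a', b', d', hm, hdet'⟩
  have h3 : ∀ M : Matrix.SpecialLinearGroup (Fin 2) F,
      (M : Matrix (Fin 2) (Fin 2) F) 1 0 ≠ 0 → M ∈ S := by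
    intro M hM
    obtain ⟨α, β, γ, δ, hMm, hMdet⟩ := sl_form M
    have hγ : γ ≠ 0 := by
      rw [hMm] at hM
      simpa using hM
    obtain ⟨g', hg', a', b', d', hm', hdet'⟩ := h2 γ hγ
    obtain ⟨x, hx⟩ : ∃ x : F, x * γ = α - a' := ⟨(α - a') / γ, div_mul_cancel₀ _ hγ⟩
    obtain ⟨y, hy⟩ : ∃ y : F, y * γ = δ - d' := ⟨(δ - d') / γ, div_mul_cancel₀ _ hγ⟩
    have e : M = uu x * g' * uu y := by
      apply Subtype.ext
      rw [Matrix.SpecialLinearGroup.coe_mul, Matrix.SpecialLinearGroup.coe_mul, hMm, hm',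
        uu_coe, uu_coe, Matrix.mul_fin_two, Matrix.mul_fin_two]
      refine mat_eq ?_ ?_ ?_ ?_
      · linear_combination (-1 : F) * hx
      · apply mul_left_cancel₀ hγ
        linear_combination (-(a' + x * γ)) * hy - δ * hx - hMdet + hdet'
      · ring
      · linear_combination (-1 : F) * hy
    rw [e]
    exact S.mul_mem (S.mul_mem (h1 _) hg') (h1 _)
  rw [eq_top_iff]
  intro M _
  by_cases hM : (M : Matrix (Fin 2) (Fin 2) F) 1 0 = 0
  · obtain ⟨α, β, γ, δ, hMm, hMdet⟩ := sl_form M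
    have hγ : γ = 0 := by
      rw [hMm] at hM
      simpa using hM
    have hδ : δ ≠ 0 := by
      intro h0
      rw [hγ, h0] at hMdet
      simp at hMdet
    have hcs : (cs : Matrix.SpecialLinearGroup (Fin 2) F) ∈ S := by
      apply h3
      rw [cs_coe]
      simp
    have hMcs : M * cs ∈ S := by
      apply h3
      rw [Matrix.SpecialLinearGroup.coe_mul, hMm, cs_coe, Matrix.mul_fin_two]
      simpa using hδ
    have e : M = (M * cs) * cs⁻¹ := by group
    rw [e]
    exact S.mul_mem hMcs (S.inv_mem hcs)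
  · exact h3 M hM

/-- a nonidentity element of trace two is conjugate to an upper unitriangular matrix -/
theorem unip_form (U : Matrix.SpecialLinearGroup (Fin 2) F) (ht : tr2 U = 2) (hU : U ≠ 1) :
    ∃ (h : Matrix.SpecialLinearGroup (Fin 2) F) (t : F), t ≠ 0 ∧ U * h = h * uu t := by
  obtain ⟨a, b, c, d, hUm, hdet⟩ := sl_form U
  have htr : a + d = 2 := by
    unfold tr2 at ht
    rw [hUm] at ht
    simpa using ht
  by_cases hc : c = 0
  · have ha : a = 1 := by
      have h5 : (a - 1) ^ 2 = 0 := by linear_combination a * htr - hdet - b * hc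
      have h6 := (pow_eq_zero_iff (n := 2) (by norm_num)).mp h5
      linear_combination h6
    have hd : d = 1 := by linear_combination htr - ha
    have hb : b ≠ 0 := by
      intro hb
      apply hU
      apply Subtype.ext
      rw [hUm, Matrix.SpecialLinearGroup.coe_one, Matrix.one_fin_two]
      exact mat_eq ha hb hc hd
    refine ⟨1, b, hb, ?_⟩
    rw [mul_one, one_mul]
    apply Subtype.ext
    rw [hUm, uu_coe]
    exact mat_eq ha rfl hc hd
  · obtain ⟨t, ht⟩ : ∃ t : F, t * c = -1 := ⟨-1 / c, div_mul_cancel₀ _ hc⟩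
    have ht0 : t ≠ 0 := by
      rintro rfl
      simp at ht
    obtain ⟨h, hh⟩ : ∃ h : Matrix.SpecialLinearGroup (Fin 2) F,
        (h : Matrix (Fin 2) (Fin 2) F) = !![a - 1, t; c, 0] :=
      ⟨⟨!![a - 1, t; c, 0], by
        rw [Matrix.det_fin_two_of]
        linear_combination (-1 : F) * ht⟩, rfl⟩
    refine ⟨h, t, ht0, ?_⟩
    apply Subtype.ext
    rw [Matrix.SpecialLinearGroup.coe_mul, Matrix.SpecialLinearGroup.coe_mul, hUm, hh, uu_coe,
      Matrix.mul_fin_two, Matrix.mul_fin_two]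
    refine mat_eq ?_ ?_ ?_ ?_
    · linear_combination a * htr - hdet
    · ring
    · linear_combination c * htr
    · ring

/-- two anticommuting elements of `SL₂` are not both upper triangular -/
theorem no_anti_tri (h2 : (2 : F) ≠ 0) (A B : Matrix.SpecialLinearGroup (Fin 2) F)
    (hA : (A : Matrix (Fin 2) (Fin 2) F) 1 0 = 0) (hB : (B : Matrix (Fin 2) (Fin 2) F) 1 0 = 0)
    (hAB : A * B = B * A * negOne) : False := by
  obtain ⟨a, b, c, d, hAm, hAdet⟩ := sl_form A
  obtain ⟨a', b', c', d', hBm, hBdet⟩ := sl_form B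
  have hc : c = 0 := by
    rw [hAm] at hA
    simpa using hA
  have hc' : c' = 0 := by
    rw [hBm] at hB
    simpa using hB
  have h1 : (A : Matrix (Fin 2) (Fin 2) F) * (B : Matrix (Fin 2) (Fin 2) F) =
      (B : Matrix (Fin 2) (Fin 2) F) * (A : Matrix (Fin 2) (Fin 2) F) *
        ((negOne : Matrix.SpecialLinearGroup (Fin 2) F) : Matrix (Fin 2) (Fin 2) F) := by
    rw [← Matrix.SpecialLinearGroup.coe_mul, ← Matrix.SpecialLinearGroup.coe_mul,
      ← Matrix.SpecialLinearGroup.coe_mul, hAB]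
  rw [hAm, hBm, negOne_coe, Matrix.mul_fin_two, Matrix.mul_fin_two, Matrix.mul_fin_two] at h1
  obtain ⟨e00, -, -, -⟩ := mat_entries h1
  have h3 : 2 * (a * a') = 0 := by linear_combination e00 - b * hc' - b' * hc
  rcases mul_eq_zero.mp h3 with h | h
  · exact h2 h
  · rcases mul_eq_zero.mp h with h | h
    · rw [h, hc] at hAdet
      simp at hAdet
    · rw [h, hc'] at hBdet
      simp at hBdet

/-- distinct commuting involutions of `PSL₂` lift to anticommuting elements -/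
theorem anti_lifts (h2 : (2 : F) ≠ 0) (a b : Matrix.ProjectiveSpecialLinearGroup (Fin 2) F)
    (ha2 : a * a = 1) (hb2 : b * b = 1) (ha1 : a ≠ 1) (hb1 : b ≠ 1) (hab : a ≠ b)
    (hc : a * b = b * a) :
    ∃ A B : Matrix.SpecialLinearGroup (Fin 2) F,
      (A : Matrix.ProjectiveSpecialLinearGroup (Fin 2) F) = a ∧
      (B : Matrix.ProjectiveSpecialLinearGroup (Fin 2) F) = b ∧ A * B = B * A * negOne := by
  obtain ⟨A, rfl⟩ := QuotientGroup.mk_surjective a
  obtain ⟨B, rfl⟩ := QuotientGroup.mk_surjective b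
  refine ⟨A, B, rfl, rfl, ?_⟩
  have hsq : ∀ C : Matrix.SpecialLinearGroup (Fin 2) F,
      (C : Matrix.ProjectiveSpecialLinearGroup (Fin 2) F) *
        (C : Matrix.ProjectiveSpecialLinearGroup (Fin 2) F) = 1 →
      (C : Matrix.ProjectiveSpecialLinearGroup (Fin 2) F) ≠ 1 → C * C = negOne := by
    intro C hC2 hC1
    have h5 : ((C * C : Matrix.SpecialLinearGroup (Fin 2) F) :
        Matrix.ProjectiveSpecialLinearGroup (Fin 2) F) =
        ((1 : Matrix.SpecialLinearGroup (Fin 2) F) :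
          Matrix.ProjectiveSpecialLinearGroup (Fin 2) F) := hC2
    rcases (mk_eq_iff (C * C) 1).mp h5 with h | h
    · exfalso
      rcases sq_cases h2 C h.symm with h' | h'
      · exact hC1 (by rw [h']; rfl)
      · exact hC1 (by rw [h']; exact mk_negOne)
    · calc C * C = C * C * negOne * negOne := by
            rw [mul_assoc (C * C), negOne_mul_negOne, mul_one]
        _ = negOne := by rw [← h, one_mul]
  have hAA := hsq A ha2 ha1
  have hBB := hsq B hb2 hb1
  have hcomm : ((A * B : Matrix.SpecialLinearGroup (Fin 2) F) :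
      Matrix.ProjectiveSpecialLinearGroup (Fin 2) F) =
      ((B * A : Matrix.SpecialLinearGroup (Fin 2) F) :
        Matrix.ProjectiveSpecialLinearGroup (Fin 2) F) := hc
  rcases (mk_eq_iff (A * B) (B * A)).mp hcomm with h | h
  · exfalso
    have h1 : (A * B) * (A * B) = 1 := by
      calc (A * B) * (A * B) = A * (B * A) * B := by group
        _ = A * (A * B) * B := by rw [h]
        _ = (A * A) * (B * B) := by group
        _ = 1 := by rw [hAA, hBB, negOne_mul_negOne]
    have h3 : ((A * B : Matrix.SpecialLinearGroup (Fin 2) F) :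
        Matrix.ProjectiveSpecialLinearGroup (Fin 2) F) = 1 := by
      rcases sq_cases h2 (A * B) h1 with h' | h'
      · rw [h']
        rfl
      · rw [h']
        exact mk_negOne
    have h4 : (A : Matrix.ProjectiveSpecialLinearGroup (Fin 2) F) *
        (B : Matrix.ProjectiveSpecialLinearGroup (Fin 2) F) = 1 := h3
    exact hab (mul_left_cancel (ha2.trans h4.symm))
  · rw [h, mul_assoc (A * B), negOne_mul_negOne, mul_one]

theorem elts_of_equiv {G A : Type*} [Group G] [Group A] (H : Subgroup G) (e : H ≃* A)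
    (a₀ b₀ x₀ y₀ : A) (h1 : a₀ * a₀ = 1) (h2 : b₀ * b₀ = 1) (h3 : a₀ ≠ 1) (h4 : b₀ ≠ 1)
    (h5 : a₀ ≠ b₀) (h6 : a₀ * b₀ = b₀ * a₀) (h7 : x₀ ^ 3 = 1) (h8 : y₀ ^ 3 = 1)
    (h9 : x₀ * y₀ ≠ y₀ * x₀) :
    ∃ a b x y : G, a ∈ H ∧ b ∈ H ∧ x ∈ H ∧ y ∈ H ∧ a * a = 1 ∧ b * b = 1 ∧ a ≠ 1 ∧ b ≠ 1 ∧
      a ≠ b ∧ a * b = b * a ∧ x ^ 3 = 1 ∧ y ^ 3 = 1 ∧ x * y ≠ y * x := by
  obtain ⟨f, hf, hfm⟩ : ∃ f : A →* G, Function.Injective f ∧ ∀ z, f z ∈ H :=
    ⟨H.subtype.comp e.symm.toMonoidHom, H.subtype_injective.comp e.symm.injective,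
      fun z => (e.symm z).2⟩
  refine ⟨f a₀, f b₀, f x₀, f y₀, hfm _, hfm _, hfm _, hfm _, ?_, ?_, ?_, ?_, ?_, ?_, ?_, ?_, ?_⟩
  · rw [← map_mul, h1, map_one]
  · rw [← map_mul, h2, map_one]
  · intro h
    exact h3 (hf (h.trans (map_one f).symm))
  · intro h
    exact h4 (hf (h.trans (map_one f).symm))
  · intro h
    exact h5 (hf h)
  · rw [← map_mul, ← map_mul, h6]
  · rw [← map_pow, h7, map_one]
  · rw [← map_pow, h8, map_one]
  · intro h
    apply h9
    apply hf
    rw [map_mul, map_mul]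
    exact h

theorem s4_elts : ∃ a b x y : Equiv.Perm (Fin 4), a * a = 1 ∧ b * b = 1 ∧ a ≠ 1 ∧ b ≠ 1 ∧
    a ≠ b ∧ a * b = b * a ∧ x ^ 3 = 1 ∧ y ^ 3 = 1 ∧ x * y ≠ y * x :=
  ⟨Equiv.swap 0 1 * Equiv.swap 2 3, Equiv.swap 0 2 * Equiv.swap 1 3,
    Equiv.swap 0 1 * Equiv.swap 1 2, Equiv.swap 0 1 * Equiv.swap 1 3,
    by decide, by decide, by decide, by decide, by decide, by decide, by decide, by decide,
    by decide⟩

theorem swap_mul_swap_mem (i j k l : Fin 4) (hij : i ≠ j) (hkl : k ≠ l) :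
    Equiv.swap i j * Equiv.swap k l ∈ alternatingGroup (Fin 4) := by
  rw [Equiv.Perm.mem_alternatingGroup, map_mul, Equiv.Perm.sign_swap hij,
    Equiv.Perm.sign_swap hkl]
  rfl

theorem a4_elts : ∃ a b x y : alternatingGroup (Fin 4), a * a = 1 ∧ b * b = 1 ∧ a ≠ 1 ∧ b ≠ 1 ∧
    a ≠ b ∧ a * b = b * a ∧ x ^ 3 = 1 ∧ y ^ 3 = 1 ∧ x * y ≠ y * x := by
  refine ⟨⟨Equiv.swap 0 1 * Equiv.swap 2 3, swap_mul_swap_mem _ _ _ _ (by decide) (by decide)⟩,
    ⟨Equiv.swap 0 2 * Equiv.swap 1 3, swap_mul_swap_mem _ _ _ _ (by decide) (by decide)⟩,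
    ⟨Equiv.swap 0 1 * Equiv.swap 1 2, swap_mul_swap_mem _ _ _ _ (by decide) (by decide)⟩,
    ⟨Equiv.swap 0 1 * Equiv.swap 1 3, swap_mul_swap_mem _ _ _ _ (by decide) (by decide)⟩,
    ?_, ?_, ?_, ?_, ?_, ?_, ?_, ?_, ?_⟩
  · exact Subtype.ext (by decide)
  · exact Subtype.ext (by decide)
  · exact fun h => absurd (congrArg Subtype.val h) (by decide)
  · exact fun h => absurd (congrArg Subtype.val h) (by decide)
  · exact fun h => absurd (congrArg Subtype.val h) (by decide)
  · exact Subtype.ext (by decide)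
  · exact Subtype.ext (by decide)
  · exact Subtype.ext (by decide)
  · exact fun h => absurd (congrArg Subtype.val h) (by decide)

/-- a subgroup of `PSL₂(p)` containing a four-group and two non-commuting elements of order
three is everything or has order `12`, `24` or `60` -/
theorem max_psl [Fintype F] {p : ℕ} (hp : p.Prime) (hF : Fintype.card F = p) (h2 : (2 : F) ≠ 0)
    (K : Subgroup (Matrix.ProjectiveSpecialLinearGroup (Fin 2) F))
    (a b x y : Matrix.ProjectiveSpecialLinearGroup (Fin 2) F)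
    (ha : a ∈ K) (hb : b ∈ K) (hx : x ∈ K) (hy : y ∈ K)
    (ha2 : a * a = 1) (hb2 : b * b = 1) (ha1 : a ≠ 1) (hb1 : b ≠ 1) (hab : a ≠ b)
    (hc : a * b = b * a) (hx3 : x ^ 3 = 1) (hy3 : y ^ 3 = 1) (hxy : x * y ≠ y * x) :
    K = ⊤ ∨ Nat.card K = 12 ∨ Nat.card K = 24 ∨ Nat.card K = 60 := by
  haveI := finite_psl (F := F)
  by_cases hss : ∀ X : Matrix.SpecialLinearGroup (Fin 2) F,
      (X : Matrix.ProjectiveSpecialLinearGroup (Fin 2) F) ∈ K →
      (X : Matrix.ProjectiveSpecialLinearGroup (Fin 2) F) ≠ 1 → (tr2 X) ^ 2 ≠ 4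
  · right
    rcases semisimple_case h2 K hss with ⟨A, hA, hle⟩ | h1 | h
    · exfalso
      apply hxy
      have h5 := comm_of_index_two A hA hle ⟨x, hx⟩ ⟨y, hy⟩
        (Subtype.ext (by simpa using hx3)) (Subtype.ext (by simpa using hy3))
      exact congrArg Subtype.val h5
    · exfalso
      have h5 : K = ⊥ := Subgroup.eq_bot_of_card_eq K h1
      rw [h5] at ha
      exact ha1 (Subgroup.mem_bot.mp ha)
    · exact h
  · left
    push_neg at hss
    obtain ⟨X, hXK, hX1, hXt⟩ := hss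
    have ht : tr2 X = 2 ∨ tr2 X = -2 := by
      have h5 : (tr2 X - 2) * (tr2 X + 2) = 0 := by linear_combination hXt
      rcases mul_eq_zero.mp h5 with h | h
      · left
        linear_combination h
      · right
        linear_combination h
    obtain ⟨U, hUK, hU1, hUt⟩ : ∃ U : Matrix.SpecialLinearGroup (Fin 2) F,
        (U : Matrix.ProjectiveSpecialLinearGroup (Fin 2) F) ∈ K ∧ U ≠ 1 ∧ tr2 U = 2 := by
      rcases ht with h | h
      · exact ⟨X, hXK, (ne_of_mk_ne_one X hX1).1, h⟩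
      · have e : (X : Matrix.ProjectiveSpecialLinearGroup (Fin 2) F) =
            ((X * negOne : Matrix.SpecialLinearGroup (Fin 2) F) :
              Matrix.ProjectiveSpecialLinearGroup (Fin 2) F) :=
          (mk_eq_iff X (X * negOne)).mpr (Or.inr rfl)
        refine ⟨X * negOne, ?_, ?_, ?_⟩
        · rw [← e]
          exact hXK
        · intro h1
          apply hX1
          rw [e, h1]
          rfl
        · rw [Cfsg.Agent.Lib.Helper16.Hall23.tr2_mul_negOne, h, neg_neg]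
    obtain ⟨h, t, ht0, hUh⟩ := unip_form U hUt hU1
    obtain ⟨S, hS⟩ : ∃ S : Subgroup (Matrix.SpecialLinearGroup (Fin 2) F),
        ∀ g : Matrix.SpecialLinearGroup (Fin 2) F, g ∈ S ↔
          ((h * g * h⁻¹ : Matrix.SpecialLinearGroup (Fin 2) F) :
            Matrix.ProjectiveSpecialLinearGroup (Fin 2) F) ∈ K :=
      ⟨(K.comap (QuotientGroup.mk' (Subgroup.center
        (Matrix.SpecialLinearGroup (Fin 2) F)))).comap (MulAut.conj h).toMonoidHom,
        fun g => Iff.rfl⟩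
    have huS : uu t ∈ S := by
      rw [hS, ← hUh, mul_inv_cancel_right]
      exact hUK
    by_cases htri : ∀ g ∈ S, (g : Matrix (Fin 2) (Fin 2) F) 1 0 = 0
    · exfalso
      obtain ⟨A₀, B₀, hA₀, hB₀, hanti⟩ := anti_lifts h2 a b ha2 hb2 ha1 hb1 hab hc
      have hA' : h⁻¹ * A₀ * h ∈ S := by
        rw [hS]
        have e : h * (h⁻¹ * A₀ * h) * h⁻¹ = A₀ := by group
        rw [e, hA₀]
        exact ha
      have hB' : h⁻¹ * B₀ * h ∈ S := by
        rw [hS]
        have e : h * (h⁻¹ * B₀ * h) * h⁻¹ = B₀ := by group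
        rw [e, hB₀]
        exact hb
      apply no_anti_tri h2 (h⁻¹ * A₀ * h) (h⁻¹ * B₀ * h) (htri _ hA') (htri _ hB')
      calc h⁻¹ * A₀ * h * (h⁻¹ * B₀ * h) = h⁻¹ * (A₀ * B₀) * h := by group
        _ = h⁻¹ * (B₀ * A₀ * negOne) * h := by rw [hanti]
        _ = h⁻¹ * B₀ * A₀ * (negOne * h) := by group
        _ = h⁻¹ * B₀ * A₀ * (h * negOne) := by rw [negOne_comm h]
        _ = h⁻¹ * B₀ * h * (h⁻¹ * A₀ * h) * negOne := by group
    · push_neg at htri
      obtain ⟨g, hgS, hg10⟩ := htri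
      have hStop := gen_top hp hF S t ht0 huS g hgS hg10
      rw [eq_top_iff]
      intro k _
      obtain ⟨M, rfl⟩ := QuotientGroup.mk_surjective k
      have h5 : h⁻¹ * M * h ∈ S := by
        rw [hStop]
        exact Subgroup.mem_top _
      rw [hS] at h5
      have e : h * (h⁻¹ * M * h) * h⁻¹ = M := by group
      rw [e] at h5
      exact h5

end Cfsg.Agent.Lib.Helper16.Max
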