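import Mathlib
import Cfsg.Agent.Lib.Helper16.Max3

/-!
# Subgroups of `SL₂(p²)` containing a transvection

`star`: a proper subgroup of `SL₂(p²)` containing `uu t` has all lower left entries `c` with
`(c t)² ∈ 𝔽_p`.
-/

set_option autoImplicit false

namespace Cfsg.Agent.Lib.Helper16.Max

open Cfsg.Agent.Lib.Helper14.SL2Odd Cfsg.Agent.Lib.Helper14.GL2Conj
open Cfsg.Agent.Lib.Helper16.SL2Four Cfsg.Agent.Lib.Helper16.PSL2A4

variable {F : Type*} [Field F]

theorem mat_apply00 (a b c d : F) : (!![a, b; c, d] : Matrix (Fin 2) (Fin 2) F) 0 0 = a := rfl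
theorem mat_apply01 (a b c d : F) : (!![a, b; c, d] : Matrix (Fin 2) (Fin 2) F) 0 1 = b := rfl
theorem mat_apply10 (a b c d : F) : (!![a, b; c, d] : Matrix (Fin 2) (Fin 2) F) 1 0 = c := rfl
theorem mat_apply11 (a b c d : F) : (!![a, b; c, d] : Matrix (Fin 2) (Fin 2) F) 1 1 = d := rfl

/-- a subgroup of `SL₂` containing all upper unitriangular matrices and a non-triangular
element is everything -/
theorem gen_top' (S : Subgroup (Matrix.SpecialLinearGroup (Fin 2) F))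
    (h1 : ∀ s : F, uu s ∈ S)
    (g : Matrix.SpecialLinearGroup (Fin 2) F) (hg : g ∈ S)
    (hg10 : (g : Matrix (Fin 2) (Fin 2) F) 1 0 ≠ 0) : S = ⊤ := by
  obtain ⟨a, b, c, d, hgm, hgdet⟩ := sl_form g
  have hc : c ≠ 0 := by
    rw [hgm] at hg10
    simpa using hg10
  have h2 : ∀ γ : F, γ ≠ 0 → ∃ g' ∈ S, ∃ a' b' d' : F,
      (g' : Matrix (Fin 2) (Fin 2) F) = !![a', b'; γ, d'] ∧ a' * d' - b' * γ = 1 := by
    intro γ hγ
    obtain ⟨s, hs⟩ : ∃ s : F, s * c ^ 2 = -γ :=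
      ⟨-γ / c ^ 2, div_mul_cancel₀ _ (pow_ne_zero 2 hc)⟩
    refine ⟨g * uu s * g⁻¹, S.mul_mem (S.mul_mem hg (h1 _)) (S.inv_mem hg), ?_⟩
    obtain ⟨a', b', c', d', hm, hdet'⟩ := sl_form (g * uu s * g⁻¹)
    have hc' : c' = γ := by
      have h := hm
      rw [Matrix.SpecialLinearGroup.coe_mul, Matrix.SpecialLinearGroup.coe_mul,
        Matrix.SpecialLinearGroup.coe_inv, hgm, uu_coe, Matrix.adjugate_fin_two_of,
        Matrix.mul_fin_two, Matrix.mul_fin_two] at h
      obtain ⟨-, -, e10, -⟩ := mat_entries h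
      rw [← e10]
      linear_combination (-1 : F) * hs
    rw [hc'] at hm hdet'
    exact ⟨a', b', d', hm, hdet'⟩
  have h3 : ∀ M : Matrix.SpecialLinearGroup (Fin 2) F,
      (M : Matrix (Fin 2) (Fin 2) F) 1 0 ≠ 0 → M ∈ S := by
    intro M hM
    obtain ⟨α, β, γ, δ, hMm, hMdet⟩ := sl_form M
    have hγ : γ ≠ 0 := by
      rw [hMm] at hM
      simpa using hM
    obtain ⟨g', hg', a', b', d', hm', hdet'⟩ := h2 γ hγ
    obtain ⟨x, hx⟩ : ∃ x : F, x * γ = α - a' := ⟨(α - a') / γ, div_mul_cancel₀ _ hγ⟩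
    obtain ⟨y, hy⟩ : ∃ y : F, y * γ = δ - d' := ⟨(δ - d') / γ, div_mul_cancel₀ _ hγ⟩
    have e : M = uu x * g' * uu y := by
      apply Subtype.ext
      rw [Matrix.SpecialLinearGroup.coe_mul, Matrix.SpecialLinearGroup.coe_mul, hMm, hm',
        uu_coe, uu_coe, Matrix.mul_fin_two, Matrix.mul_fin_two]
      refine mat_eq ?_ ?_ ?_ ?_
      · linear_combination (-1 : F) * hx
      · apply mul_left_cancel₀ hγ
        linear_combination (-(a' + x * γ)) * hy - δ * hx - hMdet + hdet'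
      · ring
      · linear_combination (-1 : F) * hy
    rw [e]
    exact S.mul_mem (S.mul_mem (h1 _) hg') (h1 _)
  rw [eq_top_iff]
  intro M _
  by_cases hM : (M : Matrix (Fin 2) (Fin 2) F) 1 0 = 0
  · obtain ⟨α, β, γ, δ, hMm, hMdet⟩ := sl_form M
    have hγ : γ = 0 := by
      rw [hMm] at hM
      simpa using hM
    have hδ : δ ≠ 0 := by
      intro h0
      rw [hγ, h0] at hMdet
      simp at hMdet
    have hcs : (cs : Matrix.SpecialLinearGroup (Fin 2) F) ∈ S := by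
      apply h3
      rw [cs_coe]
      simp
    have hMcs : M * cs ∈ S := by
      apply h3
      rw [Matrix.SpecialLinearGroup.coe_mul, hMm, cs_coe, Matrix.mul_fin_two]
      simpa using hδ
    have e : M = (M * cs) * cs⁻¹ := by group
    rw [e]
    exact S.mul_mem hMcs (S.inv_mem hcs)
  · exact h3 M hM

/-- lower unitriangular matrices -/
def ll (s : F) : Matrix.SpecialLinearGroup (Fin 2) F :=
  ⟨!![1, 0; s, 1], by simp [Matrix.det_fin_two_of]⟩

theorem ll_coe (s : F) :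
    ((ll s : Matrix.SpecialLinearGroup (Fin 2) F) : Matrix (Fin 2) (Fin 2) F) = !![1, 0; s, 1] :=
  rfl

theorem ll_mul (s t : F) : ll s * ll t = ll (s + t) := by
  apply Subtype.ext
  rw [Matrix.SpecialLinearGroup.coe_mul, ll_coe, ll_coe, ll_coe, Matrix.mul_fin_two]
  exact mat_eq (by ring) (by ring) (by ring) (by ring)

theorem ll_zero : ll (0 : F) = 1 := by
  apply Subtype.ext
  rw [ll_coe, Matrix.SpecialLinearGroup.coe_one, Matrix.one_fin_two]

theorem ll_pow (t : F) (k : ℕ) : ll t ^ k = ll (k * t) := by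
  induction k with
  | zero => rw [pow_zero, Nat.cast_zero, zero_mul, ll_zero]
  | succ k ih =>
    rw [pow_succ, ih, ll_mul]
    congr 1
    push_cast
    ring

theorem uu_inv (s : F) : (uu s)⁻¹ = uu (-s) := by
  apply inv_eq_of_mul_eq_one_right
  rw [uu_mul, add_neg_cancel, uu_zero]

theorem conj_ll (G : Matrix.SpecialLinearGroup (Fin 2) F)
    (hG : (G : Matrix (Fin 2) (Fin 2) F) 1 1 = 0) (y : F) :
    G * ll y * G⁻¹ = uu (-(((G : Matrix (Fin 2) (Fin 2) F) 0 1) ^ 2 * y)) := by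
  obtain ⟨a, b, c, d, hm, hdet⟩ := sl_form G
  have hd : d = 0 := by
    rw [hm, mat_apply11] at hG
    exact hG
  have hb : (G : Matrix (Fin 2) (Fin 2) F) 0 1 = b := by
    rw [hm, mat_apply01]
  rw [hb]
  apply Subtype.ext
  rw [Matrix.SpecialLinearGroup.coe_mul, Matrix.SpecialLinearGroup.coe_mul,
    Matrix.SpecialLinearGroup.coe_inv, hm, ll_coe, uu_coe, Matrix.adjugate_fin_two_of,
    Matrix.mul_fin_two, Matrix.mul_fin_two]
  refine mat_eq ?_ ?_ ?_ ?_
  · linear_combination hdet + (b * y) * hd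
  · ring
  · linear_combination (d * y) * hd
  · linear_combination hdet - (b * y) * hd

theorem conj_uu (g : Matrix.SpecialLinearGroup (Fin 2) F) (a b c d : F)
    (hgm : (g : Matrix (Fin 2) (Fin 2) F) = !![a, b; c, d]) (hdet : a * d - b * c = 1)
    (ω : F) (hω : ω * c = a) (x : F) :
    uu ω * ll (-(c ^ 2 * x)) * (uu ω)⁻¹ = g * uu x * g⁻¹ := by
  rw [uu_inv]
  apply Subtype.ext
  simp only [Matrix.SpecialLinearGroup.coe_mul, Matrix.SpecialLinearGroup.coe_inv, hgm, ll_coe,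
    uu_coe, Matrix.adjugate_fin_two_of, Matrix.mul_fin_two]
  refine mat_eq ?_ ?_ ?_ ?_
  · linear_combination (-1 : F) * hdet - c * x * hω
  · linear_combination x * (ω * c + a) * hω
  · ring
  · linear_combination (-1 : F) * hdet + c * x * hω

theorem cast_of_mem_bot {p : ℕ} [Fact p.Prime] [CharP F p] (x : F)
    (hx : x ∈ (⊥ : Subfield F)) : ∃ n : ℕ, (n : F) = x := by
  haveI : NeZero p := ⟨(Fact.out : p.Prime).ne_zero⟩
  rw [← ZMod.fieldRange_castHom_eq_bot p] at hx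
  obtain ⟨z, rfl⟩ := RingHom.mem_fieldRange.mp hx
  refine ⟨z.val, ?_⟩
  have h1 : ((z.val : ℕ) : ZMod p) = z := ZMod.natCast_zmod_val z
  have h2 : ZMod.castHom (dvd_refl p) F ((z.val : ℕ) : ZMod p) = ((z.val : ℕ) : F) :=
    map_natCast _ _
  rw [← h2, h1]

theorem two_mem_bot : (2 : F) ∈ (⊥ : Subfield F) := by
  have h11 : (1 : F) + 1 ∈ (⊥ : Subfield F) := add_mem (one_mem _) (one_mem _)
  rwa [one_add_one_eq_two] at h11

theorem quad_rel [Fintype F] {p : ℕ} [Fact p.Prime] [CharP F p] (hF : Fintype.card F = p ^ 2)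
    (lam : F) :
    ∃ s v : F, s ∈ (⊥ : Subfield F) ∧ v ∈ (⊥ : Subfield F) ∧ lam ^ 2 = s * lam - v := by
  have h1 : lam ^ (p ^ 2) = lam := by
    rw [← hF]
    exact FiniteField.pow_card lam
  have h2 : (lam ^ p) ^ p = lam := by
    rw [← pow_mul, ← sq]
    exact h1
  refine ⟨lam + lam ^ p, lam * lam ^ p, ?_, ?_, by ring⟩
  · rw [Subfield.mem_bot_iff_pow_eq_self F p, add_pow_char, h2]
    ring
  · rw [Subfield.mem_bot_iff_pow_eq_self F p, mul_pow, h2]
    ring

theorem span_quad [Fintype F] {p : ℕ} [Fact p.Prime] [CharP F p] (hF : Fintype.card F = p ^ 2)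
    (ρ : F) (hρ : ρ ∉ (⊥ : Subfield F)) (z : F) :
    ∃ f₁ f₂ : F, f₁ ∈ (⊥ : Subfield F) ∧ f₂ ∈ (⊥ : Subfield F) ∧ z = f₁ + f₂ * ρ := by
  have hinj : Function.Injective
      (fun q : (⊥ : Subfield F) × (⊥ : Subfield F) => (q.1 : F) + (q.2 : F) * ρ) := by
    rintro ⟨a, b⟩ ⟨a', b'⟩ h
    dsimp only at h
    have hb : b = b' := by
      by_contra hne
      apply hρ
      have hne' : (b : F) - (b' : F) ≠ 0 := fun h0 => hne (Subtype.ext (sub_eq_zero.mp h0))
      have e : ρ = ((a' : F) - (a : F)) / ((b : F) - (b' : F)) := by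
        rw [eq_div_iff hne']
        linear_combination h
      rw [e]
      exact Subfield.div_mem _ (sub_mem a'.2 a.2) (sub_mem b.2 b'.2)
    subst hb
    have ha : a = a' := by
      apply Subtype.ext
      linear_combination h
    rw [ha]
  have hcard : Nat.card ((⊥ : Subfield F) × (⊥ : Subfield F)) = Nat.card F := by
    rw [Nat.card_prod, Subfield.card_bot F p, Nat.card_eq_fintype_card, hF, sq]
  have hbij := (Nat.bijective_iff_injective_and_card _).mpr ⟨hinj, hcard⟩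
  obtain ⟨⟨f₁, f₂⟩, hq⟩ := hbij.2 z
  exact ⟨(f₁ : F), (f₂ : F), f₁.2, f₂.2, hq.symm⟩

theorem tau_not_mem {p : ℕ} [Fact p.Prime] [CharP F p] (hp5 : p % 5 = 2 ∨ p % 5 = 3)
    (hp2 : p ≠ 2) (τ : F) (hτ : τ ^ 2 + τ = 1) : τ ∉ (⊥ : Subfield F) := by
  intro hmem
  obtain ⟨n, rfl⟩ := cast_of_mem_bot (p := p) τ hmem
  have h1 : (((2 * n + 1) ^ 2 : ℕ) : F) = ((5 : ℕ) : F) := by
    push_cast
    linear_combination 4 * hτ
  have h2 : (((2 * n + 1) ^ 2 : ℕ) : ZMod p) = ((5 : ℕ) : ZMod p) := by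
    rw [ZMod.natCast_eq_natCast_iff]
    exact (CharP.natCast_eq_natCast F p).mp h1
  have hsq : IsSquare ((5 : ℕ) : ZMod p) :=
    ⟨((2 * n + 1 : ℕ) : ZMod p), by rw [← h2]; push_cast; ring⟩
  have h5 : IsSquare ((p : ℕ) : ZMod 5) := by
    haveI : Fact (Nat.Prime 5) := ⟨by norm_num⟩
    exact (ZMod.exists_sq_eq_prime_iff_of_mod_four_eq_one (p := 5) (q := p) (by norm_num)
      hp2).mpr hsq
  rw [← ZMod.natCast_mod] at h5
  obtain ⟨r, hr⟩ := h5
  rcases hp5 with h | h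
  · rw [h] at hr
    revert r
    decide
  · rw [h] at hr
    revert r
    decide

end Cfsg.Agent.Lib.Helper16.Max
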