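import Mathlib
import Cfsg.Agent.Lib.Helper16.Max3

/-!
# Elements of order five in `SL₂`, small index subgroups of simple groups, elements of `A₅`
-/

set_option autoImplicit false

namespace Cfsg.Agent.Lib.Helper16.Max

open Cfsg.Agent.Lib.Helper14.SL2Odd Cfsg.Agent.Lib.Helper14.GL2Conj
open Cfsg.Agent.Lib.Helper16.SL2Four Cfsg.Agent.Lib.Helper16.PSL2A4

variable {F : Type*} [Field F]

theorem hlit (A B p q r s : F) :
    A • (!![p, q; r, s] : Matrix (Fin 2) (Fin 2) F) - B • (1 : Matrix (Fin 2) (Fin 2) F) =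
      !![A * p - B, A * q; A * r, A * s - B] := by
  rw [Matrix.one_fin_two]
  ext i j
  fin_cases i <;> fin_cases j <;> simp

/-- a nonidentity element of `SL₂` with fifth power one has trace a root of `x² + x - 1` -/
theorem tr_of_pow_five (h2 : (2 : F) ≠ 0) (X : Matrix.SpecialLinearGroup (Fin 2) F)
    (hX : X * X * X * X * X = 1) (hX1 : X ≠ 1) : (tr2 X) ^ 2 + tr2 X = 1 := by
  obtain ⟨p, q, r, s, hm, hdet⟩ := sl_form X
  have htr : tr2 X = p + s := by
    unfold tr2
    rw [hm]
    rfl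
  obtain ⟨τ, hτ⟩ : ∃ τ : F, τ = p + s := ⟨_, rfl⟩
  rw [htr, ← hτ]
  obtain ⟨M, hM⟩ : ∃ M : Matrix (Fin 2) (Fin 2) F, M = !![p, q; r, s] := ⟨_, rfl⟩
  have hCH : M * M = τ • M - (1 : F) • (1 : Matrix (Fin 2) (Fin 2) F) := by
    rw [hM, hlit, Matrix.mul_fin_two]
    exact mat_eq (by linear_combination (-p) * hτ - hdet) (by linear_combination (-q) * hτ)
      (by linear_combination (-r) * hτ) (by linear_combination (-s) * hτ - hdet)
  have step : ∀ A B : F, (A • M - B • (1 : Matrix (Fin 2) (Fin 2) F)) * M =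
      (A * τ - B) • M - A • (1 : Matrix (Fin 2) (Fin 2) F) := by
    intro A B
    rw [sub_mul, smul_mul_assoc, smul_mul_assoc, one_mul, hCH]
    module
  have h5 : M * M * M * M * M = 1 := by
    have h6 := congrArg
      (fun Y : Matrix.SpecialLinearGroup (Fin 2) F => (Y : Matrix (Fin 2) (Fin 2) F)) hX
    simp only [Matrix.SpecialLinearGroup.coe_mul, Matrix.SpecialLinearGroup.coe_one] at h6
    rw [hm] at h6
    rw [hM]
    exact h6
  rw [hCH, step, step, step, hM, hlit, Matrix.one_fin_two] at h5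
  obtain ⟨e00, e01, e10, e11⟩ := mat_entries h5
  obtain ⟨A, hA⟩ : ∃ A : F, A = τ ^ 4 - 3 * τ ^ 2 + 1 := ⟨_, rfl⟩
  have f00 : A * p - (τ ^ 3 - 2 * τ) = 1 := by rw [hA]; linear_combination e00
  have f01 : A * q = 0 := by rw [hA]; linear_combination e01
  have f10 : A * r = 0 := by rw [hA]; linear_combination e10
  have f11 : A * s - (τ ^ 3 - 2 * τ) = 1 := by rw [hA]; linear_combination e11
  by_cases hA0 : A = 0
  · have hB : (τ - 1) * (τ ^ 2 + τ - 1) = 0 := by
      linear_combination (-1 : F) * f00 + p * hA0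
    rcases mul_eq_zero.mp hB with h | h
    · exfalso
      have h1 : τ = 1 := by linear_combination h
      rw [hA0, h1] at hA
      have h01 : (1 : F) = 0 := by linear_combination hA
      exact one_ne_zero h01
    · linear_combination h
  · exfalso
    have hq : q = 0 := (mul_eq_zero.mp f01).resolve_left hA0
    have hr : r = 0 := (mul_eq_zero.mp f10).resolve_left hA0
    have hp : p = s := by
      have h6 : A * (p - s) = 0 := by linear_combination f00 - f11
      rcases mul_eq_zero.mp h6 with h | h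
      · exact absurd h hA0
      · linear_combination h
    have hp2 : (p - 1) * (p + 1) = 0 := by linear_combination hdet + p * hp + r * hq
    rcases mul_eq_zero.mp hp2 with h | h
    · apply hX1
      apply Subtype.ext
      rw [hm, Matrix.SpecialLinearGroup.coe_one, Matrix.one_fin_two]
      exact mat_eq (by linear_combination h) hq hr (by linear_combination h - hp)
    · have hτ2 : τ = -2 := by linear_combination hτ + 2 * h - hp
      have hp1 : p = -1 := by linear_combination h
      rw [hA, hτ2, hp1] at f00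
      apply h2
      linear_combination (-1 : F) * f00

theorem lift_five (x : Matrix.ProjectiveSpecialLinearGroup (Fin 2) F) (hx : x ^ 5 = 1) :
    ∃ X : Matrix.SpecialLinearGroup (Fin 2) F,
      (X : Matrix.ProjectiveSpecialLinearGroup (Fin 2) F) = x ∧ X ^ 5 = 1 := by
  obtain ⟨X₀, rfl⟩ := QuotientGroup.mk_surjective x
  have h3 : X₀ ^ 5 ∈ Subgroup.center (Matrix.SpecialLinearGroup (Fin 2) F) := by
    rw [← QuotientGroup.eq_one_iff, QuotientGroup.mk_pow]
    exact hx
  rcases center_cases _ h3 with h | h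
  · exact ⟨X₀, rfl, h⟩
  · refine ⟨X₀ * negOne, ?_, ?_⟩
    · rw [QuotientGroup.mk_mul, mk_negOne, mul_one]
    · have hc : Commute X₀ negOne := negOne_comm X₀
      have h5 : (negOne : Matrix.SpecialLinearGroup (Fin 2) F) ^ 5 = negOne := by
        rw [show (5 : ℕ) = 2 + 2 + 1 from rfl, pow_add, pow_add, pow_two, pow_one,
          negOne_mul_negOne, one_mul, one_mul]
      rw [hc.mul_pow, h, h5, negOne_mul_negOne]

/-- in a simple group of order more than `6` a subgroup of index at most `3` is everything -/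
theorem top_of_small_index {G : Type*} [Group G] [Finite G] [IsSimpleGroup G]
    (K : Subgroup G) (hidx : K.index ≤ 3) (hcard : 6 < Nat.card G) : K = ⊤ := by
  by_contra hK
  have hker : (MulAction.toPermHom G (G ⧸ K)).ker = ⊥ := by
    rcases (MonoidHom.normal_ker (MulAction.toPermHom G (G ⧸ K))).eq_bot_or_eq_top with h | h
    · exact h
    · exfalso
      apply hK
      rw [eq_top_iff]
      intro g _
      have hg : g ∈ (MulAction.toPermHom G (G ⧸ K)).ker := by
        rw [h]
        exact Subgroup.mem_top _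
      have h1 : MulAction.toPermHom G (G ⧸ K) g = 1 := hg
      have h2 : g • ((1 : G) : G ⧸ K) = ((1 : G) : G ⧸ K) :=
        congrArg (fun f : Equiv.Perm (G ⧸ K) => f ((1 : G) : G ⧸ K)) h1
      have h3 : ((g * 1 : G) : G ⧸ K) = ((1 : G) : G ⧸ K) := h2
      rw [mul_one] at h3
      have h4 := QuotientGroup.eq.mp h3
      rw [mul_one] at h4
      exact inv_mem_iff.mp h4
  have hinj : Function.Injective (MulAction.toPermHom G (G ⧸ K)) :=
    (MonoidHom.ker_eq_bot_iff _).mp hker
  have h5 : Nat.card G ≤ Nat.card (Equiv.Perm (G ⧸ K)) := Nat.card_le_card_of_injective _ hinj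
  rw [Nat.card_perm] at h5
  have h6 : Nat.card (G ⧸ K) = K.index := rfl
  rw [h6] at h5
  have h7 : (K.index).factorial ≤ (3 : ℕ).factorial := Nat.factorial_le hidx
  have h8 : (3 : ℕ).factorial = 6 := rfl
  omega

theorem swap_mul_swap_mem5 (i j k l : Fin 5) (hij : i ≠ j) (hkl : k ≠ l) :
    Equiv.swap i j * Equiv.swap k l ∈ alternatingGroup (Fin 5) := by
  rw [Equiv.Perm.mem_alternatingGroup, map_mul, Equiv.Perm.sign_swap hij,
    Equiv.Perm.sign_swap hkl]
  rfl

theorem a5_elts : ∃ a b x y : alternatingGroup (Fin 5), a * a = 1 ∧ b * b = 1 ∧ a ≠ 1 ∧ b ≠ 1 ∧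
    a ≠ b ∧ a * b = b * a ∧ x ^ 3 = 1 ∧ y ^ 3 = 1 ∧ x * y ≠ y * x := by
  refine ⟨⟨Equiv.swap 0 1 * Equiv.swap 2 3, swap_mul_swap_mem5 _ _ _ _ (by decide) (by decide)⟩,
    ⟨Equiv.swap 0 2 * Equiv.swap 1 3, swap_mul_swap_mem5 _ _ _ _ (by decide) (by decide)⟩,
    ⟨Equiv.swap 0 1 * Equiv.swap 1 2, swap_mul_swap_mem5 _ _ _ _ (by decide) (by decide)⟩,
    ⟨Equiv.swap 0 1 * Equiv.swap 1 3, swap_mul_swap_mem5 _ _ _ _ (by decide) (by decide)⟩,
    ?_, ?_, ?_, ?_, ?_, ?_, ?_, ?_, ?_⟩
  · exact Subtype.ext (by decide)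
  · exact Subtype.ext (by decide)
  · exact fun h => absurd (congrArg Subtype.val h) (by decide)
  · exact fun h => absurd (congrArg Subtype.val h) (by decide)
  · exact fun h => absurd (congrArg Subtype.val h) (by decide)
  · exact Subtype.ext (by decide)
  · exact Subtype.ext (by decide)
  · exact Subtype.ext (by decide)
  · exact fun h => absurd (congrArg Subtype.val h) (by decide)

theorem a5_elt5 : ∃ z : alternatingGroup (Fin 5), z ^ 5 = 1 ∧ z ≠ 1 := by
  refine ⟨⟨Equiv.swap 0 1 * Equiv.swap 1 2, swap_mul_swap_mem5 _ _ _ _ (by decide) (by decide)⟩ *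
    ⟨Equiv.swap 2 3 * Equiv.swap 3 4, swap_mul_swap_mem5 _ _ _ _ (by decide) (by decide)⟩,
    ?_, ?_⟩
  · exact Subtype.ext (by decide)
  · exact fun h => absurd (congrArg Subtype.val h) (by decide)

theorem elt5_of_equiv {G A : Type*} [Group G] [Group A] (H : Subgroup G) (e : H ≃* A)
    (z₀ : A) (h1 : z₀ ^ 5 = 1) (h2 : z₀ ≠ 1) : ∃ z : G, z ∈ H ∧ z ^ 5 = 1 ∧ z ≠ 1 := by
  refine ⟨((e.symm z₀ : H) : G), (e.symm z₀).2, ?_, ?_⟩
  · rw [← Subgroup.coe_pow, ← map_pow, h1, map_one, Subgroup.coe_one]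
  · intro h
    apply h2
    have h3 : e.symm z₀ = 1 := Subtype.ext h
    have h4 := congrArg e h3
    rwa [MulEquiv.apply_symm_apply, map_one] at h4

end Cfsg.Agent.Lib.Helper16.Max
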