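import Mathlib
import Cfsg.Agent.Lib.Helper16.Max4
import Cfsg.Agent.Lib.Helper16.Max5

/-!
# Subgroups of `PSL₂(p²)` containing a copy of `A₅`
-/

set_option autoImplicit false

namespace Cfsg.Agent.Lib.Helper16.Max

open Cfsg.Agent.Lib.Helper14.SL2Odd Cfsg.Agent.Lib.Helper14.GL2Conj
open Cfsg.Agent.Lib.Helper16.SL2Four Cfsg.Agent.Lib.Helper16.PSL2A4

variable {F : Type*} [Field F]

/-- a subgroup of `SL₂(p²)` containing `uu t` and `ll σ` with `t σ ∉ 𝔽_p` is everything -/
theorem gen_quad [Fintype F] {p : ℕ} [Fact p.Prime] [CharP F p] (hF : Fintype.card F = p ^ 2)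
    (h2 : (2 : F) ≠ 0) (h3 : (3 : F) ≠ 0)
    (S : Subgroup (Matrix.SpecialLinearGroup (Fin 2) F)) (t σ : F)
    (hu : uu t ∈ S) (hl : ll σ ∈ S) (hlam : t * σ ∉ (⊥ : Subfield F)) : S = ⊤ := by
  have hU : ∀ x : F, x ∈ (⊥ : Subfield F) → uu (x * t) ∈ S := by
    intro x hx
    obtain ⟨n, rfl⟩ := cast_of_mem_bot (p := p) x hx
    rw [← uu_pow]
    exact S.pow_mem hu n
  have hL : ∀ y : F, y ∈ (⊥ : Subfield F) → ll (y * σ) ∈ S := by
    intro y hy
    obtain ⟨n, rfl⟩ := cast_of_mem_bot (p := p) y hy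
    rw [← ll_pow]
    exact S.pow_mem hl n
  obtain ⟨s, v, hs, hv, hq⟩ := quad_rel hF (t * σ)
  have hlam0 : t * σ ≠ 0 := fun h0 => hlam (by rw [h0]; exact zero_mem _)
  have hσ0 : σ ≠ 0 := fun h0 => hlam0 (by rw [h0, mul_zero])
  have ht0 : t ≠ 0 := fun h0 => hlam0 (by rw [h0, zero_mul])
  have hv0 : v ≠ 0 := by
    intro hv0
    apply hlam
    have h5 : (t * σ) * (t * σ - s) = 0 := by linear_combination hq - hv0
    rcases mul_eq_zero.mp h5 with h | h
    · exact absurd h hlam0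
    · have h6 : t * σ = s := by linear_combination h
      rw [h6]
      exact hs
  obtain ⟨w, hw, hw0, hwv⟩ : ∃ w : F, w ∈ (⊥ : Subfield F) ∧ w ≠ 0 ∧ w ^ 2 * v ≠ 1 := by
    by_cases h1 : v = 1
    · refine ⟨2, two_mem_bot, h2, ?_⟩
      rw [h1]
      intro h
      apply h3
      linear_combination h
    · exact ⟨1, one_mem _, one_ne_zero, by rwa [one_pow, one_mul]⟩
  obtain ⟨D, hD⟩ : ∃ D : F, D = w ^ 2 * v + w * s + 1 := ⟨_, rfl⟩
  have hDm : D ∈ (⊥ : Subfield F) := by
    rw [hD]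
    exact add_mem (add_mem (mul_mem (pow_mem hw 2) hv) (mul_mem hw hs)) (one_mem _)
  have hD0 : D ≠ 0 := by
    intro h0
    apply hlam
    obtain ⟨r, hr⟩ : ∃ r : F, r * w = -1 := ⟨-1 / w, div_mul_cancel₀ _ hw0⟩
    have hrm : r ∈ (⊥ : Subfield F) := by
      have e : r = -1 / w := by
        rw [eq_div_iff hw0]
        exact hr
      rw [e]
      exact Subfield.div_mem _ (neg_mem (one_mem _)) hw
    have hroot : r ^ 2 - s * r + v = 0 := by
      apply mul_left_cancel₀ (pow_ne_zero 2 hw0)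
      linear_combination (r * w - 1 - s * w) * hr - hD + h0
    have h5 : (t * σ - r) * (t * σ + r - s) = 0 := by linear_combination hq - hroot
    rcases mul_eq_zero.mp h5 with h | h
    · have h6 : t * σ = r := by linear_combination h
      rw [h6]
      exact hrm
    · have h6 : t * σ = s - r := by linear_combination h
      rw [h6]
      exact sub_mem hs hrm
  obtain ⟨c, hc⟩ : ∃ c : F, c * D = -1 := ⟨-1 / D, div_mul_cancel₀ _ hD0⟩
  have hcm : c ∈ (⊥ : Subfield F) := by
    have e : c = -1 / D := by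
      rw [eq_div_iff hD0]
      exact hc
    rw [e]
    exact Subfield.div_mem _ (neg_mem (one_mem _)) hDm
  have hwv0 : w * v ≠ 0 := mul_ne_zero hw0 hv0
  obtain ⟨f, hf⟩ : ∃ f : F, f * (w * v) = -D := ⟨-D / (w * v), div_mul_cancel₀ _ hwv0⟩
  have hfm : f ∈ (⊥ : Subfield F) := by
    have e : f = -D / (w * v) := by
      rw [eq_div_iff hwv0]
      exact hf
    rw [e]
    exact Subfield.div_mem _ (neg_mem hDm) (mul_mem hw hv)
  obtain ⟨G₀, hG₀⟩ : ∃ G₀ : Matrix.SpecialLinearGroup (Fin 2) F,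
      G₀ = ll (f * σ) * uu (c * t) * ll (w * σ) * uu (1 * t) := ⟨_, rfl⟩
  have hG₀S : G₀ ∈ S := by
    rw [hG₀]
    exact S.mul_mem (S.mul_mem (S.mul_mem (hL f hfm) (hU c hcm)) (hL w hw)) (hU 1 (one_mem _))
  have hGm : (G₀ : Matrix (Fin 2) (Fin 2) F) =
      !![1 + c * t * (w * σ), t * (1 + c * (1 + w * (t * σ)));
        f * σ + (f * σ * (c * t) + 1) * (w * σ),
        (f * σ + (f * σ * (c * t) + 1) * (w * σ)) * t + f * σ * (c * t) + 1] := by
    rw [hG₀]
    simp only [Matrix.SpecialLinearGroup.coe_mul, ll_coe, uu_coe, Matrix.mul_fin_two]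
    exact mat_eq (by ring) (by ring) (by ring) (by ring)
  have h11 : (G₀ : Matrix (Fin 2) (Fin 2) F) 1 1 = 0 := by
    rw [hGm, mat_apply11]
    apply mul_left_cancel₀ hwv0
    linear_combination (w * v * f * c * w) * hq +
      (-(w * v * c) + (t * σ) * (1 + c + c * w * s)) * hf +
      (w * v - (t * σ) * (1 + w * s)) * hc - (t * σ) * hD
  obtain ⟨β, hβdef⟩ : ∃ β : F, β = 1 + c * (1 + w * (t * σ)) := ⟨_, rfl⟩
  have h01 : (G₀ : Matrix (Fin 2) (Fin 2) F) 0 1 = t * β := by
    rw [hGm, mat_apply01, hβdef]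
  have hρ : -((t * σ) * β ^ 2) ∉ (⊥ : Subfield F) := by
    intro hmem
    apply hlam
    have hβ : D * β = w * (w * v + s - t * σ) := by
      rw [hβdef]
      linear_combination hD + (1 + w * (t * σ)) * hc
    have key : D ^ 2 * (-((t * σ) * β ^ 2)) =
        -(w ^ 2 * (v * (w ^ 2 * v - 1) * (t * σ) + v * (2 * w * v + s))) := by
      linear_combination (-((t * σ) * (D * β + w * (w * v + s - t * σ)))) * hβ -
        w ^ 2 * ((t * σ) - (s + 2 * w * v)) * hq
    have hA0 : w ^ 2 * v * (w ^ 2 * v - 1) ≠ 0 :=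
      mul_ne_zero (mul_ne_zero (pow_ne_zero 2 hw0) hv0) (sub_ne_zero.mpr hwv)
    have e : t * σ = (-(D ^ 2 * (-((t * σ) * β ^ 2))) - w ^ 2 * v * (2 * w * v + s)) /
        (w ^ 2 * v * (w ^ 2 * v - 1)) := by
      rw [eq_div_iff hA0]
      linear_combination key
    rw [e]
    exact Subfield.div_mem _
      (sub_mem (neg_mem (mul_mem (pow_mem hDm 2) hmem))
        (mul_mem (mul_mem (pow_mem hw 2) hv)
          (add_mem (mul_mem (mul_mem two_mem_bot hw) hv) hs)))
      (mul_mem (mul_mem (pow_mem hw 2) hv) (sub_mem (mul_mem (pow_mem hw 2) hv) (one_mem _)))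
  have hT : ∀ y : F, y ∈ (⊥ : Subfield F) → uu (t * (y * (-((t * σ) * β ^ 2)))) ∈ S := by
    intro y hy
    have h5 := conj_ll G₀ h11 (y * σ)
    rw [h01] at h5
    have e : t * (y * (-((t * σ) * β ^ 2))) = -((t * β) ^ 2 * (y * σ)) := by ring
    rw [e, ← h5]
    exact S.mul_mem (S.mul_mem hG₀S (hL y hy)) (S.inv_mem hG₀S)
  have hall : ∀ z : F, uu z ∈ S := by
    intro z
    obtain ⟨f₁, f₂, hf₁, hf₂, hz⟩ := span_quad hF _ hρ (z / t)
    have h5 : t * (z / t) = z := by
      rw [mul_div_assoc']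
      exact mul_div_cancel_left₀ z ht0
    have e : z = f₁ * t + t * (f₂ * (-((t * σ) * β ^ 2))) := by
      calc z = t * (z / t) := h5.symm
        _ = f₁ * t + t * (f₂ * (-((t * σ) * β ^ 2))) := by rw [hz]; ring
    rw [e, ← uu_mul]
    exact S.mul_mem (hU f₁ hf₁) (hT f₂ hf₂)
  refine gen_top' S hall (ll (1 * σ)) (hL 1 (one_mem _)) ?_
  rw [ll_coe, mat_apply10, one_mul]
  exact hσ0

/-- a proper subgroup of `SL₂(p²)` containing `uu t`: lower left entries `c` have
`(c t)² ∈ 𝔽_p` -/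
theorem star [Fintype F] {p : ℕ} [Fact p.Prime] [CharP F p] (hF : Fintype.card F = p ^ 2)
    (h2 : (2 : F) ≠ 0) (h3 : (3 : F) ≠ 0)
    (S : Subgroup (Matrix.SpecialLinearGroup (Fin 2) F)) (t : F)
    (hu : uu t ∈ S) (hS : S ≠ ⊤) (g : Matrix.SpecialLinearGroup (Fin 2) F) (hg : g ∈ S) :
    ((g : Matrix (Fin 2) (Fin 2) F) 1 0 * t) ^ 2 ∈ (⊥ : Subfield F) := by
  obtain ⟨a, b, c, d, hgm, hdet⟩ := sl_form g
  rw [hgm, mat_apply10]
  by_cases hc : c = 0
  · rw [hc, zero_mul, zero_pow two_ne_zero]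
    exact zero_mem _
  by_contra hnot
  apply hS
  obtain ⟨ω, hω⟩ : ∃ ω : F, ω * c = a := ⟨a / c, div_mul_cancel₀ _ hc⟩
  obtain ⟨S', hS'⟩ : ∃ S' : Subgroup (Matrix.SpecialLinearGroup (Fin 2) F),
      ∀ k, k ∈ S' ↔ uu ω * k * (uu ω)⁻¹ ∈ S :=
    ⟨S.comap (MulAut.conj (uu ω)).toMonoidHom, fun k => Iff.rfl⟩
  have hu' : uu t ∈ S' := by
    rw [hS']
    have e : uu ω * uu t * (uu ω)⁻¹ = uu t := by
      rw [uu_inv, uu_mul, uu_mul]
      congr 1
      ring
    rw [e]
    exact hu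
  have hl' : ll (-(c ^ 2 * t)) ∈ S' := by
    rw [hS', conj_uu g a b c d hgm hdet ω hω t]
    exact S.mul_mem (S.mul_mem hg hu) (S.inv_mem hg)
  have hlam : t * (-(c ^ 2 * t)) ∉ (⊥ : Subfield F) := by
    intro hmem
    apply hnot
    have e : (c * t) ^ 2 = -(t * (-(c ^ 2 * t))) := by ring
    rw [e]
    exact neg_mem hmem
  have htop := gen_quad hF h2 h3 S' t (-(c ^ 2 * t)) hu' hl' hlam
  rw [eq_top_iff]
  intro k _
  have h5 : (uu ω)⁻¹ * k * uu ω ∈ S' := by
    rw [htop]
    exact Subgroup.mem_top _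
  rw [hS'] at h5
  have e : uu ω * ((uu ω)⁻¹ * k * uu ω) * (uu ω)⁻¹ = k := by group
  rw [e] at h5
  exact h5

/-- a subgroup of `PSL₂(p²)` (`p ≡ ±2 mod 5`, `p ≠ 3`) containing a four-group, two
non-commuting elements of order three and an element of order five is everything or has
order `12`, `24` or `60` -/
theorem max_psl2 [Fintype F] {p : ℕ} [Fact p.Prime] [CharP F p] (hF : Fintype.card F = p ^ 2)
    (h2 : (2 : F) ≠ 0) (h3 : (3 : F) ≠ 0) (hp5 : p % 5 = 2 ∨ p % 5 = 3) (hp2 : p ≠ 2)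
    (K : Subgroup (Matrix.ProjectiveSpecialLinearGroup (Fin 2) F))
    (a b x y z : Matrix.ProjectiveSpecialLinearGroup (Fin 2) F)
    (ha : a ∈ K) (hb : b ∈ K) (hx : x ∈ K) (hy : y ∈ K) (hz : z ∈ K)
    (ha2 : a * a = 1) (hb2 : b * b = 1) (ha1 : a ≠ 1) (hb1 : b ≠ 1) (hab : a ≠ b)
    (hc : a * b = b * a) (hx3 : x ^ 3 = 1) (hy3 : y ^ 3 = 1) (hxy : x * y ≠ y * x)
    (hz5 : z ^ 5 = 1) (hz1 : z ≠ 1) :
    K = ⊤ ∨ Nat.card K = 12 ∨ Nat.card K = 24 ∨ Nat.card K = 60 := by
  haveI := finite_psl (F := F)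
  by_cases hss : ∀ X : Matrix.SpecialLinearGroup (Fin 2) F,
      (X : Matrix.ProjectiveSpecialLinearGroup (Fin 2) F) ∈ K →
      (X : Matrix.ProjectiveSpecialLinearGroup (Fin 2) F) ≠ 1 → (tr2 X) ^ 2 ≠ 4
  · right
    rcases semisimple_case h2 K hss with ⟨A, hA, hle⟩ | h1 | h
    · exfalso
      apply hxy
      have h5 := comm_of_index_two A hA hle ⟨x, hx⟩ ⟨y, hy⟩
        (Subtype.ext (by simpa using hx3)) (Subtype.ext (by simpa using hy3))
      exact congrArg Subtype.val h5
    · exfalso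
      have h5 : K = ⊥ := Subgroup.eq_bot_of_card_eq K h1
      rw [h5] at ha
      exact ha1 (Subgroup.mem_bot.mp ha)
    · exact h
  · left
    push_neg at hss
    obtain ⟨X, hXK, hX1, hXt⟩ := hss
    have ht : tr2 X = 2 ∨ tr2 X = -2 := by
      have h5 : (tr2 X - 2) * (tr2 X + 2) = 0 := by linear_combination hXt
      rcases mul_eq_zero.mp h5 with h | h
      · left
        linear_combination h
      · right
        linear_combination h
    obtain ⟨U, hUK, hU1, hUt⟩ : ∃ U : Matrix.SpecialLinearGroup (Fin 2) F,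
        (U : Matrix.ProjectiveSpecialLinearGroup (Fin 2) F) ∈ K ∧ U ≠ 1 ∧ tr2 U = 2 := by
      rcases ht with h | h
      · exact ⟨X, hXK, (ne_of_mk_ne_one X hX1).1, h⟩
      · have e : (X : Matrix.ProjectiveSpecialLinearGroup (Fin 2) F) =
            ((X * negOne : Matrix.SpecialLinearGroup (Fin 2) F) :
              Matrix.ProjectiveSpecialLinearGroup (Fin 2) F) :=
          (mk_eq_iff X (X * negOne)).mpr (Or.inr rfl)
        refine ⟨X * negOne, ?_, ?_, ?_⟩
        · rw [← e]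
          exact hXK
        · intro h1
          apply hX1
          rw [e, h1]
          rfl
        · rw [Cfsg.Agent.Lib.Helper16.Hall23.tr2_mul_negOne, h, neg_neg]
    obtain ⟨h, t, ht0, hUh⟩ := unip_form U hUt hU1
    obtain ⟨S, hS⟩ : ∃ S : Subgroup (Matrix.SpecialLinearGroup (Fin 2) F),
        ∀ g : Matrix.SpecialLinearGroup (Fin 2) F, g ∈ S ↔
          ((h * g * h⁻¹ : Matrix.SpecialLinearGroup (Fin 2) F) :
            Matrix.ProjectiveSpecialLinearGroup (Fin 2) F) ∈ K :=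
      ⟨(K.comap (QuotientGroup.mk' (Subgroup.center
        (Matrix.SpecialLinearGroup (Fin 2) F)))).comap (MulAut.conj h).toMonoidHom,
        fun g => Iff.rfl⟩
    have huS : uu t ∈ S := by
      rw [hS, ← hUh, mul_inv_cancel_right]
      exact hUK
    by_cases htri : ∀ g ∈ S, (g : Matrix (Fin 2) (Fin 2) F) 1 0 = 0
    · exfalso
      obtain ⟨A₀, B₀, hA₀, hB₀, hanti⟩ := anti_lifts h2 a b ha2 hb2 ha1 hb1 hab hc
      have hA' : h⁻¹ * A₀ * h ∈ S := by
        rw [hS]
        have e : h * (h⁻¹ * A₀ * h) * h⁻¹ = A₀ := by group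
        rw [e, hA₀]
        exact ha
      have hB' : h⁻¹ * B₀ * h ∈ S := by
        rw [hS]
        have e : h * (h⁻¹ * B₀ * h) * h⁻¹ = B₀ := by group
        rw [e, hB₀]
        exact hb
      apply no_anti_tri h2 (h⁻¹ * A₀ * h) (h⁻¹ * B₀ * h) (htri _ hA') (htri _ hB')
      calc h⁻¹ * A₀ * h * (h⁻¹ * B₀ * h) = h⁻¹ * (A₀ * B₀) * h := by group
        _ = h⁻¹ * (B₀ * A₀ * negOne) * h := by rw [hanti]
        _ = h⁻¹ * B₀ * A₀ * (negOne * h) := by group
        _ = h⁻¹ * B₀ * A₀ * (h * negOne) := by rw [negOne_comm h]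
        _ = h⁻¹ * B₀ * h * (h⁻¹ * A₀ * h) * negOne := by group
    · push_neg at htri
      obtain ⟨g, hgS, hg10⟩ := htri
      have hStop : S = ⊤ := by
        by_contra hSne
        obtain ⟨Z, hZz, hZ5⟩ := lift_five z hz5
        have hZ1 : Z ≠ 1 := by
          intro h1
          apply hz1
          rw [← hZz, h1]
          rfl
        have hZ5' : Z * Z * Z * Z * Z = 1 := by
          rw [← hZ5]
          simp only [pow_succ, pow_zero, one_mul]
        have hτ := tr_of_pow_five h2 Z hZ5' hZ1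
        obtain ⟨W, hW⟩ : ∃ W : Matrix.SpecialLinearGroup (Fin 2) F, W = h⁻¹ * Z * h :=
          ⟨_, rfl⟩
        have hWS : W ∈ S := by
          rw [hS, hW]
          have e : h * (h⁻¹ * Z * h) * h⁻¹ = Z := by group
          rw [e, hZz]
          exact hz
        have htr' : tr2 W = tr2 Z := by
          have h6 := tr2_conj h⁻¹ Z
          rw [inv_inv] at h6
          rw [hW]
          exact h6
        have hτ' : tr2 W ^ 2 + tr2 W = 1 := by
          rw [htr']
          exact hτ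
        have hnm : (tr2 W) ^ 2 ∉ (⊥ : Subfield F) := by
          intro hm
          apply tau_not_mem (p := p) hp5 hp2 (tr2 W) hτ'
          have e : tr2 W = 1 - tr2 W ^ 2 := by linear_combination hτ'
          rw [e]
          exact sub_mem (one_mem _) hm
        apply hnm
        obtain ⟨a', b', c', d', hWm, hWdet⟩ := sl_form W
        obtain ⟨α, β, γ, δ, hgm, hgdet⟩ := sl_form g
        have hγ : γ ≠ 0 := by
          rw [hgm, mat_apply10] at hg10
          exact hg10
        have htrW : tr2 W = a' + d' := by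
          unfold tr2
          rw [hWm]
          rfl
        rw [htrW]
        have hst := star hF h2 h3 S t huS hSne
        by_cases hc0 : c' = 0
        · have k1 := hst (W * g) (S.mul_mem hWS hgS)
          have k2 := hst (g * W) (S.mul_mem hgS hWS)
          have k0 := hst g hgS
          rw [Matrix.SpecialLinearGroup.coe_mul, hWm, hgm, Matrix.mul_fin_two,
            mat_apply10] at k1
          rw [Matrix.SpecialLinearGroup.coe_mul, hWm, hgm, Matrix.mul_fin_two,
            mat_apply10] at k2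
          rw [hgm, mat_apply10] at k0
          have hγt : (γ * t) ^ 2 ≠ 0 := pow_ne_zero 2 (mul_ne_zero hγ ht0)
          have hd2 : d' ^ 2 ∈ (⊥ : Subfield F) := by
            have e : d' ^ 2 = ((c' * α + d' * γ) * t) ^ 2 / (γ * t) ^ 2 := by
              rw [eq_div_iff hγt, hc0]
              ring
            rw [e]
            exact Subfield.div_mem _ k1 k0
          have ha2' : a' ^ 2 ∈ (⊥ : Subfield F) := by
            have e : a' ^ 2 = ((γ * a' + δ * c') * t) ^ 2 / (γ * t) ^ 2 := by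
              rw [eq_div_iff hγt, hc0]
              ring
            rw [e]
            exact Subfield.div_mem _ k2 k0
          have e : (a' + d') ^ 2 = a' ^ 2 + d' ^ 2 + 2 := by
            rw [hc0] at hWdet
            linear_combination 2 * hWdet
          rw [e]
          exact add_mem (add_mem ha2' hd2) two_mem_bot
        · have k1 := hst W hWS
          have k2 := hst (W * W) (S.mul_mem hWS hWS)
          rw [hWm, mat_apply10] at k1
          rw [Matrix.SpecialLinearGroup.coe_mul, hWm, Matrix.mul_fin_two, mat_apply10] at k2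
          have hct : (c' * t) ^ 2 ≠ 0 := pow_ne_zero 2 (mul_ne_zero hc0 ht0)
          have e : (a' + d') ^ 2 = ((c' * a' + d' * c') * t) ^ 2 / (c' * t) ^ 2 := by
            rw [eq_div_iff hct]
            ring
          rw [e]
          exact Subfield.div_mem _ k2 k1
      rw [eq_top_iff]
      intro k _
      obtain ⟨M, rfl⟩ := QuotientGroup.mk_surjective k
      have h5 : h⁻¹ * M * h ∈ S := by
        rw [hStop]
        exact Subgroup.mem_top _
      rw [hS] at h5
      have e : h * (h⁻¹ * M * h) * h⁻¹ = M := by group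
      rw [e] at h5
      exact h5

end Cfsg.Agent.Lib.Helper16.Max
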