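import Mathlib
import Cfsg.Agent.Lib.Helper16.PSL2A4
import Cfsg.Agent.Lib.Helper18.SL25Pres
import Cfsg.Agent.S0253

/-!
# Copies of the alternating group of degree five in `PSL₂(q)`

* `pow_five_of_tr`: an element of `SL₂` whose trace `τ` satisfies `τ² + τ = 1` has fifth power one.
* `exists_conic`, `exists_a5_elts`: a `(3, 5, 2)`-triple in `SL₂(F)` modulo the centre.
* `exists_a5_of_elts`: such a triple gives a copy of `A₅` in `PSL₂(F)`.
* `exists_tau`: if `5 ∣ q (q² - 1)` then `X² + X - 1` has a root in `F`.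
-/

set_option autoImplicit false

namespace Cfsg.Agent.Lib.Helper16.PSL2A5

open Cfsg.Agent.Lib.Helper14.SL2Odd Cfsg.Agent.Lib.Helper16.SL2Four
  Cfsg.Agent.Lib.Helper16.KleinPairs Cfsg.Agent.Lib.Helper16.PSL2A4

variable {F : Type*} [Field F]

theorem pow_five_of_tr (g : Matrix.SpecialLinearGroup (Fin 2) F) (p q r s τ : F)
    (hg : (g : Matrix (Fin 2) (Fin 2) F) = !![p, q; r, s]) (htr : p + s = τ)
    (hτ : τ ^ 2 + τ = 1) : g * g * g * g * g = 1 := by
  have hdet := g.det_coe
  rw [hg, Matrix.det_fin_two_of] at hdet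
  apply Subtype.ext
  rw [Matrix.SpecialLinearGroup.coe_mul, Matrix.SpecialLinearGroup.coe_mul,
    Matrix.SpecialLinearGroup.coe_mul, Matrix.SpecialLinearGroup.coe_mul, hg]
  simp only [Matrix.mul_fin_two]
  show _ = (1 : Matrix (Fin 2) (Fin 2) F)
  rw [Matrix.one_fin_two]
  apply mat_eq <;> grind

theorem exists_conic [Fintype F] (τ : F) (hτ : τ ^ 2 + τ = 1) :
    ∃ y1 y3 : F, y1 ^ 2 + y1 + y3 ^ 2 - τ * y3 + 1 = 0 := by
  by_cases h2 : (2 : F) = 0
  · exact ⟨τ, 0, by linear_combination hτ + h2⟩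
  · have hodd : Fintype.card F % 2 = 1 := by
      by_contra hpar
      have hch : ringChar F = 2 := FiniteField.even_card_iff_char_two.mpr (by omega)
      apply h2
      have := CharP.cast_eq_zero F (ringChar F)
      rw [hch] at this
      exact_mod_cast this
    have hf : (Polynomial.C (1 : F) * Polynomial.X ^ 2 + Polynomial.C (1 : F) * Polynomial.X +
        Polynomial.C (1 : F)).degree = 2 := Polynomial.degree_quadratic one_ne_zero
    have hg : (Polynomial.C (1 : F) * Polynomial.X ^ 2 + Polynomial.C (-τ) * Polynomial.X +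
        Polynomial.C (0 : F)).degree = 2 := Polynomial.degree_quadratic one_ne_zero
    obtain ⟨a, b, hab⟩ := FiniteField.exists_root_sum_quadratic hf hg hodd
    simp only [Polynomial.eval_add, Polynomial.eval_mul, Polynomial.eval_C, Polynomial.eval_X,
      Polynomial.eval_pow] at hab
    exact ⟨a, b, by linear_combination hab⟩

/-- a `(3, 5, 2)`-triple modulo the centre -/
theorem exists_a5_elts [Fintype F] (τ : F) (hτ : τ ^ 2 + τ = 1) :
    ∃ x y : Matrix.SpecialLinearGroup (Fin 2) F, x * x * x = 1 ∧ y * y * y * y * y = 1 ∧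
      (x * y) * (x * y) = negOne ∧ (x : Matrix.ProjectiveSpecialLinearGroup (Fin 2) F) ≠ 1 := by
  obtain ⟨y1, y3, hy⟩ := exists_conic τ hτ
  have hd : (!![y1, y3 - τ; y3, -1 - y1] : Matrix (Fin 2) (Fin 2) F).det = 1 := by
    rw [Matrix.det_fin_two_of]
    linear_combination (-1) * hy
  obtain ⟨x, hx⟩ : ∃ x : Matrix.SpecialLinearGroup (Fin 2) F,
      (x : Matrix (Fin 2) (Fin 2) F) = !![y1, y3 - τ; y3, -1 - y1] := ⟨⟨_, hd⟩, rfl⟩
  have hxy : ((x⁻¹ * cs : Matrix.SpecialLinearGroup (Fin 2) F) : Matrix (Fin 2) (Fin 2) F) =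
      !![τ - y3, 1 + y1; y1, y3] := by
    rw [Matrix.SpecialLinearGroup.coe_mul, Matrix.SpecialLinearGroup.coe_inv, hx,
      Matrix.adjugate_fin_two_of, cs_coe, Matrix.mul_fin_two]
    apply mat_eq <;> ring
  refine ⟨x, x⁻¹ * cs, ?_, ?_, ?_, ?_⟩
  · exact cube_of_tr x _ _ _ _ hx (by ring)
  · exact pow_five_of_tr _ _ _ _ _ τ hxy (by ring) hτ
  · have e : x * (x⁻¹ * cs) = cs := by group
    rw [e, cs_sq]
  · intro h
    have hc : x ∈ Subgroup.center (Matrix.SpecialLinearGroup (Fin 2) F) :=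
      (QuotientGroup.eq_one_iff x).mp h
    have hτ0 : τ ≠ 0 := by
      rintro rfl
      simp at hτ
    rcases center_cases x hc with h1 | h1
    · have h3 := congrArg (fun g : Matrix.SpecialLinearGroup (Fin 2) F =>
        (g : Matrix (Fin 2) (Fin 2) F)) h1
      simp only [hx] at h3
      have h4 : (!![y1, y3 - τ; y3, -1 - y1] : Matrix (Fin 2) (Fin 2) F) = !![1, 0; 0, 1] := by
        rw [h3, ← Matrix.one_fin_two]
        rfl
      obtain ⟨-, e01, e10, -⟩ := mat_entries h4
      apply hτ0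
      linear_combination e10 - e01
    · have h3 := congrArg (fun g : Matrix.SpecialLinearGroup (Fin 2) F =>
        (g : Matrix (Fin 2) (Fin 2) F)) h1
      simp only [hx, negOne_coe] at h3
      obtain ⟨-, e01, e10, -⟩ := mat_entries h3
      apply hτ0
      linear_combination e10 - e01

theorem negOne_eq_mZ : haveI : Fact (Nat.Prime 5) := ⟨by norm_num⟩
    (negOne : Matrix.SpecialLinearGroup (Fin 2) (ZMod 5)) = Cfsg.Agent.Lib.Helper18.SL25Pres.mZ := by
  decide

/-- a `(3, 5, 2)`-triple modulo the centre gives a copy of `A₅` -/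
theorem exists_a5_of_elts [Fintype F] (x y : Matrix.SpecialLinearGroup (Fin 2) F)
    (hx : x * x * x = 1) (hy : y * y * y * y * y = 1) (hxy : (x * y) * (x * y) = negOne)
    (hx1 : (x : Matrix.ProjectiveSpecialLinearGroup (Fin 2) F) ≠ 1) :
    ∃ H : Subgroup (Matrix.ProjectiveSpecialLinearGroup (Fin 2) F),
      Nonempty (H ≃* alternatingGroup (Fin 5)) := by
  haveI : Fact (Nat.Prime 5) := ⟨by norm_num⟩
  have hx' : (x : Matrix.ProjectiveSpecialLinearGroup (Fin 2) F) ^ 3 = 1 := by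
    have h := congrArg (fun g : Matrix.SpecialLinearGroup (Fin 2) F =>
      (g : Matrix.ProjectiveSpecialLinearGroup (Fin 2) F)) hx
    rw [pow_succ, pow_two]
    exact h
  have hy' : (y : Matrix.ProjectiveSpecialLinearGroup (Fin 2) F) ^ 5 = 1 := by
    have h := congrArg (fun g : Matrix.SpecialLinearGroup (Fin 2) F =>
      (g : Matrix.ProjectiveSpecialLinearGroup (Fin 2) F)) hy
    rw [pow_succ, pow_succ, pow_succ, pow_two]
    exact h
  have hxy' : ((x : Matrix.ProjectiveSpecialLinearGroup (Fin 2) F) * y) ^ 2 = 1 := by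
    have h := congrArg (fun g : Matrix.SpecialLinearGroup (Fin 2) F =>
      (g : Matrix.ProjectiveSpecialLinearGroup (Fin 2) F)) hxy
    rw [pow_two]
    exact h.trans mk_negOne
  obtain ⟨f0, hf0, hf1, hf2⟩ := Cfsg.Agent.Lib.Helper18.SL25Pres.exists_hom
    (x : Matrix.ProjectiveSpecialLinearGroup (Fin 2) F)
    (y : Matrix.ProjectiveSpecialLinearGroup (Fin 2) F) 1 hx' hy' (one_pow 2)
    (by rw [one_mul, mul_one]) (by rw [one_mul, mul_one]) hxy'
  obtain ⟨e, he0, he1, he2⟩ := Cfsg.Agent.Lib.Helper18.SL25Pres.pres_equiv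
  obtain ⟨θ0, hθ0⟩ : ∃ θ0 : Matrix.SpecialLinearGroup (Fin 2) (ZMod 5) →*
      Matrix.ProjectiveSpecialLinearGroup (Fin 2) F, θ0 = f0.comp e.symm.toMonoidHom := ⟨_, rfl⟩
  have hθX : θ0 Cfsg.Agent.Lib.Helper18.SL25Pres.mX = x := by
    rw [hθ0, ← he0]
    show f0 (e.symm (e _)) = _
    rw [e.symm_apply_apply, hf0]
  have hθZ : θ0 Cfsg.Agent.Lib.Helper18.SL25Pres.mZ = 1 := by
    rw [hθ0, ← he2]
    show f0 (e.symm (e _)) = _
    rw [e.symm_apply_apply, hf2]
  have hker : Subgroup.center (Matrix.SpecialLinearGroup (Fin 2) (ZMod 5)) ≤ θ0.ker := by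
    intro z hz
    rw [MonoidHom.mem_ker]
    rcases center_cases z hz with h | h
    · rw [h, map_one]
    · rw [h, negOne_eq_mZ, hθZ]
  obtain ⟨θ, hθ⟩ : ∃ θ : Matrix.ProjectiveSpecialLinearGroup (Fin 2) (ZMod 5) →*
      Matrix.ProjectiveSpecialLinearGroup (Fin 2) F, θ = QuotientGroup.lift _ θ0 hker := ⟨_, rfl⟩
  have hs5 : IsSimpleGroup (Matrix.ProjectiveSpecialLinearGroup (Fin 2) (ZMod 5)) :=
    Matrix.ProjectiveSpecialLinearGroup.rank_two_simple
      (by rw [Nat.card_eq_fintype_card, ZMod.card]; norm_num)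
  have hinj : Function.Injective θ := by
    rcases hs5.eq_bot_or_eq_top_of_normal θ.ker inferInstance with h | h
    · exact (MonoidHom.ker_eq_bot_iff θ).mp h
    · exfalso
      have h1 : (QuotientGroup.mk Cfsg.Agent.Lib.Helper18.SL25Pres.mX :
          Matrix.ProjectiveSpecialLinearGroup (Fin 2) (ZMod 5)) ∈ θ.ker := by
        rw [h]
        exact Subgroup.mem_top _
      rw [MonoidHom.mem_ker, hθ] at h1
      change θ0 _ = 1 at h1
      rw [hθX] at h1
      exact hx1 h1
  obtain ⟨e5⟩ := Cfsg.Agent.S0253.result (F := ZMod 5) (ZMod.card 5)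
  exact ⟨θ.range, ⟨(MonoidHom.ofInjective hinj).symm.trans e5⟩⟩

/-! ### the golden ratio -/

theorem zmod5_sq (x : ZMod 5) (h : x = 0 ∨ x = 1 ∨ x = 4) : IsSquare x ∧ IsSquare (-x) := by
  rcases h with rfl | rfl | rfl
  · exact ⟨⟨0, by decide⟩, ⟨0, by decide⟩⟩
  · exact ⟨⟨1, by decide⟩, ⟨2, by decide⟩⟩
  · exact ⟨⟨2, by decide⟩, ⟨1, by decide⟩⟩

theorem isSquare_five [Fintype F] (hodd : Fintype.card F % 2 = 1)
    (h5 : Fintype.card F % 5 = 0 ∨ Fintype.card F % 5 = 1 ∨ Fintype.card F % 5 = 4) :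
    IsSquare (5 : F) := by
  haveI : Fact (Nat.Prime 5) := ⟨by norm_num⟩
  have hch : ringChar F ≠ 2 := by
    intro h
    have := FiniteField.even_card_iff_char_two.mp h
    omega
  have key := (FiniteField.isSquare_odd_prime_iff hch (p := 5) (by norm_num)).mpr
  have h : IsSquare ((5 : ℕ) : F) := by
    apply key
    rw [Ne, quadraticChar_neg_one_iff_not_isSquare, not_not]
    have hχ : ZMod.χ₄ ((Fintype.card F : ℕ) : ZMod 4) = 1 ∨
        ZMod.χ₄ ((Fintype.card F : ℕ) : ZMod 4) = -1 := by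
      rw [ZMod.χ₄_nat_eq_if_mod_four, if_neg (by omega)]
      split_ifs
      · left; rfl
      · right; rfl
    have hq5 : ((Fintype.card F : ℕ) : ZMod 5) = 0 ∨ ((Fintype.card F : ℕ) : ZMod 5) = 1 ∨
        ((Fintype.card F : ℕ) : ZMod 5) = 4 := by
      have e : ((Fintype.card F : ℕ) : ZMod 5) = ((Fintype.card F % 5 : ℕ) : ZMod 5) :=
        (ZMod.natCast_mod _ 5).symm
      rcases h5 with h | h | h
      · left; rw [e, h]; rfl
      · right; left; rw [e, h]; rfl
      · right; right; rw [e, h]; rfl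
    rcases hχ with h | h
    · rw [h, Int.cast_one, one_mul]
      exact (zmod5_sq _ hq5).1
    · rw [h, Int.cast_neg, Int.cast_one, neg_one_mul]
      exact (zmod5_sq _ hq5).2
  exact_mod_cast h

theorem exists_tau [Fintype F]
    (h : 5 ∣ Fintype.card F * (Fintype.card F ^ 2 - 1)) : ∃ τ : F, τ ^ 2 + τ = 1 := by
  have hp5 : Nat.Prime 5 := by norm_num
  by_cases h2 : (2 : F) = 0
  · have hch : ringChar F = 2 :=
      CharP.ringChar_of_prime_eq_zero Nat.prime_two (by exact_mod_cast h2)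
    obtain ⟨n, -, hn⟩ := FiniteField.card F (ringChar F)
    rw [hch] at hn
    have hn' : Even (n : ℕ) := by
      by_contra hodd
      rw [Nat.not_even_iff_odd] at hodd
      obtain ⟨k, hk⟩ := hodd
      rw [hn] at h
      rcases (Nat.Prime.dvd_mul hp5).mp h with h' | h'
      · have := Nat.Prime.dvd_of_dvd_pow hp5 h'
        omega
      · have e : (2 ^ (n : ℕ)) ^ 2 = 16 ^ k * 4 := by
          rw [hk, ← pow_mul, show (2 * k + 1) * 2 = 4 * k + 2 by ring, pow_add, pow_mul]
          norm_num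
        have h16 : 16 ^ k % 5 = 1 := by
          rw [Nat.pow_mod]
          norm_num
        rw [e] at h'
        omega
    obtain ⟨a, ha⟩ := root_of_even hn hn'
    exact ⟨a, by linear_combination ha - h2⟩
  · have hodd : Fintype.card F % 2 = 1 := by
      by_contra hpar
      have hch : ringChar F = 2 := FiniteField.even_card_iff_char_two.mpr (by omega)
      apply h2
      have := CharP.cast_eq_zero F (ringChar F)
      rw [hch] at this
      exact_mod_cast this
    have h5 : Fintype.card F % 5 = 0 ∨ Fintype.card F % 5 = 1 ∨ Fintype.card F % 5 = 4 := by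
      rcases (Nat.Prime.dvd_mul hp5).mp h with h' | h'
      · left
        omega
      · have hpos : 0 < Fintype.card F ^ 2 := by
          have : 0 < Fintype.card F := Fintype.card_pos
          positivity
        have h1 : Fintype.card F ^ 2 % 5 = (Fintype.card F % 5) ^ 2 % 5 := Nat.pow_mod _ 2 5
        have h3 : Fintype.card F % 5 < 5 := Nat.mod_lt _ (by norm_num)
        have key : ∀ v < 5, v ^ 2 % 5 = 1 → (v = 0 ∨ v = 1 ∨ v = 4) := by decide
        exact key _ h3 (by omega)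
    obtain ⟨s, hs⟩ := isSquare_five hodd h5
    obtain ⟨e, he⟩ : ∃ e : F, 2 * e = 1 := ⟨(2 : F)⁻¹, mul_inv_cancel₀ h2⟩
    exact ⟨e * (s - 1), by grind⟩

end Cfsg.Agent.Lib.Helper16.PSL2A5
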