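import Mathlib
import Cfsg.Agent.Lib.Lead.QuadPair

/-!
# Two quadratically acting generators: the two-dimensional section (helper16)

A strengthening of `Cfsg.Agent.Lib.Lead.QuadPair.quad_pair` which also records the section of
the module on which the group acts through `GL₂(E)`.  The proof of the irreducible case is the
one of `Lead.QuadPair.irr_case`, with the coordinate map kept.
-/

set_option autoImplicit false
open scoped MatrixGroups Matrix

namespace Cfsg.Agent.Lib.Helper16.QuadSec

open Cfsg.Agent.Lib.Lead.QuadPair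

universe u v

/-- the action has a two-dimensional section over a finite field `E` on which `a`, `b` act as the
standard transvections: `W₁` is an invariant subgroup and `π` an equivariant additive map of
`W₁` onto `E²`. -/
def HasSec (p : ℕ) {H : Type v} [Group H] {W : Type u} [AddCommGroup W]
    (φ : H →* AddMonoid.End W) (a b : H) : Prop :=
  ∃ (E : Type u) (_ : Field E) (_ : Finite E) (_ : CharP E p) (γ : E) (ψ : H →* GL (Fin 2) E)
    (W₁ : AddSubgroup W) (π : W → (Fin 2 → E)),
    γ ≠ 0 ∧ (ψ a : Matrix (Fin 2) (Fin 2) E) = !![1, 1; 0, 1] ∧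
      (ψ b : Matrix (Fin 2) (Fin 2) E) = !![1, 0; γ, 1] ∧
      Inv φ W₁ ∧ (∀ w ∈ W₁, ∀ w' ∈ W₁, π (w + w') = π w + π w') ∧
      (∀ x, ∃ w ∈ W₁, π w = x) ∧
      (∀ h, ∀ w ∈ W₁, π (φ h w) = (ψ h : Matrix (Fin 2) (Fin 2) E) *ᵥ π w)

section irr

variable {H : Type v} {W : Type u} [Group H] [AddCommGroup W] [Finite W]

theorem irr_case' (p : ℕ) [Fact p.Prime] (hW : ∀ w : W, p • w = 0)
    (φ : H →* AddMonoid.End W) (a b : H)
    (hab : Subgroup.closure ({a, b} : Set H) = ⊤)
    (ha : (φ a - 1) * (φ a - 1) = 0) (hb : (φ b - 1) * (φ b - 1) = 0)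
    (hirr : ∀ M : AddSubgroup W, Inv φ M → M = ⊥ ∨ M = ⊤)
    (hA0 : φ a - 1 ≠ 0) : HasSec p φ a b := by
  obtain ⟨A, hA⟩ : ∃ A, A = φ a - 1 := ⟨_, rfl⟩
  obtain ⟨B, hB⟩ : ∃ B, B = φ b - 1 := ⟨_, rfl⟩
  have ha' : A * A = 0 := by rw [hA]; exact ha
  have hb' : B * B = 0 := by rw [hB]; exact hb
  have hA0' : A ≠ 0 := by rw [hA]; exact hA0
  have hφa : φ a = 1 + A := by rw [hA]; abel
  have hφb : φ b = 1 + B := by rw [hB]; abel
  have hAA : ∀ w, A (A w) = 0 := fun w => congrArg (fun f : AddMonoid.End W => f w) ha'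
  have hBB : ∀ w, B (B w) = 0 := fun w => congrArg (fun f : AddMonoid.End W => f w) hb'
  have hinv : ∀ M : AddSubgroup W, (∀ w ∈ M, A w ∈ M) → (∀ w ∈ M, B w ∈ M) → M = ⊥ ∨ M = ⊤ := by
    intro M h1 h2
    refine hirr M (inv_of_gen φ a b hab ha hb M ?_ ?_)
    · rw [← hA]; exact h1
    · rw [← hB]; exact h2
  have hWnt : Nontrivial W := by
    by_contra hnt
    rw [not_nontrivial_iff_subsingleton] at hnt
    apply hA0'; ext w; exact Subsingleton.elim _ _
  obtain ⟨w0, hw0⟩ : ∃ w, A w ≠ 0 := by
    by_contra hcon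
    push Not at hcon
    apply hA0'; ext w; exact hcon w
  -- step 1
  have h1 : ∀ w, A w = 0 → B w = 0 → w = 0 := by
    intro w hw1 hw2
    rcases hinv ((AddMonoidHom.ker (A : W →+ W)) ⊓ (AddMonoidHom.ker (B : W →+ W)))
      (fun w hw => by
        have : A w = 0 := hw.1
        rw [this]; exact zero_mem _)
      (fun w hw => by
        have : B w = 0 := hw.2
        rw [this]; exact zero_mem _) with h | h
    · have : w ∈ (AddMonoidHom.ker (A : W →+ W)) ⊓ (AddMonoidHom.ker (B : W →+ W)) := ⟨hw1, hw2⟩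
      rw [h] at this
      exact (AddSubgroup.mem_bot).mp this
    · exfalso; apply hw0
      have : w0 ∈ (AddMonoidHom.ker (A : W →+ W)) ⊓ (AddMonoidHom.ker (B : W →+ W)) :=
        h ▸ AddSubgroup.mem_top w0
      exact this.1
  -- step 2
  have h2 : ∀ w : W, ∃ u v, A u = 0 ∧ B v = 0 ∧ w = u + v := by
    have hc : (AddMonoidHom.ker (A : W →+ W)) ⊔ (AddMonoidHom.ker (B : W →+ W)) = ⊥ ∨
        (AddMonoidHom.ker (A : W →+ W)) ⊔ (AddMonoidHom.ker (B : W →+ W)) = ⊤ := by
      apply hinv
      · intro w hw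
        obtain ⟨u, hu, v, hv, rfl⟩ := AddSubgroup.mem_sup.mp hw
        have hu' : A u = 0 := hu
        rw [map_add, hu', zero_add]
        exact AddSubgroup.mem_sup_left (hAA v)
      · intro w hw
        obtain ⟨u, hu, v, hv, rfl⟩ := AddSubgroup.mem_sup.mp hw
        have hv' : B v = 0 := hv
        rw [map_add, hv', add_zero]
        exact AddSubgroup.mem_sup_right (hBB u)
    rcases hc with h | h
    · exfalso
      have : A w0 ∈ (AddMonoidHom.ker (A : W →+ W)) ⊔ (AddMonoidHom.ker (B : W →+ W)) :=
        AddSubgroup.mem_sup_left (hAA w0)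
      rw [h] at this
      exact hw0 ((AddSubgroup.mem_bot).mp this)
    · intro w
      have : w ∈ (AddMonoidHom.ker (A : W →+ W)) ⊔ (AddMonoidHom.ker (B : W →+ W)) :=
        h ▸ AddSubgroup.mem_top w
      obtain ⟨u, hu, v, hv, rfl⟩ := AddSubgroup.mem_sup.mp this
      exact ⟨u, v, hu, hv, rfl⟩
  -- step 3
  obtain ⟨w2, hw2B, hw1⟩ : ∃ w2, B w2 = 0 ∧ A w2 ≠ 0 := by
    obtain ⟨u, v, hu, hv, rfl⟩ := h2 w0
    refine ⟨v, hv, ?_⟩
    rwa [map_add, hu, zero_add] at hw0
  obtain ⟨Γ, hΓ⟩ : ∃ Γ, Γ = A * B + B * A := ⟨_, rfl⟩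
  have hΓA : Γ * A = A * Γ := by
    rw [hΓ]
    calc (A * B + B * A) * A = A * B * A + B * (A * A) := by noncomm_ring
      _ = A * B * A + (A * A) * B := by rw [ha', mul_zero, zero_mul]
      _ = A * (A * B + B * A) := by noncomm_ring
  have hΓB : Γ * B = B * Γ := by
    rw [hΓ]
    calc (A * B + B * A) * B = B * A * B + A * (B * B) := by noncomm_ring
      _ = B * A * B + (B * B) * A := by rw [hb', mul_zero, zero_mul]
      _ = B * (A * B + B * A) := by noncomm_ring
  have hQ : ∀ e ∈ Subring.closure ({Γ} : Set (AddMonoid.End W)),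
      e * A = A * e ∧ e * B = B * e := by
    intro e he
    have hle : Subring.closure ({Γ} : Set (AddMonoid.End W)) ≤ Subring.centralizer {A, B} := by
      rw [Subring.closure_le]
      intro x hx
      rw [Set.mem_singleton_iff] at hx
      rw [hx, SetLike.mem_coe, Subring.mem_centralizer_iff]
      rintro g (rfl | rfl)
      · exact hΓA.symm
      · exact hΓB.symm
    have := Subring.mem_centralizer_iff.mp (hle he)
    exact ⟨(this A (by simp)).symm, (this B (by simp)).symm⟩
  have hker : ∀ e : AddMonoid.End W, (e * A = A * e ∧ e * B = B * e) → e ≠ 0 →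
      Function.Injective e := by
    intro e ⟨heA, heB⟩ he0
    have hc : AddMonoidHom.ker (e : W →+ W) = ⊥ ∨ AddMonoidHom.ker (e : W →+ W) = ⊤ := by
      apply hinv
      · intro w hw
        have hw' : e w = 0 := hw
        show e (A w) = 0
        have h3 : e (A w) = A (e w) := congrArg (fun f : AddMonoid.End W => f w) heA
        rw [h3, hw', map_zero]
      · intro w hw
        have hw' : e w = 0 := hw
        show e (B w) = 0
        have h3 : e (B w) = B (e w) := congrArg (fun f : AddMonoid.End W => f w) heB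
        rw [h3, hw', map_zero]
    rcases hc with h | h
    · exact (injective_iff_map_eq_zero e).mpr (fun w hw => by
        have : w ∈ AddMonoidHom.ker (e : W →+ W) := hw
        rw [h] at this; exact AddSubgroup.mem_bot.mp this)
    · exfalso; apply he0; ext w
      have : w ∈ AddMonoidHom.ker (e : W →+ W) := h ▸ AddSubgroup.mem_top w
      exact this
  obtain ⟨E, fld, fin, chr, ι, γ, hι, hγ, hcomm⟩ := exists_field p hW Γ _ hQ hker
  let _ : Module E W := Module.compHom W ι
  have hsmul : ∀ (e : E) (w : W), e • w = ι e w := fun e w => rfl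
  obtain ⟨w1, hw1def⟩ : ∃ w1, w1 = A w2 := ⟨_, rfl⟩
  rw [← hw1def] at hw1
  have hAw1 : A w1 = 0 := by rw [hw1def]; exact hAA w2
  have hΓw2 : Γ w2 = B w1 := by
    rw [hΓ, hw1def]
    show A (B w2) + B (A w2) = B (A w2)
    rw [hw2B, map_zero, zero_add]
  have hBw1 : B w1 ≠ 0 := fun h => hw1 (h1 w1 hAw1 h)
  have hγ0 : γ ≠ 0 := by
    intro h; apply hBw1; rw [← hΓw2, ← hγ, h, map_zero]; rfl
  have hsinj : ∀ (e : E) (w : W), e • w = 0 → w ≠ 0 → e = 0 := by
    intro e w hew hw
    by_contra he
    have : ι e ≠ 0 := fun h => he (hι (by rw [h, map_zero]))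
    have hinj := hker (ι e) (hcomm e) this
    apply hw; apply hinj; rw [map_zero]; exact hew
  have hAs : ∀ (e : E) (w : W), A (e • w) = e • A w := by
    intro e w
    exact (congrArg (fun f : AddMonoid.End W => f w) (hcomm e).1).symm
  have hBs : ∀ (e : E) (w : W), B (e • w) = e • B w := by
    intro e w
    exact (congrArg (fun f : AddMonoid.End W => f w) (hcomm e).2).symm
  have hli : LinearIndependent E ![w1, w2] := by
    rw [LinearIndependent.pair_iff]
    intro s t hst
    have h3 : A (s • w1 + t • w2) = 0 := by rw [hst, map_zero]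
    rw [map_add, hAs, hAs, hAw1, smul_zero, zero_add, ← hw1def] at h3
    have ht : t = 0 := hsinj t w1 h3 hw1
    rw [ht, zero_smul, add_zero] at hst
    exact ⟨hsinj s w1 hst hw1, ht⟩
  have hspan : ⊤ ≤ Submodule.span E (Set.range ![w1, w2]) := by
    have hr : Set.range ![w1, w2] = {w1, w2} := by
      ext x
      constructor
      · rintro ⟨i, rfl⟩
        fin_cases i
        · left; rfl
        · right; rfl
      · rintro (rfl | rfl)
        · exact ⟨0, rfl⟩
        · exact ⟨1, rfl⟩
    rw [hr]
    have hc : (Submodule.span E {w1, w2}).toAddSubgroup = ⊥ ∨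
        (Submodule.span E {w1, w2}).toAddSubgroup = ⊤ := by
      apply hinv
      · intro w hw
        obtain ⟨s, t, rfl⟩ := Submodule.mem_span_pair.mp hw
        show A (s • w1 + t • w2) ∈ Submodule.span E {w1, w2}
        rw [map_add, hAs, hAs, hAw1, smul_zero, zero_add, ← hw1def]
        exact Submodule.smul_mem _ _ (Submodule.subset_span (by simp))
      · intro w hw
        obtain ⟨s, t, rfl⟩ := Submodule.mem_span_pair.mp hw
        show B (s • w1 + t • w2) ∈ Submodule.span E {w1, w2}
        rw [map_add, hBs, hBs, hw2B, smul_zero, add_zero, ← hΓw2, ← hγ]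
        exact Submodule.smul_mem _ _ (Submodule.smul_mem _ γ (Submodule.subset_span (by simp)))
    rcases hc with h | h
    · exfalso
      have : w1 ∈ (Submodule.span E {w1, w2}).toAddSubgroup :=
        Submodule.subset_span (by simp)
      rw [h] at this
      exact hw1 (AddSubgroup.mem_bot.mp this)
    · intro w _
      have : w ∈ (Submodule.span E {w1, w2}).toAddSubgroup := h ▸ AddSubgroup.mem_top w
      exact this
  let bas : Module.Basis (Fin 2) E W := Module.Basis.mk hli hspan
  have hφs : ∀ (h : H) (e : E) (w : W), φ h (e • w) = e • φ h w := by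
    intro h e w
    have hc := comm_of_gen φ a b hab (ι e) ?_ ?_ h
    · exact congrArg (fun f : AddMonoid.End W => f w) hc.eq
    · show φ a * ι e = ι e * φ a
      rw [hφa, add_mul, mul_add, one_mul, mul_one, (hcomm e).1]
    · show φ b * ι e = ι e * φ b
      rw [hφb, add_mul, mul_add, one_mul, mul_one, (hcomm e).2]
  let lin : H → (W →ₗ[E] W) := fun h =>
    { toFun := fun w => φ h w
      map_add' := fun x y => map_add _ _ _
      map_smul' := fun e w => hφs h e w }
  let ψ0 : H →* Matrix (Fin 2) (Fin 2) E :=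
    { toFun := fun h => LinearMap.toMatrix bas bas (lin h)
      map_one' := by
        have : lin 1 = LinearMap.id := by
          ext w; show φ 1 w = w; rw [map_one]; rfl
        rw [this, LinearMap.toMatrix_id]
      map_mul' := fun x y => by
        have : lin (x * y) = (lin x).comp (lin y) := by
          ext w; show φ (x * y) w = φ x (φ y w); rw [map_mul]; rfl
        rw [this, LinearMap.toMatrix_comp bas bas bas] }
  have e0 : bas 0 = w1 := by simp [bas]
  have e1 : bas 1 = w2 := by simp [bas]
  have hφa1 : φ a w1 = bas 0 := by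
    rw [hφa, Lead.QuadPair.add_apply, Lead.QuadPair.one_apply, hAw1, add_zero, e0]
  have hφa2 : φ a w2 = bas 0 + bas 1 := by
    rw [hφa, Lead.QuadPair.add_apply, Lead.QuadPair.one_apply, ← hw1def, e0, e1, add_comm]
  have hφb1 : φ b w1 = bas 0 + γ • bas 1 := by
    rw [hφb, Lead.QuadPair.add_apply, Lead.QuadPair.one_apply, ← hΓw2, ← hγ, e0, e1]; rfl
  have hφb2 : φ b w2 = bas 1 := by
    rw [hφb, Lead.QuadPair.add_apply, Lead.QuadPair.one_apply, hw2B, add_zero, e1]
  refine ⟨E, fld, fin, chr, γ, ψ0.toHomUnits, ⊤, fun w => bas.equivFun w, hγ0, ?_, ?_, ?_, ?_, ?_, ?_⟩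
  · rw [MonoidHom.coe_toHomUnits]
    show LinearMap.toMatrix bas bas (lin a) = _
    ext i j
    rw [LinearMap.toMatrix_apply]
    fin_cases j
    · show bas.repr (φ a (bas 0)) i = _
      rw [e0, hφa1, Module.Basis.repr_self]
      fin_cases i <;> simp
    · show bas.repr (φ a (bas 1)) i = _
      rw [e1, hφa2, map_add, Module.Basis.repr_self, Module.Basis.repr_self]
      fin_cases i <;> simp
  · rw [MonoidHom.coe_toHomUnits]
    show LinearMap.toMatrix bas bas (lin b) = _
    ext i j
    rw [LinearMap.toMatrix_apply]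
    fin_cases j
    · show bas.repr (φ b (bas 0)) i = _
      rw [e0, hφb1, map_add, map_smul, Module.Basis.repr_self, Module.Basis.repr_self]
      fin_cases i <;> simp
    · show bas.repr (φ b (bas 1)) i = _
      rw [e1, hφb2, Module.Basis.repr_self]
      fin_cases i <;> simp

  · intro h w _
    exact AddSubgroup.mem_top _
  · intro w _ w' _
    exact map_add bas.equivFun w w'
  · intro x
    exact ⟨bas.equivFun.symm x, AddSubgroup.mem_top _, bas.equivFun.apply_symm_apply x⟩
  · intro h w _
    rw [MonoidHom.coe_toHomUnits]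
    show bas.equivFun (φ h w) = LinearMap.toMatrix bas bas (lin h) *ᵥ bas.equivFun w
    rw [Module.Basis.equivFun_apply, Module.Basis.equivFun_apply]
    exact (LinearMap.toMatrix_mulVec_repr bas bas (lin h) w).symm

end irr

section reducible

variable {H : Type v} [Group H]

theorem hasSec_of_res (p : ℕ) {W : Type u} [AddCommGroup W] (φ : H →* AddMonoid.End W) (a b : H)
    (M : AddSubgroup W) (hM : Inv φ M) (h : HasSec p (resHom φ M hM) a b) : HasSec p φ a b := by
  classical
  obtain ⟨E, fld, fin, chr, γ, ψ, W₁, π, hγ, hψa, hψb, hinv, hadd, hsurj, heq⟩ := h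
  obtain ⟨π', hπ'⟩ : ∃ π' : W → (Fin 2 → E), ∀ m : M, π' (m : W) = π m := by
    refine ⟨fun w => if hw : w ∈ M then π ⟨w, hw⟩ else 0, fun m => ?_⟩
    show (if hw : (m : W) ∈ M then π ⟨(m : W), hw⟩ else 0) = π m
    rw [dif_pos m.2]
  refine ⟨E, fld, fin, chr, γ, ψ, W₁.map M.subtype, π', hγ, hψa, hψb, ?_, ?_, ?_, ?_⟩
  · intro h w hw
    obtain ⟨m, hm, rfl⟩ := AddSubgroup.mem_map.mp hw
    exact AddSubgroup.mem_map.mpr ⟨resHom φ M hM h m, hinv h m hm, rfl⟩
  · intro w hw w' hw'
    obtain ⟨m, hm, rfl⟩ := AddSubgroup.mem_map.mp hw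
    obtain ⟨m', hm', rfl⟩ := AddSubgroup.mem_map.mp hw'
    show π' ((m : W) + (m' : W)) = π' (m : W) + π' (m' : W)
    have e : ((m : W) + (m' : W)) = ((m + m' : M) : W) := rfl
    rw [e, hπ', hπ', hπ']
    exact hadd m hm m' hm'
  · intro x
    obtain ⟨m, hm, hx⟩ := hsurj x
    exact ⟨(m : W), AddSubgroup.mem_map.mpr ⟨m, hm, rfl⟩, by rw [hπ']; exact hx⟩
  · intro h w hw
    obtain ⟨m, hm, rfl⟩ := AddSubgroup.mem_map.mp hw
    show π' (φ h (m : W)) = (ψ h : Matrix (Fin 2) (Fin 2) E) *ᵥ π' (m : W)
    have e : φ h (m : W) = ((resHom φ M hM h m : M) : W) := rfl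
    rw [e, hπ', hπ']
    exact heq h m hm

theorem hasSec_of_quot (p : ℕ) {W : Type u} [AddCommGroup W] (φ : H →* AddMonoid.End W) (a b : H)
    (M : AddSubgroup W) (hM : Inv φ M) (h : HasSec p (quotHom φ M hM) a b) : HasSec p φ a b := by
  obtain ⟨E, fld, fin, chr, γ, ψ, W₁, π, hγ, hψa, hψb, hinv, hadd, hsurj, heq⟩ := h
  refine ⟨E, fld, fin, chr, γ, ψ, W₁.comap (QuotientAddGroup.mk' M),
    fun w => π (QuotientAddGroup.mk w), hγ, hψa, hψb, ?_, ?_, ?_, ?_⟩
  · intro h w hw
    exact hinv h _ hw
  · intro w hw w' hw'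
    exact hadd _ hw _ hw'
  · intro x
    obtain ⟨y, hy, hx⟩ := hsurj x
    obtain ⟨w, rfl⟩ := QuotientAddGroup.mk_surjective y
    exact ⟨w, hy, hx⟩
  · intro h w hw
    exact heq h _ hw

theorem quad_pair_aux' (p : ℕ) [Fact p.Prime] (a b : H)
    (hab : Subgroup.closure ({a, b} : Set H) = ⊤) :
    ∀ (n : ℕ) (W : Type u) [AddCommGroup W] [Finite W], Nat.card W = n → (∀ w : W, p • w = 0) →
      ∀ φ : H →* AddMonoid.End W, (φ a - 1) * (φ a - 1) = 0 → (φ b - 1) * (φ b - 1) = 0 →
        (∀ h, ∃ k : ℕ, φ h ^ p ^ k = 1) ∨ HasSec p φ a b := by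
  intro n
  induction n using Nat.strong_induction_on with
  | _ n ih =>
    intro W _ _ hn hW φ ha hb
    by_cases hred : ∃ M : AddSubgroup W, Inv φ M ∧ M ≠ ⊥ ∧ M ≠ ⊤
    · obtain ⟨M, hM, hMb, hMt⟩ := hred
      have hmul : Nat.card M * M.index = Nat.card W := M.card_mul_index
      have hpos : 0 < Nat.card W := Nat.card_pos
      have hi1 : M.index ≠ 1 := fun h => hMt (AddSubgroup.index_eq_one.mp h)
      have hc1' : Nat.card M ≠ 1 := fun h => hMb (AddSubgroup.card_eq_one.mp h)  
      have hi0 : M.index ≠ 0 := by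
        intro h; rw [h, mul_zero] at hmul; omega
      have hc0 : Nat.card M ≠ 0 := by
        intro h; rw [h, zero_mul] at hmul; omega
      have hc1 : Nat.card M < n := by
        rw [← hn, ← hmul]
        have : 2 ≤ M.index := by omega
        nlinarith [Nat.pos_of_ne_zero hc0]
      have hc2 : Nat.card (W ⧸ M) < n := by
        rw [← hn, ← hmul]
        show M.index < _
        have : 2 ≤ Nat.card M := by omega
        nlinarith [Nat.pos_of_ne_zero hi0]
      have hq1 : (resHom φ M hM a - 1) * (resHom φ M hM a - 1) = 0 := by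
        refine AddMonoidHom.ext (fun w => Subtype.ext ?_)
        exact congrArg (fun f : AddMonoid.End W => f (w : W)) ha
      have hq2 : (resHom φ M hM b - 1) * (resHom φ M hM b - 1) = 0 := by
        refine AddMonoidHom.ext (fun w => Subtype.ext ?_)
        exact congrArg (fun f : AddMonoid.End W => f (w : W)) hb
      have hq3 : (quotHom φ M hM a - 1) * (quotHom φ M hM a - 1) = 0 := by
        refine AddMonoidHom.ext (fun x => ?_)
        induction x using QuotientAddGroup.induction_on with
        | H w =>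
          show (QuotientAddGroup.mk (((φ a - 1) * (φ a - 1)) w) : W ⧸ M) = 0
          rw [ha]; rfl
      have hq4 : (quotHom φ M hM b - 1) * (quotHom φ M hM b - 1) = 0 := by
        refine AddMonoidHom.ext (fun x => ?_)
        induction x using QuotientAddGroup.induction_on with
        | H w =>
          show (QuotientAddGroup.mk (((φ b - 1) * (φ b - 1)) w) : W ⧸ M) = 0
          rw [hb]; rfl
      rcases ih _ hc1 M rfl (fun w => Subtype.ext (hW w)) (resHom φ M hM) hq1 hq2 with h1 | h1
      · rcases ih _ hc2 (W ⧸ M) rfl (fun x => by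
            induction x using QuotientAddGroup.induction_on with
            | H w =>
              show (QuotientAddGroup.mk (p • w) : W ⧸ M) = 0
              rw [hW]; rfl) (quotHom φ M hM) hq3 hq4 with h2 | h2
        · left
          intro h
          obtain ⟨k1, hk1⟩ := h1 h
          obtain ⟨k2, hk2⟩ := h2 h
          refine ⟨k1 + k2 + 1, ?_⟩
          have e1 : resHom φ M hM (h ^ p ^ (k1 + k2)) = 1 := by
            rw [map_pow, pow_add, pow_mul, hk1, one_pow]
          have e2 : quotHom φ M hM (h ^ p ^ (k1 + k2)) = 1 := by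
            rw [map_pow, pow_add, mul_comm, pow_mul, hk2, one_pow]
          obtain ⟨g, hg⟩ : ∃ g, g = φ (h ^ p ^ (k1 + k2)) := ⟨_, rfl⟩
          have hg1 : ∀ w ∈ M, g w = w := by
            intro w hw
            rw [hg]
            exact congrArg Subtype.val
              (congrArg (fun f : AddMonoid.End M => f ⟨w, hw⟩) e1)
          have hg2 : ∀ w, g w - w ∈ M := by
            intro w
            have h3 : (QuotientAddGroup.mk (g w) : W ⧸ M) = QuotientAddGroup.mk w := by
              rw [hg]
              exact congrArg (fun f : AddMonoid.End (W ⧸ M) => f (QuotientAddGroup.mk w)) e2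
            rw [QuotientAddGroup.eq] at h3
            have h4 := M.neg_mem h3
            have h5 : -(-g w + w) = g w - w := by abel
            rw [h5] at h4
            exact h4
          have hN : (g - 1) * (g - 1) = 0 := by
            refine AddMonoidHom.ext (fun w => ?_)
            show g (g w - w) - (g w - w) = 0
            rw [hg1 _ (hg2 w), sub_self]
          have hgp : g ^ p = 1 := pow_eq_one_of_sq_zero p hW g hN
          calc φ h ^ p ^ (k1 + k2 + 1) = (φ h ^ p ^ (k1 + k2)) ^ p := by rw [pow_succ, pow_mul]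
            _ = g ^ p := by rw [hg, map_pow]
            _ = 1 := hgp
        · exact Or.inr (hasSec_of_quot p φ a b M hM h2)
      · exact Or.inr (hasSec_of_res p φ a b M hM h1)
    · push Not at hred
      have hirr : ∀ M : AddSubgroup W, Inv φ M → M = ⊥ ∨ M = ⊤ := by
        intro M hM
        by_cases h : M = ⊥
        · exact Or.inl h
        · exact Or.inr (hred M hM h)
      by_cases hA0 : φ a - 1 = 0
      · left
        have hφa : φ a = 1 := sub_eq_zero.mp hA0
        have hbp : φ b ^ p = 1 := pow_eq_one_of_sq_zero p hW _ hb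
        have hall : ∀ h : H, ∃ j : ℕ, φ h = φ b ^ j := by
          intro h
          have hh : h ∈ Subgroup.closure ({a, b} : Set H) := hab ▸ Subgroup.mem_top h
          induction hh using Subgroup.closure_induction with
          | mem x hx =>
            rcases hx with rfl | rfl
            · exact ⟨0, by rw [hφa, pow_zero]⟩
            · exact ⟨1, by rw [pow_one]⟩
          | one => exact ⟨0, by rw [map_one, pow_zero]⟩
          | mul x y _ _ hx hy =>
            obtain ⟨i, hi⟩ := hx
            obtain ⟨j, hj⟩ := hy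
            exact ⟨i + j, by rw [map_mul, hi, hj, pow_add]⟩
          | inv x _ hx =>
            obtain ⟨i, hi⟩ := hx
            refine ⟨i * (p - 1), ?_⟩
            have h1 : φ x⁻¹ * φ x = 1 := by rw [← map_mul, inv_mul_cancel, map_one]
            have hp1 : p = (p - 1) + 1 := by
              have := (Fact.out : p.Prime).pos
              omega
            have h2 : φ x * φ b ^ (i * (p - 1)) = 1 := by
              rw [hi, ← pow_add]
              have : i + i * (p - 1) = p * i := by
                conv_rhs => rw [hp1]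
                ring
              rw [this, pow_mul, hbp, one_pow]
            calc φ x⁻¹ = φ x⁻¹ * (φ x * φ b ^ (i * (p - 1))) := by rw [h2, mul_one]
              _ = φ b ^ (i * (p - 1)) := by rw [← mul_assoc, h1, one_mul]
        intro h
        obtain ⟨j, hj⟩ := hall h
        exact ⟨1, by rw [pow_one, hj, ← pow_mul, mul_comm, pow_mul, hbp, one_pow]⟩
      · right
        exact irr_case' p hW φ a b hab ha hb hirr hA0

end reducible

/-- **Two quadratic generators, with the section.** -/
theorem quad_pair' {H : Type v} {W : Type u} [Group H] [AddCommGroup W] [Finite W]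
    (p : ℕ) [Fact p.Prime] (hW : ∀ w : W, p • w = 0) (φ : H →* AddMonoid.End W) (a b : H)
    (hab : Subgroup.closure ({a, b} : Set H) = ⊤)
    (ha : (φ a - 1) * (φ a - 1) = 0) (hb : (φ b - 1) * (φ b - 1) = 0) :
    (∀ h, ∃ k : ℕ, φ h ^ p ^ k = 1) ∨ HasSec p φ a b :=
  quad_pair_aux' p a b hab _ W rfl hW φ ha hb

end Cfsg.Agent.Lib.Helper16.QuadSec
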