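import Mathlib
import Cfsg.Agent.Lib.Helper9.Dickson

/-!
# The natural module of the `SL₂(𝔽_p)` found by the Dickson step (helper16)

The proof of `Cfsg.Agent.Lib.Helper9.Dickson.section_of_pair`, with the lattice on which the
copy of `SL₂(𝔽_p)` acts naturally recorded.
-/

set_option autoImplicit false
open scoped MatrixGroups Matrix

namespace Cfsg.Agent.Lib.Helper16.QuadSec

open Cfsg.Agent.Lib.Lead.QuadCore Cfsg.Agent.Lib.Lead.QuadSyl Cfsg.Agent.Lib.Lead.QuadNS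
open Cfsg.Agent.Lib.Helper9.Dickson

variable {E : Type*} [Field E]

theorem sl2_natural (p : ℕ) [Fact p.Prime] [CharP E p] (hp : p ≠ 2) (a : E)
    (t : GL (Fin 2) E) (hdet : (t : Matrix (Fin 2) (Fin 2) E).det = 1)
    (htr : (t : Matrix (Fin 2) (Fin 2) E) 0 0 + (t : Matrix (Fin 2) (Fin 2) E) 1 1 = 2)
    (hk : a * (t : Matrix (Fin 2) (Fin 2) E) 1 0 = 4 ∨
      a * (t : Matrix (Fin 2) (Fin 2) E) 1 0 = -2) :
    ∃ (ρ : ↥(Subgroup.closure ({tU a, t} : Set (GL (Fin 2) E))) →*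
        Matrix.SpecialLinearGroup (Fin 2) (ZMod p))
      (ι : (Fin 2 → ZMod p) → (Fin 2 → E)),
      Function.Surjective ρ ∧ Function.Injective ι ∧ (∀ c c', ι (c + c') = ι c + ι c') ∧
      ∀ (e : ↥(Subgroup.closure ({tU a, t} : Set (GL (Fin 2) E)))) (c : Fin 2 → ZMod p),
        ((e : GL (Fin 2) E) : Matrix (Fin 2) (Fin 2) E) *ᵥ ι c = ι ((ρ e).1 *ᵥ c) := by
  have hpp : p.Prime := Fact.out
  have h2 : (2 : E) ≠ 0 := two_ne_zero_of_char p hp
  have hdet' := hdet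
  rw [Matrix.det_fin_two] at hdet'
  have h2z : ((2 : ℕ) : ZMod p) ≠ 0 := by
    intro h5
    rw [ZMod.natCast_eq_zero_iff] at h5
    exact hp ((Nat.prime_dvd_prime_iff_eq hpp Nat.prime_two).mp h5)
  obtain ⟨k, hk0, hkE⟩ : ∃ k : ℤ, ((k : ZMod p) ≠ 0) ∧
      a * (t : Matrix (Fin 2) (Fin 2) E) 1 0 = (k : E) := by
    rcases hk with h | h
    · refine ⟨4, ?_, by rw [h]; norm_num⟩
      intro h4
      have h5 : ((2 : ℕ) : ZMod p) * ((2 : ℕ) : ZMod p) = 0 := by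
        rw [← h4]; push_cast; norm_num
      rcases mul_eq_zero.mp h5 with h6 | h6 <;> exact h2z h6
    · refine ⟨-2, ?_, by rw [h]; norm_num⟩
      intro h4
      apply h2z
      have h5 : ((-2 : ℤ) : ZMod p) = -((2 : ℕ) : ZMod p) := by push_cast; ring
      rw [h5, neg_eq_zero] at h4
      exact h4
  have ht10 : (t : Matrix (Fin 2) (Fin 2) E) 1 0 ≠ 0 := by
    intro h
    rw [h, mul_zero] at hkE
    apply hk0
    have h3 : ((k : ℤ) : E) = 0 := hkE.symm
    rw [CharP.intCast_eq_zero_iff E p] at h3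
    exact (ZMod.intCast_zmod_eq_zero_iff_dvd k p).mpr h3
  have hM : ∀ x : Fin 2 → E, p • x = 0 := by
    intro x
    ext i
    rw [Pi.smul_apply, nsmul_eq_mul, CharP.cast_eq_zero, zero_mul]
    rfl
  have : Module (ZMod p) (Fin 2 → E) := AddCommGroup.zmodModule hM
  obtain ⟨K, hK⟩ : ∃ K : Subgroup (GL (Fin 2) E),
      K = Subgroup.closure ({tU a, t} : Set (GL (Fin 2) E)) := ⟨_, rfl⟩
  rw [← hK]
  have haK : tU a ∈ K := by rw [hK]; exact Subgroup.subset_closure (by simp)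
  have htK : t ∈ K := by rw [hK]; exact Subgroup.subset_closure (by simp)
  obtain ⟨T, hT0⟩ : ∃ T : ↥K →* Module.End (ZMod p) (Fin 2 → E),
      ∀ (e : ↥K) (x : Fin 2 → E), T e x = actE (e : GL (Fin 2) E) x :=
    ⟨(Cfsg.Agent.Lib.Helper20.HS.endToLin p (Fin 2 → E)).comp (actE.comp K.subtype),
      fun e x => rfl⟩
  have hT : ∀ (e : ↥K) (x : Fin 2 → E) (i : Fin 2), T e x i =
        ((e : GL (Fin 2) E) : Matrix (Fin 2) (Fin 2) E) i 0 * x 0 +
        ((e : GL (Fin 2) E) : Matrix (Fin 2) (Fin 2) E) i 1 * x 1 := by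
    intro e x i
    rw [hT0, actE_entry]
  obtain ⟨a', ha'⟩ : ∃ a' : ↥K, (a' : GL (Fin 2) E) = tU a := ⟨⟨tU a, haK⟩, rfl⟩
  obtain ⟨b', hb'⟩ : ∃ b' : ↥K, (b' : GL (Fin 2) E) = t := ⟨⟨t, htK⟩, rfl⟩
  have hgen : Subgroup.closure ({a', b'} : Set ↥K) = ⊤ := by
    apply Subgroup.map_injective K.subtype_injective
    rw [MonoidHom.map_closure, Set.image_pair, ← MonoidHom.range_eq_map, Subgroup.range_subtype]
    show Subgroup.closure {(a' : GL (Fin 2) E), (b' : GL (Fin 2) E)} = K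
    rw [ha', hb']
    exact hK.symm
  have hap : a' ^ p = 1 := by
    apply Subtype.ext
    show (a' : GL (Fin 2) E) ^ p = 1
    rw [ha', tU_pow_char]
  have hbp : b' ^ p = 1 := by
    apply Subtype.ext
    show (b' : GL (Fin 2) E) ^ p = 1
    rw [hb']
    exact pow_trans p t hdet htr
  obtain ⟨w₁, hw10, hw11⟩ : ∃ w₁ : Fin 2 → E, w₁ 0 = 1 ∧ w₁ 1 = 0 := ⟨![1, 0], rfl, rfl⟩
  obtain ⟨w₂, hw20, hw21⟩ : ∃ w₂ : Fin 2 → E,
      w₂ 0 = (t : Matrix (Fin 2) (Fin 2) E) 0 0 - 1 ∧ w₂ 1 = (t : Matrix (Fin 2) (Fin 2) E) 1 0 :=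
    ⟨![(t : Matrix (Fin 2) (Fin 2) E) 0 0 - 1, (t : Matrix (Fin 2) (Fin 2) E) 1 0], rfl, rfl⟩
  have hw₁ : w₁ ≠ 0 := by
    intro h
    have h3 : w₁ 0 = 0 := by rw [h]; rfl
    rw [hw10] at h3
    exact one_ne_zero h3
  have hsm : ∀ (w : Fin 2 → E) (i : Fin 2), (((k : ZMod p)) • w) i = (k : E) * w i := by
    intro w i
    rw [Int.cast_smul_eq_zsmul, Pi.smul_apply, zsmul_eq_mul]
  have ha₁ : T a' w₁ = w₁ := by
    funext i
    revert i
    rw [Fin.forall_fin_two]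
    constructor
    · rw [hT, ha', tU00, tU01, hw10, hw11]; ring
    · rw [hT, ha', tU10, tU11, hw10, hw11]; ring
  have ha₂ : T a' w₂ = w₂ + (k : ZMod p) • w₁ := by
    funext i
    revert i
    rw [Fin.forall_fin_two]
    constructor
    · rw [Pi.add_apply, hsm, hT, ha', tU00, tU01, hw20, hw21, hw10, ← hkE]; ring
    · rw [Pi.add_apply, hsm, hT, ha', tU10, tU11, hw20, hw21, hw11]; ring
  have hb₁ : T b' w₁ = w₁ + (1 : ZMod p) • w₂ := by
    rw [one_smul]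
    funext i
    revert i
    rw [Fin.forall_fin_two]
    constructor
    · rw [Pi.add_apply, hT, hb', hw10, hw11, hw20]; ring
    · rw [Pi.add_apply, hT, hb', hw10, hw11, hw21]; ring
  have hb₂ : T b' w₂ = w₂ := by
    funext i
    revert i
    rw [Fin.forall_fin_two]
    constructor
    · rw [hT, hb', hw20, hw21]
      linear_combination (t : Matrix (Fin 2) (Fin 2) E) 0 0 * htr - hdet'
    · rw [hT, hb', hw20, hw21]
      linear_combination (t : Matrix (Fin 2) (Fin 2) E) 1 0 * htr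
  have hind := Cfsg.Agent.Lib.Helper4.SL2Rep.indep T a' w₁ w₂ hw₁ (k : ZMod p) hk0 ha₁ ha₂
  obtain ⟨ρ, hρa, hρb, hρker⟩ := Cfsg.Agent.Lib.Helper4.SL2Rep.rep_exists T a' b' hgen hap hbp
    w₁ w₂ (k : ZMod p) 1 ha₁ ha₂ hb₁ hb₂ hind
  have hsurj := Cfsg.Agent.Lib.Helper4.SL2Rep.surj_of ρ a' b' (k : ZMod p) 1 hk0 one_ne_zero
    hρa hρb
  obtain ⟨ι, hι⟩ : ∃ ι : (Fin 2 → ZMod p) → (Fin 2 → E), ∀ c, ι c = c 0 • w₁ + c 1 • w₂ :=
    ⟨fun c => c 0 • w₁ + c 1 • w₂, fun c => rfl⟩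
  have hιadd : ∀ c c', ι (c + c') = ι c + ι c' := by
    intro c c'
    rw [hι, hι, hι, Pi.add_apply, Pi.add_apply, add_smul, add_smul]
    abel
  have hιinj : Function.Injective ι := by
    intro c c' h
    rw [hι, hι] at h
    have h1 : (c 0 - c' 0) • w₁ + (c 1 - c' 1) • w₂ = 0 := by
      rw [sub_smul, sub_smul]
      have h2 : c 0 • w₁ - c' 0 • w₁ + (c 1 • w₂ - c' 1 • w₂) =
          (c 0 • w₁ + c 1 • w₂) - (c' 0 • w₁ + c' 1 • w₂) := by abel
      rw [h2, h, sub_self]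
    obtain ⟨h3, h4⟩ := hind _ _ h1
    funext i
    revert i
    rw [Fin.forall_fin_two]
    exact ⟨sub_eq_zero.mp h3, sub_eq_zero.mp h4⟩
  have hTι : ∀ (e : ↥K) (c : Fin 2 → ZMod p), T e (ι c) = c 0 • T e w₁ + c 1 • T e w₂ := by
    intro e c
    rw [hι, map_add, map_smul, map_smul]
  have key : ∀ e : ↥K, ∀ c : Fin 2 → ZMod p, T e (ι c) = ι ((ρ e).1 *ᵥ c) := by
    intro e
    have he : e ∈ Subgroup.closure ({a', b'} : Set ↥K) := by rw [hgen]; exact Subgroup.mem_top e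
    induction he using Subgroup.closure_induction with
    | mem x hx =>
      intro c
      rcases hx with rfl | rfl
      · rw [hTι, ha₁, ha₂, hι, hρa]
        have e0 : ((!![1, (k : ZMod p); 0, 1] : Matrix (Fin 2) (Fin 2) (ZMod p)) *ᵥ c) 0 =
            c 0 + (k : ZMod p) * c 1 := by
          simp [Matrix.mulVec, dotProduct, Fin.sum_univ_two]
        have e1 : ((!![1, (k : ZMod p); 0, 1] : Matrix (Fin 2) (Fin 2) (ZMod p)) *ᵥ c) 1 =
            c 1 := by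
          simp [Matrix.mulVec, dotProduct, Fin.sum_univ_two]
        rw [e0, e1, smul_add, add_smul, smul_smul, mul_comm (k : ZMod p) (c 1)]
        abel
      · rw [hTι, hb₁, hb₂, hι, hρb]
        have e0 : ((!![1, 0; (1 : ZMod p), 1] : Matrix (Fin 2) (Fin 2) (ZMod p)) *ᵥ c) 0 =
            c 0 := by
          simp [Matrix.mulVec, dotProduct, Fin.sum_univ_two]
        have e1 : ((!![1, 0; (1 : ZMod p), 1] : Matrix (Fin 2) (Fin 2) (ZMod p)) *ᵥ c) 1 =
            c 0 + c 1 := by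
          simp [Matrix.mulVec, dotProduct, Fin.sum_univ_two]
        rw [e0, e1, smul_add, add_smul, one_smul]
        abel
    | one =>
      intro c
      rw [map_one, map_one, Module.End.one_apply, Matrix.SpecialLinearGroup.coe_one,
        Matrix.one_mulVec]
    | mul x y _ _ hx hy =>
      intro c
      rw [map_mul, Module.End.mul_apply, hy, hx, map_mul, Matrix.SpecialLinearGroup.coe_mul,
        Matrix.mulVec_mulVec]
    | inv x _ hx =>
      intro c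
      have h1 := hx ((ρ x⁻¹).1 *ᵥ c)
      rw [Matrix.mulVec_mulVec, ← Matrix.SpecialLinearGroup.coe_mul, ← map_mul, mul_inv_cancel,
        map_one, Matrix.SpecialLinearGroup.coe_one, Matrix.one_mulVec] at h1
      rw [← h1, Cfsg.Agent.Lib.Helper4.SL2Rep.T_inv_apply]
  refine ⟨ρ, ι, hsurj, hιinj, hιadd, fun e c => ?_⟩
  rw [← key e c, hT0]
  rfl

end Cfsg.Agent.Lib.Helper16.QuadSec
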