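import Mathlib
import Cfsg.Prelude.Def_LocalEven
import Cfsg.Agent.Lib.Helper16.QdOver

/-!
# Abstract recognition of `Qd` as a section (helper16)

* `involves_of_semidirect`: a "semidirect" pair of maps gives a section.
* `exists_frattini_supplement`: a supplement normalizing a Sylow 2-subgroup above a central
  involution of the image.
* `involves_qd_of_data`: a group acting on a subgroup through `SL₂(𝔽_p)` on `𝔽_p²` gives `Qd(p)`.
-/

set_option autoImplicit false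

namespace Cfsg.Agent.Lib.Helper16.QuadSec

open Cfsg Cfsg.Agent.Lib.Helper16.QdOver
open scoped Pointwise Matrix

universe u v w

/-- an abstract section gives involvement -/
theorem involves_of_surj' {X : Type u} [Group X] {Y : Type v} [Group Y] (K₁ : Subgroup X)
    (φ : K₁ →* Y) (hφ : Function.Surjective φ) : Involves Y X := by
  have heq : (φ.ker.map K₁.subtype).subgroupOf K₁ = φ.ker := by
    ext x
    rw [Subgroup.mem_subgroupOf]
    constructor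
    · rintro ⟨y, hy, hyx⟩
      have : y = x := Subtype.ext hyx
      rwa [← this]
    · intro hx
      exact ⟨x, hx, rfl⟩
  have hn : ((φ.ker.map K₁.subtype).subgroupOf K₁).Normal := by rw [heq]; infer_instance
  refine ⟨K₁, φ.ker.map K₁.subtype, hn, ⟨?_⟩⟩
  exact (QuotientGroup.quotientMulEquivOfEq heq).trans
    (QuotientGroup.quotientKerEquivOfSurjective φ hφ)

theorem involves_of_semidirect {G : Type u} {Q : Type v} {N : Type w} [Group G] [Group Q]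
    [Group N] (U : Subgroup G) (ν : N →* G)
    (hν : ∀ n : N, ∀ u ∈ U, ν n * u * (ν n)⁻¹ ∈ U)
    (f : G → Q) (g : N →* Q)
    (hf : ∀ u ∈ U, ∀ u' ∈ U, f (u * u') = f u * f u')
    (hconj : ∀ n : N, ∀ u ∈ U, f (ν n * u * (ν n)⁻¹) = g n * f u * (g n)⁻¹)
    (hint : ∀ n : N, ν n ∈ U → f (ν n) = g n)
    (hsurj : ∀ q : Q, ∃ u ∈ U, ∃ n : N, f u * g n = q) : Involves Q G := by
  classical
  have hf1 : f 1 = 1 := by
    have h := hf 1 U.one_mem 1 U.one_mem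
    rw [mul_one] at h
    exact (mul_eq_left.mp h.symm)
  have hfinv : ∀ u ∈ U, f u⁻¹ = (f u)⁻¹ := by
    intro u hu
    have h := hf u⁻¹ (U.inv_mem hu) u hu
    rw [inv_mul_cancel, hf1] at h
    exact eq_inv_of_mul_eq_one_left h.symm
  let M : Subgroup G :=
    { carrier := {m | ∃ u ∈ U, ∃ n : N, m = u * ν n}
      mul_mem' := by
        rintro _ _ ⟨u, hu, n, rfl⟩ ⟨u', hu', n', rfl⟩
        refine ⟨u * (ν n * u' * (ν n)⁻¹), U.mul_mem hu (hν n u' hu'), n * n', ?_⟩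
        rw [map_mul]
        group
      one_mem' := ⟨1, U.one_mem, 1, by rw [map_one, mul_one]⟩
      inv_mem' := by
        rintro _ ⟨u, hu, n, rfl⟩
        refine ⟨ν n⁻¹ * u⁻¹ * (ν n⁻¹)⁻¹, hν n⁻¹ u⁻¹ (U.inv_mem hu), n⁻¹, ?_⟩
        rw [map_inv]
        group }
  have hMmem : ∀ m : M, ∃ u ∈ U, ∃ n : N, (m : G) = u * ν n := fun m => m.2
  choose uu huu nn hnn using hMmem
  have hwd : ∀ u ∈ U, ∀ u' ∈ U, ∀ n n' : N, u * ν n = u' * ν n' → f u * g n = f u' * g n' := by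
    intro u hu u' hu' n n' h
    have h1 : ν (n' * n⁻¹) = u'⁻¹ * u := by
      rw [map_mul, map_inv]
      calc ν n' * (ν n)⁻¹ = u'⁻¹ * (u' * ν n') * (ν n)⁻¹ := by group
        _ = u'⁻¹ * (u * ν n) * (ν n)⁻¹ := by rw [h]
        _ = u'⁻¹ * u := by group
    have h2 : ν (n' * n⁻¹) ∈ U := by
      rw [h1]
      exact U.mul_mem (U.inv_mem hu') hu
    have h3 := hint _ h2
    rw [h1, hf _ (U.inv_mem hu') _ hu, hfinv _ hu', map_mul, map_inv] at h3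
    calc f u * g n = f u' * ((f u')⁻¹ * f u) * g n := by group
      _ = f u' * (g n' * (g n)⁻¹) * g n := by rw [h3]
      _ = f u' * g n' := by group
  have hΘ : ∀ (m : M) (u : G) (hu : u ∈ U) (n : N), (m : G) = u * ν n →
      f (uu m) * g (nn m) = f u * g n := by
    intro m u hu n h
    apply hwd _ (huu m) _ hu
    rw [← hnn m, h]
  let Θ : ↥M →* Q := MonoidHom.mk' (fun m => f (uu m) * g (nn m)) (by
    intro m m'
    have h1 : ((m * m' : M) : G) =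
        (uu m * (ν (nn m) * uu m' * (ν (nn m))⁻¹)) * ν (nn m * nn m') := by
      rw [Subgroup.coe_mul, map_mul]
      conv_lhs => rw [hnn m, hnn m']
      group
    show f (uu (m * m')) * g (nn (m * m')) = f (uu m) * g (nn m) * (f (uu m') * g (nn m'))
    rw [hΘ (m * m') _ (U.mul_mem (huu m) (hν _ _ (huu m'))) _ h1,
      hf _ (huu m) _ (hν _ _ (huu m')), hconj _ _ (huu m'), map_mul]
    group)
  refine involves_of_surj' M Θ ?_
  intro q
  obtain ⟨u, hu, n, hq⟩ := hsurj q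
  refine ⟨⟨u * ν n, u, hu, n, rfl⟩, ?_⟩
  show f (uu _) * g (nn _) = q
  rw [hΘ ⟨u * ν n, u, hu, n, rfl⟩ u hu n rfl, hq]

theorem exists_frattini_supplement {K S : Type*} [Group K] [Finite K] [Group S] (ρ : K →* S)
    (hρ : Function.Surjective ρ) (z : S) (hz : ∀ s, s * z = z * s) (hz2 : z * z = 1) :
    ∃ (N' : Subgroup K) (t₁ : K), t₁ ∈ N' ∧ ρ t₁ = z ∧ (∀ s, ∃ n ∈ N', ρ n = s) ∧
      ∀ x ∈ N', ∃ j : ℕ, (x * t₁ * x⁻¹ * t₁⁻¹) ^ 2 ^ j = 1 := by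
  classical
  haveI : Fact (Nat.Prime 2) := ⟨Nat.prime_two⟩
  have hzpow : ∀ i : ℕ, z ^ i = 1 ∨ z ^ i = z := by
    intro i
    induction i with
    | zero => left; rw [pow_zero]
    | succ i ih =>
      rcases ih with h | h
      · right; rw [pow_succ, h, one_mul]
      · left; rw [pow_succ, h, hz2]
  have hzzpow : ∀ s ∈ Subgroup.zpowers z, s = 1 ∨ s = z := by
    intro s hs
    obtain ⟨i, hi⟩ := Subgroup.mem_zpowers_iff.mp hs
    have hzinv : z⁻¹ = z := inv_eq_of_mul_eq_one_left hz2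
    obtain ⟨n, hn⟩ := Int.eq_nat_or_neg i
    rcases hn with hn | hn
    · rw [← hi, hn, zpow_natCast]; exact hzpow n
    · rw [← hi, hn, zpow_neg, zpow_natCast, ← inv_pow, hzinv]; exact hzpow n
  have hZn : (Subgroup.zpowers z).Normal := by
    constructor
    intro x hx g
    rcases hzzpow x hx with h | h
    · rw [h, mul_one, mul_inv_cancel]; exact Subgroup.one_mem _
    · rw [h, hz g, mul_inv_cancel_right]; exact Subgroup.mem_zpowers z
  obtain ⟨D, hD⟩ : ∃ D : Subgroup K, D = (Subgroup.zpowers z).comap ρ := ⟨_, rfl⟩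
  haveI hDn : D.Normal := by
    rw [hD]
    exact hZn.comap ρ
  obtain ⟨d, hd⟩ := hρ z
  have hord : orderOf d ≠ 0 := (orderOf_pos d).ne'
  obtain ⟨e, m, hm, hem⟩ := Nat.exists_eq_two_pow_mul_odd hord
  obtain ⟨d₂, hd₂⟩ : ∃ d₂ : K, d₂ = d ^ m := ⟨_, rfl⟩
  have hd₂pow : d₂ ^ 2 ^ e = 1 := by
    rw [hd₂, ← pow_mul, mul_comm, ← hem, pow_orderOf_eq_one]
  have hρd₂ : ρ d₂ = z := by
    rw [hd₂, map_pow, hd]
    obtain ⟨r, hr⟩ := hm
    rw [hr, pow_succ, pow_mul, pow_two, hz2, one_pow, one_mul]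
  have hd₂D : d₂ ∈ D := by
    rw [hD, Subgroup.mem_comap, hρd₂]
    exact Subgroup.mem_zpowers z
  have hpg : IsPGroup 2 (Subgroup.zpowers (⟨d₂, hd₂D⟩ : D)) := by
    rintro ⟨y, hy⟩
    obtain ⟨i, rfl⟩ := Subgroup.mem_zpowers_iff.mp hy
    refine ⟨e, ?_⟩
    apply Subtype.ext
    apply Subtype.ext
    show ((⟨d₂, hd₂D⟩ : D) ^ i : D).1 ^ 2 ^ e = 1
    rw [Subgroup.coe_zpow, ← zpow_natCast, ← zpow_mul, mul_comm, zpow_mul, zpow_natCast, hd₂pow,
      one_zpow]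
  obtain ⟨T, hT⟩ := hpg.exists_le_sylow
  have hfr := Sylow.normalizer_sup_eq_top T
  obtain ⟨TG, hTG⟩ : ∃ TG : Subgroup K, TG = (T : Subgroup D).map D.subtype := ⟨_, rfl⟩
  rw [← hTG] at hfr
  have hd₂T : d₂ ∈ TG := by
    rw [hTG]
    exact ⟨⟨d₂, hd₂D⟩, hT (Subgroup.mem_zpowers _), rfl⟩
  have hTG2 : ∀ y ∈ TG, ∃ j : ℕ, y ^ 2 ^ j = 1 := by
    intro y hy
    rw [hTG] at hy
    obtain ⟨y', hy', rfl⟩ := hy
    obtain ⟨j, hj⟩ := T.isPGroup' ⟨y', hy'⟩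
    refine ⟨j, ?_⟩
    have h1 := congrArg (fun t : (T : Subgroup D) => ((t : D) : K)) hj
    exact h1
  refine ⟨Subgroup.normalizer (TG : Set K), d₂, Subgroup.le_normalizer hd₂T, hρd₂, ?_, ?_⟩
  · intro s
    obtain ⟨k, rfl⟩ := hρ s
    have hk : k ∈ Subgroup.normalizer (TG : Set K) ⊔ D := by rw [hfr]; exact Subgroup.mem_top k
    have hk' : k ∈ ((Subgroup.normalizer (TG : Set K) : Subgroup K) : Set K) * (D : Set K) := by
      rw [← Subgroup.mul_normal]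
      exact hk
    obtain ⟨n, hn, d', hd', rfl⟩ := Set.mem_mul.mp hk'
    have hd'z : ρ d' ∈ Subgroup.zpowers z := by
      have : d' ∈ D := hd'
      rw [hD] at this
      exact this
    rcases hzzpow _ hd'z with h | h
    · exact ⟨n, hn, by rw [map_mul, h, mul_one]⟩
    · exact ⟨n * d₂, Subgroup.mul_mem _ hn (Subgroup.le_normalizer hd₂T),
        by rw [map_mul, map_mul, h, hρd₂]⟩
  · intro x hx
    apply hTG2
    exact TG.mul_mem ((Subgroup.mem_normalizer_iff.mp hx d₂).mp hd₂T) (TG.inv_mem hd₂T)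

section qd

variable {F : Type*} [Field F]

theorem dg_mul (A B : Matrix.SpecialLinearGroup (Fin 2) F) : dg (A * B) = dg A * dg B := by
  have hA : ∀ i j, (A * B).1 i j = A.1 i 0 * B.1 0 j + A.1 i 1 * B.1 1 j := by
    intro i j
    rw [Matrix.SpecialLinearGroup.coe_mul, Matrix.mul_apply, Fin.sum_univ_two]
  apply ext_entries <;> rw [mul_entry]
  · show (A * B).1 0 0 = A.1 0 0 * B.1 0 0 + A.1 0 1 * B.1 1 0 + 0 * 0
    rw [hA]; ring
  · show (A * B).1 0 1 = A.1 0 0 * B.1 0 1 + A.1 0 1 * B.1 1 1 + 0 * 0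
    rw [hA]; ring
  · show (0 : F) = A.1 0 0 * 0 + A.1 0 1 * 0 + 0 * 1
    ring
  · show (A * B).1 1 0 = A.1 1 0 * B.1 0 0 + A.1 1 1 * B.1 1 0 + 0 * 0
    rw [hA]; ring
  · show (A * B).1 1 1 = A.1 1 0 * B.1 0 1 + A.1 1 1 * B.1 1 1 + 0 * 0
    rw [hA]; ring
  · show (0 : F) = A.1 1 0 * 0 + A.1 1 1 * 0 + 0 * 1
    ring

theorem dg_one : dg (1 : Matrix.SpecialLinearGroup (Fin 2) F) = 1 := by
  apply ext_entries
  · show (1 : Matrix (Fin 2) (Fin 2) F) 0 0 = (1 : Matrix (Fin 3) (Fin 3) F) 0 0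
    simp
  · show (1 : Matrix (Fin 2) (Fin 2) F) 0 1 = (1 : Matrix (Fin 3) (Fin 3) F) 0 1
    simp
  · show (0 : F) = (1 : Matrix (Fin 3) (Fin 3) F) 0 2
    simp
  · show (1 : Matrix (Fin 2) (Fin 2) F) 1 0 = (1 : Matrix (Fin 3) (Fin 3) F) 1 0
    simp
  · show (1 : Matrix (Fin 2) (Fin 2) F) 1 1 = (1 : Matrix (Fin 3) (Fin 3) F) 1 1
    simp
  · show (0 : F) = (1 : Matrix (Fin 3) (Fin 3) F) 1 2
    simp

/-- the block-diagonal embedding as a homomorphism -/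
def dgHom : Matrix.SpecialLinearGroup (Fin 2) F →* Cfsg.qdOver F where
  toFun := dg
  map_one' := dg_one
  map_mul' := dg_mul

theorem dgHom_apply (A : Matrix.SpecialLinearGroup (Fin 2) F) : dgHom A = dg A := rfl

theorem dg_mul_tr (A : Matrix.SpecialLinearGroup (Fin 2) F) (z : Fin 2 → F) :
    dg A * tr z = tr (A.1 *ᵥ z) * dg A := by
  have h0 : (A.1 *ᵥ z) 0 = A.1 0 0 * z 0 + A.1 0 1 * z 1 := by
    rw [Matrix.mulVec, dotProduct, Fin.sum_univ_two]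
  have h1 : (A.1 *ᵥ z) 1 = A.1 1 0 * z 0 + A.1 1 1 * z 1 := by
    rw [Matrix.mulVec, dotProduct, Fin.sum_univ_two]
  apply ext_entries <;> rw [mul_entry, mul_entry]
  · show A.1 0 0 * 1 + A.1 0 1 * 0 + 0 * 0 = 1 * A.1 0 0 + 0 * A.1 1 0 + (A.1 *ᵥ z) 0 * 0
    ring
  · show A.1 0 0 * 0 + A.1 0 1 * 1 + 0 * 0 = 1 * A.1 0 1 + 0 * A.1 1 1 + (A.1 *ᵥ z) 0 * 0
    ring
  · show A.1 0 0 * z 0 + A.1 0 1 * z 1 + 0 * 1 = 1 * 0 + 0 * 0 + (A.1 *ᵥ z) 0 * 1
    rw [h0]; ring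
  · show A.1 1 0 * 1 + A.1 1 1 * 0 + 0 * 0 = 0 * A.1 0 0 + 1 * A.1 1 0 + (A.1 *ᵥ z) 1 * 0
    ring
  · show A.1 1 0 * 0 + A.1 1 1 * 1 + 0 * 0 = 0 * A.1 0 1 + 1 * A.1 1 1 + (A.1 *ᵥ z) 1 * 0
    ring
  · show A.1 1 0 * z 0 + A.1 1 1 * z 1 + 0 * 1 = 0 * 0 + 1 * 0 + (A.1 *ᵥ z) 1 * 1
    rw [h1]; ring

theorem eq_tr_mul_dg (M : Cfsg.qdOver F) : ∃ z : Fin 2 → F, M = tr z * dg (blk M) := by
  have h1 : blk (M * (dg (blk M))⁻¹) = 1 := by
    rw [map_mul, map_inv, blk_dg, mul_inv_cancel]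
  refine ⟨![(M * (dg (blk M))⁻¹).1.1 0 2, (M * (dg (blk M))⁻¹).1.1 1 2], ?_⟩
  rw [← eq_tr_of_blk _ h1, inv_mul_cancel_right]

end qd

/-- a group acting on a subgroup `U` through `SL₂(𝔽_p)` on `𝔽_p²` gives a section `Qd(p)`. -/
theorem involves_qd_of_data {G : Type u} [Group G] {p : ℕ} [Fact p.Prime] {N : Type w} [Group N]
    (U : Subgroup G) (ν : N →* G) (hν : ∀ n : N, ∀ u ∈ U, ν n * u * (ν n)⁻¹ ∈ U)
    (c : G → (Fin 2 → ZMod p)) (A : N →* Matrix.SpecialLinearGroup (Fin 2) (ZMod p))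
    (hc : ∀ u ∈ U, ∀ u' ∈ U, c (u * u') = c u + c u')
    (hcs : ∀ z, ∃ u ∈ U, c u = z) (hA : Function.Surjective A)
    (hconj : ∀ n : N, ∀ u ∈ U, c (ν n * u * (ν n)⁻¹) = (A n).1 *ᵥ c u)
    (hint : ∀ n : N, ν n ∈ U → c (ν n) = 0 ∧ A n = 1) :
    Involves ↥(Cfsg.qdOver (ZMod p)) G := by
  refine involves_of_semidirect U ν hν (fun x => tr (c x)) (dgHom.comp A) ?_ ?_ ?_ ?_
  · intro u hu u' hu'
    show tr (c (u * u')) = tr (c u) * tr (c u')
    rw [hc u hu u' hu', tr_mul]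
  · intro n u hu
    show tr (c (ν n * u * (ν n)⁻¹)) = dg (A n) * tr (c u) * (dg (A n))⁻¹
    rw [hconj n u hu, dg_mul_tr, mul_inv_cancel_right]
  · intro n hn
    obtain ⟨h1, h2⟩ := hint n hn
    show tr (c (ν n)) = dg (A n)
    rw [h1, h2, tr_zero, dg_one]
  · intro q
    obtain ⟨z, hz⟩ := eq_tr_mul_dg q
    obtain ⟨u, hu, hcu⟩ := hcs z
    obtain ⟨n, hn⟩ := hA (blk q)
    refine ⟨u, hu, n, ?_⟩
    show tr (c u) * dg (A n) = q
    rw [hcu, hn, ← hz]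

end Cfsg.Agent.Lib.Helper16.QuadSec
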