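import Mathlib
import Cfsg.Agent.Lib.Helper16.QuadSec1

/-!
# Two quadratically acting generators on a `p`-group (helper16)

The group version of `quad_pair'`: a group generated by two elements acting quadratically on a
finite `p`-group either acts as a `p`-group, or acts on an invariant section through `GL₂(E)`
with the two generators going to the standard transvections.
-/

set_option autoImplicit false
open scoped MatrixGroups Matrix commutatorElement

namespace Cfsg.Agent.Lib.Helper16.QuadSec

open Cfsg.Agent.Lib.Lead.QuadPair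

universe u v

/-- the action on the group `P` has a two-dimensional section over a finite field `E` on which
`a`, `b` act as the standard transvections: `X` is an invariant subgroup and `π` an equivariant
homomorphism of `X` onto `E²`. -/
def HasSecG (p : ℕ) {H : Type v} [Group H] {P : Type u} [Group P]
    (φ : H →* Monoid.End P) (a b : H) : Prop :=
  ∃ (E : Type u) (_ : Field E) (_ : Finite E) (_ : CharP E p) (γ : E) (ψ : H →* GL (Fin 2) E)
    (X : Subgroup P) (π : P → (Fin 2 → E)),
    γ ≠ 0 ∧ (ψ a : Matrix (Fin 2) (Fin 2) E) = !![1, 1; 0, 1] ∧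
      (ψ b : Matrix (Fin 2) (Fin 2) E) = !![1, 0; γ, 1] ∧
      (∀ h, ∀ x ∈ X, φ h x ∈ X) ∧ (∀ x ∈ X, ∀ y ∈ X, π (x * y) = π x + π y) ∧
      (∀ v, ∃ x ∈ X, π x = v) ∧
      (∀ h, ∀ x ∈ X, π (φ h x) = (ψ h : Matrix (Fin 2) (Fin 2) E) *ᵥ π x)

section grp

variable {H : Type v} [Group H]

/-- restriction of an action to an invariant subgroup -/
def resG {P : Type u} [Group P] (φ : H →* Monoid.End P) (R : Subgroup P)
    (hR : ∀ h, ∀ x ∈ R, φ h x ∈ R) : H →* Monoid.End R where
  toFun h :=
    { toFun := fun x => ⟨φ h (x : P), hR h x x.2⟩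
      map_one' := Subtype.ext (map_one (φ h))
      map_mul' := fun x y => Subtype.ext (map_mul (φ h) (x : P) (y : P)) }
  map_one' := by
    refine MonoidHom.ext (fun x => Subtype.ext ?_)
    show φ 1 (x : P) = x
    rw [map_one]; rfl
  map_mul' := fun h h' => by
    refine MonoidHom.ext (fun x => Subtype.ext ?_)
    show φ (h * h') (x : P) = φ h (φ h' (x : P))
    rw [map_mul]; rfl

/-- the action on the quotient by an invariant normal subgroup -/
def quotG {P : Type u} [Group P] (φ : H →* Monoid.End P) (R : Subgroup P) [R.Normal]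
    (hR : ∀ h, ∀ x ∈ R, φ h x ∈ R) : H →* Monoid.End (P ⧸ R) where
  toFun h := QuotientGroup.map R R (φ h : P →* P) (fun x hx => hR h x hx)
  map_one' := by
    refine MonoidHom.ext (fun x => ?_)
    induction x using QuotientGroup.induction_on with
    | H x =>
      show ((φ 1 x : P) : P ⧸ R) = (x : P ⧸ R)
      rw [map_one]; rfl
  map_mul' := fun h h' => by
    refine MonoidHom.ext (fun x => ?_)
    induction x using QuotientGroup.induction_on with
    | H x =>
      show ((φ (h * h') x : P) : P ⧸ R) = ((φ h (φ h' x) : P) : P ⧸ R)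
      rw [map_mul]; rfl

theorem hasSecG_of_res (p : ℕ) {P : Type u} [Group P] (φ : H →* Monoid.End P) (a b : H)
    (R : Subgroup P) (hR : ∀ h, ∀ x ∈ R, φ h x ∈ R) (h : HasSecG p (resG φ R hR) a b) :
    HasSecG p φ a b := by
  classical
  obtain ⟨E, fld, fin, chr, γ, ψ, X, π, hγ, hψa, hψb, hinv, hadd, hsurj, heq⟩ := h
  obtain ⟨π', hπ'⟩ : ∃ π' : P → (Fin 2 → E), ∀ m : R, π' (m : P) = π m := by
    refine ⟨fun w => if hw : w ∈ R then π ⟨w, hw⟩ else 0, fun m => ?_⟩
    show (if hw : (m : P) ∈ R then π ⟨(m : P), hw⟩ else 0) = π m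
    rw [dif_pos m.2]
  refine ⟨E, fld, fin, chr, γ, ψ, X.map R.subtype, π', hγ, hψa, hψb, ?_, ?_, ?_, ?_⟩
  · intro h w hw
    obtain ⟨m, hm, rfl⟩ := Subgroup.mem_map.mp hw
    exact Subgroup.mem_map.mpr ⟨resG φ R hR h m, hinv h m hm, rfl⟩
  · intro w hw w' hw'
    obtain ⟨m, hm, rfl⟩ := Subgroup.mem_map.mp hw
    obtain ⟨m', hm', rfl⟩ := Subgroup.mem_map.mp hw'
    show π' ((m : P) * (m' : P)) = π' (m : P) + π' (m' : P)
    have e : ((m : P) * (m' : P)) = ((m * m' : R) : P) := rfl
    rw [e, hπ', hπ', hπ']
    exact hadd m hm m' hm'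
  · intro x
    obtain ⟨m, hm, hx⟩ := hsurj x
    exact ⟨(m : P), Subgroup.mem_map.mpr ⟨m, hm, rfl⟩, by rw [hπ']; exact hx⟩
  · intro h w hw
    obtain ⟨m, hm, rfl⟩ := Subgroup.mem_map.mp hw
    show π' (φ h (m : P)) = (ψ h : Matrix (Fin 2) (Fin 2) E) *ᵥ π' (m : P)
    have e : φ h (m : P) = ((resG φ R hR h m : R) : P) := rfl
    rw [e, hπ', hπ']
    exact heq h m hm

theorem hasSecG_of_quot (p : ℕ) {P : Type u} [Group P] (φ : H →* Monoid.End P) (a b : H)
    (R : Subgroup P) [R.Normal] (hR : ∀ h, ∀ x ∈ R, φ h x ∈ R)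
    (h : HasSecG p (quotG φ R hR) a b) : HasSecG p φ a b := by
  obtain ⟨E, fld, fin, chr, γ, ψ, X, π, hγ, hψa, hψb, hinv, hadd, hsurj, heq⟩ := h
  refine ⟨E, fld, fin, chr, γ, ψ, X.comap (QuotientGroup.mk' R),
    fun w => π (QuotientGroup.mk w), hγ, hψa, hψb, ?_, ?_, ?_, ?_⟩
  · intro h w hw
    exact hinv h _ hw
  · intro w hw w' hw'
    exact hadd _ hw _ hw'
  · intro x
    obtain ⟨y, hy, hx⟩ := hsurj x
    obtain ⟨w, rfl⟩ := QuotientGroup.mk_surjective y
    exact ⟨w, hy, hx⟩
  · intro h w hw
    exact heq h _ hw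

/-- the elementary abelian case -/
theorem hasSecG_of_comm (p : ℕ) [Fact p.Prime] {P : Type u} [Group P] [Finite P]
    (hc : ∀ x y : P, x * y = y * x) (hexp : ∀ x : P, x ^ p = 1)
    (φ : H →* Monoid.End P) (a b : H) (hab : Subgroup.closure ({a, b} : Set H) = ⊤)
    (ha : ∀ x : P, φ a (φ a x * x⁻¹) = φ a x * x⁻¹)
    (hb : ∀ x : P, φ b (φ b x * x⁻¹) = φ b x * x⁻¹) :
    (∀ h, ∃ k : ℕ, φ h ^ p ^ k = 1) ∨ HasSecG p φ a b := by
  letI : CommGroup P := { (inferInstance : Group P) with mul_comm := hc }
  let φ' : H →* AddMonoid.End (Additive P) :=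
    { toFun := fun h => MonoidHom.toAdditive (φ h : P →* P)
      map_one' := by rw [map_one]; rfl
      map_mul' := fun h h' => by rw [map_mul]; rfl }
  have hW : ∀ w : Additive P, p • w = 0 := by
    intro w
    exact congrArg Additive.ofMul (hexp (Additive.toMul w))
  have hquad : ∀ c : H, (∀ x : P, φ c (φ c x * x⁻¹) = φ c x * x⁻¹) →
      (φ' c - 1) * (φ' c - 1) = 0 := by
    intro c hc'
    refine AddMonoidHom.ext (fun w => ?_)
    have h1 : φ' c (φ' c w + -w) = φ' c w + -w :=
      congrArg Additive.ofMul (hc' (Additive.toMul w))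
    show φ' c (φ' c w - w) - (φ' c w - w) = 0
    rw [sub_eq_add_neg (φ' c w) w, h1, sub_self]
  rcases quad_pair' p hW φ' a b hab (hquad a ha) (hquad b hb) with h1 | h1
  · left
    intro h
    obtain ⟨k, hk⟩ := h1 h
    refine ⟨k, ?_⟩
    rw [← map_pow] at hk ⊢
    refine MonoidHom.ext (fun x => ?_)
    exact congrArg (fun f : AddMonoid.End (Additive P) => f (Additive.ofMul x)) hk
  · right
    obtain ⟨E, fld, fin, chr, γ, ψ, W₁, π, hγ, hψa, hψb, hinv, hadd, hsurj, heq⟩ := h1
    let X : Subgroup P :=
      { carrier := {x | Additive.ofMul x ∈ W₁}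
        mul_mem' := fun {x y} hx hy => W₁.add_mem hx hy
        one_mem' := W₁.zero_mem
        inv_mem' := fun {x} hx => W₁.neg_mem hx }
    refine ⟨E, fld, fin, chr, γ, ψ, X, fun x => π (Additive.ofMul x), hγ, hψa, hψb, ?_, ?_, ?_, ?_⟩
    · intro h x hx
      exact hinv h _ hx
    · intro x hx y hy
      exact hadd _ hx _ hy
    · intro v
      obtain ⟨w, hw, hv⟩ := hsurj v
      exact ⟨Additive.toMul w, hw, hv⟩
    · intro h x hx
      exact heq h _ hx

theorem quad_pair_grp_aux (p : ℕ) [Fact p.Prime] (a b : H)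
    (hab : Subgroup.closure ({a, b} : Set H) = ⊤) :
    ∀ (n : ℕ) (P : Type u) [Group P] [Finite P], Nat.card P = n → IsPGroup p P →
      ∀ φ : H →* Monoid.End P, (∀ x : P, φ a (φ a x * x⁻¹) = φ a x * x⁻¹) →
        (∀ x : P, φ b (φ b x * x⁻¹) = φ b x * x⁻¹) →
        (∀ h, ∃ k : ℕ, φ h ^ p ^ k = 1) ∨ HasSecG p φ a b := by
  intro n
  induction n using Nat.strong_induction_on with
  | _ n ih =>
    intro P _ _ hn hP φ ha hb
    by_cases hel : (∀ x y : P, x * y = y * x) ∧ ∀ x : P, x ^ p = 1
    · exact hasSecG_of_comm p hel.1 hel.2 φ a b hab ha hb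
    · obtain ⟨R, hRn, hRinv, hRb, hRt⟩ : ∃ R : Subgroup P, R.Normal ∧
          (∀ h, ∀ x ∈ R, φ h x ∈ R) ∧ R ≠ ⊥ ∧ R ≠ ⊤ := by
        by_cases hc : ∀ x y : P, x * y = y * x
        · have hne : ¬ ∀ x : P, x ^ p = 1 := fun h => hel ⟨hc, h⟩
          push Not at hne
          obtain ⟨x₀, hx₀⟩ := hne
          have hx1 : x₀ ≠ 1 := by
            intro h
            rw [h, one_pow] at hx₀
            exact hx₀ rfl
          let R : Subgroup P :=
            { carrier := {x | x ^ p = 1}
              mul_mem' := by
                intro x y hx hy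
                show (x * y) ^ p = 1
                have hx' : x ^ p = 1 := hx
                have hy' : y ^ p = 1 := hy
                rw [(show Commute x y from hc x y).mul_pow, hx', hy', one_mul]
              one_mem' := one_pow p
              inv_mem' := by
                intro x hx
                show (x⁻¹) ^ p = 1
                have hx' : x ^ p = 1 := hx
                rw [inv_pow, hx', inv_one] }
          refine ⟨R, ⟨fun n hn g => ?_⟩, ?_, ?_, ?_⟩
          · rw [hc g n, mul_inv_cancel_right]; exact hn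
          · intro h x hx
            show (φ h x) ^ p = 1
            have hx' : x ^ p = 1 := hx
            rw [← map_pow, hx', map_one]
          · have hcard : p ∣ Nat.card P := by
              rcases hP.card_eq_or_dvd with h1 | h1
              · exfalso
                haveI := (Nat.card_eq_one_iff_unique.mp h1).1
                exact hx1 (Subsingleton.elim _ _)
              · exact h1
            obtain ⟨y, hy⟩ := exists_prime_orderOf_dvd_card' p hcard
            intro hbot
            have hyR : y ∈ R := by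
              show y ^ p = 1
              rw [← hy, pow_orderOf_eq_one]
            rw [hbot, Subgroup.mem_bot] at hyR
            rw [hyR, orderOf_one] at hy
            exact (Fact.out : p.Prime).one_lt.ne hy
          · intro htop
            have : x₀ ∈ R := htop ▸ Subgroup.mem_top x₀
            exact hx₀ this
        · push Not at hc
          obtain ⟨x₀, y₀, hxy⟩ := hc
          haveI : Nontrivial P := ⟨⟨_, _, hxy⟩⟩
          haveI := hP.isNilpotent
          refine ⟨commutator P, inferInstance, ?_, ?_, ?_⟩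
          · intro h x hx
            obtain ⟨f, hf⟩ : ∃ f : P →* P, ∀ y, f y = φ h y := ⟨φ h, fun _ => rfl⟩
            have hle : (commutator P).map f ≤ commutator P := by
              rw [commutator_def, Subgroup.map_commutator]
              exact Subgroup.commutator_mono le_top le_top
            rw [← hf]
            exact hle (Subgroup.mem_map_of_mem _ hx)
          · intro hbot
            apply hxy
            have h1 : ⁅x₀, y₀⁆ ∈ commutator P := by
              rw [commutator_def]
              exact Subgroup.commutator_mem_commutator (Subgroup.mem_top _) (Subgroup.mem_top _)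
            rw [hbot, Subgroup.mem_bot] at h1
            exact commutatorElement_eq_one_iff_mul_comm.mp h1
          · exact (Group.IsSolvable.commutator_lt_top_of_nontrivial P).ne
      haveI := hRn
      have hmul : Nat.card R * R.index = Nat.card P := R.card_mul_index
      have hpos : 0 < Nat.card P := Nat.card_pos
      have hi1 : R.index ≠ 1 := fun h => hRt (Subgroup.index_eq_one.mp h)
      have hc1' : Nat.card R ≠ 1 := fun h => hRb (Subgroup.card_eq_one.mp h)
      have hi0 : R.index ≠ 0 := by
        intro h; rw [h, mul_zero] at hmul; omega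
      have hc0 : Nat.card R ≠ 0 := by
        intro h; rw [h, zero_mul] at hmul; omega
      have hc1 : Nat.card R < n := by
        rw [← hn, ← hmul]
        have : 2 ≤ R.index := by omega
        nlinarith [Nat.pos_of_ne_zero hc0]
      have hc2 : Nat.card (P ⧸ R) < n := by
        rw [← hn, ← hmul]
        show R.index < _
        have : 2 ≤ Nat.card R := by omega
        nlinarith [Nat.pos_of_ne_zero hi0]
      have hq1 : ∀ x : R, resG φ R hRinv a (resG φ R hRinv a x * x⁻¹) =
          resG φ R hRinv a x * x⁻¹ := fun x => Subtype.ext (ha (x : P))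
      have hq2 : ∀ x : R, resG φ R hRinv b (resG φ R hRinv b x * x⁻¹) =
          resG φ R hRinv b x * x⁻¹ := fun x => Subtype.ext (hb (x : P))
      have hq3 : ∀ x : P ⧸ R, quotG φ R hRinv a (quotG φ R hRinv a x * x⁻¹) =
          quotG φ R hRinv a x * x⁻¹ := by
        intro x
        induction x using QuotientGroup.induction_on with
        | H x => exact congrArg (QuotientGroup.mk : P → P ⧸ R) (ha x)
      have hq4 : ∀ x : P ⧸ R, quotG φ R hRinv b (quotG φ R hRinv b x * x⁻¹) =
          quotG φ R hRinv b x * x⁻¹ := by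
        intro x
        induction x using QuotientGroup.induction_on with
        | H x => exact congrArg (QuotientGroup.mk : P → P ⧸ R) (hb x)
      rcases ih _ hc1 R rfl (hP.to_subgroup R) (resG φ R hRinv) hq1 hq2 with h1 | h1
      · rcases ih _ hc2 (P ⧸ R) rfl (hP.to_quotient R) (quotG φ R hRinv) hq3 hq4 with h2 | h2
        · left
          intro h
          obtain ⟨k1, hk1⟩ := h1 h
          obtain ⟨k2, hk2⟩ := h2 h
          obtain ⟨m, hm⟩ := IsPGroup.iff_card.mp hP
          refine ⟨k1 + k2 + m, ?_⟩
          have e1 : resG φ R hRinv (h ^ p ^ (k1 + k2)) = 1 := by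
            rw [map_pow, pow_add, pow_mul, hk1, one_pow]
          have e2 : quotG φ R hRinv (h ^ p ^ (k1 + k2)) = 1 := by
            rw [map_pow, pow_add, mul_comm, pow_mul, hk2, one_pow]
          obtain ⟨g, hg⟩ : ∃ g, g = φ (h ^ p ^ (k1 + k2)) := ⟨_, rfl⟩
          have hg1 : ∀ w ∈ R, g w = w := by
            intro w hw
            rw [hg]
            exact congrArg Subtype.val (congrArg (fun f : Monoid.End R => f ⟨w, hw⟩) e1)
          have hg2 : ∀ w, w⁻¹ * g w ∈ R := by
            intro w
            have h3 : (QuotientGroup.mk (g w) : P ⧸ R) = QuotientGroup.mk w := by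
              rw [hg]
              exact congrArg (fun f : Monoid.End (P ⧸ R) => f (QuotientGroup.mk w)) e2
            exact QuotientGroup.eq.mp h3.symm
          have hgpow : ∀ (j : ℕ) (w : P), (g ^ j) w = w * (w⁻¹ * g w) ^ j := by
            intro j
            induction j with
            | zero => intro w; rw [pow_zero, pow_zero, mul_one]; rfl
            | succ j ihj =>
              intro w
              rw [pow_succ']
              show g ((g ^ j) w) = _
              rw [ihj w, map_mul, map_pow, hg1 _ (hg2 w), pow_succ' (w⁻¹ * g w) j, ← mul_assoc,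
                mul_inv_cancel_left]
          calc φ h ^ p ^ (k1 + k2 + m) = (φ h ^ p ^ (k1 + k2)) ^ p ^ m := by
                rw [pow_add p, pow_mul]
            _ = g ^ p ^ m := by rw [hg, map_pow]
            _ = 1 := by
              refine DFunLike.ext _ _ (fun w => ?_)
              rw [hgpow, ← hm, pow_card_eq_one', mul_one]; rfl
        · exact Or.inr (hasSecG_of_quot p φ a b R hRinv h2)
      · exact Or.inr (hasSecG_of_res p φ a b R hRinv h1)

end grp

/-- **Two quadratic generators acting on a `p`-group.** -/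
theorem quad_pair_grp {H : Type v} {P : Type u} [Group H] [Group P] [Finite P]
    (p : ℕ) [Fact p.Prime] (hP : IsPGroup p P) (φ : H →* Monoid.End P) (a b : H)
    (hab : Subgroup.closure ({a, b} : Set H) = ⊤)
    (ha : ∀ x : P, φ a (φ a x * x⁻¹) = φ a x * x⁻¹)
    (hb : ∀ x : P, φ b (φ b x * x⁻¹) = φ b x * x⁻¹) :
    (∀ h, ∃ k : ℕ, φ h ^ p ^ k = 1) ∨ HasSecG p φ a b :=
  quad_pair_grp_aux p a b hab _ P rfl hP φ ha hb

end Cfsg.Agent.Lib.Helper16.QuadSec
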