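import Mathlib
import Cfsg.Agent.Lib.Helper16.QuadSec2
import Cfsg.Agent.Lib.Helper16.QuadSec3
import Cfsg.Agent.Lib.Helper16.QuadSec4

/-!
# From a two-dimensional section to `Qd(p)` (helper16)

`involves_of_hasSecG`: if a subgroup `Hs` of a finite group acts by conjugation on a `p`-subgroup
`P` (`p` odd) with a two-dimensional section in the sense of `HasSecG`, then `Qd(p)` is involved
in the group.
-/

set_option autoImplicit false
open scoped MatrixGroups Matrix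

namespace Cfsg.Agent.Lib.Helper16.QuadSec

open Cfsg Cfsg.Agent.Lib.Lead.QuadCore Cfsg.Agent.Lib.Helper9.Dickson

universe u

/-- the central involution of `SL₂(𝔽_p)` -/
def negOne (p : ℕ) : Matrix.SpecialLinearGroup (Fin 2) (ZMod p) :=
  ⟨!![-1, 0; 0, -1], by rw [Matrix.det_fin_two_of]; ring⟩

theorem negOne_central (p : ℕ) (s : Matrix.SpecialLinearGroup (Fin 2) (ZMod p)) :
    s * negOne p = negOne p * s := by
  apply Subtype.ext
  rw [Matrix.SpecialLinearGroup.coe_mul, Matrix.SpecialLinearGroup.coe_mul]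
  ext i j
  fin_cases i <;> fin_cases j <;> simp [negOne, Matrix.mul_apply, Fin.sum_univ_two]

theorem negOne_sq (p : ℕ) : negOne p * negOne p = 1 := by
  apply Subtype.ext
  rw [Matrix.SpecialLinearGroup.coe_mul, Matrix.SpecialLinearGroup.coe_one]
  ext i j
  fin_cases i <;> fin_cases j <;> simp [negOne, Matrix.mul_apply, Fin.sum_univ_two]

theorem negOne_mulVec (p : ℕ) (c : Fin 2 → ZMod p) : (negOne p).1 *ᵥ c = -c := by
  funext i
  fin_cases i <;> simp [negOne, Matrix.mulVec, dotProduct, Fin.sum_univ_two]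

/-- the Dickson step with the natural module -/
theorem sl2_natural' {E : Type*} [Field E] (p : ℕ) [Fact p.Prime] [CharP E p] (hp : p ≠ 2)
    (γ : E) (hγ : γ ≠ 0) (L : Subgroup (GL (Fin 2) E)) [Finite L]
    (hL : L = Subgroup.closure {tU (1 : E), tV γ}) :
    ∃ (K₁ : Subgroup (GL (Fin 2) E)) (ρ : ↥K₁ →* Matrix.SpecialLinearGroup (Fin 2) (ZMod p))
      (ι : (Fin 2 → ZMod p) → (Fin 2 → E)),
      K₁ ≤ L ∧ Function.Surjective ρ ∧ Function.Injective ι ∧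
      (∀ c c', ι (c + c') = ι c + ι c') ∧
      ∀ (e : ↥K₁) (c : Fin 2 → ZMod p),
        ((e : GL (Fin 2) E) : Matrix (Fin 2) (Fin 2) E) *ᵥ ι c = ι ((ρ e).1 *ᵥ c) := by
  have hdet := Cfsg.Agent.Lib.Lead.QuadNS2.det_eq_one_of_mem γ L hL
  have huL : tU (1 : E) ∈ L := by rw [hL]; exact Subgroup.subset_closure (by simp)
  obtain ⟨hneg, f, hfL, hf0, hf1⟩ := exists_order_four p hp γ hγ L hL
  obtain ⟨a₀, t, haL, htL, htr, hk⟩ := pair_of_count L hdet huL hneg f hfL hf0 hf1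
  obtain ⟨ρ, ι, h⟩ := sl2_natural p hp a₀ t (hdet t htL) htr hk
  refine ⟨_, ρ, ι, ?_, h⟩
  rw [Subgroup.closure_le]
  rintro x (rfl | rfl)
  · exact haL
  · exact htL

/-- **From a section to `Qd(p)`.** -/
theorem involves_of_hasSecG {G : Type u} [Group G] [Finite G] (p : ℕ) [Fact p.Prime] (hp : p ≠ 2)
    (P : Subgroup G) (hP : IsPGroup p P) (Hs : Subgroup G)
    (φ : Hs →* Monoid.End P)
    (hφ : ∀ (h : Hs) (x : P), ((φ h x : P) : G) = (h : G) * (x : G) * (h : G)⁻¹)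
    (a b : Hs) (hsec : HasSecG p φ a b) : Involves ↥(Cfsg.qd p) G := by
  classical
  obtain ⟨E, fld, fin, chr, γ, ψ, X, π, hγ, hψa, hψb, hinv, hadd, hsurj, heq⟩ := hsec
  have hψa' : ψ a = tU 1 := Units.ext hψa
  have hψb' : ψ b = tV γ := Units.ext hψb
  obtain ⟨L, hL⟩ : ∃ L : Subgroup (GL (Fin 2) E), L = Subgroup.closure {tU (1 : E), tV γ} :=
    ⟨_, rfl⟩
  have hLr : L ≤ ψ.range := by
    rw [hL, Subgroup.closure_le]
    rintro x (rfl | rfl)
    · exact ⟨a, hψa'⟩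
    · exact ⟨b, hψb'⟩
  haveI : Finite ψ.range := Set.finite_range ψ
  haveI : Finite L := Finite.of_injective (Subgroup.inclusion hLr) (Subgroup.inclusion_injective hLr)
  obtain ⟨K₁, ρ, ι, hK₁L, hρs, hιi, hιa, hιe⟩ := sl2_natural' p hp γ hγ L hL
  have hK₁r : K₁ ≤ ψ.range := hK₁L.trans hLr
  obtain ⟨ρ', hρ'⟩ : ∃ ρ' : ↥(K₁.comap ψ) →* Matrix.SpecialLinearGroup (Fin 2) (ZMod p),
      ∀ k : ↥(K₁.comap ψ), ρ' k = ρ ⟨ψ (k : Hs), k.2⟩ :=
    ⟨ρ.comp (ψ.subgroupComap K₁), fun k => rfl⟩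
  have hρ's : Function.Surjective ρ' := by
    intro s
    obtain ⟨e, he⟩ := hρs s
    obtain ⟨h, hh⟩ := hK₁r e.2
    have hmem : h ∈ K₁.comap ψ := by
      show ψ h ∈ K₁
      rw [hh]; exact e.2
    refine ⟨⟨h, hmem⟩, ?_⟩
    rw [hρ', ← he]
    congr 1
    exact Subtype.ext hh
  obtain ⟨N', t₁, ht₁N, hρt₁, hN's, hN'2⟩ :=
    exists_frattini_supplement ρ' hρ's (negOne p) (negOne_central p) (negOne_sq p)
  have hι0 : ι 0 = 0 := by
    have h1 := hιa 0 0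
    rw [add_zero] at h1
    exact add_eq_left.mp h1.symm
  have hιneg : ∀ c, ι (-c) = -ι c := by
    intro c
    have h1 := hιa (-c) c
    rw [neg_add_cancel, hι0] at h1
    exact eq_neg_of_add_eq_zero_left h1.symm
  have hπ1 : π 1 = 0 := by
    have h1 := hadd 1 X.one_mem 1 X.one_mem
    rw [mul_one] at h1
    exact add_eq_left.mp h1.symm
  have hπinv : ∀ x ∈ X, π x⁻¹ = -π x := by
    intro x hx
    have h1 := hadd x⁻¹ (X.inv_mem hx) x hx
    rw [inv_mul_cancel, hπ1] at h1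
    exact eq_neg_of_add_eq_zero_left h1.symm
  let U₀ : Subgroup P :=
    { carrier := {x | x ∈ X ∧ ∃ c, ι c = π x}
      mul_mem' := by
        rintro x y ⟨hx, c, hc⟩ ⟨hy, c', hc'⟩
        exact ⟨X.mul_mem hx hy, c + c', by rw [hιa, hc, hc', hadd x hx y hy]⟩
      one_mem' := ⟨X.one_mem, 0, by rw [hι0, hπ1]⟩
      inv_mem' := by
        rintro x ⟨hx, c, hc⟩
        exact ⟨X.inv_mem hx, -c, by rw [hιneg, hc, hπinv x hx]⟩ }
  have hU₀ : ∀ x : P, x ∈ U₀ ↔ x ∈ X ∧ ∃ c, ι c = π x := fun x => Iff.rfl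
  obtain ⟨c₀, hc₀⟩ : ∃ c₀ : P → (Fin 2 → ZMod p), ∀ x ∈ U₀, ι (c₀ x) = π x := by
    refine ⟨fun x => Function.invFun ι (π x), fun x hx => ?_⟩
    exact Function.invFun_eq ((hU₀ x).mp hx).2
  obtain ⟨c, hc⟩ : ∃ c : G → (Fin 2 → ZMod p), ∀ x : P, c (x : G) = c₀ x := by
    refine ⟨fun g => if h : g ∈ P then c₀ ⟨g, h⟩ else 0, fun x => ?_⟩
    show (if h : (x : G) ∈ P then c₀ ⟨(x : G), h⟩ else 0) = c₀ x
    rw [dif_pos x.2]
  have hkey : ∀ (k : ↥(K₁.comap ψ)) (x : P), x ∈ U₀ →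
      φ (k : Hs) x ∈ U₀ ∧ c₀ (φ (k : Hs) x) = (ρ' k).1 *ᵥ c₀ x := by
    intro k x hx
    have hxX := ((hU₀ x).mp hx).1
    have h1 : π (φ (k : Hs) x) = ι ((ρ' k).1 *ᵥ c₀ x) := by
      rw [heq (k : Hs) x hxX, ← hc₀ x hx, hρ']
      exact hιe ⟨ψ (k : Hs), k.2⟩ (c₀ x)
    have h2 : φ (k : Hs) x ∈ U₀ := (hU₀ _).mpr ⟨hinv _ x hxX, _, h1.symm⟩
    exact ⟨h2, hιi ((hc₀ _ h2).trans h1)⟩
  obtain ⟨ν, hν⟩ : ∃ ν : ↥N' →* G, ∀ n : ↥N', ν n = (((n : ↥(K₁.comap ψ)) : Hs) : G) :=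
    ⟨(Hs.subtype.comp (K₁.comap ψ).subtype).comp N'.subtype, fun n => rfl⟩
  obtain ⟨A, hA⟩ : ∃ A : ↥N' →* Matrix.SpecialLinearGroup (Fin 2) (ZMod p),
      ∀ n : ↥N', A n = ρ' (n : ↥(K₁.comap ψ)) := ⟨ρ'.comp N'.subtype, fun n => rfl⟩
  have hνφ : ∀ (n : ↥N') (x : P), ν n * (x : G) * (ν n)⁻¹ =
      ((φ ((n : ↥(K₁.comap ψ)) : Hs) x : P) : G) := by
    intro n x
    rw [hν, hφ]
  have h2z : (2 : ZMod p) ≠ 0 := by
    intro h5
    have h6 : ((2 : ℕ) : ZMod p) = 0 := by exact_mod_cast h5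
    rw [ZMod.natCast_eq_zero_iff] at h6
    exact hp ((Nat.prime_dvd_prime_iff_eq (Fact.out : p.Prime) Nat.prime_two).mp h6)
  show Involves ↥(Cfsg.qdOver (ZMod p)) G
  refine involves_qd_of_data (p := p) (U₀.map P.subtype) ν ?_ c A ?_ ?_ ?_ ?_ ?_
  · rintro n _ ⟨x, hx, rfl⟩
    show ν n * (x : G) * (ν n)⁻¹ ∈ _
    rw [hνφ]
    exact ⟨_, (hkey (n : ↥(K₁.comap ψ)) x hx).1, rfl⟩
  · rintro _ ⟨x, hx, rfl⟩ _ ⟨y, hy, rfl⟩
    show c ((x : G) * (y : G)) = c (x : G) + c (y : G)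
    have e : ((x : G) * (y : G)) = ((x * y : P) : G) := rfl
    rw [e, hc, hc, hc]
    apply hιi
    rw [hιa, hc₀ _ (U₀.mul_mem hx hy), hc₀ x hx, hc₀ y hy,
      hadd x ((hU₀ x).mp hx).1 y ((hU₀ y).mp hy).1]
  · intro z
    obtain ⟨x, hx, hxz⟩ := hsurj (ι z)
    have hxU : x ∈ U₀ := (hU₀ x).mpr ⟨hx, z, hxz.symm⟩
    refine ⟨(x : G), ⟨x, hxU, rfl⟩, ?_⟩
    rw [hc]
    exact hιi ((hc₀ x hxU).trans hxz)
  · intro s
    obtain ⟨n, hn, hns⟩ := hN's s
    exact ⟨⟨n, hn⟩, by rw [hA]; exact hns⟩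
  · rintro n _ ⟨x, hx, rfl⟩
    show c (ν n * (x : G) * (ν n)⁻¹) = (A n).1 *ᵥ c (x : G)
    rw [hνφ, hc, hc, hA]
    exact (hkey (n : ↥(K₁.comap ψ)) x hx).2
  · intro n hn
    obtain ⟨x, hx, hxn⟩ := hn
    have hxX := ((hU₀ x).mp hx).1
    obtain ⟨k, hk⟩ : ∃ k : ↥(K₁.comap ψ), k = (n : ↥(K₁.comap ψ)) := ⟨_, rfl⟩
    obtain ⟨h, hh⟩ : ∃ h : Hs, h = (k : Hs) := ⟨_, rfl⟩
    have hxn' : (x : G) = (h : G) := by
      have h1 : (x : G) = ν n := hxn
      rw [h1, hν, hh, hk]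
    have hφx : ∀ y : P, φ h y = x * y * x⁻¹ := by
      intro y
      apply Subtype.ext
      rw [hφ]
      show (h : G) * (y : G) * (h : G)⁻¹ = (x : G) * (y : G) * (x : G)⁻¹
      rw [← hxn']
    have hfix : ∀ v : Fin 2 → E, (ψ h : Matrix (Fin 2) (Fin 2) E) *ᵥ v = v := by
      intro v
      obtain ⟨y, hy, rfl⟩ := hsurj v
      rw [← heq h y hy, hφx, hadd _ (X.mul_mem hxX hy) _ (X.inv_mem hxX), hadd x hxX y hy,
        hπinv x hxX]
      abel
    have hψh : ψ h = 1 := by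
      have e0 := hfix ![1, 0]
      have e1 := hfix ![0, 1]
      have e00 := congrFun e0 0
      have e01 := congrFun e0 1
      have e10 := congrFun e1 0
      have e11 := congrFun e1 1
      simp [Matrix.mulVec, dotProduct, Fin.sum_univ_two] at e00 e01 e10 e11
      apply gl_ext
      · rw [e00, Units.val_one, Matrix.one_apply_eq]
      · rw [e10, Units.val_one, Matrix.one_apply_ne (by decide)]
      · rw [e01, Units.val_one, Matrix.one_apply_ne (by decide)]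
      · rw [e11, Units.val_one, Matrix.one_apply_eq]
    have hA1 : A n = 1 := by
      rw [hA, ← hk, hρ']
      have h0 : ψ (k : Hs) = 1 := by rw [← hh]; exact hψh
      have h1 : (⟨ψ (k : Hs), k.2⟩ : ↥K₁) = 1 := Subtype.ext h0
      rw [h1, map_one]
    refine ⟨?_, hA1⟩
    obtain ⟨j, hj⟩ := hN'2 k (by rw [hk]; exact n.2)
    obtain ⟨th, hth⟩ : ∃ th : Hs, th = (t₁ : Hs) := ⟨_, rfl⟩
    have hj' : ((h : G) * (th : G) * (h : G)⁻¹ * (th : G)⁻¹) ^ 2 ^ j = 1 := by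
      have h1 := congrArg (fun y : ↥(K₁.comap ψ) => ((y : Hs) : G)) hj
      rw [hh, hth]
      exact h1
    have hw : (h : G) * (th : G) * (h : G)⁻¹ * (th : G)⁻¹ = ((x * φ th x⁻¹ : P) : G) := by
      rw [← hxn']
      show _ = (x : G) * ((φ th x⁻¹ : P) : G)
      rw [hφ]
      show _ = (x : G) * ((th : G) * (x : G)⁻¹ * (th : G)⁻¹)
      group
    obtain ⟨i, hi⟩ := hP (x * φ th x⁻¹)
    have hw1 : x * φ th x⁻¹ = 1 := by
      have h2 : (x * φ th x⁻¹) ^ 2 ^ j = 1 := by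
        apply Subtype.ext
        rw [Subgroup.coe_pow, ← hw, hj']; rfl
      have hd1 := orderOf_dvd_of_pow_eq_one h2
      have hd2 := orderOf_dvd_of_pow_eq_one hi
      have hcop : Nat.gcd (2 ^ j) (p ^ i) = 1 := by
        apply Nat.Coprime.pow
        exact (Nat.coprime_primes Nat.prime_two (Fact.out : p.Prime)).mpr (Ne.symm hp)
      have hd := Nat.dvd_gcd hd1 hd2
      rw [hcop] at hd
      exact orderOf_eq_one_iff.mp (Nat.dvd_one.mp hd)
    have hφth : φ th x = x := by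
      have h3 : φ th x⁻¹ = x⁻¹ := by rw [← mul_right_inj x, hw1, mul_inv_cancel]
      rw [map_inv] at h3
      exact inv_injective h3
    have hk2 := (hkey t₁ x hx).2
    rw [← hth, hφth, hρt₁, negOne_mulVec] at hk2
    have hc0 : c₀ x = 0 := by
      funext i
      have h3 := congrFun hk2 i
      have h4 : (2 : ZMod p) * c₀ x i = 0 := by
        rw [Pi.neg_apply] at h3
        linear_combination h3
      rcases mul_eq_zero.mp h4 with h5 | h5
      · exact absurd h5 h2z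
      · exact h5
    have h1 : ν n = (x : G) := hxn.symm
    rw [h1, hc, hc0]

end Cfsg.Agent.Lib.Helper16.QuadSec
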